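import Mathlib

set_option autoImplicit false

namespace Cfsg.Agent.Helper58

/-- A `p`-group acting on a finite additive group of order divisible by `p`, fixing `0`,
fixes a non-zero element. -/
theorem exists_fixed_ne_zero_of_pgroup {G : Type*} [Group G] (p : ℕ) [Fact p.Prime]
    (hG : IsPGroup p G)
    {M : Type*} [AddGroup M] [Finite M] [MulAction G M] (h0 : ∀ g : G, g • (0 : M) = 0)
    (hp : p ∣ Nat.card M) : ∃ m : M, m ≠ 0 ∧ ∀ g : G, g • m = m := by
  have h1 := hG.card_modEq_card_fixedPoints M
  have h2 : p ∣ Nat.card (MulAction.fixedPoints G M) :=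
    Nat.modEq_zero_iff_dvd.mp (h1.symm.trans (Nat.modEq_zero_iff_dvd.mpr hp))
  by_contra hcon
  push Not at hcon
  have h3 : ∀ x : MulAction.fixedPoints G M, x = ⟨0, fun g => h0 g⟩ := by
    intro x
    by_contra hx
    have hx0 : (x : M) ≠ 0 := fun h => hx (Subtype.ext h)
    obtain ⟨g, hg⟩ := hcon x hx0
    exact hg (x.2 g)
  have h4 : Nat.card (MulAction.fixedPoints G M) = 1 := by
    rw [Nat.card_eq_one_iff_unique]
    exact ⟨⟨fun a b => (h3 a).trans (h3 b).symm⟩, ⟨⟨0, fun g => h0 g⟩⟩⟩
  rw [h4] at h2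
  exact (Fact.out : p.Prime).one_lt.ne' (Nat.dvd_one.mp h2)

/-- A finite `p`-subgroup acting linearly in characteristic `p` on a non-zero invariant
subspace fixes a non-zero vector of it. -/
theorem exists_fixed_vector_of_pgroup {G : Type*} [Group G] {K : Type*} [Field K] {p : ℕ}
    [Fact p.Prime] [CharP K p] {V : Type*} [AddCommGroup V] [Module K V]
    (ρ : Representation K G V) (P : Subgroup G) [Finite P] (hP : IsPGroup p P)
    (W : Submodule K V) (hinv : ∀ g ∈ P, ∀ v ∈ W, ρ g v ∈ W) (hW : W ≠ ⊥) :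
    ∃ v ∈ W, v ≠ 0 ∧ ∀ g ∈ P, ρ g v = v := by
  classical
  obtain ⟨w, hwW, hw0⟩ := (Submodule.ne_bot_iff W).mp hW
  set V₀ : AddSubgroup V := AddSubgroup.closure (Set.range fun g : P => ρ (g : G) w) with hV₀
  have hpV : ∀ v : V, p • v = 0 := by
    intro v
    have : (p : K) • v = 0 := by rw [CharP.cast_eq_zero K p, zero_smul]
    rwa [Nat.cast_smul_eq_nsmul] at this
  have hfin : Finite V₀ := by
    have hfg : AddGroup.FG V₀ := AddGroup.closure_finite_fg _
    refine AddCommGroup.finite_of_fg_isAddTorsion V₀ ?_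
    intro x
    rw [isOfFinAddOrder_iff_nsmul_eq_zero]
    refine ⟨p, (Fact.out : p.Prime).pos, ?_⟩
    apply Subtype.ext
    simpa using hpV x
  have hle : ∀ v ∈ V₀, v ∈ W := by
    intro v hv
    have : V₀ ≤ W.toAddSubgroup := by
      rw [hV₀, AddSubgroup.closure_le]
      rintro _ ⟨g, rfl⟩
      exact hinv g g.2 w hwW
    exact this hv
  have hinv₀ : ∀ g : P, ∀ v ∈ V₀, ρ (g : G) v ∈ V₀ := by
    intro g v hv
    rw [hV₀] at hv
    induction hv using AddSubgroup.closure_induction with
    | mem x hx =>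
      obtain ⟨h, rfl⟩ := hx
      apply AddSubgroup.subset_closure
      refine ⟨g * h, ?_⟩
      simp [map_mul]
    | zero => simp
    | add x y _ _ hx hy => rw [map_add]; exact V₀.add_mem hx hy
    | neg x _ hx => rw [map_neg]; exact V₀.neg_mem hx
  let act : MulAction P V₀ :=
    { smul := fun g v => ⟨ρ (g : G) v, hinv₀ g v v.2⟩
      one_smul := fun v => by
        apply Subtype.ext
        change ρ ((1 : P) : G) (v : V) = v
        simp
      mul_smul := fun g h v => by
        apply Subtype.ext
        change ρ ((g * h : P) : G) (v : V) = ρ (g : G) (ρ (h : G) (v : V))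
        simp [map_mul] }
  have h0 : ∀ g : P, g • (0 : V₀) = 0 := by
    intro g
    apply Subtype.ext
    change ρ (g : G) ((0 : V₀) : V) = ((0 : V₀) : V)
    simp
  have hwV₀ : w ∈ V₀ := by
    apply AddSubgroup.subset_closure
    exact ⟨1, by simp⟩
  have hcard : p ∣ Nat.card V₀ := by
    have hord : addOrderOf (⟨w, hwV₀⟩ : V₀) = p := by
      apply addOrderOf_eq_prime
      · apply Subtype.ext
        simpa using hpV w
      · intro h
        exact hw0 (congrArg Subtype.val h)
    rw [← hord]
    exact addOrderOf_dvd_natCard _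
  obtain ⟨m, hm0, hm⟩ := exists_fixed_ne_zero_of_pgroup p hP h0 hcard
  refine ⟨(m : V), hle _ m.2, fun h => hm0 (Subtype.ext h), ?_⟩
  intro g hg
  exact congrArg Subtype.val (hm ⟨g, hg⟩)

/-- A Sylow `p`-subgroup of a finite group acting transitively on a set of `p`-power size is
transitive. -/
theorem sylow_transitive_of_card_pow {G : Type*} [Group G] [Finite G] {p f : ℕ} [Fact p.Prime]
    {Ω : Type*} [Finite Ω] [MulAction G Ω] [MulAction.IsPretransitive G Ω]
    (hcard : Nat.card Ω = p ^ f) (P : Sylow p G) (a b : Ω) : ∃ g ∈ P, g • a = b := by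
  classical
  have hidx : (MulAction.stabilizer G a).index = p ^ f := by
    rw [MulAction.index_stabilizer_of_transitive, hcard]
  have h1 := Subgroup.relIndex_mul_index (inf_le_left : (P : Subgroup G) ⊓ MulAction.stabilizer G a ≤ P)
  have h2 := Subgroup.relIndex_mul_index
    (inf_le_right : (P : Subgroup G) ⊓ MulAction.stabilizer G a ≤ MulAction.stabilizer G a)
  rw [hidx] at h2
  have hdvd : p ^ f ∣ ((P : Subgroup G) ⊓ MulAction.stabilizer G a).relIndex P := by
    have h3 : p ^ f ∣ ((P : Subgroup G) ⊓ MulAction.stabilizer G a).relIndex P * (P : Subgroup G).index := by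
      rw [h1, ← h2]
      exact dvd_mul_left _ _
    have hcop : Nat.Coprime (p ^ f) (P : Subgroup G).index :=
      Nat.Coprime.pow_left _ ((Nat.Prime.coprime_iff_not_dvd (Fact.out : p.Prime)).mpr P.not_dvd_index)
    exact hcop.dvd_of_dvd_mul_right h3
  rw [Subgroup.inf_relIndex_left] at hdvd
  have hstab : (MulAction.stabilizer G a).subgroupOf (P : Subgroup G) = MulAction.stabilizer (P : Subgroup G) a := by
    ext g
    simp [Subgroup.mem_subgroupOf, MulAction.mem_stabilizer_iff, Subgroup.smul_def]
  have horb : p ^ f ∣ (MulAction.orbit (P : Subgroup G) a).ncard := by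
    rw [← MulAction.index_stabilizer, ← hstab]
    exact hdvd
  have hle : (MulAction.orbit (P : Subgroup G) a).ncard ≤ p ^ f := by
    rw [← hcard, ← Set.ncard_univ]
    exact Set.ncard_le_ncard (Set.subset_univ _) Set.finite_univ
  have hpos : 0 < (MulAction.orbit (P : Subgroup G) a).ncard := by
    rw [Set.ncard_pos (Set.toFinite _)]
    exact MulAction.nonempty_orbit a
  have heq : (MulAction.orbit (P : Subgroup G) a).ncard = (Set.univ : Set Ω).ncard := by
    rw [Set.ncard_univ, hcard]
    exact le_antisymm hle (Nat.le_of_dvd hpos horb)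
  have huniv : MulAction.orbit (P : Subgroup G) a = Set.univ :=
    Set.eq_of_subset_of_ncard_le (Set.subset_univ _) heq.ge Set.finite_univ
  have hb : b ∈ MulAction.orbit (P : Subgroup G) a := by rw [huniv]; trivial
  obtain ⟨g, hg⟩ := hb
  exact ⟨g, g.2, hg⟩

end Cfsg.Agent.Helper58
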