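import Mathlib
import Cfsg.Agent.Helper10.O7920Defs

set_option autoImplicit false

namespace Cfsg.Agent.Helper58.O7920CASEA

open Subgroup Cfsg.Agent.Helper10.O7920

theorem caseA {G : Type*} [Group G] [Finite G] (hG : Nat.card G = 7920) (hkey : KeyStmt G)
    (K : Subgroup G) [K.Normal] (hK : K ≠ ⊥) (h11 : ¬ 11 ∣ Nat.card K)
    (h495 : Nat.card (G ⧸ K) = 495 → ∃ x : G ⧸ K, orderOf x = 15) : PConn G := by
  have hKn : K.Normal := inferInstance
  have hdvd : Nat.card K ∣ 7920 := hG ▸ Subgroup.card_subgroup_dvd_card K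
  have hne1 : Nat.card K ≠ 1 := fun h => hK (Subgroup.eq_bot_of_card_eq K h)
  by_cases h5 : 5 ∣ Nat.card K
  · -- case (i)
    have e1 : PJ G 5 11 := hkey K hKn 5 11 (by norm_num) (by norm_num) h5 h11 (by norm_num)
    refine pconn_of_edges (a := 5) (b := 11) (c := 2) (d := 3) (by intro x; omega) e1 ?_ ?_
    · by_cases h2 : 2 ∣ Nat.card K
      · exact Or.inr (hkey K hKn 2 11 (by norm_num) (by norm_num) h2 h11 (by norm_num)).symm
      · exact Or.inl (hkey K hKn 5 2 (by norm_num) (by norm_num) h5 h2 (by norm_num))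
    · by_cases h3 : 3 ∣ Nat.card K
      · exact Or.inr (Or.inl
          (hkey K hKn 3 11 (by norm_num) (by norm_num) h3 h11 (by norm_num)).symm)
      · exact Or.inl (hkey K hKn 5 3 (by norm_num) (by norm_num) h5 h3 (by norm_num))
  · by_cases h3 : 3 ∣ Nat.card K
    · -- case (ii)
      have e1 : PJ G 3 11 := hkey K hKn 3 11 (by norm_num) (by norm_num) h3 h11 (by norm_num)
      have e2 : PJ G 3 5 := hkey K hKn 3 5 (by norm_num) (by norm_num) h3 h5
        (fun _ => ⟨by norm_num, by norm_num⟩)
      refine pconn_of_edges (a := 3) (b := 11) (c := 5) (d := 2) (by intro x; omega) e1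
        (Or.inl e2) ?_
      by_cases h2 : 2 ∣ Nat.card K
      · exact Or.inr (Or.inl
          (hkey K hKn 2 11 (by norm_num) (by norm_num) h2 h11 (by norm_num)).symm)
      · exact Or.inl (hkey K hKn 3 2 (by norm_num) (by norm_num) h3 h2 (by norm_num))
    · -- case (iii)
      have hc3 : Nat.Coprime (Nat.card K) 3 :=
        (Nat.coprime_comm.mp ((Nat.Prime.coprime_iff_not_dvd Nat.prime_three).mpr h3))
      have hc5 : Nat.Coprime (Nat.card K) 5 :=
        (Nat.coprime_comm.mp ((Nat.Prime.coprime_iff_not_dvd Nat.prime_five).mpr h5))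
      have hc11 : Nat.Coprime (Nat.card K) 11 :=
        (Nat.coprime_comm.mp ((Nat.Prime.coprime_iff_not_dvd (by norm_num)).mpr h11))
      have hc : Nat.Coprime (Nat.card K) 495 := by
        have e : (495 : ℕ) = 3 * 3 * 5 * 11 := by norm_num
        rw [e]
        exact Nat.Coprime.mul_right (Nat.Coprime.mul_right (Nat.Coprime.mul_right hc3 hc3) hc5)
          hc11
      have h16 : Nat.card K ∣ 16 := by
        have e : (7920 : ℕ) = 495 * 16 := by norm_num
        rw [e] at hdvd
        exact hc.dvd_of_dvd_mul_left hdvd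
      have h2 : 2 ∣ Nat.card K := by
        have h16b : Nat.card K ∣ 2 ^ 4 := by simpa using h16
        obtain ⟨j, hj, hjK⟩ := (Nat.dvd_prime_pow Nat.prime_two).mp h16b
        rw [hjK]
        have hj0 : j ≠ 0 := by
          rintro rfl
          exact hne1 (by rw [hjK, pow_zero])
        exact dvd_pow_self 2 hj0
      have e1 : PJ G 2 11 := hkey K hKn 2 11 (by norm_num) (by norm_num) h2 h11 (by norm_num)
      have e2 : PJ G 2 3 := hkey K hKn 2 3 (by norm_num) (by norm_num) h2 h3 (by norm_num)
      refine pconn_of_edges (a := 2) (b := 11) (c := 3) (d := 5) (by intro x; omega) e1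
        (Or.inl e2) ?_
      by_cases h16' : 16 ∣ Nat.card K
      · have hK16 : Nat.card K = 16 := Nat.dvd_antisymm h16 h16'
        have hq : Nat.card (G ⧸ K) = 495 := by
          have := Subgroup.card_eq_card_quotient_mul_card_subgroup K
          rw [hG, hK16] at this
          omega
        obtain ⟨x, hx⟩ := h495 hq
        obtain ⟨g, hg⟩ := exists_orderOf_of_quotient K x hx
        exact Or.inr (Or.inr ⟨g, by rw [hg]⟩)
      · exact Or.inl (hkey K hKn 2 5 (by norm_num) (by norm_num) h2 h5
          (fun _ => ⟨by norm_num, fun _ => h16'⟩))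

end Cfsg.Agent.Helper58.O7920CASEA
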