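import Mathlib
import Cfsg.Agent.Helper10.O7920Defs

set_option autoImplicit false

namespace Cfsg.Agent.Helper58.O7920KARITH

open Subgroup Cfsg.Agent.Helper10.O7920

theorem key_arith (n p r : ℕ) (hn : n ∣ 7920) (hp : p = 2 ∨ p = 3 ∨ p = 5 ∨ p = 11)
    (hr : r = 2 ∨ r = 3 ∨ r = 5 ∨ r = 11) (hpn : p ∣ n) (hrn : ¬ r ∣ n)
    (h5 : r = 5 → p ≠ 11 ∧ (p = 2 → ¬ 16 ∣ n)) :
    ∃ a b m : ℕ, 0 < a ∧ n = p ^ a * m ∧ ¬ p ∣ m ∧ r ^ b ∣ 7920 ∧ ¬ r ^ b ∣ p ^ a - 1 ∧
      p ≠ r := by
  have hn0 : n ≠ 0 := by rintro rfl; simp at hn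
  have hpr : p ≠ r := by rintro rfl; exact hrn hpn
  have hp1 : p ≠ 1 := by rcases hp with rfl | rfl | rfl | rfl <;> norm_num
  obtain ⟨a, m, hm, hnm⟩ := Nat.exists_eq_pow_mul_and_not_dvd hn0 p hp1
  have ha : 0 < a := by
    rcases Nat.eq_zero_or_pos a with h | h
    · subst h
      rw [pow_zero, one_mul] at hnm
      exact absurd (hnm ▸ hpn) hm
    · exact h
  have hpa : p ^ a ∣ 7920 := (Dvd.intro _ hnm.symm).trans hn
  -- the exponent for `r`
  obtain ⟨b, hb1, hb2⟩ : ∃ b : ℕ, r ^ b ∣ 7920 ∧ ¬ r ^ b ∣ p ^ a - 1 := by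
    rcases hp with rfl | rfl | rfl | rfl
    · -- p = 2, a ≤ 4
      have ha4 : a ≤ 4 := by
        by_contra hcon
        have : (2 : ℕ) ^ 5 ∣ 7920 := (pow_dvd_pow 2 (by omega)).trans hpa
        norm_num at this
      rcases hr with rfl | rfl | rfl | rfl
      · exact absurd rfl hpr
      · refine ⟨2, by norm_num, ?_⟩
        interval_cases a <;> norm_num
      · have h16 := (h5 rfl).2 rfl
        have ha3 : a ≤ 3 := by
          by_contra hcon
          have ha4' : a = 4 := by omega
          subst ha4'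
          exact h16 (Dvd.intro _ hnm.symm)
        refine ⟨1, by norm_num, ?_⟩
        interval_cases a <;> norm_num
      · refine ⟨1, by norm_num, ?_⟩
        interval_cases a <;> norm_num
    · -- p = 3, a ≤ 2
      have ha2 : a ≤ 2 := by
        by_contra hcon
        have : (3 : ℕ) ^ 3 ∣ 7920 := (pow_dvd_pow 3 (by omega)).trans hpa
        norm_num at this
      rcases hr with rfl | rfl | rfl | rfl
      · refine ⟨4, by norm_num, ?_⟩
        interval_cases a <;> norm_num
      · exact absurd rfl hpr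
      · refine ⟨1, by norm_num, ?_⟩
        interval_cases a <;> norm_num
      · refine ⟨1, by norm_num, ?_⟩
        interval_cases a <;> norm_num
    · -- p = 5, a ≤ 1
      have ha1 : a ≤ 1 := by
        by_contra hcon
        have : (5 : ℕ) ^ 2 ∣ 7920 := (pow_dvd_pow 5 (by omega)).trans hpa
        norm_num at this
      rcases hr with rfl | rfl | rfl | rfl
      · refine ⟨4, by norm_num, ?_⟩
        interval_cases a <;> norm_num
      · refine ⟨2, by norm_num, ?_⟩
        interval_cases a <;> norm_num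
      · exact absurd rfl hpr
      · refine ⟨1, by norm_num, ?_⟩
        interval_cases a <;> norm_num
    · -- p = 11, a ≤ 1
      have ha1 : a ≤ 1 := by
        by_contra hcon
        have : (11 : ℕ) ^ 2 ∣ 7920 := (pow_dvd_pow 11 (by omega)).trans hpa
        norm_num at this
      rcases hr with rfl | rfl | rfl | rfl
      · refine ⟨4, by norm_num, ?_⟩
        interval_cases a <;> norm_num
      · refine ⟨2, by norm_num, ?_⟩
        interval_cases a <;> norm_num
      · exact absurd rfl (h5 rfl).1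
      · exact absurd rfl hpr
  exact ⟨a, b, m, ha, hnm, hm, hb1, hb2, hpr⟩

end Cfsg.Agent.Helper58.O7920KARITH
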