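import Mathlib
import Cfsg.Agent.Helper90.MDDefs

/-!
# CALL S2332 piece CORE (seat helper58)

`A ≤ N` abelian, `P` a projection commuting with `N` such that every nontrivial linear character
of `A` has multiplicity one in `range P`.  If `g` is, for every nontrivial character `lam` of `A`
trivial on `D`, a product of commutators of elements of `N` normalising `A` and fixing `lam`,
then `ρ g` is the identity on `range (P ∘ (e_D - e_A))`.

Proof: decompose along the characters of `A` (second orthogonality, from Mathlib's Pontryagin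
duality for finite abelian groups); on each rank one piece `P ∘ e_lam` the stabiliser acts by
scalars, so commutators act trivially.
-/

set_option autoImplicit false
set_option linter.style.haveILetI false
set_option linter.unusedVariables false

namespace Cfsg.Agent.Helper58.MDCore

open Cfsg.Agent.Helper90.MD

universe u

variable {G : Type u} [Group G] {V : Type*} [AddCommGroup V] [Module ℂ V]

theorem isCharOn_inv {A : Subgroup G} {lam : G → ℂ} (h : IsCharOn A lam) {x : G} (hx : x ∈ A) :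
    lam x * lam x⁻¹ = 1 := by
  rw [← h.2 x hx x⁻¹ (A.inv_mem hx), mul_inv_cancel, h.1]

/-- The characters of a finite abelian subgroup, with the second orthogonality relation. -/
theorem exists_chars [Finite G] (A : Subgroup G) (hA : ∀ x ∈ A, ∀ y ∈ A, x * y = y * x) :
    ∃ (ι : Type u) (_ : Fintype ι) (lam : ι → G → ℂ), (∀ i, IsCharOn A (lam i)) ∧
      (∀ x ∈ A, x ≠ 1 → ∑ i, lam i x = 0) ∧ ∑ i, lam i 1 = (Nat.card A : ℂ) := by
  classical
  letI : CommGroup ↥A :=
    { (inferInstance : Group ↥A) with mul_comm := fun x y => Subtype.ext (hA x x.2 y y.2) }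
  haveI : Fintype ↥A := Fintype.ofFinite _
  refine ⟨AddChar (Additive ↥A) ℂ, inferInstance,
    fun ψ x => if h : x ∈ A then ψ (Additive.ofMul ⟨x, h⟩) else 1, ?_, ?_, ?_⟩
  · intro ψ
    refine ⟨?_, ?_⟩
    · beta_reduce
      rw [dif_pos A.one_mem]
      exact ψ.map_zero_eq_one
    · intro x hx y hy
      beta_reduce
      rw [dif_pos hx, dif_pos hy, dif_pos (A.mul_mem hx hy)]
      exact ψ.map_add_eq_mul (Additive.ofMul ⟨x, hx⟩) (Additive.ofMul ⟨y, hy⟩)
  · intro x hx hx1
    have h := AddChar.sum_apply_eq_ite (α := Additive ↥A) (Additive.ofMul (⟨x, hx⟩ : ↥A))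
    have hne : (Additive.ofMul (⟨x, hx⟩ : ↥A)) ≠ 0 := by
      intro h0
      apply hx1
      have h1 : (⟨x, hx⟩ : ↥A) = 1 := h0
      exact congrArg Subtype.val h1
    rw [if_neg hne] at h
    simp only [dif_pos hx]
    exact h
  · have h := AddChar.sum_apply_eq_ite (α := Additive ↥A) (0 : Additive ↥A)
    rw [if_pos rfl] at h
    simp only [dif_pos A.one_mem]
    have hc : (Fintype.card (Additive ↥A) : ℂ) = (Nat.card ↥A : ℂ) := by
      rw [Nat.card_eq_fintype_card, Fintype.card_additive]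
    rw [← hc, ← h]
    rfl

/-- The character projection `|A|⁻¹ ∑ lam x⁻¹ ρ x`. -/
noncomputable def eL (ρ : Representation ℂ G V) (A : Subgroup G) (lam : G → ℂ) : V →ₗ[ℂ] V :=
  (Nat.card A : ℂ)⁻¹ • ∑ᶠ x : A, lam ((x : G)⁻¹) • ρ (x : G)

theorem eL_apply (ρ : Representation ℂ G V) (A : Subgroup G) [Fintype A]
    (lam : G → ℂ) (v : V) :
    eL ρ A lam v = (Nat.card A : ℂ)⁻¹ • ∑ x : A, lam ((x : G)⁻¹) • ρ (x : G) v := by
  rw [eL, finsum_eq_sum_of_fintype]
  simp [LinearMap.sum_apply]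

theorem avg_apply (ρ : Representation ℂ G V) (A : Subgroup G) [Fintype A] (v : V) :
    avg ρ A v = (Nat.card A : ℂ)⁻¹ • ∑ x : A, ρ (x : G) v := by
  rw [avg, finsum_eq_sum_of_fintype]
  simp [LinearMap.sum_apply]

theorem rho_eL [Finite G] (ρ : Representation ℂ G V) (A : Subgroup G) (lam : G → ℂ)
    (hl : IsCharOn A lam) (y : G) (hy : y ∈ A) (v : V) :
    ρ y (eL ρ A lam v) = lam y • eL ρ A lam v := by
  classical
  haveI : Fintype ↥A := Fintype.ofFinite _
  rw [eL_apply, map_smul, smul_comm (lam y)]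
  congr 1
  rw [map_sum, Finset.smul_sum]
  apply Fintype.sum_equiv (Equiv.mulLeft (⟨y, hy⟩ : ↥A))
  intro x
  have h1 : lam ((x : G)⁻¹) = lam y * lam (y * (x : G))⁻¹ := by
    rw [mul_inv_rev, hl.2 _ (A.inv_mem x.2) _ (A.inv_mem hy), mul_left_comm,
      isCharOn_inv hl hy, mul_one]
  rw [map_smul, Equiv.coe_mulLeft, Subgroup.coe_mul, h1, mul_smul, map_mul]
  rfl

theorem sum_char_eq_zero (A D : Subgroup G) (hDA : D ≤ A) (lam : G → ℂ)
    (hl : IsCharOn A lam) [Fintype D] (h : ∃ d ∈ D, lam d ≠ 1) : ∑ d : D, lam (d : G) = 0 := by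
  obtain ⟨d0, hd0, hne⟩ := h
  have h1 : lam d0 * ∑ d : D, lam (d : G) = ∑ d : D, lam (d : G) := by
    rw [Finset.mul_sum]
    apply Fintype.sum_equiv (Equiv.mulLeft (⟨d0, hd0⟩ : ↥D))
    intro d
    rw [Equiv.coe_mulLeft, Subgroup.coe_mul, hl.2 _ (hDA hd0) _ (hDA d.2)]
  have h2 : (lam d0 - 1) * ∑ d : D, lam (d : G) = 0 := by rw [sub_mul, h1, one_mul, sub_self]
  rcases mul_eq_zero.1 h2 with h3 | h3
  · exact absurd (sub_eq_zero.1 h3) hne
  · exact h3

theorem sum_char_eq_card (D : Subgroup G) [Fintype D] (lam : G → ℂ)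
    (h : ∀ d ∈ D, lam d = 1) : ∑ d : D, lam (d : G) = (Nat.card D : ℂ) := by
  rw [Finset.sum_congr rfl (fun (d : ↥D) _ => h d d.2), Finset.sum_const, Finset.card_univ,
    Nat.card_eq_fintype_card]
  simp

theorem avg_eL [Finite G] (ρ : Representation ℂ G V) (A D : Subgroup G) (hDA : D ≤ A)
    (lam : G → ℂ) (hl : IsCharOn A lam) [Fintype D] (v : V) :
    avg ρ D (eL ρ A lam v) = ((Nat.card D : ℂ)⁻¹ * ∑ d : D, lam (d : G)) • eL ρ A lam v := by
  rw [avg_apply, Finset.sum_congr rfl (fun (d : ↥D) _ => rho_eL ρ A lam hl d (hDA d.2) v),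
    ← Finset.sum_smul, smul_smul]

theorem eL_idem [Finite G] (ρ : Representation ℂ G V) (A : Subgroup G) (lam : G → ℂ)
    (hl : IsCharOn A lam) (v : V) : eL ρ A lam (eL ρ A lam v) = eL ρ A lam v := by
  classical
  haveI : Fintype ↥A := Fintype.ofFinite _
  have hn : (Nat.card A : ℂ) ≠ 0 := Nat.cast_ne_zero.2 Nat.card_pos.ne'
  conv_lhs => rw [eL_apply]
  have h1 : ∀ x : ↥A, lam ((x : G)⁻¹) • ρ (x : G) (eL ρ A lam v) = eL ρ A lam v := by
    intro x
    rw [rho_eL ρ A lam hl x x.2 v, smul_smul, mul_comm, isCharOn_inv hl x.2, one_smul]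
  rw [Finset.sum_congr rfl (fun x _ => h1 x), Finset.sum_const, Finset.card_univ,
    ← Nat.card_eq_fintype_card, ← Nat.cast_smul_eq_nsmul ℂ, smul_smul, inv_mul_cancel₀ hn,
    one_smul]

theorem P_eL [Finite G] (ρ : Representation ℂ G V) (N A : Subgroup G) (P : V →ₗ[ℂ] V)
    (hP : IsProjFor ρ N P) (hAN : A ≤ N) (lam : G → ℂ) (v : V) :
    P (eL ρ A lam v) = eL ρ A lam (P v) := by
  classical
  haveI : Fintype ↥A := Fintype.ofFinite _
  rw [eL_apply, eL_apply, map_smul, map_sum]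
  congr 1
  apply Finset.sum_congr rfl
  intro x _
  rw [map_smul]
  congr 1
  exact (LinearMap.congr_fun (hP.2 x (hAN x.2)) v).symm

theorem stab_eL [Finite G] (ρ : Representation ℂ G V) (N A : Subgroup G) (lam : G → ℂ)
    (s : G) (hs : s ∈ stabSet N A lam) (v : V) :
    ρ s (eL ρ A lam v) = eL ρ A lam (ρ s v) := by
  classical
  haveI : Fintype ↥A := Fintype.ofFinite _
  obtain ⟨-, hsA, hsl⟩ := hs
  rw [eL_apply, eL_apply, map_smul, map_sum]
  congr 1
  let e : ↥A ≃ ↥A :=
    { toFun := fun x => ⟨s * x * s⁻¹, hsA.1 x x.2⟩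
      invFun := fun x => ⟨s⁻¹ * x * s, hsA.2 x x.2⟩
      left_inv := fun x => Subtype.ext (by simp [mul_assoc])
      right_inv := fun x => Subtype.ext (by simp [mul_assoc]) }
  apply Fintype.sum_equiv e
  intro x
  have h1 : lam (((e x : ↥A) : G)⁻¹) = lam ((x : G)⁻¹) := by
    have h := hsl (x : G)⁻¹ (A.inv_mem x.2)
    rw [← h]
    congr 1
    show (s * (x : G) * s⁻¹)⁻¹ = s * (x : G)⁻¹ * s⁻¹
    group
  rw [h1, map_smul]
  congr 1
  show ρ s (ρ (x : G) v) = ρ (s * (x : G) * s⁻¹) (ρ s v)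
  rw [← Module.End.mul_apply, ← Module.End.mul_apply, ← map_mul, ← map_mul]
  congr 2
  group

theorem trace_P_eL [Finite G] [FiniteDimensional ℂ V] (ρ : Representation ℂ G V)
    (N A : Subgroup G) (P : V →ₗ[ℂ] V) (hP : IsProjFor ρ N P) (hAN : A ≤ N) (τ : ℂ)
    (hm : MultOne ρ P A τ) (lam : G → ℂ) (hl : IsCharOn A lam) (hnt : ∃ x ∈ A, lam x ≠ 1) :
    LinearMap.trace ℂ V (P ∘ₗ eL ρ A lam) = 1 := by
  classical
  haveI : Fintype ↥A := Fintype.ofFinite _
  have hn : (Nat.card A : ℂ) ≠ 0 := Nat.cast_ne_zero.2 Nat.card_pos.ne'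
  have h1 : P ∘ₗ eL ρ A lam =
      (Nat.card A : ℂ)⁻¹ • ∑ x : A, lam ((x : G)⁻¹) • (ρ (x : G) ∘ₗ P) := by
    ext v
    simp only [LinearMap.comp_apply, LinearMap.smul_apply, LinearMap.sum_apply]
    rw [P_eL ρ N A P hP hAN lam v, eL_apply]
  rw [h1, map_smul, map_sum]
  have h2 : ∀ x : ↥A, LinearMap.trace ℂ V (lam ((x : G)⁻¹) • (ρ (x : G) ∘ₗ P)) =
      lam ((x : G)⁻¹) * τ + (if x = 1 then (Nat.card A : ℂ) else 0) := by
    intro x
    rw [map_smul, smul_eq_mul]
    have hp : LinearMap.trace ℂ V (ρ (x : G) ∘ₗ P) = ptr ρ P x := rfl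
    rw [hp]
    by_cases hx : x = 1
    · rw [if_pos hx, hx]
      have h3 := hm.2
      simp only [Subgroup.coe_one, inv_one, hl.1]
      linear_combination h3
    · rw [if_neg hx, add_zero, hm.1 x x.2 (fun h => hx (Subtype.ext h))]
  rw [Finset.sum_congr rfl (fun x _ => h2 x), Finset.sum_add_distrib, ← Finset.sum_mul,
    Finset.sum_ite_eq', if_pos (Finset.mem_univ _)]
  have h3 : ∑ x : A, lam ((x : G)⁻¹) = 0 := by
    have h4 : ∑ x : A, lam ((x : G)⁻¹) = ∑ x : A, lam (x : G) := by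
      apply Fintype.sum_equiv (Equiv.inv ↥A)
      intro x
      rfl
    rw [h4]
    exact sum_char_eq_zero A A le_rfl lam hl hnt
  rw [h3, zero_mul, zero_add, smul_eq_mul, inv_mul_cancel₀ hn]

/-- An operator commuting with a projection of trace one acts on its range by a scalar. -/
theorem rank_one_scalar [FiniteDimensional ℂ V] (E T : V →ₗ[ℂ] V) (hE : ∀ v, E (E v) = E v)
    (htr : LinearMap.trace ℂ V E = 1) (hTE : ∀ v, T (E v) = E (T v)) :
    ∃ c : ℂ, ∀ v, T (E v) = c • E v := by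
  have hid : IsIdempotentElem E := by
    ext v
    exact hE v
  have hproj : LinearMap.IsProj (LinearMap.range E) E := LinearMap.IsIdempotentElem.isProj_range E hid
  have h1 := hproj.trace
  rw [htr] at h1
  have h2 : Module.finrank ℂ (LinearMap.range E) = 1 := by exact_mod_cast h1.symm
  obtain ⟨v0, -, hspan⟩ := finrank_eq_one_iff'.1 h2
  have hTv : T (v0 : V) ∈ LinearMap.range E := by
    have h3 : E (v0 : V) = v0 := hproj.map_id v0 v0.2
    rw [← h3, hTE]
    exact LinearMap.mem_range_self _ _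
  obtain ⟨c, hc⟩ := hspan ⟨T v0, hTv⟩
  have hc' : T (v0 : V) = c • (v0 : V) := by
    have h3 := congrArg Subtype.val hc
    simpa using h3.symm
  refine ⟨c, fun w => ?_⟩
  obtain ⟨a, ha⟩ := hspan ⟨E w, LinearMap.mem_range_self _ _⟩
  have ha' : E w = a • (v0 : V) := by
    have h3 := congrArg Subtype.val ha
    simpa using h3.symm
  rw [ha', map_smul, hc', smul_comm]

/-- Commutators of operators commuting with a projection of trace one fix its range. -/
theorem comm_fix [FiniteDimensional ℂ V] (ρ : Representation ℂ G V) (E : V →ₗ[ℂ] V)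
    (hE : ∀ v, E (E v) = E v) (htr : LinearMap.trace ℂ V E = 1) (S : Set G)
    (hS : ∀ s ∈ S, ∀ v, ρ s (E v) = E (ρ s v)) (g : G) (hg : g ∈ commSet S) :
    ∀ v, ρ g (E v) = E v := by
  have hE0 : ∃ v, E v ≠ 0 := by
    by_contra hcon
    push Not at hcon
    have : E = 0 := LinearMap.ext hcon
    rw [this, map_zero] at htr
    exact zero_ne_one htr
  obtain ⟨w0, hw0⟩ := hE0
  let H : Subgroup G :=
    { carrier := {h | ∀ v, ρ h (E v) = E v}
      mul_mem' := by
        intro a b ha hb v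
        rw [map_mul, Module.End.mul_apply, hb v, ha v]
      one_mem' := by
        intro v
        rw [map_one, Module.End.one_apply]
      inv_mem' := by
        intro a ha v
        have h1 : ρ a⁻¹ (ρ a (E v)) = E v := by
          rw [← Module.End.mul_apply, ← map_mul, inv_mul_cancel, map_one, Module.End.one_apply]
        rw [ha v] at h1
        exact h1 }
  have hle : commSet S ≤ H := by
    unfold commSet
    rw [Subgroup.closure_le]
    rintro c ⟨s1, hs1, s2, hs2, rfl⟩
    obtain ⟨c1, hc1⟩ := rank_one_scalar E (ρ s1) hE htr (hS s1 hs1)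
    obtain ⟨c2, hc2⟩ := rank_one_scalar E (ρ s2) hE htr (hS s2 hs2)
    have hinv : ∀ (s : G) (c : ℂ), (∀ v, ρ s (E v) = c • E v) →
        c ≠ 0 ∧ ∀ v, ρ s⁻¹ (E v) = c⁻¹ • E v := by
      intro s c hc
      have h1 : ∀ v, ρ s⁻¹ (ρ s (E v)) = E v := by
        intro v
        rw [← Module.End.mul_apply, ← map_mul, inv_mul_cancel, map_one, Module.End.one_apply]
      have hc0 : c ≠ 0 := by
        rintro rfl
        have h2 := h1 w0
        rw [hc w0, zero_smul, map_zero] at h2
        exact hw0 h2.symm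
      refine ⟨hc0, fun v => ?_⟩
      have h2 := h1 v
      rw [hc v, map_smul] at h2
      calc ρ s⁻¹ (E v) = c⁻¹ • (c • ρ s⁻¹ (E v)) := by
            rw [smul_smul, inv_mul_cancel₀ hc0, one_smul]
        _ = c⁻¹ • E v := by rw [h2]
    obtain ⟨h10, hi1⟩ := hinv s1 c1 hc1
    obtain ⟨h20, hi2⟩ := hinv s2 c2 hc2
    intro v
    show ρ (s1 * s2 * s1⁻¹ * s2⁻¹) (E v) = E v
    rw [map_mul, map_mul, map_mul, Module.End.mul_apply, Module.End.mul_apply,
      Module.End.mul_apply]
    simp only [map_smul, hi2 v, hi1 v, hc2 v, hc1 v, smul_smul]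
    convert one_smul ℂ (E v) using 2
    field_simp
  exact hle hg

/-- PIECE CORE -/
theorem core [Finite G] [FiniteDimensional ℂ V] (ρ : Representation ℂ G V) (N A : Subgroup G)
    (P : V →ₗ[ℂ] V) (hP : IsProjFor ρ N P) (hAN : A ≤ N)
    (hA : ∀ x ∈ A, ∀ y ∈ A, x * y = y * x) (τ : ℂ) (hm : MultOne ρ P A τ)
    (g : G) (hgN : g ∈ N) (hg : NormBy g A)
    (D : Subgroup G) (hBD : bsub A g ≤ D) (hDA : D ≤ A) (hT : PropT N A D g) :
    ρ g ∘ₗ (P ∘ₗ (avg ρ D - avg ρ A)) = P ∘ₗ (avg ρ D - avg ρ A) := by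
  classical
  haveI : Fintype ↥A := Fintype.ofFinite _
  haveI : Fintype ↥D := Fintype.ofFinite _
  obtain ⟨ι, hι, lam, hchar, horth, horth1⟩ := exists_chars A hA
  have hnA : (Nat.card A : ℂ) ≠ 0 := Nat.cast_ne_zero.2 Nat.card_pos.ne'
  have hnD : (Nat.card D : ℂ) ≠ 0 := Nat.cast_ne_zero.2 Nat.card_pos.ne'
  have hcomp : ∀ v : V, ∑ i, eL ρ A (lam i) v = v := by
    intro v
    simp only [eL_apply]
    rw [← Finset.smul_sum, Finset.sum_comm]
    simp only [← Finset.sum_smul]
    rw [Finset.sum_eq_single (1 : ↥A)]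
    · simp only [Subgroup.coe_one, inv_one, map_one]
      rw [horth1, smul_smul, inv_mul_cancel₀ hnA, one_smul, Module.End.one_apply]
    · intro x _ hx
      have hx' : ((x : G)⁻¹) ≠ 1 := by
        intro h
        apply hx
        apply Subtype.ext
        simpa using h
      rw [horth _ (A.inv_mem x.2) hx', zero_smul]
    · intro h
      exact absurd (Finset.mem_univ _) h
  have hpiece : ∀ i (v : V), ρ g (P ((avg ρ D - avg ρ A) (eL ρ A (lam i) v))) =
      P ((avg ρ D - avg ρ A) (eL ρ A (lam i) v)) := by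
    intro i v
    rw [LinearMap.sub_apply, avg_eL ρ A D hDA (lam i) (hchar i) v,
      avg_eL ρ A A le_rfl (lam i) (hchar i) v]
    by_cases hD1 : ∀ d ∈ D, lam i d = 1
    · by_cases hA1 : ∀ x ∈ A, lam i x = 1
      · rw [sum_char_eq_card D (lam i) hD1, sum_char_eq_card A (lam i) hA1, inv_mul_cancel₀ hnD,
          inv_mul_cancel₀ hnA, sub_self, map_zero, map_zero]
      · push Not at hA1
        rw [sum_char_eq_card D (lam i) hD1, sum_char_eq_zero A A le_rfl (lam i) (hchar i) hA1,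
          inv_mul_cancel₀ hnD, mul_zero, zero_smul, sub_zero, one_smul]
        have hgc := hT (lam i) (hchar i) hA1 hD1
        have hidem : ∀ w, (P ∘ₗ eL ρ A (lam i)) ((P ∘ₗ eL ρ A (lam i)) w) =
            (P ∘ₗ eL ρ A (lam i)) w := by
          intro w
          simp only [LinearMap.comp_apply]
          rw [← P_eL ρ N A P hP hAN (lam i), eL_idem ρ A (lam i) (hchar i)]
          exact LinearMap.congr_fun hP.1 _
        have hcommS : ∀ s ∈ stabSet N A (lam i), ∀ w,
            ρ s ((P ∘ₗ eL ρ A (lam i)) w) = (P ∘ₗ eL ρ A (lam i)) (ρ s w) := by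
          intro s hs w
          simp only [LinearMap.comp_apply]
          rw [← stab_eL ρ N A (lam i) s hs w]
          exact LinearMap.congr_fun (hP.2 s hs.1) _
        exact comm_fix ρ (P ∘ₗ eL ρ A (lam i)) hidem
          (trace_P_eL ρ N A P hP hAN τ hm (lam i) (hchar i) hA1) (stabSet N A (lam i)) hcommS g
          hgc v
    · push Not at hD1
      have hA1 : ∃ x ∈ A, lam i x ≠ 1 := by
        obtain ⟨d, hd, hne⟩ := hD1
        exact ⟨d, hDA hd, hne⟩
      rw [sum_char_eq_zero A D hDA (lam i) (hchar i) hD1,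
        sum_char_eq_zero A A le_rfl (lam i) (hchar i) hA1]
      simp only [mul_zero, zero_smul, sub_self, map_zero]
  ext v
  simp only [LinearMap.comp_apply]
  conv_lhs => rw [← hcomp v]
  conv_rhs => rw [← hcomp v]
  simp only [map_sum]
  exact Finset.sum_congr rfl (fun i _ => hpiece i v)

end Cfsg.Agent.Helper58.MDCore
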