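import Mathlib
import Cfsg.Agent.Helper32.JorDefs

/-!
# CALL S3620 piece Fc (seat helper58): the double count in a Steiner system with blocks of
size `t + 1` and a closed set `S`.
-/

set_option autoImplicit false

namespace Cfsg.Agent.Helper58.JorFc

open Equiv Cfsg.Agent.Helper32.Jor

variable {Ω : Type*} [Fintype Ω] [DecidableEq Ω]

/-- The number of `t`-sets meeting `S` in exactly `i` points (local copy of piece Fc1). -/
theorem card_filter_inter_aux (S : Finset Ω) (t i : ℕ) (hi : i ≤ t) :
    ((Finset.powersetCard t (Finset.univ : Finset Ω)).filter (fun X => (X ∩ S).card = i)).card =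
      (S.card).choose i * (Sᶜ.card).choose (t - i) := by
  rw [← Finset.card_powersetCard, ← Finset.card_powersetCard, ← Finset.card_product]
  apply Finset.card_nbij' (fun X => (X ∩ S, X \ S)) (fun p => p.1 ∪ p.2)
  · intro X hX
    rw [Finset.mem_coe, Finset.mem_filter, Finset.mem_powersetCard] at hX
    rw [Finset.mem_coe, Finset.mem_product, Finset.mem_powersetCard, Finset.mem_powersetCard]
    dsimp only
    have h1 := Finset.card_sdiff_add_card_inter X S
    have h2 := hX.1.2
    have h3 := hX.2
    refine ⟨⟨Finset.inter_subset_right, hX.2⟩, ⟨?_, by omega⟩⟩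
    intro x hx
    rw [Finset.mem_sdiff] at hx
    exact Finset.mem_compl.2 hx.2
  · intro p hp
    rw [Finset.mem_coe, Finset.mem_product, Finset.mem_powersetCard, Finset.mem_powersetCard] at hp
    obtain ⟨⟨hA, hAc⟩, ⟨hB, hBc⟩⟩ := hp
    rw [Finset.mem_coe, Finset.mem_filter, Finset.mem_powersetCard]
    have hdis : Disjoint p.1 p.2 := by
      rw [Finset.disjoint_left]
      intro x hx1 hx2
      exact (Finset.mem_compl.1 (hB hx2)) (hA hx1)
    have hAS : (p.1 ∪ p.2) ∩ S = p.1 := by
      ext x
      simp only [Finset.mem_inter, Finset.mem_union]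
      constructor
      · rintro ⟨h | h, hS⟩
        · exact h
        · exact absurd hS (Finset.mem_compl.1 (hB h))
      · intro h
        exact ⟨Or.inl h, hA h⟩
    refine ⟨⟨Finset.subset_univ _, ?_⟩, ?_⟩
    · rw [Finset.card_union_of_disjoint hdis, hAc, hBc]
      omega
    · rw [hAS, hAc]
  · intro X _
    show X ∩ S ∪ X \ S = X
    rw [Finset.union_comm]
    exact Finset.sdiff_union_inter X S
  · intro p hp
    rw [Finset.mem_coe, Finset.mem_product, Finset.mem_powersetCard, Finset.mem_powersetCard] at hp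
    obtain ⟨⟨hA, -⟩, ⟨hB, -⟩⟩ := hp
    apply Prod.ext
    · show (p.1 ∪ p.2) ∩ S = p.1
      ext x
      simp only [Finset.mem_inter, Finset.mem_union]
      constructor
      · rintro ⟨h | h, hS⟩
        · exact h
        · exact absurd hS (Finset.mem_compl.1 (hB h))
      · intro h
        exact ⟨Or.inl h, hA h⟩
    · show (p.1 ∪ p.2) \ S = p.2
      ext x
      simp only [Finset.mem_sdiff, Finset.mem_union]
      constructor
      · rintro ⟨h | h, hS⟩
        · exact absurd (hA h) hS
        · exact h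
      · intro h
        exact ⟨Or.inr h, Finset.mem_compl.1 (hB h)⟩

/-- PIECE Fc -/
theorem design_count (t : ℕ) (ht : 2 ≤ t) (Γ : Finset Ω → Finset Ω)
    (h1 : ∀ X : Finset Ω, X.card = t → X ⊆ Γ X ∧ (Γ X).card = t + 1)
    (h2 : ∀ X X' : Finset Ω, X.card = t → X'.card = t → X' ⊆ Γ X → Γ X' = Γ X)
    (S : Finset Ω) (hS : ∀ X : Finset Ω, X.card = t → X ⊆ S → Γ X ⊆ S) :
    ∃ E F : ℕ → ℕ, E (t - 1) = 0 ∧ E 0 ≤ (Sᶜ.card).choose t ∧
      ∀ i, 1 ≤ i → i ≤ t →
        E i + F i = (S.card).choose i * (Sᶜ.card).choose (t - i) ∧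
        i * F i = (t - i + 1) * E (i - 1) := by
  classical
  rcases isEmpty_or_nonempty Ω with hΩ | hΩ
  · refine ⟨fun _ => 0, fun _ => 0, rfl, Nat.zero_le _, ?_⟩
    intro i hi1 _
    have hS0 : S.card = 0 := by
      rw [Finset.card_eq_zero]
      exact Finset.eq_empty_of_isEmpty S
    rw [hS0, Nat.choose_eq_zero_of_lt (by omega)]
    simp
  -- the complementary point
  have hex : ∀ X : Finset Ω, ∃ c : Ω, X.card = t → Γ X \ X = {c} := by
    intro X
    by_cases hX : X.card = t
    · have hc : (Γ X \ X).card = 1 := by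
        rw [Finset.card_sdiff_of_subset (h1 X hX).1, (h1 X hX).2, hX]
        omega
      obtain ⟨c, hc'⟩ := Finset.card_eq_one.1 hc
      exact ⟨c, fun _ => hc'⟩
    · exact ⟨hΩ.some, fun h => absurd h hX⟩
  choose comp hcomp using hex
  have hc1 : ∀ X : Finset Ω, X.card = t → comp X ∈ Γ X := by
    intro X hX
    have h : comp X ∈ Γ X \ X := by rw [hcomp X hX]; exact Finset.mem_singleton_self _
    exact (Finset.mem_sdiff.1 h).1
  have hc2 : ∀ X : Finset Ω, X.card = t → comp X ∉ X := by
    intro X hX
    have h : comp X ∈ Γ X \ X := by rw [hcomp X hX]; exact Finset.mem_singleton_self _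
    exact (Finset.mem_sdiff.1 h).2
  have hc3 : ∀ X : Finset Ω, X.card = t → Γ X = insert (comp X) X := by
    intro X hX
    rw [Finset.insert_eq, ← hcomp X hX, Finset.sdiff_union_of_subset (h1 X hX).1]
  -- flags
  have f1 : ∀ (X : Finset Ω) (a : Ω), X.card = t → a ∈ X → ((Γ X).erase a).card = t := by
    intro X a hX ha
    rw [Finset.card_erase_of_mem ((h1 X hX).1 ha), (h1 X hX).2]
    rfl
  have f2 : ∀ (X : Finset Ω) (a : Ω), X.card = t → a ∈ X → Γ ((Γ X).erase a) = Γ X := by
    intro X a hX ha
    exact h2 X _ hX (f1 X a hX ha) (Finset.erase_subset _ _)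
  have f3 : ∀ (X : Finset Ω) (a : Ω), X.card = t → a ∈ X → comp ((Γ X).erase a) = a := by
    intro X a hX ha
    have h := hcomp _ (f1 X a hX ha)
    rw [f2 X a hX ha, Finset.sdiff_erase_self ((h1 X hX).1 ha)] at h
    exact (Finset.singleton_injective h).symm
  have f4 : ∀ (X : Finset Ω) (a : Ω), X.card = t → a ∈ X →
      (Γ ((Γ X).erase a)).erase (comp X) = X := by
    intro X a hX ha
    rw [f2 X a hX ha, hc3 X hX, Finset.erase_insert (hc2 X hX)]
  have f5 : ∀ (X : Finset Ω) (a : Ω), X.card = t → a ∈ X → comp X ∈ (Γ X).erase a := by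
    intro X a hX ha
    rw [Finset.mem_erase]
    refine ⟨?_, hc1 X hX⟩
    rintro rfl
    exact hc2 X hX ha
  have f6 : ∀ (X : Finset Ω) (a : Ω), X.card = t → a ∈ X →
      (Γ X).erase a = insert (comp X) (X.erase a) := by
    intro X a hX ha
    rw [hc3 X hX]
    apply Finset.erase_insert_of_ne
    rintro rfl
    exact hc2 X hX ha
  refine ⟨fun i => ((Finset.powersetCard t (Finset.univ : Finset Ω)).filter
      (fun X => (X ∩ S).card = i ∧ comp X ∈ S)).card,
    fun i => ((Finset.powersetCard t (Finset.univ : Finset Ω)).filter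
      (fun X => (X ∩ S).card = i ∧ comp X ∉ S)).card, ?_, ?_, ?_⟩
  · -- `E (t - 1) = 0`
    show ((Finset.powersetCard t (Finset.univ : Finset Ω)).filter
      (fun X => (X ∩ S).card = t - 1 ∧ comp X ∈ S)).card = 0
    rw [Finset.card_eq_zero, Finset.filter_eq_empty_iff]
    intro X hX hcon
    rw [Finset.mem_powersetCard] at hX
    obtain ⟨hXS, hcS⟩ := hcon
    have hX' : (insert (comp X) (X ∩ S)).card = t := by
      rw [Finset.card_insert_of_notMem (fun h => hc2 X hX.2 (Finset.mem_inter.1 h).1), hXS]
      omega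
    have hsub : insert (comp X) (X ∩ S) ⊆ Γ X := by
      intro x hx
      rcases Finset.mem_insert.1 hx with rfl | hx
      · exact hc1 X hX.2
      · exact (h1 X hX.2).1 (Finset.mem_inter.1 hx).1
    have hsubS : insert (comp X) (X ∩ S) ⊆ S := by
      intro x hx
      rcases Finset.mem_insert.1 hx with rfl | hx
      · exact hcS
      · exact (Finset.mem_inter.1 hx).2
    have hΓ := h2 X _ hX.2 hX' hsub
    have hΓS := hS _ hX' hsubS
    rw [hΓ] at hΓS
    have hXsubS : X ⊆ S := (h1 X hX.2).1.trans hΓS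
    rw [Finset.inter_eq_left.2 hXsubS, hX.2] at hXS
    omega
  · -- `E 0 ≤ C(d, t)`
    show ((Finset.powersetCard t (Finset.univ : Finset Ω)).filter
      (fun X => (X ∩ S).card = 0 ∧ comp X ∈ S)).card ≤ _
    rw [← Finset.card_powersetCard]
    apply Finset.card_le_card
    intro X hX
    rw [Finset.mem_filter, Finset.mem_powersetCard] at hX
    rw [Finset.mem_powersetCard]
    refine ⟨?_, hX.1.2⟩
    intro x hx
    rw [Finset.mem_compl]
    intro hxS
    have h0 := Finset.card_eq_zero.1 hX.2.1
    have : x ∈ X ∩ S := Finset.mem_inter.2 ⟨hx, hxS⟩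
    rw [h0] at this
    exact absurd this (Finset.notMem_empty x)
  · intro i hi1 hit
    refine ⟨?_, ?_⟩
    · -- `E i + F i`
      show ((Finset.powersetCard t (Finset.univ : Finset Ω)).filter
          (fun X => (X ∩ S).card = i ∧ comp X ∈ S)).card +
        ((Finset.powersetCard t (Finset.univ : Finset Ω)).filter
          (fun X => (X ∩ S).card = i ∧ comp X ∉ S)).card = _
      rw [← card_filter_inter_aux S t i hit, ← Finset.filter_filter, ← Finset.filter_filter]
      exact Finset.card_filter_add_card_filter_not _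
    · -- the double count
      show i * ((Finset.powersetCard t (Finset.univ : Finset Ω)).filter
          (fun X => (X ∩ S).card = i ∧ comp X ∉ S)).card =
        (t - i + 1) * ((Finset.powersetCard t (Finset.univ : Finset Ω)).filter
          (fun X => (X ∩ S).card = i - 1 ∧ comp X ∈ S)).card
      have hA : (((Finset.powersetCard t (Finset.univ : Finset Ω)).filter
          (fun X => (X ∩ S).card = i ∧ comp X ∉ S)).sigma (fun X => X ∩ S)).card =
          i * ((Finset.powersetCard t (Finset.univ : Finset Ω)).filter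
          (fun X => (X ∩ S).card = i ∧ comp X ∉ S)).card := by
        rw [Finset.card_sigma, Finset.sum_congr rfl (fun X hX => (Finset.mem_filter.1 hX).2.1),
          Finset.sum_const, smul_eq_mul, mul_comm]
      have hB : (((Finset.powersetCard t (Finset.univ : Finset Ω)).filter
          (fun X => (X ∩ S).card = i - 1 ∧ comp X ∈ S)).sigma (fun X => X \ S)).card =
          (t - i + 1) * ((Finset.powersetCard t (Finset.univ : Finset Ω)).filter
          (fun X => (X ∩ S).card = i - 1 ∧ comp X ∈ S)).card := by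
        have hc : ∀ X ∈ (Finset.powersetCard t (Finset.univ : Finset Ω)).filter
            (fun X => (X ∩ S).card = i - 1 ∧ comp X ∈ S), (X \ S).card = t - i + 1 := by
          intro X hX
          rw [Finset.mem_filter, Finset.mem_powersetCard] at hX
          have h := Finset.card_sdiff_add_card_inter X S
          omega
        rw [Finset.card_sigma, Finset.sum_congr rfl hc, Finset.sum_const, smul_eq_mul, mul_comm]
      rw [← hA, ← hB]
      apply Finset.card_nbij'
        (fun p : (Σ _ : Finset Ω, Ω) => (⟨(Γ p.1).erase p.2, comp p.1⟩ : Σ _ : Finset Ω, Ω))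
        (fun p : (Σ _ : Finset Ω, Ω) => (⟨(Γ p.1).erase p.2, comp p.1⟩ : Σ _ : Finset Ω, Ω))
      · rintro ⟨X, a⟩ hp
        rw [Finset.mem_coe, Finset.mem_sigma, Finset.mem_filter, Finset.mem_powersetCard] at hp
        obtain ⟨⟨⟨-, hX⟩, hXS, hcS⟩, ha⟩ := hp
        simp only at hX hXS hcS ha
        have haX : a ∈ X := (Finset.mem_inter.1 ha).1
        have haS : a ∈ S := (Finset.mem_inter.1 ha).2
        rw [Finset.mem_coe, Finset.mem_sigma, Finset.mem_filter, Finset.mem_powersetCard]
        refine ⟨⟨⟨Finset.subset_univ _, f1 X a hX haX⟩, ?_, ?_⟩, ?_⟩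
        · show ((Γ X).erase a ∩ S).card = i - 1
          rw [f6 X a hX haX, Finset.insert_inter_of_notMem hcS, Finset.erase_inter,
            Finset.card_erase_of_mem ha, hXS]
        · show comp ((Γ X).erase a) ∈ S
          rw [f3 X a hX haX]
          exact haS
        · show comp X ∈ (Γ X).erase a \ S
          exact Finset.mem_sdiff.2 ⟨f5 X a hX haX, hcS⟩
      · rintro ⟨X, a⟩ hp
        rw [Finset.mem_coe, Finset.mem_sigma, Finset.mem_filter, Finset.mem_powersetCard] at hp
        obtain ⟨⟨⟨-, hX⟩, hXS, hcS⟩, ha⟩ := hp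
        simp only at hX hXS hcS ha
        have haX : a ∈ X := (Finset.mem_sdiff.1 ha).1
        have haS : a ∉ S := (Finset.mem_sdiff.1 ha).2
        rw [Finset.mem_coe, Finset.mem_sigma, Finset.mem_filter, Finset.mem_powersetCard]
        refine ⟨⟨⟨Finset.subset_univ _, f1 X a hX haX⟩, ?_, ?_⟩, ?_⟩
        · show ((Γ X).erase a ∩ S).card = i
          have hnot : a ∉ X ∩ S := fun h => haS (Finset.mem_inter.1 h).2
          rw [f6 X a hX haX, Finset.insert_inter_of_mem hcS, Finset.erase_inter,
            Finset.erase_eq_of_notMem hnot,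
            Finset.card_insert_of_notMem (fun h => hc2 X hX (Finset.mem_inter.1 h).1), hXS]
          omega
        · show comp ((Γ X).erase a) ∉ S
          rw [f3 X a hX haX]
          exact haS
        · show comp X ∈ (Γ X).erase a ∩ S
          exact Finset.mem_inter.2 ⟨f5 X a hX haX, hcS⟩
      · rintro ⟨X, a⟩ hp
        rw [Finset.mem_coe, Finset.mem_sigma, Finset.mem_filter, Finset.mem_powersetCard] at hp
        obtain ⟨⟨⟨-, hX⟩, -, -⟩, ha⟩ := hp
        simp only at hX ha
        have haX : a ∈ X := (Finset.mem_inter.1 ha).1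
        show (⟨(Γ ((Γ X).erase a)).erase (comp X), comp ((Γ X).erase a)⟩ : Σ _ : Finset Ω, Ω) =
          ⟨X, a⟩
        rw [f4 X a hX haX, f3 X a hX haX]
      · rintro ⟨X, a⟩ hp
        rw [Finset.mem_coe, Finset.mem_sigma, Finset.mem_filter, Finset.mem_powersetCard] at hp
        obtain ⟨⟨⟨-, hX⟩, -, -⟩, ha⟩ := hp
        simp only at hX ha
        have haX : a ∈ X := (Finset.mem_sdiff.1 ha).1
        show (⟨(Γ ((Γ X).erase a)).erase (comp X), comp ((Γ X).erase a)⟩ : Σ _ : Finset Ω, Ω) =
          ⟨X, a⟩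
        rw [f4 X a hX haX, f3 X a hX haX]

end Cfsg.Agent.Helper58.JorFc
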