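import Mathlib

/-!
# CALL S3620 piece Fd (seat helper58): the alternating recurrence for descending factorials

`x i + x (i-1) = s.descFactorial i * d.descFactorial (t-i)` for `1 ≤ i ≤ t`, `x (t-1) = 0`,
`x 0 ≤ d.descFactorial t` and `d < s` are incompatible.
-/

set_option autoImplicit false

namespace Cfsg.Agent.Helper58.JorFd

theorem cast_descFactorial_succ (n k : ℕ) :
    ((n.descFactorial (k + 1) : ℕ) : ℤ) = ((n : ℤ) - k) * (n.descFactorial k : ℤ) := by
  rcases le_or_gt k n with h | h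
  · rw [Nat.descFactorial_succ, Nat.cast_mul, Nat.cast_sub h]
  · rw [Nat.descFactorial_of_lt h, Nat.descFactorial_of_lt (by omega)]
    simp

theorem descFactorial_lt (n m k : ℕ) (hnm : n < m) (hk1 : 1 ≤ k) (hkm : k ≤ m) :
    n.descFactorial k < m.descFactorial k := by
  obtain ⟨m', rfl⟩ : ∃ m', m = m' + 1 := ⟨m - 1, by omega⟩
  obtain ⟨k', rfl⟩ : ∃ k', k = k' + 1 := ⟨k - 1, by omega⟩
  have h1 : n.descFactorial (k' + 1) ≤ m'.descFactorial (k' + 1) :=
    Nat.descFactorial_le _ (by omega)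
  have h2 : m'.descFactorial (k' + 1) = (m' - k') * m'.descFactorial k' :=
    Nat.descFactorial_succ _ _
  have h3 : (m' + 1).descFactorial (k' + 1) = (m' + 1) * m'.descFactorial k' :=
    Nat.succ_descFactorial_succ _ _
  have h4 : 0 < m'.descFactorial k' := Nat.descFactorial_pos.2 (by omega)
  rw [h3]
  calc n.descFactorial (k' + 1) ≤ (m' - k') * m'.descFactorial k' := by rw [← h2]; exact h1
    _ < (m' + 1) * m'.descFactorial k' := Nat.mul_lt_mul_of_pos_right (by omega) h4

/-- PIECE Fd -/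
theorem desc_alg (s d t : ℕ) (ht : 2 ≤ t) (hst : t ≤ s) (hd : 1 ≤ d) (hsd : d < s) (x : ℕ → ℕ)
    (h0 : x (t - 1) = 0) (hx0 : x 0 ≤ d.descFactorial t)
    (hrec : ∀ i, 1 ≤ i → i ≤ t →
      x i + x (i - 1) = s.descFactorial i * d.descFactorial (t - i)) : False := by
  -- the telescoping identity in `ℤ`
  have key : ∀ j, j ≤ t - 1 →
      ((s : ℤ) + d - t) * (x j : ℤ) - (s.descFactorial (j + 1) : ℤ) * (d.descFactorial (t - j) : ℤ)
        = (-1) ^ j * (((s : ℤ) + d - t) * (x 0 : ℤ) -
          (s.descFactorial 1 : ℤ) * (d.descFactorial t : ℤ)) := by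
    intro j
    induction j with
    | zero => intro _; simp
    | succ j ih =>
      intro hj
      have ih' := ih (by omega)
      have hr := hrec (j + 1) (by omega) (by omega)
      have hr' : (x (j + 1) : ℤ) + (x j : ℤ) =
          (s.descFactorial (j + 1) : ℤ) * (d.descFactorial (t - (j + 1)) : ℤ) := by
        have h := congrArg (fun n : ℕ => (n : ℤ)) hr
        simp only [Nat.cast_add, Nat.cast_mul, Nat.add_sub_cancel] at h
        exact h
      have e1 : ((s.descFactorial (j + 1 + 1) : ℕ) : ℤ) =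
          ((s : ℤ) - ((j : ℤ) + 1)) * (s.descFactorial (j + 1) : ℤ) := by
        rw [cast_descFactorial_succ]
        push_cast
        ring
      have e2 : ((d.descFactorial (t - j) : ℕ) : ℤ) =
          ((d : ℤ) - ((t : ℤ) - (j + 1))) * (d.descFactorial (t - (j + 1)) : ℤ) := by
        have h1 : t - j = (t - (j + 1)) + 1 := by omega
        rw [h1, cast_descFactorial_succ, Nat.cast_sub (by omega)]
        push_cast
        ring
      rw [e1, pow_succ]
      rw [e2] at ih'
      linear_combination (-1 : ℤ) * ih' + ((s : ℤ) + d - t) * hr'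
  have hk := key (t - 1) le_rfl
  have ht1 : t - 1 + 1 = t := by omega
  have ht2 : t - (t - 1) = 1 := by omega
  rw [h0, ht1, ht2, Nat.descFactorial_one, Nat.descFactorial_one] at hk
  simp only [Nat.cast_zero, mul_zero, zero_sub] at hk
  have hP : 0 < s.descFactorial t := Nat.descFactorial_pos.2 hst
  have hQP : d.descFactorial t ≤ s.descFactorial t := Nat.descFactorial_le _ hsd.le
  have hPz : (0 : ℤ) < (s.descFactorial t : ℤ) := by exact_mod_cast hP
  have hQPz : (d.descFactorial t : ℤ) ≤ (s.descFactorial t : ℤ) := by exact_mod_cast hQP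
  have hQ0 : (0 : ℤ) ≤ (d.descFactorial t : ℤ) := Int.natCast_nonneg _
  have hx0z : (x 0 : ℤ) ≤ (d.descFactorial t : ℤ) := by exact_mod_cast hx0
  have hx0nn : (0 : ℤ) ≤ (x 0 : ℤ) := Int.natCast_nonneg _
  have hA : (0 : ℤ) ≤ (s : ℤ) + d - t := by
    have : (t : ℤ) ≤ s := by exact_mod_cast hst
    have : (0 : ℤ) ≤ d := Int.natCast_nonneg _
    linarith
  have hdz : (1 : ℤ) ≤ d := by exact_mod_cast hd
  have htz : (2 : ℤ) ≤ t := by exact_mod_cast ht
  rcases Nat.even_or_odd (t - 1) with he | ho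
  · -- `t` odd
    rw [he.neg_one_pow, one_mul] at hk
    have h1 : (d : ℤ) * (s.descFactorial t : ℤ) ≤ (s : ℤ) * (d.descFactorial t : ℤ) := by
      have := mul_nonneg hA hx0nn
      linarith
    have h2 : s * d.descFactorial t < d * s.descFactorial t := by
      obtain ⟨t', rfl⟩ : ∃ t', t = t' + 1 := ⟨t - 1, by omega⟩
      obtain ⟨s', rfl⟩ : ∃ s', s = s' + 1 := ⟨s - 1, by omega⟩
      obtain ⟨d', rfl⟩ : ∃ d', d = d' + 1 := ⟨d - 1, by omega⟩
      rw [Nat.succ_descFactorial_succ, Nat.succ_descFactorial_succ]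
      have h3 := descFactorial_lt d' s' t' (by omega) (by omega) (by omega)
      have h4 : (s' + 1) * ((d' + 1) * d'.descFactorial t') =
          (d' + 1) * ((s' + 1) * d'.descFactorial t') := by ring
      rw [h4]
      exact Nat.mul_lt_mul_of_pos_left (Nat.mul_lt_mul_of_pos_left h3 (by omega)) (by omega)
    have h2z : (s : ℤ) * (d.descFactorial t : ℤ) < (d : ℤ) * (s.descFactorial t : ℤ) := by
      exact_mod_cast h2
    linarith
  · -- `t` even
    rw [ho.neg_one_pow] at hk
    have h1 : (d : ℤ) * (s.descFactorial t : ℤ) ≤ ((d : ℤ) - t) * (d.descFactorial t : ℤ) := by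
      have := mul_le_mul_of_nonneg_left hx0z hA
      linarith
    rcases le_or_gt (t : ℤ) (d : ℤ) with hdt | hdt
    · have h2 : ((d : ℤ) - t) * (d.descFactorial t : ℤ) ≤ ((d : ℤ) - t) * (s.descFactorial t : ℤ) :=
        mul_le_mul_of_nonneg_left hQPz (by linarith)
      have h3 : (0 : ℤ) < (t : ℤ) * (s.descFactorial t : ℤ) := mul_pos (by linarith) hPz
      linarith
    · have h2 : ((d : ℤ) - t) * (d.descFactorial t : ℤ) ≤ 0 :=
        mul_nonpos_of_nonpos_of_nonneg (by linarith) hQ0
      have h3 : (0 : ℤ) < (d : ℤ) * (s.descFactorial t : ℤ) := mul_pos (by linarith) hPz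
      linarith

end Cfsg.Agent.Helper58.JorFd
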