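import Mathlib
import Cfsg.Agent.Helper40.KGLDefs

/-!
# CALL S2478 piece P4 (seat helper58): counting sequences of polynomials
-/

set_option autoImplicit false

namespace Cfsg.Agent.Helper58

open Polynomial Cfsg.Agent.Helper40.KGL
open scoped DirectSum

universe u v

theorem kglP4_split {F : Type u} [Field F] (m n : ℕ) (G : Fin (m + 1) → F[X])
    (hG : IsSeq (m + 1) n G) :
    (∑ j : Fin m, (j.val + 1) * (G j.castSucc).natDegree) +
      (m + 1) * (G (Fin.last m)).natDegree = n := by
  have h := hG.2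
  rw [Fin.sum_univ_castSucc] at h
  simpa using h

theorem kglP4_deg_lt {F : Type u} [Field F] (m n : ℕ) (G : Fin (m + 1) → F[X])
    (hG : IsSeq (m + 1) n G) : (G (Fin.last m)).natDegree < n / (m + 1) + 1 := by
  have h := kglP4_split m n G hG
  rw [Nat.lt_succ_iff, Nat.le_div_iff_mul_le (Nat.succ_pos m), mul_comm]
  calc (m + 1) * (G (Fin.last m)).natDegree ≤
        (∑ j : Fin m, (j.val + 1) * (G j.castSucc).natDegree) +
          (m + 1) * (G (Fin.last m)).natDegree := Nat.le_add_left _ _
    _ = n := h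

theorem kglP4_rest {F : Type u} [Field F] (m n : ℕ) (G : Fin (m + 1) → F[X])
    (hG : IsSeq (m + 1) n G) :
    IsSeq m (n - (m + 1) * (G (Fin.last m)).natDegree) (fun j => G j.castSucc) := by
  refine ⟨fun j => hG.1 j.castSucc, ?_⟩
  have h := kglP4_split m n G hG
  exact (Nat.sub_eq_of_eq_add h.symm).symm

/-- The degree of the last entry of a sequence. -/
noncomputable def kglP4Last {F : Type u} [Field F] (m n : ℕ)
    (G : {G : Fin (m + 1) → F[X] // IsSeq (m + 1) n G}) : Fin (n / (m + 1) + 1) :=
  ⟨(G.1 (Fin.last m)).natDegree, kglP4_deg_lt m n G.1 G.2⟩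

theorem kglP4_phi_pos (q : ℕ) (hq : 2 ≤ q) (k : ℕ) : 0 < phi q k := by
  unfold phi
  split_ifs with hk
  · exact Nat.one_pos
  · exact Nat.sub_pos_of_lt (Nat.pow_lt_pow_right (by omega) (by omega))

/-- PIECE P4 -/
theorem card_seq_le {F : Type u} [Field F] [Fintype F]
    (h1 : ∀ k : ℕ, Nat.card {g : F[X] // g.Monic ∧ g.coeff 0 ≠ 0 ∧ g.natDegree = k} =
      phi (Fintype.card F) k)
    (m n : ℕ) :
    Finite {G : Fin m → F[X] // IsSeq m n G} ∧
      Nat.card {G : Fin m → F[X] // IsSeq m n G} ≤ cnt (Fintype.card F) m n := by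
  induction m generalizing n with
  | zero =>
    refine ⟨Finite.of_subsingleton, ?_⟩
    by_cases hn : n = 0
    · subst hn
      have hc : cnt (Fintype.card F) 0 0 = 1 := rfl
      rw [hc]
      exact Finite.card_le_one_iff_subsingleton.2 inferInstance
    · have hE : IsEmpty {G : Fin 0 → F[X] // IsSeq 0 n G} := by
        refine ⟨fun G => hn ?_⟩
        have h := G.2.2
        simpa using h.symm
      rw [Nat.card_of_isEmpty]
      exact Nat.zero_le _
  | succ m ih =>
    have hq2 : 2 ≤ Fintype.card F := Fintype.one_lt_card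
    have hA : ∀ k : ℕ, Finite {g : F[X] // g.Monic ∧ g.coeff 0 ≠ 0 ∧ g.natDegree = k} :=
      fun k => Nat.finite_of_card_ne_zero (by rw [h1]; exact (kglP4_phi_pos _ hq2 k).ne')
    have hB : ∀ n' : ℕ, Finite {G : Fin m → F[X] // IsSeq m n' G} := fun n' => (ih n').1
    have hfib : ∀ k : Fin (n / (m + 1) + 1),
        Finite {G : {G : Fin (m + 1) → F[X] // IsSeq (m + 1) n G} // kglP4Last m n G = k} ∧
        Nat.card {G : {G : Fin (m + 1) → F[X] // IsSeq (m + 1) n G} // kglP4Last m n G = k} ≤
          phi (Fintype.card F) k.val * cnt (Fintype.card F) m (n - (m + 1) * k.val) := by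
      intro k
      have hdeg : ∀ G : {G : {G : Fin (m + 1) → F[X] // IsSeq (m + 1) n G} // kglP4Last m n G = k},
          (G.1.1 (Fin.last m)).natDegree = k.val := fun G => congrArg Fin.val G.2
      let ψ : {G : {G : Fin (m + 1) → F[X] // IsSeq (m + 1) n G} // kglP4Last m n G = k} →
          {g : F[X] // g.Monic ∧ g.coeff 0 ≠ 0 ∧ g.natDegree = k.val} ×
            {G' : Fin m → F[X] // IsSeq m (n - (m + 1) * k.val) G'} :=
        fun G => (⟨G.1.1 (Fin.last m), (G.1.2.1 _).1, (G.1.2.1 _).2, hdeg G⟩,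
          ⟨fun j => G.1.1 j.castSucc, by
            have h := kglP4_rest m n G.1.1 G.1.2
            rw [hdeg G] at h
            exact h⟩)
      have hψ : Function.Injective ψ := by
        intro G1 G2 h
        have e1 : G1.1.1 (Fin.last m) = G2.1.1 (Fin.last m) := congrArg (fun p => p.1.1) h
        have e2 : (fun j : Fin m => G1.1.1 j.castSucc) = fun j => G2.1.1 j.castSucc :=
          congrArg (fun p => p.2.1) h
        apply Subtype.ext
        apply Subtype.ext
        funext j
        exact Fin.lastCases e1 (fun j' => congrFun e2 j') j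
      refine ⟨Finite.of_injective ψ hψ, ?_⟩
      calc Nat.card {G : {G : Fin (m + 1) → F[X] // IsSeq (m + 1) n G} // kglP4Last m n G = k}
          ≤ Nat.card ({g : F[X] // g.Monic ∧ g.coeff 0 ≠ 0 ∧ g.natDegree = k.val} ×
            {G' : Fin m → F[X] // IsSeq m (n - (m + 1) * k.val) G'}) :=
            Nat.card_le_card_of_injective ψ hψ
        _ = Nat.card {g : F[X] // g.Monic ∧ g.coeff 0 ≠ 0 ∧ g.natDegree = k.val} *
            Nat.card {G' : Fin m → F[X] // IsSeq m (n - (m + 1) * k.val) G'} := Nat.card_prod _ _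
        _ ≤ phi (Fintype.card F) k.val * cnt (Fintype.card F) m (n - (m + 1) * k.val) := by
            rw [h1 k.val]
            exact Nat.mul_le_mul_left _ (ih _).2
    have hF : ∀ k : Fin (n / (m + 1) + 1),
        Finite {G : {G : Fin (m + 1) → F[X] // IsSeq (m + 1) n G} // kglP4Last m n G = k} :=
      fun k => (hfib k).1
    have e := Equiv.sigmaFiberEquiv (kglP4Last (F := F) m n)
    refine ⟨Finite.of_equiv _ e, ?_⟩
    rw [← Nat.card_congr e, Nat.card_sigma]
    calc ∑ k : Fin (n / (m + 1) + 1),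
          Nat.card {G : {G : Fin (m + 1) → F[X] // IsSeq (m + 1) n G} // kglP4Last m n G = k}
        ≤ ∑ k : Fin (n / (m + 1) + 1),
          phi (Fintype.card F) k.val * cnt (Fintype.card F) m (n - (m + 1) * k.val) :=
          Finset.sum_le_sum (fun k _ => (hfib k).2)
      _ = ∑ k ∈ Finset.range (n / (m + 1) + 1),
          phi (Fintype.card F) k * cnt (Fintype.card F) m (n - (m + 1) * k) :=
          Fin.sum_univ_eq_sum_range
            (fun k => phi (Fintype.card F) k * cnt (Fintype.card F) m (n - (m + 1) * k)) _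
      _ = cnt (Fintype.card F) (m + 1) n := rfl

end Cfsg.Agent.Helper58
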