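import Mathlib
import Cfsg.Agent.Helper40.KGLDefs

/-!
# CALL S2478 piece P5b (seat helper58): class data are determined by their polynomial sequence
-/

set_option autoImplicit false

namespace Cfsg.Agent.Helper58

open Polynomial Cfsg.Agent.Helper40.KGL
open scoped DirectSum

universe u v

theorem kglP5_exp_le {F : Type u} [Field F] (n : ℕ) (M : Multiset (F[X] × ℕ)) (hM : IsDat n M)
    (x : F[X] × ℕ) (hx : x ∈ M) : 1 ≤ x.2 ∧ x.2 ≤ n := by
  obtain ⟨h1, h2⟩ := hM
  obtain ⟨hirr, -, -, he⟩ := h1 x hx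
  refine ⟨he, ?_⟩
  have h3 : x.2 * x.1.natDegree ≤ (M.map fun x => x.2 * x.1.natDegree).sum :=
    Multiset.le_sum_of_mem
      (Multiset.mem_map_of_mem (fun x : F[X] × ℕ => x.2 * x.1.natDegree) hx)
  rw [h2] at h3
  have h4 : 1 ≤ x.1.natDegree := hirr.natDegree_pos
  calc x.2 = x.2 * 1 := (mul_one _).symm
    _ ≤ x.2 * x.1.natDegree := Nat.mul_le_mul_left _ h4
    _ ≤ n := h3

theorem kglP5_filter_eq {F : Type u} [Field F] [DecidableEq F] (n : ℕ) (M : Multiset (F[X] × ℕ))
    (hM : IsDat n M) (j : Fin n) :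
    M.filter (fun x => x.2 = j.val + 1) =
      (UniqueFactorizationMonoid.normalizedFactors (datSeq n M j)).map
        (fun p => (p, j.val + 1)) := by
  have h1 : UniqueFactorizationMonoid.normalizedFactors (datSeq n M j) =
      (M.filter (fun x => x.2 = j.val + 1)).map Prod.fst := by
    unfold datSeq
    rw [UniqueFactorizationMonoid.normalizedFactors_prod_eq]
    · have hn : ∀ a ∈ (M.filter (fun x => x.2 = j.val + 1)).map Prod.fst, normalize a = a := by
        intro a ha
        obtain ⟨x, hx, rfl⟩ := Multiset.mem_map.1 ha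
        exact (hM.1 x (Multiset.mem_of_mem_filter hx)).2.1.normalize_eq_self
      rw [Multiset.map_congr rfl hn, Multiset.map_id']
    · intro a ha
      obtain ⟨x, hx, rfl⟩ := Multiset.mem_map.1 ha
      exact (hM.1 x (Multiset.mem_of_mem_filter hx)).1
  rw [h1, Multiset.map_map]
  conv_lhs => rw [← Multiset.map_id (M.filter (fun x => x.2 = j.val + 1))]
  apply Multiset.map_congr rfl
  intro x hx
  have h2 := (Multiset.mem_filter.1 hx).2
  simp only [id, Function.comp_apply]
  exact Prod.ext rfl h2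

/-- PIECE P5b -/
theorem datSeq_inj {F : Type u} [Field F] (n : ℕ) (M M' : Multiset (F[X] × ℕ)) (hM : IsDat n M)
    (hM' : IsDat n M') (h : datSeq n M = datSeq n M') : M = M' := by
  classical
  have key : ∀ e : ℕ, M.filter (fun x => x.2 = e) = M'.filter (fun x => x.2 = e) := by
    intro e
    by_cases he : 1 ≤ e ∧ e ≤ n
    · obtain ⟨j, rfl⟩ : ∃ j : Fin n, e = j.val + 1 := ⟨⟨e - 1, by omega⟩, by simp; omega⟩
      rw [kglP5_filter_eq n M hM j, kglP5_filter_eq n M' hM' j, h]
    · have h1 : M.filter (fun x => x.2 = e) = 0 := by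
        rw [Multiset.filter_eq_nil]
        intro x hx hxe
        exact he (hxe ▸ kglP5_exp_le n M hM x hx)
      have h2 : M'.filter (fun x => x.2 = e) = 0 := by
        rw [Multiset.filter_eq_nil]
        intro x hx hxe
        exact he (hxe ▸ kglP5_exp_le n M' hM' x hx)
      rw [h1, h2]
  ext x
  rw [← Multiset.count_filter_of_pos (p := fun y : F[X] × ℕ => y.2 = x.2) (s := M) rfl,
    ← Multiset.count_filter_of_pos (p := fun y : F[X] × ℕ => y.2 = x.2) (s := M') rfl, key]

end Cfsg.Agent.Helper58
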