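import Mathlib
import Cfsg.Agent.Helper57.G3Defs

/-!
# CALL S2518 piece P10 (seat helper58): a number below `3 ^ 14` is determined by its vector of
base-3 digits.
-/

set_option autoImplicit false

namespace Cfsg.Agent.Helper58

open Cfsg.Agent.Helper57 Cfsg.Lie Matrix

theorem g3_digits_inj : ∀ (n w w' : ℕ), w < 3 ^ n → w' < 3 ^ n →
    (∀ k, k < n → w / 3 ^ k % 3 = w' / 3 ^ k % 3) → w = w' := by
  intro n
  induction n with
  | zero =>
    intro w w' hw hw' _
    simp only [pow_zero] at hw hw'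
    omega
  | succ n ih =>
    intro w w' hw hw' h
    have h0 := h 0 (Nat.succ_pos n)
    simp only [pow_zero, Nat.div_one] at h0
    have h1 : w / 3 = w' / 3 := by
      apply ih
      · rw [pow_succ] at hw; omega
      · rw [pow_succ] at hw'; omega
      · intro k hk
        have := h (k + 1) (by omega)
        rw [pow_succ', ← Nat.div_div_eq_div_mul, ← Nat.div_div_eq_div_mul] at this
        exact this
    omega

theorem g3_num_surj (k : ℕ) (hk : k < 14) : ∃ j : chevG2.Idx, g2Num j = k := by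
  by_cases h2 : k < 2
  · exact ⟨(Sum.inl ⟨k, h2⟩ : Fin 2 ⊕ Fin 12), rfl⟩
  · refine ⟨(Sum.inr ⟨k - 2, by omega⟩ : Fin 2 ⊕ Fin 12), ?_⟩
    show 2 + (k - 2) = k
    omega

theorem g3Vec_inj (w w' : ℕ) (hw : w < 3 ^ 14) (hw' : w' < 3 ^ 14) (h : g3Vec w = g3Vec w') :
    w = w' := by
  apply g3_digits_inj 14 w w' hw hw'
  intro k hk
  obtain ⟨j, rfl⟩ := g3_num_surj k hk
  have hj := congrFun h j
  have hj' : ((w / 3 ^ g2Num j % 3 : ℕ) : ZMod 3) = ((w' / 3 ^ g2Num j % 3 : ℕ) : ZMod 3) := hj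
  rw [ZMod.natCast_eq_natCast_iff'] at hj'
  simpa using hj'

end Cfsg.Agent.Helper58
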