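import Mathlib
import Cfsg.Agent.Helper57.G3Defs

/-!
# CALL S2518 piece P7 (seat helper58): the cycle-length check bounds the order of a permutation
of a group with base `0, b1, b2`.
-/

set_option autoImplicit false

namespace Cfsg.Agent.Helper58

open Cfsg.Agent.Helper57 Cfsg.Lie Matrix

theorem g3CycLen_spec (f : ℕ → ℕ) (p : ℕ) : ∀ (fuel q j : ℕ), g3CycLen f p fuel q j ≠ 0 →
    ∃ i, f^[i] q = p ∧ g3CycLen f p fuel q j = j + i := by
  intro fuel
  induction fuel with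
  | zero => intro q j h; exact absurd rfl h
  | succ n ih =>
    intro q j h
    have hdef : g3CycLen f p (n + 1) q j =
        bif Nat.beq q p then j else g3CycLen f p n (f q) (j + 1) := rfl
    rw [hdef] at h ⊢
    cases hq : Nat.beq q p with
    | true =>
      refine ⟨0, ?_, ?_⟩
      · exact Nat.eq_of_beq_eq_true hq
      · simp
    | false =>
      rw [hq] at h
      simp only [cond_false] at h ⊢
      obtain ⟨i, hi, hlen⟩ := ih (f q) (j + 1) h
      refine ⟨i + 1, ?_, ?_⟩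
      · rw [Function.iterate_succ_apply]; exact hi
      · rw [hlen]; omega

theorem g3Cyc_spec (f : ℕ → ℕ) (p : ℕ) (h : g3Cyc f p ≠ 0) : f^[g3Cyc f p] p = p := by
  obtain ⟨i, hi, hlen⟩ := g3CycLen_spec f p 13 (f p) 1 h
  have hc : g3Cyc f p = 1 + i := hlen
  rw [hc, add_comm, Function.iterate_succ_apply]
  exact hi

theorem g3_pow_val (σ : Equiv.Perm (Fin 728)) (f : ℕ → ℕ)
    (hσf : ∀ x : Fin 728, (σ x).val = f x.val) :
    ∀ (k : ℕ) (x : Fin 728), ((σ ^ k) x).val = f^[k] x.val := by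
  intro k
  induction k with
  | zero => intro x; simp
  | succ k ih =>
    intro x
    rw [pow_succ, Equiv.Perm.mul_apply, ih, hσf, Function.iterate_succ_apply]

theorem g3_chk_spec (R : Subgroup (Equiv.Perm (Fin 728))) (b1 b2 : Fin 728)
    (hbase : ∀ σ ∈ R, σ 0 = 0 → σ b1 = b1 → σ b2 = b2 → σ = 1)
    (Nu N1 N2 : ℕ) (h : g3Chk b1.val b2.val Nu N1 N2 = true) (σ : Equiv.Perm (Fin 728))
    (hσ : σ ∈ R) (hσf : ∀ x : Fin 728, (σ x).val = g3Comp Nu N1 N2 x.val) :
    ∃ L : ℕ, g3Ok L = true ∧ σ ^ L = 1 := by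
  have hok0 : g3Ok 0 = false := by decide
  have hL : g3Ok (Nat.lcm (Nat.lcm (g3Cyc (g3Comp Nu N1 N2) 0) (g3Cyc (g3Comp Nu N1 N2) b1.val))
      (g3Cyc (g3Comp Nu N1 N2) b2.val)) = true := h
  generalize hLdef : Nat.lcm (Nat.lcm (g3Cyc (g3Comp Nu N1 N2) 0) (g3Cyc (g3Comp Nu N1 N2) b1.val))
      (g3Cyc (g3Comp Nu N1 N2) b2.val) = L at hL
  have hL0 : L ≠ 0 := by
    intro h0
    rw [h0, hok0] at hL
    exact Bool.false_ne_true hL
  have hfix : ∀ p : Fin 728, g3Cyc (g3Comp Nu N1 N2) p.val ∣ L → (σ ^ L) p = p := by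
    intro p hp
    have hc : g3Cyc (g3Comp Nu N1 N2) p.val ≠ 0 := by
      intro h0
      rw [h0] at hp
      exact hL0 (Nat.eq_zero_of_zero_dvd hp)
    have h1 := g3Cyc_spec (g3Comp Nu N1 N2) p.val hc
    have h2 : (g3Comp Nu N1 N2)^[L] p.val = p.val :=
      Function.IsPeriodicPt.trans_dvd (f := g3Comp Nu N1 N2) (x := p.val) h1 hp
    apply Fin.ext
    rw [g3_pow_val σ (g3Comp Nu N1 N2) hσf L p]
    exact h2
  refine ⟨L, hL, ?_⟩
  apply hbase (σ ^ L) (Subgroup.pow_mem R hσ L)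
  · apply hfix
    rw [← hLdef]
    exact (Nat.dvd_lcm_left _ _).trans (Nat.dvd_lcm_left _ _)
  · apply hfix
    rw [← hLdef]
    exact (Nat.dvd_lcm_right _ _).trans (Nat.dvd_lcm_left _ _)
  · apply hfix
    rw [← hLdef]
    exact Nat.dvd_lcm_right _ _

end Cfsg.Agent.Helper58
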