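import Mathlib
import Cfsg.Agent.Helper57.G3Defs

/-!
# CALL S2518 piece P8 (seat helper58): a table with sixth power the identity, square and cube not
the identity, is the table of a permutation of order six.
-/

set_option autoImplicit false

namespace Cfsg.Agent.Helper58

open Cfsg.Agent.Helper57 Cfsg.Lie Matrix

theorem g3_order_six (σ : Equiv.Perm (Fin 728)) (N : ℕ)
    (hσ : ∀ x : Fin 728, (σ x).val = g3Ent N x.val)
    (h6 : g3All 728 (fun x =>
      Nat.beq (g3Ent N (g3Ent N (g3Ent N (g3Ent N (g3Ent N (g3Ent N x)))))) x) = true)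
    (x2 x3 : Fin 728) (h2 : g3Ent N (g3Ent N x2.val) ≠ x2.val)
    (h3 : g3Ent N (g3Ent N (g3Ent N x3.val)) ≠ x3.val) : orderOf σ = 6 := by
  have h6' : σ ^ 6 = 1 := by
    ext x
    have h := g3All_spec _ 728 h6 x.val x.isLt
    have hx := Nat.eq_of_beq_eq_true h
    simp only [pow_succ, pow_zero, one_mul, Equiv.Perm.mul_apply, Equiv.Perm.one_apply]
    rw [hσ, hσ, hσ, hσ, hσ, hσ]
    exact hx
  have hd : orderOf σ ∣ 6 := orderOf_dvd_of_pow_eq_one h6'
  have h2' : ¬ orderOf σ ∣ 2 := by
    intro hdv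
    have h := orderOf_dvd_iff_pow_eq_one.1 hdv
    apply h2
    have hh := congrArg (fun τ : Equiv.Perm (Fin 728) => (τ x2).val) h
    simp only [pow_succ, pow_zero, one_mul, Equiv.Perm.mul_apply, Equiv.Perm.one_apply] at hh
    rw [hσ, hσ] at hh
    exact hh
  have h3' : ¬ orderOf σ ∣ 3 := by
    intro hdv
    have h := orderOf_dvd_iff_pow_eq_one.1 hdv
    apply h3
    have hh := congrArg (fun τ : Equiv.Perm (Fin 728) => (τ x3).val) h
    simp only [pow_succ, pow_zero, one_mul, Equiv.Perm.mul_apply, Equiv.Perm.one_apply] at hh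
    rw [hσ, hσ, hσ] at hh
    exact hh
  have hle : orderOf σ ≤ 6 := Nat.le_of_dvd (by norm_num) hd
  generalize orderOf σ = n at hd h2' h3' hle
  interval_cases n <;> first | rfl | omega
end Cfsg.Agent.Helper58
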