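import Mathlib
import Cfsg.Agent.Helper57.G3Defs

/-!
# CALL S2518 piece P9 (seat helper58): the Boolean check of a matrix-vector product over `ZMod 3`
on base-3 digits is correct.
-/

set_option autoImplicit false

namespace Cfsg.Agent.Helper58

open Cfsg.Agent.Helper57 Cfsg.Lie Matrix

theorem g3_sum_idx {M : Type*} [AddCommMonoid M] (f : ℕ → M) : ∑ j : chevG2.Idx, f (g2Num j) =
    f 0 + f 1 + f 2 + f 3 + f 4 + f 5 + f 6 + f 7 + f 8 + f 9 + f 10 + f 11 + f 12 + f 13 := by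
  have h : ∑ j : Fin 2 ⊕ Fin 12, f (g2Num j) =
      f 0 + f 1 + f 2 + f 3 + f 4 + f 5 + f 6 + f 7 + f 8 + f 9 + f 10 + f 11 + f 12 + f 13 := by
    rw [Fintype.sum_sum_type, Fin.sum_univ_two]
    simp only [Fin.sum_univ_succ, Fin.sum_univ_zero]
    simp [g2Num]
    abel
  exact h

theorem g3_num_lt (i : chevG2.Idx) : g2Num i < 14 := by
  have h : ∀ i : Fin 2 ⊕ Fin 12, g2Num i < 14 := by
    intro i
    rcases i with i | u
    · show i.val < 14
      omega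
    · show 2 + u.val < 14
      omega
  exact h i

theorem g3_mv_spec (rows : List ℕ) (w w' : ℕ) (h : g3MvChk rows w w' = true) :
    (g3Mat rows).mulVec (g3Vec w) = g3Vec w' := by
  funext i
  have hi := g3All_spec _ 14 h (g2Num i) (g3_num_lt i)
  have hi' : g3Dot (rows.getD (g2Num i) 0) w 14 % 3 = g3Dig w' (g2Num i) :=
    Nat.eq_of_beq_eq_true hi
  have h1 : (g3Mat rows *ᵥ g3Vec w) i = _ :=
    g3_sum_idx (fun k => ((g3Dig (rows.getD (g2Num i) 0) k : ℕ) : ZMod 3) *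
      ((g3Dig w k : ℕ) : ZMod 3))
  rw [h1]
  have hdot : ∀ a : ℕ, g3Dot a w 14 = 0 + g3Dig a 0 * g3Dig w 0 + g3Dig a 1 * g3Dig w 1 +
      g3Dig a 2 * g3Dig w 2 + g3Dig a 3 * g3Dig w 3 + g3Dig a 4 * g3Dig w 4 +
      g3Dig a 5 * g3Dig w 5 + g3Dig a 6 * g3Dig w 6 + g3Dig a 7 * g3Dig w 7 +
      g3Dig a 8 * g3Dig w 8 + g3Dig a 9 * g3Dig w 9 + g3Dig a 10 * g3Dig w 10 +
      g3Dig a 11 * g3Dig w 11 + g3Dig a 12 * g3Dig w 12 + g3Dig a 13 * g3Dig w 13 :=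
    fun _ => rfl
  have h2 : g3Vec w' i = ((g3Dot (rows.getD (g2Num i) 0) w 14 : ℕ) : ZMod 3) := by
    show ((g3Dig w' (g2Num i) : ℕ) : ZMod 3) = _
    rw [← hi', ZMod.natCast_mod]
  rw [h2, hdot]
  push_cast
  ring

end Cfsg.Agent.Helper58
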