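import Mathlib

/-!
# Linear-algebra lemmas for closures of affine groups (helper58)

* `exists_linearEquiv_of_same_relations`: two finite families of vectors with the same linear
  relations are related by a linear automorphism.
* `exists_linearMap_of_affine_on_triples`: a map agreeing on every triple of points with some affine
  map is itself affine, when `2` is invertible.
-/

set_option autoImplicit false

namespace Cfsg.Agent.Helper58

open Module

section extension

variable {K : Type*} [Field K] {V : Type*} [AddCommGroup V] [Module K V] [FiniteDimensional K V]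

/-- Two finite families with the same linear relations are related by a linear automorphism. -/
theorem exists_linearEquiv_of_same_relations {ι : Type*} [Fintype ι] [DecidableEq ι] (u v : ι → V)
    (h : ∀ c : ι → K, ∑ i, c i • u i = 0 ↔ ∑ i, c i • v i = 0) :
    ∃ A : V ≃ₗ[K] V, ∀ i, A (u i) = v i := by
  set fu := Fintype.linearCombination K u with hfu
  set fv := Fintype.linearCombination K v with hfv
  have hker : LinearMap.ker fu = LinearMap.ker fv := by
    ext c
    simp only [LinearMap.mem_ker, hfu, hfv, Fintype.linearCombination_apply]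
    exact h c
  let φ : LinearMap.range fu ≃ₗ[K] LinearMap.range fv :=
    (fu.quotKerEquivRange).symm ≪≫ₗ (Submodule.quotEquivOfEq _ _ hker) ≪≫ₗ fv.quotKerEquivRange
  have hφ : ∀ c : ι → K, (φ ⟨fu c, LinearMap.mem_range_self fu c⟩ : V) = fv c := by
    intro c
    have h1 : (fu.quotKerEquivRange).symm ⟨fu c, LinearMap.mem_range_self fu c⟩ =
        Submodule.Quotient.mk c := by
      rw [LinearEquiv.symm_apply_eq]
      apply Subtype.ext
      rw [LinearMap.quotKerEquivRange_apply_mk]
    simp only [φ, LinearEquiv.trans_apply, h1, Submodule.quotEquivOfEq_mk,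
      LinearMap.quotKerEquivRange_apply_mk]
  obtain ⟨U', hU'⟩ := Submodule.exists_isCompl (LinearMap.range fu)
  obtain ⟨W', hW'⟩ := Submodule.exists_isCompl (LinearMap.range fv)
  have hfr : finrank K U' = finrank K W' := by
    have h1 := Submodule.finrank_add_eq_of_isCompl hU'
    have h2 := Submodule.finrank_add_eq_of_isCompl hW'
    have h3 : finrank K (LinearMap.range fu) = finrank K (LinearMap.range fv) := φ.finrank_eq
    omega
  let ψ : U' ≃ₗ[K] W' := LinearEquiv.ofFinrankEq U' W' hfr
  let A : V ≃ₗ[K] V :=
    (Submodule.prodEquivOfIsCompl _ _ hU').symm ≪≫ₗ (φ.prodCongr ψ) ≪≫ₗ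
      (Submodule.prodEquivOfIsCompl _ _ hW')
  refine ⟨A, fun i => ?_⟩
  have hu : u i = fu (Pi.single i 1) := by
    rw [hfu, Fintype.linearCombination_apply_single, one_smul]
  have hv : v i = fv (Pi.single i 1) := by
    rw [hfv, Fintype.linearCombination_apply_single, one_smul]
  have h1 : (Submodule.prodEquivOfIsCompl _ _ hU').symm (u i) =
      (⟨fu (Pi.single i 1), LinearMap.mem_range_self fu _⟩, 0) := by
    have := Submodule.prodEquivOfIsCompl_symm_apply_left _ _ hU'
      (⟨fu (Pi.single i 1), LinearMap.mem_range_self fu _⟩ : LinearMap.range fu)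
    rw [← this, hu]
  show (Submodule.prodEquivOfIsCompl _ _ hW')
    ((φ.prodCongr ψ) ((Submodule.prodEquivOfIsCompl _ _ hU').symm (u i))) = v i
  rw [h1, LinearEquiv.prodCongr_apply, Submodule.coe_prodEquivOfIsCompl']
  simp only [map_zero, ZeroMemClass.coe_zero, add_zero]
  rw [hφ, ← hv]

end extension

section affine

variable {K : Type*} [Field K] {V : Type*} [AddCommGroup V] [Module K V]

/-- A map that agrees on every triple of points with some affine map is affine, if `2 ≠ 0`. -/
theorem exists_linearMap_of_affine_on_triples (h2 : (2 : K) ≠ 0) (σ : V → V)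
    (h : ∀ t : Fin 3 → V, ∃ (A : V →ₗ[K] V) (b : V), ∀ i, σ (t i) = A (t i) + b) :
    ∃ L : V →ₗ[K] V, ∀ x, σ x = L x + σ 0 := by
  -- homogeneity
  have hsmul : ∀ (c : K) (x : V), σ (c • x) - σ 0 = c • (σ x - σ 0) := by
    intro c x
    obtain ⟨A, b, hA⟩ := h ![0, x, c • x]
    have h0 := hA 0
    have h1 := hA 1
    have h2' := hA 2
    simp only [Matrix.cons_val_zero, Matrix.cons_val_one, Matrix.cons_val_two, Matrix.head_cons,
      Matrix.tail_cons, map_zero, zero_add, map_smul] at h0 h1 h2'
    rw [h2', h1, h0]
    simp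
  -- additivity
  have hadd : ∀ x y : V, σ (x + y) - σ 0 = (σ x - σ 0) + (σ y - σ 0) := by
    intro x y
    obtain ⟨A, b, hA⟩ := h ![x, y, (2 : K)⁻¹ • (x + y)]
    have h0 := hA 0
    have h1 := hA 1
    have h2' := hA 2
    simp only [Matrix.cons_val_zero, Matrix.cons_val_one, Matrix.cons_val_two, Matrix.head_cons,
      Matrix.tail_cons, map_add, map_smul] at h0 h1 h2'
    have hm : (2 : K) • (σ ((2 : K)⁻¹ • (x + y)) - σ 0) = (σ x - σ 0) + (σ y - σ 0) := by
      rw [h2', h0, h1, smul_sub, smul_add, smul_smul, mul_inv_cancel₀ h2, one_smul, two_smul,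
        two_smul]
      abel
    have := hsmul 2 ((2 : K)⁻¹ • (x + y))
    rw [smul_smul, mul_inv_cancel₀ h2, one_smul] at this
    rw [this, hm]
  refine ⟨IsLinearMap.mk' (fun x => σ x - σ 0) ⟨hadd, hsmul⟩, fun x => ?_⟩
  simp

end affine

end Cfsg.Agent.Helper58
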