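/-
helper58, CALL S3888 piece A: in a `p`-group (`p` odd) all of whose subgroups of exponent `p`
have order at most `p ^ 2`, the elements of order dividing `p` form a normal subgroup.
-/
import Mathlib
import Cfsg.Prelude.Def_CaseTheorems
import Cfsg.Prelude.Def_OddOrderLocal
import Cfsg.Agent.S0126
import Cfsg.Agent.Helper49.OddCyclic
import Cfsg.Agent.Helper22.Rank2Cprod

set_option autoImplicit false

namespace Cfsg.Agent.Helper58

/-- Adjoining an element of order `p` to a normal subgroup `N` of order `p ^ 2` and exponent `p`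
of a `p`-group (`p` odd) gives a subgroup of exponent `p`. -/
theorem bkA_sup_exp {R : Type*} [Group R] [Finite R] {p : ℕ} [Fact p.Prime] (hp : p ≠ 2)
    (hR : IsPGroup p R) (N : Subgroup R) [N.Normal] (hN : Nat.card N = p ^ 2)
    (hNp : ∀ a ∈ N, a ^ p = 1) (x : R) (hx : x ^ p = 1) :
    ∀ s ∈ N ⊔ Subgroup.zpowers x, s ^ p = 1 := by
  have hpp : p.Prime := Fact.out
  obtain ⟨Z, hZn, hZN, hZcard⟩ :=
    Cfsg.Agent.Helper22.exists_normal_le_card hR N 2 hN 1 (by norm_num)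
  have := hZn
  rw [pow_one] at hZcard
  have hZc : ∀ z ∈ Z, ∀ g : R, g * z = z * g := by
    intro z hz g
    have h := Cfsg.Agent.Helper22.r2c_central_mod hR ⊥ Z bot_le
      (by rw [Subgroup.card_bot, mul_one, hZcard]) z hz g
    rw [Subgroup.mem_bot] at h
    exact mul_inv_eq_iff_eq_mul.mp (mul_inv_eq_one.mp h)
  have hNZ : ∀ n ∈ N, ∀ g : R, g * n * g⁻¹ * n⁻¹ ∈ Z :=
    Cfsg.Agent.Helper22.r2c_central_mod hR Z N hZN (by rw [hZcard, hN, pow_two])
  intro s hs
  obtain ⟨n, hn, h, hh, rfl⟩ := Subgroup.mem_sup_of_normal_left.mp hs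
  obtain ⟨k, rfl⟩ := Subgroup.mem_zpowers_iff.mp hh
  have hc : (x ^ k)⁻¹ * n⁻¹ * (x ^ k)⁻¹⁻¹ * n⁻¹⁻¹ ∈ Z := hNZ n⁻¹ (N.inv_mem hn) (x ^ k)⁻¹
  rw [inv_inv, inv_inv] at hc
  set c := (x ^ k)⁻¹ * n⁻¹ * (x ^ k) * n with hcdef
  have hcc : ∀ g : R, Commute c g := fun g => (hZc c hc g).symm
  have h1 : x ^ k * n = n * x ^ k * c := by rw [hcdef]; group
  have h2 := Cfsg.Agent.Helper49.mul_pow_prime_of_central hpp hp h1 (hcc n) (hcc (x ^ k))
    (hNp c (hZN hc))
  rw [h2, hNp n hn, one_mul, ← zpow_natCast, ← zpow_mul, mul_comm, zpow_mul, zpow_natCast, hx,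
    one_zpow]

theorem bk_omega_sub {R : Type*} [Group R] [Finite R] {p : ℕ} [Fact p.Prime] (hp : p ≠ 2)
    (hR : IsPGroup p R)
    (hS : ∀ S : Subgroup R, (∀ s ∈ S, s ^ p = 1) → Nat.card S ≤ p ^ 2) :
    ∃ E : Subgroup R, E.Normal ∧ (∀ g, g ∈ E ↔ g ^ p = 1) ∧ Nat.card E ≤ p ^ 2 := by
  have hpp : p.Prime := Fact.out
  have key : ∀ x y : R, x ^ p = 1 → y ^ p = 1 → (x * y) ^ p = 1 := by
    by_cases hcyc : IsCyclic R
    · intro x y hx hy
      obtain ⟨g, hg⟩ := hcyc.exists_generator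
      obtain ⟨i, rfl⟩ := Subgroup.mem_zpowers_iff.mp (hg x)
      obtain ⟨j, rfl⟩ := Subgroup.mem_zpowers_iff.mp (hg y)
      have hcomm : Commute (g ^ i) (g ^ j) := (Commute.refl g).zpow_zpow i j
      rw [hcomm.mul_pow, hx, hy, one_mul]
    · obtain ⟨N, hNn, hNel, hNcard⟩ := Cfsg.Agent.S0126.result hp hR hcyc
      have := hNn
      have hmem : ∀ x : R, x ^ p = 1 → x ∈ N := by
        intro x hx
        by_contra hxN
        have h1 := bkA_sup_exp hp hR N hNcard hNel.2 x hx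
        have h2 := hS _ h1
        have h3 : N = N ⊔ Subgroup.zpowers x :=
          Subgroup.eq_of_le_of_card_ge le_sup_left (by rw [hNcard]; exact h2)
        apply hxN
        rw [h3]
        exact Subgroup.mem_sup_right (Subgroup.mem_zpowers x)
      intro x y hx hy
      exact hNel.2 _ (N.mul_mem (hmem x hx) (hmem y hy))
  let E : Subgroup R :=
    { carrier := {g | g ^ p = 1}
      mul_mem' := fun {a b} ha hb => key a b ha hb
      one_mem' := one_pow p
      inv_mem' := fun {a} ha => by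
        show a⁻¹ ^ p = 1
        rw [inv_pow, show a ^ p = 1 from ha, inv_one] }
  have hE : ∀ g, g ∈ E ↔ g ^ p = 1 := fun g => Iff.rfl
  refine ⟨E, ⟨?_⟩, hE, hS E (fun s hs => (hE s).mp hs)⟩
  intro n hn g
  rw [hE] at hn ⊢
  rw [conj_pow, hn, mul_one, mul_inv_cancel]

end Cfsg.Agent.Helper58
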