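/-
helper58, CALL S3888 piece B: the hypothesis "subgroups of exponent `p` have order at most `p ^ 2`"
passes to the quotient by a central subgroup of order `p`, when all subgroups of order `p ^ 3`
are abelian.
-/
import Mathlib
import Cfsg.Prelude.Def_CaseTheorems
import Cfsg.Prelude.Def_OddOrderLocal
import Cfsg.Agent.S0129
import Cfsg.Agent.Helper49.OddCyclic
import Cfsg.Agent.Helper22.Rank2Cprod

set_option autoImplicit false

namespace Cfsg.Agent.Helper58

/-- Adjoining an element `a` with `a ^ p ∈ N` to a normal subgroup `N` multiplies the order by at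
most `p`. -/
theorem bkB_card_sup_zpowers_le {G : Type*} [Group G] [Finite G] (p : ℕ) (hp0 : 0 < p)
    (N : Subgroup G) [N.Normal] (a : G) (ha : a ^ p ∈ N) :
    Nat.card (N ⊔ Subgroup.zpowers a : Subgroup G) ≤ p * Nat.card N := by
  have hsurj : Function.Surjective (fun q : N × Fin p =>
      (⟨(q.1 : G) * a ^ (q.2 : ℕ), Subgroup.mul_mem _ (Subgroup.mem_sup_left q.1.2)
        (Subgroup.mem_sup_right (Subgroup.pow_mem _ (Subgroup.mem_zpowers a) _))⟩ :
        (N ⊔ Subgroup.zpowers a : Subgroup G))) := by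
    rintro ⟨h, hh⟩
    obtain ⟨n, hn, y, hy, rfl⟩ := Subgroup.mem_sup_of_normal_left.mp hh
    obtain ⟨k, rfl⟩ := Subgroup.mem_zpowers_iff.mp hy
    have hp0' : (0 : ℤ) < (p : ℤ) := by exact_mod_cast hp0
    have h0 : 0 ≤ k % (p : ℤ) := Int.emod_nonneg k (ne_of_gt hp0')
    have h1 : k % (p : ℤ) < p := Int.emod_lt_of_pos k hp0'
    have h2 : ((k % (p : ℤ)).toNat : ℤ) = k % (p : ℤ) := Int.toNat_of_nonneg h0
    have h3 : (k % (p : ℤ)).toNat < p := by
      have : ((k % (p : ℤ)).toNat : ℤ) < (p : ℤ) := by rw [h2]; exact h1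
      exact_mod_cast this
    refine ⟨(⟨n * (a ^ p) ^ (k / (p : ℤ)), N.mul_mem hn (N.zpow_mem ha _)⟩,
      ⟨(k % (p : ℤ)).toNat, h3⟩), ?_⟩
    apply Subtype.ext
    show n * (a ^ p) ^ (k / (p : ℤ)) * a ^ (k % (p : ℤ)).toNat = n * a ^ k
    have h4 : a ^ k = (a ^ p) ^ (k / (p : ℤ)) * a ^ (k % (p : ℤ)).toNat := by
      conv_lhs => rw [← Int.mul_ediv_add_emod k (p : ℤ)]
      rw [zpow_add, zpow_mul, zpow_natCast, ← h2, zpow_natCast, h2]
    rw [h4, mul_assoc]
  have h := Nat.card_le_card_of_surjective _ hsurj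
  rwa [Nat.card_prod, Nat.card_fin, mul_comm] at h

/-- A `p`-group of order `p ^ j`, `j ≤ 2`, is commutative. -/
theorem bkB_comm_of_card {Q : Type*} [Group Q] [Finite Q] {p : ℕ} [Fact p.Prime] (j : ℕ)
    (hj : j ≤ 2) (h : Nat.card Q = p ^ j) : ∀ u v : Q, u * v = v * u := by
  have hpp : p.Prime := Fact.out
  interval_cases j
  · rw [pow_zero] at h
    have : Subsingleton Q := (Nat.card_eq_one_iff_unique.mp h).1
    intro u v
    rw [Subsingleton.elim u 1, Subsingleton.elim v 1]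
  · rw [pow_one] at h
    have hc : IsCyclic Q := isCyclic_of_prime_card h
    obtain ⟨g, hg⟩ := hc.exists_generator
    intro u v
    obtain ⟨i, rfl⟩ := Subgroup.mem_zpowers_iff.mp (hg u)
    obtain ⟨k, rfl⟩ := Subgroup.mem_zpowers_iff.mp (hg v)
    exact ((Commute.refl g).zpow_zpow i k).eq
  · intro u v
    exact IsPGroup.commutative_of_card_eq_prime_sq h u v

/-- Core of piece B: no group of order `p ^ 4` (`p` odd) with a central `z` of order `p`
containing all `p`-th powers has all subgroups of order `p ^ 3` abelian and all subgroups of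
exponent `p` of order at most `p ^ 2`. -/
theorem bkB_core {T : Type*} [Group T] [Finite T] {p : ℕ} [Fact p.Prime] (hp : p ≠ 2)
    (hT : Nat.card T = p ^ 4)
    (hS : ∀ S : Subgroup T, (∀ s ∈ S, s ^ p = 1) → Nat.card S ≤ p ^ 2)
    (hB : ∀ B : Subgroup T, Nat.card B = p ^ 3 → ∀ a ∈ B, ∀ b ∈ B, a * b = b * a)
    (z : T) (hz : z ∈ Subgroup.center T) (hzp : z ^ p = 1) (hz1 : z ≠ 1)
    (hpow : ∀ t : T, t ^ p ∈ Subgroup.zpowers z) : False := by
  have hpp : p.Prime := Fact.out
  have hTp : IsPGroup p T := IsPGroup.of_card hT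
  have hZcard : Nat.card (Subgroup.zpowers z) = p := by
    rw [Nat.card_zpowers, orderOf_eq_prime hzp hz1]
  have hZle : Subgroup.zpowers z ≤ Subgroup.center T := by rwa [Subgroup.zpowers_le]
  have hZc : ∀ n ∈ Subgroup.zpowers z, ∀ g : T, g * n = n * g := fun n hn g =>
    Subgroup.mem_center_iff.mp (hZle hn) g
  have hZn : (Subgroup.zpowers z).Normal :=
    ⟨fun n hn g => by rw [hZc n hn g, mul_inv_cancel_right]; exact hn⟩
  have hne : Subgroup.zpowers z ≠ ⊤ := by
    intro h
    have h1 : Nat.card (Subgroup.zpowers z) = Nat.card T := by rw [h, Subgroup.card_top]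
    rw [hZcard, hT] at h1
    have h2 : p ^ 1 < p ^ 4 := Nat.pow_lt_pow_right hpp.one_lt (by norm_num)
    rw [pow_one] at h2
    omega
  obtain ⟨x, -, hxZ, hxp, hxc⟩ :=
    Cfsg.Agent.S0129.central_ext hTp (Subgroup.zpowers z) ⊤ le_top hne
  -- the normal subgroup `N = Z ⟨x⟩`
  have hNn : (Subgroup.zpowers z ⊔ Subgroup.zpowers x).Normal := by
    refine ⟨fun n hn g => ?_⟩
    obtain ⟨e, he, y, hy, rfl⟩ := Subgroup.mem_sup_of_normal_left.mp hn
    obtain ⟨k, rfl⟩ := Subgroup.mem_zpowers_iff.mp hy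
    have h1 : g * (e * x ^ k) * g⁻¹ = (g * e * g⁻¹) * (g * x * g⁻¹) ^ k := by
      rw [conj_zpow]; group
    rw [h1]
    refine Subgroup.mul_mem _ (Subgroup.mem_sup_left (hZn.conj_mem e he g)) (Subgroup.zpow_mem _ ?_ k)
    have h2 : g * x * g⁻¹ = (g * x * g⁻¹ * x⁻¹) * x := by group
    rw [h2]
    exact Subgroup.mul_mem _ (Subgroup.mem_sup_left (hxc g))
      (Subgroup.mem_sup_right (Subgroup.mem_zpowers x))
  have hNcard : Nat.card (Subgroup.zpowers z ⊔ Subgroup.zpowers x : Subgroup T) ≤ p * p := by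
    have h := bkB_card_sup_zpowers_le p hpp.pos (Subgroup.zpowers z) x hxp
    rwa [hZcard] at h
  -- `x` is central
  have hxcent : ∀ a : T, a * x = x * a := by
    intro a
    have haN : a ^ p ∈ Subgroup.zpowers z ⊔ Subgroup.zpowers x := Subgroup.mem_sup_left (hpow a)
    have h1 := bkB_card_sup_zpowers_le p hpp.pos (Subgroup.zpowers z ⊔ Subgroup.zpowers x) a haN
    have h2 : Nat.card (Subgroup.zpowers z ⊔ Subgroup.zpowers x ⊔ Subgroup.zpowers a : Subgroup T)
        ≤ p ^ 3 := by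
      calc _ ≤ p * Nat.card (Subgroup.zpowers z ⊔ Subgroup.zpowers x : Subgroup T) := h1
        _ ≤ p * (p * p) := Nat.mul_le_mul_left p hNcard
        _ = p ^ 3 := by ring
    obtain ⟨j, hj⟩ := IsPGroup.iff_card.mp
      (hTp.to_subgroup (Subgroup.zpowers z ⊔ Subgroup.zpowers x ⊔ Subgroup.zpowers a))
    have hj3 : j ≤ 3 := by
      rw [hj] at h2
      exact (Nat.pow_le_pow_iff_right hpp.one_lt).mp h2
    have hdvd : p ^ 3 ∣ Nat.card T := by rw [hT]; exact pow_dvd_pow p (by norm_num)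
    obtain ⟨B', hB'card, hB'le⟩ := Sylow.exists_subgroup_card_pow_prime_le p hdvd _ hj hj3
    exact hB B' hB'card a (hB'le (Subgroup.mem_sup_right (Subgroup.mem_zpowers a))) x
      (hB'le (Subgroup.mem_sup_left (Subgroup.mem_sup_right (Subgroup.mem_zpowers x))))
  have hxC : x ∈ Subgroup.center T := Subgroup.mem_center_iff.mpr hxcent
  -- the center has order at least `p ^ 2`
  obtain ⟨m, hm⟩ := IsPGroup.iff_card.mp (hTp.to_subgroup (Subgroup.center T))
  have hm2 : 2 ≤ m := by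
    by_contra hcon
    have hm1 : m ≤ 1 := by omega
    have h1 : Nat.card (Subgroup.center T) ≤ Nat.card (Subgroup.zpowers z) := by
      rw [hm, hZcard]
      calc p ^ m ≤ p ^ 1 := Nat.pow_le_pow_right hpp.pos hm1
        _ = p := pow_one p
    have h2 : Subgroup.zpowers z = Subgroup.center T := Subgroup.eq_of_le_of_card_ge hZle h1
    exact hxZ (h2 ▸ hxC)
  have hm4 : m ≤ 4 := by
    have h1 : Nat.card (Subgroup.center T) ≤ Nat.card T := Subgroup.card_le_card_group _
    rw [hm, hT] at h1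
    exact (Nat.pow_le_pow_iff_right hpp.one_lt).mp h1
  have hquot : Nat.card (T ⧸ Subgroup.center T) = p ^ (4 - m) := by
    have h1 := Subgroup.card_eq_card_quotient_mul_card_subgroup (Subgroup.center T)
    rw [hT, hm] at h1
    have h2 : p ^ 4 = p ^ (4 - m) * p ^ m := by rw [← pow_add]; congr 1; omega
    rw [h2] at h1
    exact (Nat.eq_of_mul_eq_mul_right (pow_pos hpp.pos m) h1).symm
  have hqcomm := bkB_comm_of_card (Q := T ⧸ Subgroup.center T) (4 - m) (by omega) hquot
  -- commutators are central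
  have hcomm : ∀ a b : T, a * b * a⁻¹ * b⁻¹ ∈ Subgroup.center T := by
    intro a b
    rw [← QuotientGroup.eq_one_iff]
    have h1 := hqcomm (QuotientGroup.mk a) (QuotientGroup.mk b)
    rw [QuotientGroup.mk_mul, QuotientGroup.mk_mul, QuotientGroup.mk_mul, QuotientGroup.mk_inv,
      QuotientGroup.mk_inv, h1, mul_inv_cancel_right, mul_inv_cancel]
  -- the `p`-th power map is a homomorphism
  have hmul : ∀ a b : T, (a * b) ^ p = a ^ p * b ^ p := by
    intro a b
    have hcC := hcomm b⁻¹ a⁻¹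
    rw [inv_inv, inv_inv] at hcC
    have hcc : ∀ g : T, Commute (b⁻¹ * a⁻¹ * b * a) g := fun g =>
      (Subgroup.mem_center_iff.mp hcC g).symm
    have h1 : b * a = a * b * (b⁻¹ * a⁻¹ * b * a) := by group
    have hbp : b⁻¹ ^ p ∈ Subgroup.center T := by
      rw [inv_pow]
      exact Subgroup.inv_mem _ (hZle (hpow b))
    have h2 := Cfsg.Agent.Helper22.r2c_comm_zpow_left b⁻¹ a⁻¹
      (by rw [inv_inv, inv_inv]; exact hcc b⁻¹) (p : ℤ)
    rw [inv_inv, inv_inv, zpow_natCast, zpow_natCast] at h2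
    have h3 : b⁻¹ ^ p * a⁻¹ * (b⁻¹ ^ p)⁻¹ * a = 1 := by
      rw [← Subgroup.mem_center_iff.mp hbp a⁻¹]
      group
    rw [h3] at h2
    exact Cfsg.Agent.Helper49.mul_pow_prime_of_central hpp hp h1 (hcc a) (hcc b) h2.symm
  let φ : T →* T :=
    { toFun := fun t => t ^ p
      map_one' := one_pow p
      map_mul' := hmul }
  have hker : Nat.card φ.ker ≤ p ^ 2 := by
    apply hS
    intro s hs
    exact (MonoidHom.mem_ker).mp hs
  have hrange : Nat.card φ.range ≤ p := by
    rw [← hZcard]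
    apply Subgroup.card_le_of_le
    rintro _ ⟨t, rfl⟩
    exact hpow t
  have h1 := Subgroup.card_mul_index φ.ker
  rw [Subgroup.index_ker, hT] at h1
  have h2 : p ^ 4 ≤ p ^ 2 * p := by
    rw [← h1]
    exact Nat.mul_le_mul hker hrange
  have h3 : p ^ 3 < p ^ 4 := Nat.pow_lt_pow_right hpp.one_lt (by norm_num)
  have h4 : p ^ 2 * p = p ^ 3 := by ring
  omega

theorem bk_quot_hyp {R : Type*} [Group R] [Finite R] {p : ℕ} [Fact p.Prime] (hp : p ≠ 2)
    (hR : IsPGroup p R)
    (hS : ∀ S : Subgroup R, (∀ s ∈ S, s ^ p = 1) → Nat.card S ≤ p ^ 2)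
    (hB : ∀ B : Subgroup R, Nat.card B = p ^ 3 → ∀ a ∈ B, ∀ b ∈ B, a * b = b * a)
    (z : R) (hz : z ∈ Subgroup.center R) (hzp : z ^ p = 1) (hz1 : z ≠ 1)
    [(Subgroup.zpowers z).Normal] :
    ∀ S : Subgroup (R ⧸ Subgroup.zpowers z), (∀ s ∈ S, s ^ p = 1) → Nat.card S ≤ p ^ 2 := by
  intro S hSexp
  by_contra hcon
  have hcon' : p ^ 2 < Nat.card S := not_le.mp hcon
  have hpp : p.Prime := Fact.out
  have hZcard : Nat.card (Subgroup.zpowers z) = p := by
    rw [Nat.card_zpowers, orderOf_eq_prime hzp hz1]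
  have hQ : IsPGroup p (R ⧸ Subgroup.zpowers z) := hR.to_quotient _
  have h3 : p ^ 3 ≤ Nat.card S := by
    obtain ⟨k, hk⟩ := IsPGroup.iff_card.mp (hQ.to_subgroup S)
    rw [hk] at hcon' ⊢
    have h2k : 2 < k := (Nat.pow_lt_pow_iff_right hpp.one_lt).mp hcon'
    exact Nat.pow_le_pow_right hpp.pos h2k
  obtain ⟨S0, hS0S, hS0card⟩ := Sylow.exists_subgroup_le_card_pow_prime_of_le_card hpp hQ h3
  have hTcard : Nat.card (S0.comap (QuotientGroup.mk' (Subgroup.zpowers z))) = p ^ 4 := by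
    have hidx : (S0.comap (QuotientGroup.mk' (Subgroup.zpowers z))).index = S0.index :=
      Subgroup.index_comap_of_surjective S0 (QuotientGroup.mk'_surjective _)
    have e1 := Subgroup.card_mul_index (S0.comap (QuotientGroup.mk' (Subgroup.zpowers z)))
    have e2 := Subgroup.card_mul_index S0
    have e3 := Subgroup.card_eq_card_quotient_mul_card_subgroup (Subgroup.zpowers z)
    have h4 : Nat.card (S0.comap (QuotientGroup.mk' (Subgroup.zpowers z))) * S0.index
        = p ^ 4 * S0.index := by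
      have h5 : Nat.card (S0.comap (QuotientGroup.mk' (Subgroup.zpowers z))) * S0.index
          = Nat.card R := by rw [← hidx]; exact e1
      rw [h5, e3, ← e2, hS0card, hZcard]; ring
    exact Nat.eq_of_mul_eq_mul_right (Nat.pos_of_ne_zero Subgroup.index_ne_zero_of_finite) h4
  have hzT : z ∈ S0.comap (QuotientGroup.mk' (Subgroup.zpowers z)) := by
    rw [Subgroup.mem_comap]
    have : QuotientGroup.mk' (Subgroup.zpowers z) z = 1 := by
      rw [QuotientGroup.mk'_apply, QuotientGroup.eq_one_iff]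
      exact Subgroup.mem_zpowers z
    rw [this]
    exact S0.one_mem
  refine bkB_core (T := ↥(S0.comap (QuotientGroup.mk' (Subgroup.zpowers z)))) hp hTcard ?_ ?_
    ⟨z, hzT⟩ ?_ ?_ ?_ ?_
  · intro S' hS'
    have h1 := hS (S'.map (Subgroup.subtype _)) (by
      rintro _ ⟨s, hs, rfl⟩
      have h2 := hS' s hs
      rw [Subgroup.subtype_apply, ← Subgroup.coe_pow, h2, Subgroup.coe_one])
    rwa [Subgroup.card_map_of_injective (Subgroup.subtype_injective _)] at h1
  · intro B' hB' a ha b hb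
    have h1 := hB (B'.map (Subgroup.subtype _))
      (by rw [Subgroup.card_map_of_injective (Subgroup.subtype_injective _), hB'])
      a ⟨a, ha, rfl⟩ b ⟨b, hb, rfl⟩
    exact Subtype.ext h1
  · rw [Subgroup.mem_center_iff]
    intro g
    exact Subtype.ext (Subgroup.mem_center_iff.mp hz g)
  · exact Subtype.ext hzp
  · intro h
    exact hz1 (congrArg Subtype.val h)
  · intro t
    have ht : QuotientGroup.mk' (Subgroup.zpowers z) (t : R) ∈ S0 := t.2
    have h1 := hSexp _ (hS0S ht)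
    rw [← map_pow, QuotientGroup.mk'_apply, QuotientGroup.eq_one_iff] at h1
    obtain ⟨k, hk⟩ := Subgroup.mem_zpowers_iff.mp h1
    rw [Subgroup.mem_zpowers_iff]
    refine ⟨k, Subtype.ext ?_⟩
    rw [Subgroup.coe_zpow, Subgroup.coe_pow]
    exact hk

end Cfsg.Agent.Helper58
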