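import Mathlib

/-!
# A "chain lemma" for extremely primitive groups (helper58)

* `orbit_dichotomy`: if `H` is primitive on the orbit of `ω`, an `H`-invariant equivalence relation
  (given as the kernel of a map `r`) is either trivial or universal on that orbit.
* `eq_one_of_centralizer_props`: a finite perfect group in which centralizers of non-identity elements
  are "canonically rigid" (self-normalizing, and `C(x^i) = C(x)`) is trivial.
* `chain_false`: a non-trivial finite perfect group `T` without non-trivial abelian normal subgroups cannot be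
  identified with a set `Ω` on which a group `H` acts, primitively on every orbit other than the base point,
  through automorphisms and anti-automorphisms of `T` including all inner automorphisms.
-/

set_option autoImplicit false

namespace Cfsg.Agent.Helper58

open MulAction

/-- dichotomy from primitivity on an orbit: an invariant equivalence relation (the kernel of `r`)
is universal or trivial on the orbit -/
theorem orbit_dichotomy {H : Type*} [Group H] {Ω : Type*} [MulAction H Ω] {X : Type*} (r : Ω → X)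
    (hr : ∀ (h : H) (a b : Ω), r a = r b → r (h • a) = r (h • b))
    (ω : Ω) (hprim : IsPreprimitive H (orbit H ω)) :
    (∀ ω' ∈ orbit H ω, r ω' = r ω) ∨ (∀ ω' ∈ orbit H ω, r ω' = r ω → ω' = ω) := by
  set B : Set (orbit H ω) := {y | r (y : Ω) = r ω} with hB
  have hblock : IsBlock H B := by
    rw [isBlock_iff_smul_eq_of_mem]
    intro g a ha hga
    have ha' : r (a : Ω) = r ω := ha
    have hga' : r (g • (a : Ω)) = r ω := hga
    ext y
    constructor
    · rintro ⟨z, hz, rfl⟩
      have hz' : r (z : Ω) = r ω := hz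
      show r (g • (z : Ω)) = r ω
      exact (hr g _ _ (hz'.trans ha'.symm)).trans hga'
    · intro hy
      have hy' : r (y : Ω) = r ω := hy
      refine ⟨g⁻¹ • y, ?_, by simp⟩
      show r (g⁻¹ • (y : Ω)) = r ω
      have h1 := hr g⁻¹ _ _ (hy'.trans hga'.symm)
      rw [inv_smul_smul] at h1
      exact h1.trans ha'
  rcases hprim.isTrivialBlock_of_isBlock hblock with hsub | huniv
  · right
    intro ω' hω' hrω'
    have h1 : (⟨ω', hω'⟩ : orbit H ω) ∈ B := hrω'
    have h2 : (⟨ω, mem_orbit_self ω⟩ : orbit H ω) ∈ B := rfl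
    exact congrArg Subtype.val (hsub h1 h2)
  · left
    intro ω' hω'
    have h1 : (⟨ω', hω'⟩ : orbit H ω) ∈ B := by rw [huniv]; trivial
    exact h1

section antiauto

variable {T : Type*} [Group T]

/-- a map which is multiplicative or anti-multiplicative -/
def IsAutoLike (φ : T → T) : Prop :=
  (∀ a b : T, φ (a * b) = φ a * φ b) ∨ (∀ a b : T, φ (a * b) = φ b * φ a)

theorem IsAutoLike.map_one {φ : T → T} (h : IsAutoLike φ) : φ 1 = 1 := by
  rcases h with h | h
  · have := h 1 1
    rw [mul_one] at this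
    exact (mul_eq_left.mp this.symm)
  · have := h 1 1
    rw [mul_one] at this
    exact (mul_eq_left.mp this.symm)

theorem IsAutoLike.map_pow {φ : T → T} (h : IsAutoLike φ) (a : T) (n : ℕ) : φ (a ^ n) = φ a ^ n := by
  induction n with
  | zero => simpa using h.map_one
  | succ n ih =>
    rcases h with h' | h'
    · rw [pow_succ, h', ih, pow_succ]
    · rw [pow_succ, h', ih, pow_succ']

theorem IsAutoLike.comm_iff {φ : T → T} (h : IsAutoLike φ) (hinj : Function.Injective φ) (a b : T) :
    φ a * φ b = φ b * φ a ↔ a * b = b * a := by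
  rcases h with h' | h'
  · rw [← h', ← h']
    exact hinj.eq_iff
  · rw [← h', ← h']
    constructor
    · intro h1; exact (hinj h1).symm
    · intro h1; rw [h1]

end antiauto

section centralizers

variable {T : Type*} [Group T]

theorem mem_cent_singleton {x g : T} : g ∈ Subgroup.centralizer ({x} : Set T) ↔ g * x = x * g := by
  rw [Subgroup.mem_centralizer_iff]
  constructor
  · intro h; exact (h x rfl).symm
  · rintro h _ rfl; exact h.symm

/-- conjugation transports commutation -/
theorem comm_conj_iff (g z x : T) :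
    z * (g * x * g⁻¹) = g * x * g⁻¹ * z ↔ (g⁻¹ * z * g) * x = x * (g⁻¹ * z * g) := by
  constructor
  · intro h
    calc (g⁻¹ * z * g) * x = g⁻¹ * (z * (g * x * g⁻¹)) * g := by group
      _ = g⁻¹ * (g * x * g⁻¹ * z) * g := by rw [h]
      _ = x * (g⁻¹ * z * g) := by group
  · intro h
    calc z * (g * x * g⁻¹) = g * ((g⁻¹ * z * g) * x) * g⁻¹ := by group
      _ = g * (x * (g⁻¹ * z * g)) * g⁻¹ := by rw [h]
      _ = g * x * g⁻¹ * z := by group

/-- the two rigidity properties of centralizers used below -/
structure CentRigid (T : Type*) [Group T] : Prop where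
  conj : ∀ x : T, x ≠ 1 → ∀ g : T,
    (∀ z : T, z * (g * x * g⁻¹) = (g * x * g⁻¹) * z ↔ z * x = x * z) → g * x * g⁻¹ = x
  pow : ∀ (x : T) (i : ℕ), x ^ i ≠ 1 → ∀ g : T, g * x ^ i = x ^ i * g → g * x = x * g

theorem CentRigid.normalizer_le (hR : CentRigid T) {x : T} (hx : x ≠ 1) :
    Subgroup.normalizer (Subgroup.centralizer ({x} : Set T) : Set T) ≤ Subgroup.centralizer {x} := by
  intro g hg
  rw [Subgroup.mem_normalizer_iff] at hg
  rw [mem_cent_singleton]
  have h1 : g * x * g⁻¹ = x := by
    apply hR.conj x hx g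
    intro z
    rw [comm_conj_iff, ← mem_cent_singleton, ← mem_cent_singleton]
    have := hg (g⁻¹ * z * g)
    rw [this]
    have h2 : g * (g⁻¹ * z * g) * g⁻¹ = z := by group
    rw [h2]
  calc g * x = g * x * g⁻¹ * g := by group
    _ = x * g := by rw [h1]

theorem CentRigid.cent_pow (hR : CentRigid T) {x : T} {i : ℕ} (hxi : x ^ i ≠ 1) :
    Subgroup.centralizer ({x ^ i} : Set T) = Subgroup.centralizer {x} := by
  apply le_antisymm
  · intro g hg
    rw [mem_cent_singleton] at hg ⊢
    exact hR.pow x i hxi g hg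
  · intro g hg
    rw [mem_cent_singleton] at hg ⊢
    exact ((Commute.pow_right (show Commute g x from hg) i)).eq

theorem CentRigid.cent_eq_of_orders (hR : CentRigid T) {u v : T} {p q : ℕ} (hp : p.Prime) (hq : q.Prime)
    (hpq : p ≠ q) (hu : orderOf u = p) (hv : orderOf v = q) (huv : u * v = v * u) :
    Subgroup.centralizer ({u} : Set T) = Subgroup.centralizer {v} := by
  have hcomm : Commute u v := huv
  have huq : u ^ q ≠ 1 := by
    intro h
    have h1 : p ∣ q := by rw [← hu]; exact orderOf_dvd_of_pow_eq_one h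
    rcases (Nat.dvd_prime hq).mp h1 with h2 | h2
    · exact hp.one_lt.ne' h2
    · exact hpq h2
  have hvp : v ^ p ≠ 1 := by
    intro h
    have h1 : q ∣ p := by rw [← hv]; exact orderOf_dvd_of_pow_eq_one h
    rcases (Nat.dvd_prime hp).mp h1 with h2 | h2
    · exact hq.one_lt.ne' h2
    · exact hpq h2.symm
  have hzq : (u * v) ^ q = u ^ q := by
    rw [hcomm.mul_pow, ← hv, pow_orderOf_eq_one, mul_one]
  have hzp : (u * v) ^ p = v ^ p := by
    rw [hcomm.mul_pow, ← hu, pow_orderOf_eq_one, one_mul]
  have h1 : Subgroup.centralizer ({u * v} : Set T) = Subgroup.centralizer {u} := by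
    rw [← hR.cent_pow (x := u * v) (i := q) (by rw [hzq]; exact huq), hzq, hR.cent_pow huq]
  have h2 : Subgroup.centralizer ({u * v} : Set T) = Subgroup.centralizer {v} := by
    rw [← hR.cent_pow (x := u * v) (i := p) (by rw [hzp]; exact hvp), hzp, hR.cent_pow hvp]
  rw [← h1, h2]

/-- Burnside's transfer theorem against perfectness -/
theorem false_of_sylow_normalizer_le_centralizer [Finite T] (hperf : commutator T = ⊤) {p : ℕ}
    [Fact p.Prime] (P : Sylow p T) (hP : (P : Subgroup T) ≠ ⊥)
    (hPn : Subgroup.normalizer ((P : Subgroup T) : Set T) ≤ Subgroup.centralizer ((P : Subgroup T) : Set T)) :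
    False := by
  have hcompl : Subgroup.IsComplement' (MonoidHom.transferSylow P hPn).ker (P : Subgroup T) :=
    MonoidHom.ker_transferSylow_isComplement' P hPn
  have hker : (MonoidHom.transferSylow P hPn).ker = ⊤ := by
    rw [eq_top_iff, ← hperf, commutator_def, Subgroup.commutator_le]
    intro a _ b _
    rw [MonoidHom.mem_ker, map_commutatorElement, commutatorElement_eq_one_iff_commute]
    set a' := MonoidHom.transferSylow P hPn a
    set b' := MonoidHom.transferSylow P hPn b
    have h1 : (b' : T) ∈ Subgroup.centralizer ((P : Subgroup T) : Set T) :=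
      hPn (Subgroup.le_normalizer b'.2)
    rw [Subgroup.mem_centralizer_iff] at h1
    have h2 := h1 (a' : T) a'.2
    show a' * b' = b' * a'
    exact Subtype.ext h2
  rw [hker, Subgroup.isComplement'_top_left] at hcompl
  exact hP hcompl

/-- an element of prime order among the powers of a non-identity element, with the same centralizer -/
theorem CentRigid.exists_prime_order_pow [Finite T] (hR : CentRigid T) {x : T} (hx : x ≠ 1) :
    ∃ (p : ℕ) (y : T), p.Prime ∧ orderOf y = p ∧ y ∈ Subgroup.zpowers x ∧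
      Subgroup.centralizer ({y} : Set T) = Subgroup.centralizer {x} := by
  have hn1 : orderOf x ≠ 1 := fun h => hx (orderOf_eq_one_iff.mp h)
  have hp : (orderOf x).minFac.Prime := Nat.minFac_prime hn1
  have hdvd : (orderOf x).minFac ∣ orderOf x := Nat.minFac_dvd _
  have hord : orderOf (x ^ (orderOf x / (orderOf x).minFac)) = (orderOf x).minFac :=
    orderOf_pow_orderOf_div (orderOf_pos x).ne' hdvd
  have hne : x ^ (orderOf x / (orderOf x).minFac) ≠ 1 := by
    intro h
    rw [h, orderOf_one] at hord
    exact hp.one_lt.ne hord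
  exact ⟨_, _, hp, hord, Subgroup.pow_mem _ (Subgroup.mem_zpowers x) _, hR.cent_pow hne⟩

/-- in a rigid perfect group, the centralizer of a non-identity element has prime power order -/
theorem CentRigid.card_cent_prime_pow [Finite T] (hR : CentRigid T) (hperf : commutator T = ⊤)
    {x : T} (hx : x ≠ 1) :
    ∃ p k : ℕ, p.Prime ∧ Nat.card (Subgroup.centralizer ({x} : Set T)) = p ^ k := by
  by_contra hcon
  push Not at hcon
  set C := Subgroup.centralizer ({x} : Set T) with hC
  obtain ⟨p, x₁, hp, hx₁ord, hx₁mem, hx₁C⟩ := hR.exists_prime_order_pow hx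
  have hx₁ne : x₁ ≠ 1 := by
    intro h
    rw [h, orderOf_one] at hx₁ord
    exact hp.one_lt.ne hx₁ord
  -- a prime q ≠ p dividing |C|
  obtain ⟨q, hq, hqC, hqp⟩ : ∃ q : ℕ, q.Prime ∧ q ∣ Nat.card C ∧ q ≠ p := by
    by_contra h
    push Not at h
    have := Nat.eq_prime_pow_of_unique_prime_dvd (n := Nat.card C) (p := p) Nat.card_pos.ne'
      (fun {d} hd hdvd => h d hd hdvd)
    exact hcon p _ hp this
  have : Fact q.Prime := ⟨hq⟩
  obtain ⟨y, hy⟩ := exists_prime_orderOf_dvd_card' q hqC
  have hy' : orderOf (y : T) = q := by rw [Subgroup.orderOf_coe]; exact hy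
  have hyC : (y : T) ∈ Subgroup.centralizer ({x₁} : Set T) := by rw [hx₁C]; exact y.2
  have hCy : Subgroup.centralizer ({(y : T)} : Set T) = C := by
    rw [← hR.cent_eq_of_orders hp hq hqp.symm hx₁ord hy' (mem_cent_singleton.mp hyC).symm, hx₁C]
  -- every non-identity element of C has centralizer C
  have hTI : ∀ c ∈ C, c ≠ 1 → Subgroup.centralizer ({c} : Set T) = C := by
    intro c hc hc1
    obtain ⟨r, c₁, hr, hc₁ord, hc₁mem, hc₁C⟩ := hR.exists_prime_order_pow hc1
    have hc₁C' : c₁ ∈ C := by
      have : Subgroup.zpowers c ≤ C := by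
        rw [Subgroup.zpowers_le]; exact hc
      exact this hc₁mem
    rw [← hc₁C]
    by_cases hrp : r = p
    · have hqr : q ≠ r := by rw [hrp]; exact hqp
      have hcomm : (y : T) * c₁ = c₁ * (y : T) := by
        have : c₁ ∈ Subgroup.centralizer ({(y : T)} : Set T) := by rw [hCy]; exact hc₁C'
        exact (mem_cent_singleton.mp this).symm
      rw [← hR.cent_eq_of_orders hq hr hqr hy' hc₁ord hcomm, hCy]
    · have hcomm : x₁ * c₁ = c₁ * x₁ := by
        have : c₁ ∈ Subgroup.centralizer ({x₁} : Set T) := by rw [hx₁C]; exact hc₁C'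
        exact (mem_cent_singleton.mp this).symm
      rw [← hR.cent_eq_of_orders hp hr (Ne.symm hrp) hx₁ord hc₁ord hcomm, hx₁C]
  -- C is commutative
  have hCcomm : ∀ a ∈ C, ∀ b ∈ C, a * b = b * a := by
    intro a ha b hb
    by_cases ha1 : a = 1
    · rw [ha1, one_mul, mul_one]
    · have : b ∈ Subgroup.centralizer ({a} : Set T) := by rw [hTI a ha ha1]; exact hb
      exact (mem_cent_singleton.mp this).symm
  have hx₁C' : x₁ ∈ C := by
    have : Subgroup.zpowers x ≤ C := by
      rw [Subgroup.zpowers_le, hC, mem_cent_singleton]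
    exact this hx₁mem
  -- a Sylow p-subgroup containing x₁
  have : Fact p.Prime := ⟨hp⟩
  have hpg : IsPGroup p (Subgroup.zpowers x₁) :=
    IsPGroup.of_card (n := 1) (by rw [Nat.card_zpowers, hx₁ord, pow_one])
  obtain ⟨P, hP⟩ := hpg.exists_le_sylow
  have hx₁P : x₁ ∈ (P : Subgroup T) := hP (Subgroup.mem_zpowers x₁)
  have hPnt : Nontrivial (P : Subgroup T) :=
    ⟨⟨⟨x₁, hx₁P⟩, 1, fun h => hx₁ne (congrArg Subtype.val h)⟩⟩
  have hcen : Nontrivial (Subgroup.center (P : Subgroup T)) := P.isPGroup'.center_nontrivial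
  obtain ⟨z, hz⟩ := exists_ne (1 : Subgroup.center (P : Subgroup T))
  have hz1 : ((z : (P : Subgroup T)) : T) ≠ 1 := by
    intro h
    apply hz
    apply Subtype.ext
    apply Subtype.ext
    exact h
  have hzcomm : ∀ g ∈ (P : Subgroup T), g * ((z : (P : Subgroup T)) : T) = ((z : (P : Subgroup T)) : T) * g := by
    intro g hg
    have := (Subgroup.mem_center_iff.mp z.2) ⟨g, hg⟩
    exact congrArg Subtype.val this
  have hzC : ((z : (P : Subgroup T)) : T) ∈ C := by
    rw [hC, ← hx₁C, mem_cent_singleton]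
    exact (hzcomm x₁ hx₁P).symm
  have hPC : (P : Subgroup T) ≤ C := by
    intro g hg
    rw [← hTI _ hzC hz1, mem_cent_singleton]
    exact hzcomm g hg
  have hPn : Subgroup.normalizer ((P : Subgroup T) : Set T) ≤
      Subgroup.centralizer ((P : Subgroup T) : Set T) := by
    intro g hg
    have hgx : g * x₁ * g⁻¹ ∈ (P : Subgroup T) := (Subgroup.mem_normalizer_iff.mp hg x₁).mp hx₁P
    have hgx1 : g * x₁ * g⁻¹ ≠ 1 := by
      intro h
      apply hx₁ne
      have : x₁ = g⁻¹ * (g * x₁ * g⁻¹) * g := by group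
      rw [this, h]; group
    have hCg : Subgroup.centralizer ({g * x₁ * g⁻¹} : Set T) = C := hTI _ (hPC hgx) hgx1
    have hgN : g ∈ Subgroup.normalizer (C : Set T) := by
      rw [Subgroup.mem_normalizer_iff]
      intro h
      have e1 : h ∈ C ↔ h * x₁ = x₁ * h := by rw [hC, ← hx₁C, mem_cent_singleton]
      have e2 : g * h * g⁻¹ ∈ C ↔
          g * h * g⁻¹ * (g * x₁ * g⁻¹) = g * x₁ * g⁻¹ * (g * h * g⁻¹) := by
        rw [← hCg, mem_cent_singleton]
      show h ∈ C ↔ g * h * g⁻¹ ∈ C
      rw [e1, e2]
      constructor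
      · intro h1
        calc g * h * g⁻¹ * (g * x₁ * g⁻¹) = g * (h * x₁) * g⁻¹ := by group
          _ = g * (x₁ * h) * g⁻¹ := by rw [h1]
          _ = g * x₁ * g⁻¹ * (g * h * g⁻¹) := by group
      · intro h1
        calc h * x₁ = g⁻¹ * (g * h * g⁻¹ * (g * x₁ * g⁻¹)) * g := by group
          _ = g⁻¹ * (g * x₁ * g⁻¹ * (g * h * g⁻¹)) * g := by rw [h1]
          _ = x₁ * h := by group
    have hgC : g ∈ C := hR.normalizer_le hx hgN
    rw [Subgroup.mem_centralizer_iff]
    intro h hh
    exact hCcomm h (hPC hh) g hgC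
  have hPne : (P : Subgroup T) ≠ ⊥ := by
    intro h
    rw [h, Subgroup.mem_bot] at hx₁P
    exact hx₁ne hx₁P
  exact false_of_sylow_normalizer_le_centralizer hperf P hPne hPn

/-- the centralizer of a non-identity element has the order of a Sylow subgroup -/
theorem CentRigid.card_cent_eq [Finite T] (hR : CentRigid T) {x : T} (hx : x ≠ 1) {p k : ℕ}
    (hp : p.Prime) (hk : Nat.card (Subgroup.centralizer ({x} : Set T)) = p ^ k) :
    k = (Nat.card T).factorization p ∧ k ≠ 0 := by
  have : Fact p.Prime := ⟨hp⟩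
  have hk0 : k ≠ 0 := by
    rintro rfl
    rw [pow_zero] at hk
    have h1 : Subgroup.centralizer ({x} : Set T) = ⊥ := Subgroup.card_eq_one.mp hk
    have hxC : x ∈ Subgroup.centralizer ({x} : Set T) := mem_cent_singleton.mpr rfl
    rw [h1, Subgroup.mem_bot] at hxC
    exact hx hxC
  refine ⟨?_, hk0⟩
  have h1 : p ^ k ∣ Nat.card T := by
    rw [← hk]; exact Subgroup.card_subgroup_dvd_card _
  have h2 : ¬ p ^ (k + 1) ∣ Nat.card T := by
    intro hdvd
    have h3 := Sylow.prime_dvd_card_quotient_normalizer hdvd hk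
    have h4 : (Subgroup.centralizer ({x} : Set T)).comap
        (Subgroup.normalizer ((Subgroup.centralizer ({x} : Set T)) : Set T)).subtype = ⊤ := by
      rw [eq_top_iff]
      intro g _
      exact hR.normalizer_le hx g.2
    rw [h4] at h3
    have h5 : Nat.card (↥(Subgroup.normalizer ((Subgroup.centralizer ({x} : Set T)) : Set T)) ⧸
        (⊤ : Subgroup ↥(Subgroup.normalizer ((Subgroup.centralizer ({x} : Set T)) : Set T)))) = 1 :=
      Subgroup.index_top
    rw [h5] at h3
    exact hp.one_lt.ne' (Nat.dvd_one.mp h3)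
  have hn : Nat.card T ≠ 0 := Nat.card_pos.ne'
  have h5 := (hp.pow_dvd_iff_le_factorization hn).mp h1
  have h6 : ¬ k + 1 ≤ (Nat.card T).factorization p :=
    fun h => h2 ((hp.pow_dvd_iff_le_factorization hn).mpr h)
  omega

/-- the centralizer of a non-identity element is not commutative -/
theorem CentRigid.cent_not_comm [Finite T] (hR : CentRigid T) (hperf : commutator T = ⊤)
    {x : T} (hx : x ≠ 1) :
    ¬ ∀ a ∈ Subgroup.centralizer ({x} : Set T), ∀ b ∈ Subgroup.centralizer ({x} : Set T),
      a * b = b * a := by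
  intro hcomm
  obtain ⟨p, k, hp, hk⟩ := hR.card_cent_prime_pow hperf hx
  have : Fact p.Prime := ⟨hp⟩
  obtain ⟨hkf, hk0⟩ := hR.card_cent_eq hx hp hk
  rw [hkf] at hk
  have hPc : ((Sylow.ofCard _ hk : Sylow p T) : Subgroup T) = Subgroup.centralizer ({x} : Set T) :=
    Sylow.coe_ofCard _ hk
  apply false_of_sylow_normalizer_le_centralizer hperf (Sylow.ofCard _ hk : Sylow p T)
  · rw [hPc]
    intro h
    have hxC : x ∈ Subgroup.centralizer ({x} : Set T) := mem_cent_singleton.mpr rfl
    rw [h, Subgroup.mem_bot] at hxC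
    exact hx hxC
  · rw [hPc]
    intro g hg
    have hgC := hR.normalizer_le hx hg
    rw [Subgroup.mem_centralizer_iff]
    intro h hh
    exact hcomm h hh g hgC

/-- the centre of a non-commutative group of order `p^v` has index at least `p^2` -/
theorem card_center_mul_sq_le {Q : Type*} [Group Q] [Finite Q] {p v : ℕ} (hp : p.Prime)
    (hcard : Nat.card Q = p ^ v) (hnc : ¬ ∀ a b : Q, a * b = b * a) :
    Nat.card (Subgroup.center Q) * p ^ 2 ≤ p ^ v := by
  have hidx : (Subgroup.center Q).index ∣ p ^ v := by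
    rw [← hcard]; exact Subgroup.index_dvd_card _
  obtain ⟨j, hj, hidx'⟩ := (Nat.dvd_prime_pow hp).mp hidx
  have hj2 : 2 ≤ j := by
    by_contra hlt
    push Not at hlt
    apply hnc
    interval_cases j
    · rw [pow_zero, Subgroup.index_eq_one] at hidx'
      intro a b
      have : a ∈ Subgroup.center Q := by rw [hidx']; trivial
      exact (Subgroup.mem_center_iff.mp this b).symm
    · rw [pow_one] at hidx'
      have hcq : Nat.card (Q ⧸ Subgroup.center Q) = p := hidx'
      have : Fact p.Prime := ⟨hp⟩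
      have hcyc : IsCyclic (Q ⧸ Subgroup.center Q) := isCyclic_of_prime_card hcq
      have hc : IsMulCommutative Q :=
        MonoidHom.isMulCommutative_of_isCyclic_of_ker_le_center
          (QuotientGroup.mk' (Subgroup.center Q)) (by simp)
      exact fun a b => mul_comm' a b
  have h1 : Nat.card (Subgroup.center Q) * (Subgroup.center Q).index = p ^ v := by
    rw [Subgroup.card_mul_index, hcard]
  calc Nat.card (Subgroup.center Q) * p ^ 2
      ≤ Nat.card (Subgroup.center Q) * p ^ j :=
        Nat.mul_le_mul_left _ (Nat.pow_le_pow_right hp.pos hj2)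
    _ = p ^ v := by rw [← hidx', h1]

/-- counting the non-identity elements whose centralizer is a Sylow `p`-subgroup -/
theorem CentRigid.card_type_le [Fintype T] (hR : CentRigid T) (hperf : commutator T = ⊤)
    {p : ℕ} (hp : p.Prime) (X : Finset T)
    (hX : ∀ x ∈ X, x ≠ 1 ∧
      Nat.card (Subgroup.centralizer ({x} : Set T)) = p ^ (Nat.card T).factorization p)
    (hne : X.Nonempty) : (X.card + 1) * p ^ 2 ≤ Nat.card T := by
  classical
  have : Fact p.Prime := ⟨hp⟩
  set v := (Nat.card T).factorization p with hv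
  let f : T → Subgroup T := fun x => Subgroup.centralizer ({x} : Set T)
  -- the fibres of f are small
  have hfib : ∀ Q ∈ X.image f, (X.filter (fun x => f x = Q)).card + 1 ≤ p ^ v / p ^ 2 := by
    intro Q hQ
    obtain ⟨x₁, hx₁, rfl⟩ := Finset.mem_image.mp hQ
    obtain ⟨hx₁ne, hx₁card⟩ := hX x₁ hx₁
    have hnc : ¬ ∀ a b : f x₁, a * b = b * a := by
      intro h
      apply hR.cent_not_comm hperf hx₁ne
      intro a ha b hb
      exact congrArg Subtype.val (h ⟨a, ha⟩ ⟨b, hb⟩)
    have hcen := card_center_mul_sq_le hp hx₁card hnc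
    have hle : Nat.card (Subgroup.center (f x₁)) ≤ p ^ v / p ^ 2 :=
      (Nat.le_div_iff_mul_le (pow_pos hp.pos 2)).mpr hcen
    refine le_trans ?_ hle
    set K : Subgroup T := (Subgroup.center (f x₁)).map (f x₁).subtype with hK
    have hKcard : Nat.card K = Nat.card (Subgroup.center (f x₁)) :=
      Subgroup.card_map_of_injective (f x₁).subtype_injective
    have hsub : ((insert 1 (X.filter (fun x => f x = f x₁)) : Finset T) : Set T) ⊆ (K : Set T) := by
      intro y hy
      rw [Finset.mem_coe, Finset.mem_insert, Finset.mem_filter] at hy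
      rcases hy with rfl | ⟨hyX, hyf⟩
      · exact K.one_mem
      · have hyQ : y ∈ f x₁ := by
          rw [← hyf]; exact mem_cent_singleton.mpr rfl
        refine ⟨⟨y, hyQ⟩, ?_, rfl⟩
        rw [SetLike.mem_coe, Subgroup.mem_center_iff]
        intro g
        apply Subtype.ext
        have hg : (g : T) ∈ f y := by rw [hyf]; exact g.2
        exact mem_cent_singleton.mp hg
    have h1 := Set.ncard_le_ncard hsub (Set.toFinite _)
    rw [Set.ncard_coe_finset, Finset.card_insert_of_notMem] at h1
    · have h2 : (K : Set T).ncard = Nat.card K := (Nat.card_coe_set_eq (K : Set T)).symm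
      rw [h2, hKcard] at h1
      exact h1
    · intro h
      exact (hX 1 (Finset.mem_filter.mp h).1).1 rfl
  have hcard1 : X.card ≤ (p ^ v / p ^ 2 - 1) * (X.image f).card :=
    Finset.card_le_mul_card_image X _ (fun Q hQ => by have := hfib Q hQ; omega)
  -- the image of f consists of Sylow subgroups
  have hQ : ∀ Q ∈ X.image f, Nat.card Q = p ^ v := by
    intro Q hQ
    obtain ⟨x, hx, rfl⟩ := Finset.mem_image.mp hQ
    exact (hX x hx).2
  have himg : (X.image f).card ≤ Nat.card (Sylow p T) := by
    let g : {Q // Q ∈ X.image f} → Sylow p T := fun Q => Sylow.ofCard Q.1 (hQ Q.1 Q.2)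
    have hinj : Function.Injective g := by
      intro Q Q' h
      apply Subtype.ext
      have h1 : ((g Q : Sylow p T) : Subgroup T) = ((g Q' : Sylow p T) : Subgroup T) := by rw [h]
      exact h1
    have h2 := Nat.card_le_card_of_injective g hinj
    rw [Nat.card_eq_fintype_card, Fintype.card_coe] at h2
    exact h2
  obtain ⟨x₀, hx₀⟩ := hne
  have hx₀img : f x₀ ∈ X.image f := Finset.mem_image_of_mem f hx₀
  set P₀ : Sylow p T := Sylow.ofCard (f x₀) (hQ _ hx₀img) with hP₀
  have hsyl : Nat.card (Sylow p T) ∣ (P₀ : Subgroup T).index := Sylow.card_dvd_index P₀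
  have hP₀card : Nat.card (P₀ : Subgroup T) = p ^ v := hQ _ hx₀img
  have hidx : p ^ v * (P₀ : Subgroup T).index = Nat.card T := by
    rw [← hP₀card, Subgroup.card_mul_index]
  have hi0 : 0 < (P₀ : Subgroup T).index := by
    rcases Nat.eq_zero_or_pos (P₀ : Subgroup T).index with h | h
    · rw [h, mul_zero] at hidx
      exact absurd hidx.symm Nat.card_pos.ne'
    · exact h
  have hsyl' : Nat.card (Sylow p T) ≤ (P₀ : Subgroup T).index := Nat.le_of_dvd hi0 hsyl
  have hm1 : 1 ≤ p ^ v / p ^ 2 := by
    have := hfib _ hx₀img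
    omega
  have hms : p ^ v / p ^ 2 * p ^ 2 ≤ p ^ v := Nat.div_mul_le_self _ _
  have hXle : X.card ≤ (p ^ v / p ^ 2 - 1) * (P₀ : Subgroup T).index :=
    hcard1.trans (Nat.mul_le_mul_left _ (himg.trans hsyl'))
  generalize p ^ v / p ^ 2 = m at hm1 hms hXle
  generalize (P₀ : Subgroup T).index = i at hidx hi0 hXle
  have h3 : X.card + 1 ≤ m * i := by
    have h4 : (m - 1) * i + i = m * i := by
      obtain ⟨m', rfl⟩ : ∃ m', m = m' + 1 := ⟨m - 1, by omega⟩
      simp only [Nat.add_sub_cancel]
      ring
    omega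
  calc (X.card + 1) * p ^ 2 ≤ (m * i) * p ^ 2 := Nat.mul_le_mul_right _ h3
    _ = (m * p ^ 2) * i := by ring
    _ ≤ p ^ v * i := Nat.mul_le_mul_right _ hms
    _ = Nat.card T := hidx

theorem sum_inv_sq_le (n : ℕ) (hn : 1 ≤ n) :
    ∑ m ∈ Finset.Icc 2 n, (1 : ℚ) / (m : ℚ) ^ 2 ≤ 1 - 1 / n := by
  induction n, hn using Nat.le_induction with
  | base => simp
  | succ n hn ih =>
    rw [Finset.sum_Icc_succ_top (by omega)]
    have hn0 : (0 : ℚ) < n := by exact_mod_cast hn
    have h1 : (1 : ℚ) / ((n + 1 : ℕ) : ℚ) ^ 2 ≤ 1 / n - 1 / ((n + 1 : ℕ) : ℚ) := by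
      push_cast
      rw [div_sub_div _ _ hn0.ne' (by positivity), div_le_div_iff₀ (by positivity) (by positivity)]
      nlinarith
    linarith

/-- a finite perfect group with rigid centralizers is trivial -/
theorem CentRigid.eq_one [Finite T] (hR : CentRigid T) (hperf : commutator T = ⊤) (x : T) : x = 1 := by
  classical
  by_contra hx
  have := Fintype.ofFinite T
  set n := Nat.card T with hn
  have hn1 : 1 ≤ n := Nat.card_pos
  let X : ℕ → Finset T := fun p => Finset.univ.filter
    (fun y => y ≠ 1 ∧ Nat.card (Subgroup.centralizer ({y} : Set T)) = p ^ n.factorization p)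
  have hXmem : ∀ p, ∀ y ∈ X p,
      y ≠ 1 ∧ Nat.card (Subgroup.centralizer ({y} : Set T)) = p ^ n.factorization p := by
    intro p y hy
    exact (Finset.mem_filter.mp hy).2
  have hA : ∀ y : T, y ≠ 1 → ∃ p ∈ n.primeFactors, y ∈ X p := by
    intro y hy
    obtain ⟨p, k, hp, hk⟩ := hR.card_cent_prime_pow hperf hy
    obtain ⟨hkf, hk0⟩ := hR.card_cent_eq hy hp hk
    refine ⟨p, ?_, ?_⟩
    · rw [Nat.mem_primeFactors]
      refine ⟨hp, ?_, Nat.card_pos.ne'⟩
      have h1 : p ∣ Nat.card (Subgroup.centralizer ({y} : Set T)) := by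
        rw [hk]; exact dvd_pow_self p hk0
      exact h1.trans (Subgroup.card_subgroup_dvd_card _)
    · rw [Finset.mem_filter]
      refine ⟨Finset.mem_univ _, hy, ?_⟩
      rw [hk, hkf]
  have hB : ∀ p ∈ n.primeFactors, (X p).Nonempty → ((X p).card + 1) * p ^ 2 ≤ n := by
    intro p hp hne
    exact hR.card_type_le hperf (Nat.prime_of_mem_primeFactors hp) (X p) (hXmem p) hne
  let a : ℕ → ℕ := fun p => if (X p).Nonempty then (X p).card + 1 else 0
  have ha : ∀ p ∈ n.primeFactors, a p * p ^ 2 ≤ n := by
    intro p hp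
    by_cases hne : (X p).Nonempty
    · simp only [a, hne, if_true]; exact hB p hp hne
    · simp only [a, hne, if_false]; omega
  have haX : ∀ p ∈ n.primeFactors, (X p).card ≤ a p := by
    intro p _
    by_cases hne : (X p).Nonempty
    · simp only [a, hne, if_true]; omega
    · simp only [a, hne, if_false]
      rw [Finset.not_nonempty_iff_eq_empty] at hne
      rw [hne]; simp
  obtain ⟨p₀, hp₀, hxp₀⟩ := hA x hx
  have haX0 : (X p₀).card < a p₀ := by
    have hne : (X p₀).Nonempty := ⟨x, hxp₀⟩
    simp only [a, hne, if_true]; omega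
  have hsum1 : ∑ p ∈ n.primeFactors, (X p).card < ∑ p ∈ n.primeFactors, a p :=
    Finset.sum_lt_sum haX ⟨p₀, hp₀, haX0⟩
  have hcover : (Finset.univ.erase (1 : T)).card ≤ ∑ p ∈ n.primeFactors, (X p).card := by
    refine le_trans (Finset.card_le_card ?_) Finset.card_biUnion_le
    intro y hy
    rw [Finset.mem_erase] at hy
    obtain ⟨p, hp, hyp⟩ := hA y hy.1
    exact Finset.mem_biUnion.mpr ⟨p, hp, hyp⟩
  have hcard : (Finset.univ.erase (1 : T)).card = n - 1 := by
    rw [Finset.card_erase_of_mem (Finset.mem_univ _), Finset.card_univ, hn, Nat.card_eq_fintype_card]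
  have hsum2 : n ≤ ∑ p ∈ n.primeFactors, a p := by omega
  -- the rational estimate
  have hq : ∀ p ∈ n.primeFactors, (a p : ℚ) ≤ (n : ℚ) * (1 / (p : ℚ) ^ 2) := by
    intro p hp
    have hpp := (Nat.prime_of_mem_primeFactors hp).pos
    have hp0 : (0 : ℚ) < (p : ℚ) ^ 2 := by positivity
    rw [mul_one_div, le_div_iff₀ hp0]
    exact_mod_cast ha p hp
  have hsum3 : ((∑ p ∈ n.primeFactors, a p : ℕ) : ℚ) ≤ (n : ℚ) * ∑ p ∈ n.primeFactors, 1 / (p : ℚ) ^ 2 := by
    rw [Nat.cast_sum, Finset.mul_sum]
    exact Finset.sum_le_sum hq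
  have hsub : n.primeFactors ⊆ Finset.Icc 2 n := by
    intro p hp
    rw [Finset.mem_Icc]
    exact ⟨(Nat.prime_of_mem_primeFactors hp).two_le,
      Nat.le_of_dvd (by omega) (Nat.dvd_of_mem_primeFactors hp)⟩
  have hsum4 : ∑ p ∈ n.primeFactors, 1 / (p : ℚ) ^ 2 ≤ ∑ m ∈ Finset.Icc 2 n, (1 : ℚ) / (m : ℚ) ^ 2 :=
    Finset.sum_le_sum_of_subset_of_nonneg hsub (fun m _ _ => by positivity)
  have hsum5 := sum_inv_sq_le n hn1
  have hn0 : (0 : ℚ) < n := by exact_mod_cast hn1
  have h6 : (n : ℚ) * ∑ p ∈ n.primeFactors, 1 / (p : ℚ) ^ 2 ≤ (n : ℚ) * (1 - 1 / n) :=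
    mul_le_mul_of_nonneg_left (hsum4.trans hsum5) hn0.le
  have h7 : (n : ℚ) * (1 - 1 / n) = n - 1 := by
    field_simp
  have h8 : (n : ℚ) ≤ ((∑ p ∈ n.primeFactors, a p : ℕ) : ℚ) := by exact_mod_cast hsum2
  linarith

end centralizers

section chain

variable {T : Type*} [Group T] {H : Type*} [Group H] {Ω : Type*} [MulAction H Ω]

omit [Group T] in
theorem starAct_injective (e : T ≃ Ω) (h : H) :
    Function.Injective (fun t : T => e.symm (h • e t)) := by
  intro a b hab
  have h1 : h • e a = h • e b := e.symm.injective hab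
  exact e.injective (smul_left_cancel h h1)

omit [Group T] in
theorem starAct_symm (e : T ≃ Ω) (h : H) (ω : Ω) :
    e.symm (h • ω) = (fun t : T => e.symm (h • e t)) (e.symm ω) := by
  simp

/-- the hypotheses of the chain lemma give rigid centralizers -/
theorem centRigid_of_action (e : T ≃ Ω)
    (hauto : ∀ h : H, IsAutoLike (fun t : T => e.symm (h • e t)))
    (hinn : ∀ g : T, ∃ h : H, ∀ t : T, h • e t = e (g * t * g⁻¹))
    (hprim : ∀ t : T, t ≠ 1 → IsPreprimitive H (orbit H (e t)))
    (hT0 : ∀ A : Subgroup T, A.Normal → (∀ a ∈ A, ∀ b ∈ A, a * b = b * a) → A = ⊥) :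
    CentRigid T := by
  have horb : ∀ (x g : T), e (g * x * g⁻¹) ∈ orbit H (e x) := by
    intro x g
    obtain ⟨h, hh⟩ := hinn g
    exact ⟨h, hh x⟩
  constructor
  · intro x hx g hc
    let r : Ω → Set T := fun ω => {z | z * e.symm ω = e.symm ω * z}
    have hr : ∀ (h : H) (a b : Ω), r a = r b → r (h • a) = r (h • b) := by
      intro h a b hab
      have key : ∀ (c : Ω) (z : T), z ∈ r (h • c) ↔ e.symm (h⁻¹ • e z) ∈ r c := by
        intro c z
        show z * e.symm (h • c) = e.symm (h • c) * z ↔
          e.symm (h⁻¹ • e z) * e.symm c = e.symm c * e.symm (h⁻¹ • e z)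
        rw [← (hauto h).comm_iff (starAct_injective e h) (e.symm (h⁻¹ • e z)) (e.symm c)]
        simp
      ext z
      rw [key a z, key b z, hab]
    rcases orbit_dichotomy r hr (e x) (hprim x hx) with hall | hsing
    · exfalso
      have hconj : ∀ g' z : T, z * (g' * x * g'⁻¹) = (g' * x * g'⁻¹) * z ↔ z * x = x * z := by
        intro g' z
        have h1 := hall _ (horb x g')
        have h2 : z ∈ r (e (g' * x * g'⁻¹)) ↔ z ∈ r (e x) := by rw [h1]
        simpa [r] using h2
      set C := Subgroup.centralizer ({x} : Set T) with hC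
      let A : Subgroup T := Subgroup.centralizer (C : Set T) ⊓ C
      have hAn : A.Normal := by
        constructor
        intro n hn g'
        have hn' : n ∈ Subgroup.centralizer (C : Set T) ∧ n ∈ C := Subgroup.mem_inf.mp hn
        obtain ⟨hn1, hn2⟩ := hn'
        have hn2' : n * x = x * n := mem_cent_singleton.mp hn2
        apply Subgroup.mem_inf.mpr
        refine ⟨?_, ?_⟩
        · rw [Subgroup.mem_centralizer_iff]
          intro z hz
          have hz' : z * x = x * z := mem_cent_singleton.mp hz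
          have h3 : (g'⁻¹ * z * g') * x = x * (g'⁻¹ * z * g') :=
            (comm_conj_iff g' z x).mp ((hconj g' z).mpr hz')
          have h4 : g'⁻¹ * z * g' ∈ C := mem_cent_singleton.mpr h3
          rw [Subgroup.mem_centralizer_iff] at hn1
          exact (comm_conj_iff g' z n).mpr (hn1 _ h4)
        · rw [hC, mem_cent_singleton]
          have h3 := (hconj g'⁻¹ n).mpr hn2'
          have h4 := (comm_conj_iff g'⁻¹ n x).mp h3
          rw [inv_inv] at h4
          exact h4
      have hAc : ∀ a ∈ A, ∀ b ∈ A, a * b = b * a := by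
        intro a ha b hb
        have h1 := (Subgroup.mem_inf.mp ha).1
        rw [Subgroup.mem_centralizer_iff] at h1
        exact (h1 b (Subgroup.mem_inf.mp hb).2).symm
      have hxA : x ∈ A := by
        refine Subgroup.mem_inf.mpr ⟨?_, mem_cent_singleton.mpr rfl⟩
        rw [Subgroup.mem_centralizer_iff]
        intro z hz
        exact mem_cent_singleton.mp hz
      rw [hT0 A hAn hAc, Subgroup.mem_bot] at hxA
      exact hx hxA
    · have h1 : r (e (g * x * g⁻¹)) = r (e x) := by
        ext z
        simpa [r] using hc z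
      exact e.injective (hsing _ (horb x g) h1)
  · intro x i hxi g hg
    have hx : x ≠ 1 := by
      rintro rfl
      exact hxi (one_pow i)
    let r : Ω → T := fun ω => (e.symm ω) ^ i
    have hr : ∀ (h : H) (a b : Ω), r a = r b → r (h • a) = r (h • b) := by
      intro h a b hab
      show (e.symm (h • a)) ^ i = (e.symm (h • b)) ^ i
      rw [starAct_symm e h a, starAct_symm e h b, ← (hauto h).map_pow, ← (hauto h).map_pow]
      have hab' : (e.symm a) ^ i = (e.symm b) ^ i := hab
      rw [hab']
    rcases orbit_dichotomy r hr (e x) (hprim x hx) with hall | hsing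
    · exfalso
      have hcen : x ^ i ∈ Subgroup.center T := by
        rw [Subgroup.mem_center_iff]
        intro g'
        have h1 := hall _ (horb x g')
        have h2 : (g' * x * g'⁻¹) ^ i = x ^ i := by simpa [r] using h1
        rw [conj_pow] at h2
        calc g' * x ^ i = g' * x ^ i * g'⁻¹ * g' := by group
          _ = x ^ i * g' := by rw [h2]
      have hcc : ∀ a ∈ Subgroup.center T, ∀ b ∈ Subgroup.center T, a * b = b * a := by
        intro a ha b _
        exact ((Subgroup.mem_center_iff.mp ha) b).symm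
      rw [hT0 (Subgroup.center T) inferInstance hcc, Subgroup.mem_bot] at hcen
      exact hxi hcen
    · have h1 : r (e (g * x * g⁻¹)) = r (e x) := by
        show (e.symm (e (g * x * g⁻¹))) ^ i = (e.symm (e x)) ^ i
        rw [Equiv.symm_apply_apply, Equiv.symm_apply_apply, conj_pow, hg]
        group
      have h2 : g * x * g⁻¹ = x := e.injective (hsing _ (horb x g) h1)
      calc g * x = g * x * g⁻¹ * g := by group
        _ = x * g := by rw [h2]

/-- **Chain lemma.**  A finite perfect group `T` without non-trivial abelian normal subgroups, identified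
with a set `Ω` on which `H` acts through automorphisms and anti-automorphisms of `T`, including all inner
ones, and primitively on the orbit of every non-identity element, is trivial. -/
theorem chain_eq_one [Finite T] (e : T ≃ Ω)
    (hauto : ∀ h : H, IsAutoLike (fun t : T => e.symm (h • e t)))
    (hinn : ∀ g : T, ∃ h : H, ∀ t : T, h • e t = e (g * t * g⁻¹))
    (hprim : ∀ t : T, t ≠ 1 → IsPreprimitive H (orbit H (e t)))
    (hT0 : ∀ A : Subgroup T, A.Normal → (∀ a ∈ A, ∀ b ∈ A, a * b = b * a) → A = ⊥)
    (hperf : commutator T = ⊤) (x : T) : x = 1 :=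
  (centRigid_of_action e hauto hinn hprim hT0).eq_one hperf x

end chain

end Cfsg.Agent.Helper58
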