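import Cfsg.Agent.Helper58.ChainLemma

/-!
# Regular commuting pairs in extremely primitive groups (helper58)

`regular_pair_eq_bot`: let `G` act on `Ω`, `α : Ω`, and let `T`, `C` be subgroups of `G` commuting
elementwise, `T` regular and `C` transitive, such that every element of the stabilizer `G_α` conjugates
`T` into `T` or into `C`.  If `G_α` is primitive on each of its orbits other than `{α}`, and `T` is perfect
without non-trivial abelian normal subgroups, then `T` is trivial.  (This kills the holomorph-type and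
diagonal-type configurations `T × T` acting on `T`.)
-/

set_option autoImplicit false

namespace Cfsg.Agent.Helper58

open MulAction

theorem regular_pair_eq_bot {G : Type*} [Group G] [Finite G] {Ω : Type*} [MulAction G Ω] (α : Ω)
    (T C : Subgroup G)
    (hTtr : ∀ ω : Ω, ∃ t ∈ T, t • α = ω)
    (hTfree : ∀ t ∈ T, t • α = α → t = 1)
    (hCtr : ∀ ω : Ω, ∃ c ∈ C, c • α = ω)
    (hcomm : ∀ t ∈ T, ∀ c ∈ C, t * c = c * t)
    (hperm : ∀ h ∈ stabilizer G α, (∀ t ∈ T, h * t * h⁻¹ ∈ T) ∨ (∀ t ∈ T, h * t * h⁻¹ ∈ C))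
    (hep : ∀ ω : Ω, ω ≠ α → IsPreprimitive (stabilizer G α) (orbit (stabilizer G α) ω))
    (hT0 : ∀ A : Subgroup T, A.Normal → (∀ a ∈ A, ∀ b ∈ A, a * b = b * a) → A = ⊥)
    (hperf : commutator T = ⊤) : T = ⊥ := by
  have hinj : Function.Injective (fun t : T => (t : G) • α) := by
    intro a b hab
    have hab' : (a : G) • α = (b : G) • α := hab
    have h1 : ((b : G)⁻¹ * (a : G)) • α = α := by
      rw [mul_smul, hab', inv_smul_smul]
    have h2 := hTfree _ (T.mul_mem (T.inv_mem b.2) a.2) h1
    apply Subtype.ext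
    calc (a : G) = (b : G) * ((b : G)⁻¹ * (a : G)) := by group
      _ = (b : G) := by rw [h2, mul_one]
  have hsurj : Function.Surjective (fun t : T => (t : G) • α) := by
    intro ω
    obtain ⟨t, ht, htω⟩ := hTtr ω
    exact ⟨⟨t, ht⟩, htω⟩
  let e : T ≃ Ω := Equiv.ofBijective _ ⟨hinj, hsurj⟩
  have he : ∀ t : T, e t = (t : G) • α := fun _ => rfl
  have hsmul : ∀ (h : stabilizer G α) (ω : Ω), h • ω = (h : G) • ω := fun _ _ => rfl
  have hfix : ∀ h : stabilizer G α, (h : G) • α = α := fun h => h.2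
  have hfix' : ∀ h : stabilizer G α, (h : G)⁻¹ • α = α := fun h => by
    rw [inv_smul_eq_iff, hfix h]
  -- the action of a stabilizer element on T
  have hconj : ∀ (h : stabilizer G α) (t : T), h • e t = ((h : G) * (t : G) * (h : G)⁻¹) • α := by
    intro h t
    rw [hsmul, he, mul_smul, mul_smul, hfix' h]
  have hauto : ∀ h : stabilizer G α, IsAutoLike (fun t : T => e.symm (h • e t)) := by
    intro h
    rcases hperm (h : G) h.2 with hT | hC
    · left
      have key : ∀ t : T, e.symm (h • e t) = ⟨(h : G) * (t : G) * (h : G)⁻¹, hT _ t.2⟩ := by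
        intro t
        rw [Equiv.symm_apply_eq, hconj, he]
      intro a b
      show e.symm (h • e (a * b)) = e.symm (h • e a) * e.symm (h • e b)
      rw [key, key, key]
      apply Subtype.ext
      show (h : G) * ((a : G) * (b : G)) * (h : G)⁻¹ =
        ((h : G) * (a : G) * (h : G)⁻¹) * ((h : G) * (b : G) * (h : G)⁻¹)
      group
    · right
      have anti : ∀ c₁ ∈ C, ∀ c₂ ∈ C,
          e.symm ((c₁ * c₂) • α) = e.symm (c₂ • α) * e.symm (c₁ • α) := by
        intro c₁ hc₁ c₂ hc₂
        rw [Equiv.symm_apply_eq, he]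
        have h1 : ((e.symm (c₁ • α) : T) : G) • α = c₁ • α := by
          rw [← he, Equiv.apply_symm_apply]
        have h2 : ((e.symm (c₂ • α) : T) : G) • α = c₂ • α := by
          rw [← he, Equiv.apply_symm_apply]
        show (c₁ * c₂) • α = (((e.symm (c₂ • α) : T) : G) * ((e.symm (c₁ • α) : T) : G)) • α
        symm
        calc (((e.symm (c₂ • α) : T) : G) * ((e.symm (c₁ • α) : T) : G)) • α
            = ((e.symm (c₂ • α) : T) : G) • c₁ • α := by rw [mul_smul, h1]
          _ = (((e.symm (c₂ • α) : T) : G) * c₁) • α := by rw [mul_smul]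
          _ = (c₁ * ((e.symm (c₂ • α) : T) : G)) • α := by
              rw [hcomm _ (e.symm (c₂ • α)).2 c₁ hc₁]
          _ = (c₁ * c₂) • α := by rw [mul_smul, h2, mul_smul]
      intro a b
      show e.symm (h • e (a * b)) = e.symm (h • e b) * e.symm (h • e a)
      rw [hconj, hconj, hconj]
      have h3 : (h : G) * ((a * b : T) : G) * (h : G)⁻¹ =
          ((h : G) * (a : G) * (h : G)⁻¹) * ((h : G) * (b : G) * (h : G)⁻¹) := by
        show (h : G) * ((a : G) * (b : G)) * (h : G)⁻¹ = _
        group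
      rw [h3]
      exact anti _ (hC _ a.2) _ (hC _ b.2)
  have hinn : ∀ g : T, ∃ h : stabilizer G α, ∀ t : T, h • e t = e (g * t * g⁻¹) := by
    intro g
    obtain ⟨c, hc, hcα⟩ := hCtr ((g : G)⁻¹ • α)
    have hmem : (g : G) * c ∈ stabilizer G α := by
      rw [mem_stabilizer_iff, mul_smul, hcα, smul_inv_smul]
    refine ⟨⟨(g : G) * c, hmem⟩, ?_⟩
    intro t
    rw [hsmul, he, he]
    show ((g : G) * c) • (t : G) • α = ((g : G) * (t : G) * (g : G)⁻¹) • α
    rw [← mul_smul, mul_assoc, ← hcomm _ t.2 c hc, ← mul_assoc, mul_smul, hcα, ← mul_smul]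
  have hprim : ∀ t : T, t ≠ 1 → IsPreprimitive (stabilizer G α) (orbit (stabilizer G α) (e t)) := by
    intro t ht
    apply hep
    intro h
    apply ht
    apply Subtype.ext
    exact hTfree _ t.2 h
  rw [eq_bot_iff]
  intro t ht
  have := chain_eq_one e hauto hinn hprim hT0 hperf ⟨t, ht⟩
  rw [Subgroup.mem_bot]
  exact congrArg Subtype.val this

end Cfsg.Agent.Helper58
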