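import Cfsg.Agent.Helper58.Manning
import Cfsg.Agent.Helper58.RegularPair
import Cfsg.Agent.Helper58.MinNormal

/-!
# Extremely primitive groups are affine or almost simple (helper58)

Main result `affine_or_almost_simple`: a finite faithful primitive group whose point stabilizers are
primitive on each of their orbits has a regular abelian normal subgroup, or a non-abelian simple normal
subgroup with trivial centralizer.  The proof is elementary (no O'Nan–Scott, no Feit–Thompson): it uses
Manning's theorem, the chain lemma (`regular_pair_eq_bot`) and a diagonal fixed-point argument.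
-/

set_option autoImplicit false

namespace Cfsg.Agent.Helper58

open MulAction

section basic

variable {G : Type*} [Group G] {Ω : Type*} [MulAction G Ω]

/-- an element centralizing a transitive subgroup and fixing a point is trivial -/
theorem eq_one_of_comm_of_transitive [FaithfulSMul G Ω] {K : Subgroup G} (α : Ω)
    (hKtr : ∀ ω : Ω, ∃ k ∈ K, k • α = ω) {c : G} (hc : ∀ k ∈ K, c * k = k * c) (hcα : c • α = α) :
    c = 1 := by
  apply FaithfulSMul.eq_of_smul_eq_smul (α := Ω)
  intro ω
  obtain ⟨k, hk, rfl⟩ := hKtr ω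
  rw [one_smul, ← mul_smul, hc k hk, mul_smul, hcα]

/-- a non-trivial normal subgroup of a faithful primitive group is transitive -/
theorem exists_mem_smul_eq_of_normal_of_prim [FaithfulSMul G Ω] [IsPreprimitive G Ω] {K : Subgroup G}
    (hKn : ∀ g : G, ∀ k ∈ K, g * k * g⁻¹ ∈ K) (hK : K ≠ ⊥) (α ω : Ω) : ∃ k ∈ K, k • α = ω := by
  have hn : K.Normal := ⟨fun k hk g => hKn g k hk⟩
  have hfix : fixedPoints K Ω ≠ Set.univ := by
    intro h
    apply hK
    rw [eq_bot_iff]
    intro k hk
    rw [Subgroup.mem_bot]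
    apply FaithfulSMul.eq_of_smul_eq_smul (α := Ω)
    intro x
    have hx : x ∈ fixedPoints K Ω := by rw [h]; trivial
    rw [one_smul]
    exact hx ⟨k, hk⟩
  have htr : IsPretransitive K Ω := IsQuasiPreprimitive.isPretransitive_of_normal hfix
  obtain ⟨k, hk⟩ := htr.exists_smul_eq α ω
  exact ⟨k, k.2, hk⟩

/-- a set containing `α`, invariant under the stabilizer of `α` and under a subgroup `K` not fixing `α`,
is everything (primitive action) -/
theorem mem_of_invariant [IsPreprimitive G Ω] (α : Ω) (K : Subgroup G) (B : Set Ω) (hα : α ∈ B)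
    (hHB : ∀ h ∈ stabilizer G α, ∀ x ∈ B, h • x ∈ B) (hKB : ∀ k ∈ K, ∀ x ∈ B, k • x ∈ B)
    (hKα : ¬ K ≤ stabilizer G α) (ω : Ω) : ω ∈ B := by
  have hnt : Nontrivial Ω := by
    by_contra hcon
    rw [not_nontrivial_iff_subsingleton] at hcon
    apply hKα
    intro k _
    exact Subsingleton.elim _ _
  have hco : IsCoatom (stabilizer G α) := IsPreprimitive.isCoatom_stabilizer_of_isPreprimitive G α
  let L : Subgroup G :=
    { carrier := {g | ∀ x, x ∈ B ↔ g • x ∈ B}
      one_mem' := by intro x; rw [one_smul]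
      mul_mem' := by
        intro a b ha hb x
        rw [mul_smul]
        exact (hb x).trans (ha _)
      inv_mem' := by
        intro a ha x
        have := ha (a⁻¹ • x)
        rw [smul_inv_smul] at this
        exact this.symm }
  have hHL : stabilizer G α ≤ L := by
    intro h hh x
    refine ⟨hHB h hh x, fun hx => ?_⟩
    have := hHB h⁻¹ (inv_mem hh) _ hx
    rwa [inv_smul_smul] at this
  have hKL : K ≤ L := by
    intro k hk x
    refine ⟨hKB k hk x, fun hx => ?_⟩
    have := hKB k⁻¹ (inv_mem hk) _ hx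
    rwa [inv_smul_smul] at this
  have htop : stabilizer G α ⊔ K = ⊤ := by
    apply hco.2
    refine lt_of_le_of_ne le_sup_left ?_
    intro h1
    apply hKα
    rw [h1]
    exact le_sup_right
  obtain ⟨g, rfl⟩ := exists_smul_eq G α ω
  have hg : g ∈ L := (sup_le hHL hKL) (by rw [htop]; exact Subgroup.mem_top g)
  exact (hg α).mp hα

/-- in a primitive group, a subgroup normalized by a point stabilizer and not contained in it is
transitive -/
theorem transitive_of_stabilizer_inv [IsPreprimitive G Ω] (α : Ω) (K : Subgroup G)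
    (hKH : ∀ h ∈ stabilizer G α, ∀ k ∈ K, h * k * h⁻¹ ∈ K) (hKα : ¬ K ≤ stabilizer G α) (ω : Ω) :
    ∃ k ∈ K, k • α = ω := by
  apply mem_of_invariant α K {x | ∃ k ∈ K, k • α = x} ⟨1, K.one_mem, one_smul _ _⟩ _ _ hKα ω
  · rintro h hh _ ⟨k, hk, rfl⟩
    refine ⟨h * k * h⁻¹, hKH h hh k hk, ?_⟩
    have hh' : h • α = α := hh
    have h1 : h⁻¹ • α = α := by rw [inv_smul_eq_iff, hh']
    rw [mul_smul, mul_smul, h1]
  · rintro k' hk' _ ⟨k, hk, rfl⟩
    exact ⟨k' * k, K.mul_mem hk' hk, mul_smul _ _ _⟩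

/-- commuting generators generate a commutative subgroup -/
theorem comm_of_mem_closure {S : Set G} (hS : ∀ x ∈ S, ∀ y ∈ S, x * y = y * x) {a b : G}
    (ha : a ∈ Subgroup.closure S) (hb : b ∈ Subgroup.closure S) : a * b = b * a := by
  have hc1 : ∀ s ∈ S, ∀ x ∈ Subgroup.closure S, s * x = x * s := by
    intro s hs x hx
    have h1 : Subgroup.closure S ≤ Subgroup.centralizer ({s} : Set G) := by
      rw [Subgroup.closure_le]
      intro y hy
      rw [SetLike.mem_coe, Subgroup.mem_centralizer_iff]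
      rintro _ rfl
      exact hS _ hs y hy
    have := h1 hx
    rw [Subgroup.mem_centralizer_iff] at this
    exact this s rfl
  have h1 : Subgroup.closure S ≤ Subgroup.centralizer ({a} : Set G) := by
    rw [Subgroup.closure_le]
    intro y hy
    rw [SetLike.mem_coe, Subgroup.mem_centralizer_iff]
    rintro _ rfl
    exact (hc1 y hy _ ha).symm
  have := h1 hb
  rw [Subgroup.mem_centralizer_iff] at this
  exact this a rfl

/-- the subgroup generated by a set invariant under conjugation by `g` is invariant -/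
theorem conj_mem_closure {S : Set G} {g : G} (hS : ∀ x ∈ S, g * x * g⁻¹ ∈ S) {x : G}
    (hx : x ∈ Subgroup.closure S) : g * x * g⁻¹ ∈ Subgroup.closure S := by
  have h1 : (MulAut.conj g).toMonoidHom x ∈ (Subgroup.closure S).map (MulAut.conj g).toMonoidHom :=
    Subgroup.mem_map_of_mem _ hx
  have h2 : (Subgroup.closure S).map (MulAut.conj g).toMonoidHom ≤ Subgroup.closure S := by
    rw [MonoidHom.map_closure, Subgroup.closure_le]
    rintro _ ⟨y, hy, rfl⟩
    exact Subgroup.subset_closure (hS y hy)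
  exact h2 h1

end basic

section main

set_option linter.unusedSectionVars false

variable {G : Type*} [Group G] [Finite G] {Ω : Type*} [Finite Ω] [MulAction G Ω] [FaithfulSMul G Ω]

/-- In an extremely primitive group with non-trivial point stabilizers, let `N` be a normal subgroup
meeting the stabilizer of `α` non-trivially.  Then every non-trivial subgroup normalized by `N` is
transitive. -/
theorem transitive_of_inv [IsPreprimitive G Ω]
    (hH : ∀ α : Ω, stabilizer G α ≠ ⊥)
    (hep : ∀ (α ω : Ω), IsPreprimitive (stabilizer G α) (orbit (stabilizer G α) ω)) (α : Ω)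
    (N : Subgroup G) (hNtr : ∀ ω : Ω, ∃ n ∈ N, n • α = ω) (hNn : ∀ g : G, ∀ n ∈ N, g * n * g⁻¹ ∈ N)
    (hNα : N ⊓ stabilizer G α ≠ ⊥) (K : Subgroup G) (hK : K ≠ ⊥)
    (hKinv : ∀ n ∈ N, ∀ k ∈ K, n * k * n⁻¹ ∈ K) (ω : Ω) : ∃ k ∈ K, k • α = ω := by
  have hKα : ¬ K ≤ stabilizer G α := by
    intro hle
    apply hK
    rw [eq_bot_iff]
    intro k hk
    rw [Subgroup.mem_bot]
    apply FaithfulSMul.eq_of_smul_eq_smul (α := Ω)
    intro x
    obtain ⟨n, hn, rfl⟩ := hNtr x
    have h1 : n⁻¹ * k * n⁻¹⁻¹ ∈ K := hKinv _ (N.inv_mem hn) k hk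
    have h2 : (n⁻¹ * k * n⁻¹⁻¹) • α = α := hle h1
    rw [inv_inv, mul_smul, mul_smul, inv_smul_eq_iff] at h2
    rw [one_smul]
    exact h2
  have hMle : N ⊓ stabilizer G α ≤ stabilizer G α := inf_le_right
  have hMn : stabilizer G α ≤ Subgroup.normalizer ((N ⊓ stabilizer G α : Subgroup G) : Set G) := by
    rw [Subgroup.le_normalizer_iff]
    intro h hh m hm
    obtain ⟨hm1, hm2⟩ := Subgroup.mem_inf.mp hm
    exact Subgroup.mem_inf.mpr ⟨hNn h m hm1,
      (stabilizer G α).mul_mem ((stabilizer G α).mul_mem hh hm2) (inv_mem hh)⟩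
  apply mem_of_invariant α K {x | ∃ k ∈ K, k • α = x} ⟨1, K.one_mem, one_smul _ _⟩ _ _ hKα ω
  · rintro h hh _ ⟨k, hk, rfl⟩
    have hh' : h • α = α := hh
    by_cases hkα : k • α = α
    · rw [hkα, hh']; exact ⟨1, K.one_mem, one_smul _ _⟩
    · have hmove : ∃ m ∈ N ⊓ stabilizer G α, m • (k • α) ≠ k • α := by
        by_contra hcon
        push Not at hcon
        apply hNα
        rw [eq_bot_iff, ← orbKer_eq_bot hH hep hkα]
        intro m hm
        refine ⟨hMle hm, ?_⟩
        rintro _ ⟨h', rfl⟩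
        show m • (h' : G) • k • α = (h' : G) • k • α
        have h1 : (h' : G)⁻¹ * m * (h' : G)⁻¹⁻¹ ∈ N ⊓ stabilizer G α :=
          (Subgroup.le_normalizer_iff.mp hMn) _ (inv_mem h'.2) m hm
        have h2 := hcon _ h1
        rw [inv_inv, mul_smul, mul_smul, inv_smul_eq_iff] at h2
        exact h2
      obtain ⟨m, hm, hmy⟩ := exists_mem_smul_eq_of_normal (N ⊓ stabilizer G α) hMle hMn
        (hep α (k • α)) hmove (y := h • k • α) ⟨⟨h, hh⟩, rfl⟩
      rw [← hmy]
      have hmN : m ∈ N := (Subgroup.mem_inf.mp hm).1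
      have hmα : m • α = α := hMle hm
      refine ⟨m * k * m⁻¹, hKinv m hmN k hk, ?_⟩
      rw [mul_smul, mul_smul, inv_smul_eq_iff.mpr hmα.symm]
  · rintro k' hk' _ ⟨k, hk, rfl⟩
    exact ⟨k' * k, K.mul_mem hk' hk, mul_smul _ _ _⟩

/-- A regular non-abelian minimal normal subgroup `N` of a primitive group whose point stabilizer is
primitive on its orbits is simple: a proper minimal normal subgroup `T` of `N` is impossible. -/
theorem regular_minInv_false [IsPreprimitive G Ω] (α : Ω)
    (hep : ∀ ω : Ω, IsPreprimitive (stabilizer G α) (orbit (stabilizer G α) ω))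
    {N T : Subgroup G} (hN : IsMinInv ⊤ N) (hreg : N ⊓ stabilizer G α = ⊥) (hT : IsMinInv N T)
    (hTN : T ≤ N) (hTne : T ≠ N) (hTna : ¬ ∀ a ∈ T, ∀ b ∈ T, a * b = b * a) : False := by
  have hNn : ∀ g : G, ∀ n ∈ N, g * n * g⁻¹ ∈ N := fun g n hn => hN.2.1 g (Subgroup.mem_top g) n hn
  have hNn' : ∀ g : G, ∀ n ∈ N, g⁻¹ * n * g ∈ N := fun g n hn => by
    have := hNn g⁻¹ n hn
    rwa [inv_inv] at this
  have hNtr : ∀ ω : Ω, ∃ n ∈ N, n • α = ω := exists_mem_smul_eq_of_normal_of_prim hNn hN.1 α
  have hfree : ∀ n ∈ N, n • α = α → n = 1 := by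
    intro n hn hnα
    have : n ∈ N ⊓ stabilizer G α := Subgroup.mem_inf.mpr ⟨hn, hnα⟩
    rw [hreg, Subgroup.mem_bot] at this
    exact this
  have hinj : ∀ a ∈ N, ∀ b ∈ N, a • α = b • α → a = b := by
    intro a ha b hb hab
    have h1 : (b⁻¹ * a) • α = α := by rw [mul_smul, hab, inv_smul_smul]
    have h2 := hfree _ (N.mul_mem (N.inv_mem hb) ha) h1
    calc a = b * (b⁻¹ * a) := by group
      _ = b := by rw [h2, mul_one]
  have hcj : ∀ g : G, IsMinInv N (cj g T) := fun g => hT.conj (hNn' g) (hNn g)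
  have hcjN : ∀ g : G, cj g T ≤ N := by
    intro g x hx
    rw [mem_cj] at hx
    have := hNn g _ (hTN hx)
    have e : g * (g⁻¹ * x * g) * g⁻¹ = x := by group
    rwa [e] at this
  -- a non-trivial element of T
  obtain ⟨t₀, ht₀, ht₀1⟩ : ∃ t ∈ T, t ≠ 1 := by
    by_contra hcon
    push Not at hcon
    exact hT.1 (by rw [eq_bot_iff]; intro t ht; exact hcon t ht)
  have ht₀α : t₀ • α ≠ α := fun h => ht₀1 (hfree t₀ (hTN ht₀) h)
  have hsmul : ∀ h ∈ stabilizer G α, ∀ t : G, h • t • α = (h * t * h⁻¹) • α := by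
    intro h hh t
    have hh' : h • α = α := hh
    have h1 : h⁻¹ • α = α := by rw [inv_smul_eq_iff, hh']
    rw [mul_smul, mul_smul, h1]
  -- criterion for `cj g T = T`
  have hcjeq : ∀ g : G, ∀ t ∈ T, t ≠ 1 → g * t * g⁻¹ ∈ T → cj g T = T := by
    intro g t ht ht1 hgt
    rcases (hcj g).eq_or_inf_eq_bot hT with h | h
    · exact h
    · exfalso
      have : g * t * g⁻¹ ∈ cj g T ⊓ T := Subgroup.mem_inf.mpr ⟨conj_mem_cj ht, hgt⟩
      rw [h, Subgroup.mem_bot] at this
      apply ht1
      calc t = g⁻¹ * (g * t * g⁻¹) * g := by group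
        _ = 1 := by rw [this]; group
  -- the block
  let B : Set (orbit (stabilizer G α) (t₀ • α)) := {y | ∃ t ∈ T, t • α = (y : Ω)}
  have hBinv : ∀ h : stabilizer G α, cj (h : G) T = T → ∀ y ∈ B, h • y ∈ B := by
    rintro h hh y ⟨t, ht, hty⟩
    refine ⟨(h : G) * t * (h : G)⁻¹, ?_, ?_⟩
    · rw [← hh]; exact conj_mem_cj ht
    · rw [← hsmul _ h.2, hty]; rfl
  have hB : IsBlock (stabilizer G α) B := by
    rw [isBlock_iff_smul_eq_of_mem]
    rintro h y ⟨t, ht, hty⟩ ⟨t', ht', hty'⟩
    have ht1 : t ≠ 1 := by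
      rintro rfl
      rw [one_smul] at hty
      obtain ⟨h', hh'⟩ := y.2
      have h2 : (h' : G) • t₀ • α = α := (show (h' : G) • t₀ • α = (y : Ω) from hh').trans hty.symm
      have h3 : (h' : G) • α = α := h'.2
      exact ht₀α (smul_left_cancel (h' : G) (h2.trans h3.symm))
    have h1 : (h : G) * t * (h : G)⁻¹ = t' := by
      apply hinj _ (hNn _ _ (hTN ht)) _ (hTN ht')
      rw [← hsmul _ h.2, hty, hty']; rfl
    have hc : cj (h : G) T = T := hcjeq _ t ht ht1 (by rw [h1]; exact ht')
    have hc' : cj ((h⁻¹ : stabilizer G α) : G) T = T := by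
      have := cj_cj_inv (h : G)⁻¹ T
      rw [inv_inv, hc] at this
      exact this
    ext z
    rw [Set.mem_smul_set_iff_inv_smul_mem]
    constructor
    · intro hz
      have := hBinv h hc _ hz
      rwa [smul_inv_smul] at this
    · intro hz
      exact hBinv h⁻¹ hc' z hz
  have hy₀ : (⟨t₀ • α, mem_orbit_self _⟩ : orbit (stabilizer G α) (t₀ • α)) ∈ B := ⟨t₀, ht₀, rfl⟩
  have hprim := hep (t₀ • α)
  rcases hprim.isTrivialBlock_of_isBlock hB with hsub | huniv
  · -- the conjugates of `t₀` under the stabilizer commute pairwise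
    have key : ∀ h ∈ stabilizer G α, h * t₀ * h⁻¹ ∈ T → h * t₀ * h⁻¹ = t₀ := by
      intro h hh hht
      have hy₁ : (⟨h • t₀ • α, ⟨⟨h, hh⟩, rfl⟩⟩ : orbit (stabilizer G α) (t₀ • α)) ∈ B :=
        ⟨h * t₀ * h⁻¹, hht, (hsmul h hh t₀).symm⟩
      have := congrArg Subtype.val (hsub hy₁ hy₀)
      apply hinj _ (hTN hht) _ (hTN ht₀)
      rw [← hsmul h hh]
      exact this
    let S : Set G := {x | ∃ h ∈ stabilizer G α, x = h * t₀ * h⁻¹}
    have hScomm : ∀ x ∈ S, ∀ y ∈ S, x * y = y * x := by
      rintro _ ⟨h₁, hh₁, rfl⟩ _ ⟨h₂, hh₂, rfl⟩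
      by_cases heq : cj h₁ T = cj h₂ T
      · have h1 : h₂ * t₀ * h₂⁻¹ ∈ cj h₁ T := by rw [heq]; exact conj_mem_cj ht₀
        rw [mem_cj] at h1
        have e : h₁⁻¹ * (h₂ * t₀ * h₂⁻¹) * h₁ = (h₁⁻¹ * h₂) * t₀ * (h₁⁻¹ * h₂)⁻¹ := by group
        rw [e] at h1
        have h2 := key _ ((stabilizer G α).mul_mem (inv_mem hh₁) hh₂) h1
        have h3 : h₂ * t₀ * h₂⁻¹ = h₁ * t₀ * h₁⁻¹ := by
          calc h₂ * t₀ * h₂⁻¹ = h₁ * ((h₁⁻¹ * h₂) * t₀ * (h₁⁻¹ * h₂)⁻¹) * h₁⁻¹ := by group
            _ = h₁ * t₀ * h₁⁻¹ := by rw [h2]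
        rw [h3]
      · exact (hcj h₁).comm_of_ne (hcj h₂) (hcjN h₁) (hcjN h₂) heq (conj_mem_cj ht₀)
          (conj_mem_cj ht₀)
    have hDinv : ∀ h ∈ stabilizer G α, ∀ d ∈ Subgroup.closure S, h * d * h⁻¹ ∈ Subgroup.closure S := by
      intro h hh d hd
      apply conj_mem_closure _ hd
      rintro _ ⟨h', hh', rfl⟩
      exact ⟨h * h', (stabilizer G α).mul_mem hh hh', by group⟩
    have ht₀D : t₀ ∈ Subgroup.closure S :=
      Subgroup.subset_closure ⟨1, (stabilizer G α).one_mem, by group⟩
    have hDα : ¬ Subgroup.closure S ≤ stabilizer G α := fun hle => ht₀α (hle ht₀D)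
    have hDN : Subgroup.closure S ≤ N := by
      rw [Subgroup.closure_le]
      rintro _ ⟨h, _, rfl⟩
      exact hNn h t₀ (hTN ht₀)
    apply hTna
    have hmem : ∀ t ∈ T, t ∈ Subgroup.closure S := by
      intro t ht
      obtain ⟨d, hd, hdα⟩ := transitive_of_stabilizer_inv α (Subgroup.closure S) hDinv hDα (t • α)
      rw [← hinj d (hDN hd) t (hTN ht) hdα]
      exact hd
    intro a ha b hb
    exact comm_of_mem_closure hScomm (hmem a ha) (hmem b hb)
  · -- `T` is normalized by the stabilizer, hence normal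
    have hTH : ∀ h ∈ stabilizer G α, cj h T = T := by
      intro h hh
      have hy₁ : (⟨h • t₀ • α, ⟨⟨h, hh⟩, rfl⟩⟩ : orbit (stabilizer G α) (t₀ • α)) ∈ B := by
        rw [huniv]; exact Set.mem_univ _
      obtain ⟨t, ht, hty⟩ := hy₁
      have h1 : t = h * t₀ * h⁻¹ := by
        apply hinj _ (hTN ht) _ (hNn _ _ (hTN ht₀))
        rw [← hsmul h hh]
        exact hty
      exact hcjeq h t₀ ht₀ ht₀1 (by rw [← h1]; exact ht)
    apply hTne
    apply hN.2.2 T hTN hT.1
    intro g _ t ht
    obtain ⟨n, hn, hnα⟩ := hNtr (g • α)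
    have hh : n⁻¹ * g ∈ stabilizer G α := by
      show (n⁻¹ * g) • α = α
      rw [mul_smul, inv_smul_eq_iff, hnα]
    have h1 : (n⁻¹ * g) * t * (n⁻¹ * g)⁻¹ ∈ T := by
      have h0 : (n⁻¹ * g) * t * (n⁻¹ * g)⁻¹ ∈ cj (n⁻¹ * g) T := conj_mem_cj ht
      rwa [hTH _ hh] at h0
    have h2 := hT.2.1 n hn _ h1
    have e : n * ((n⁻¹ * g) * t * (n⁻¹ * g)⁻¹) * n⁻¹ = g * t * g⁻¹ := by group
    rwa [e] at h2

/-- **Extremely primitive groups are affine or almost simple.**  A finite faithful primitive group whose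
point stabilizers are primitive on each of their orbits has a regular abelian normal subgroup, or a
non-abelian simple normal subgroup with trivial centralizer. -/
theorem affine_or_almost_simple [Nontrivial Ω] [IsPreprimitive G Ω]
    (hep : ∀ (α ω : Ω), IsPreprimitive (stabilizer G α) (orbit (stabilizer G α) ω)) :
    (∃ N : Subgroup G, N.Normal ∧ N ≠ ⊥ ∧ IsMulCommutative N ∧ ∀ ω : Ω, stabilizer N ω = ⊥) ∨
    (∃ T : Subgroup G, T.Normal ∧ IsSimpleGroup T ∧ ¬ IsMulCommutative T ∧
      Subgroup.centralizer (T : Set G) = ⊥) := by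
  classical
  obtain ⟨α, β, hαβ⟩ := exists_pair_ne Ω
  have htop : (⊤ : Subgroup G) ≠ ⊥ := by
    intro h
    obtain ⟨g, hg⟩ := exists_smul_eq G α β
    have : g ∈ (⊥ : Subgroup G) := by rw [← h]; exact Subgroup.mem_top g
    rw [Subgroup.mem_bot] at this
    rw [this, one_smul] at hg
    exact hαβ hg
  obtain ⟨N, hN, -⟩ := exists_isMinInv (⊤ : Subgroup G) ⊤ htop (fun n _ k _ => Subgroup.mem_top _)
  have hNn : ∀ g : G, ∀ n ∈ N, g * n * g⁻¹ ∈ N := fun g n hn => hN.2.1 g (Subgroup.mem_top g) n hn
  have hNn' : ∀ g : G, ∀ n ∈ N, g⁻¹ * n * g ∈ N := fun g n hn => by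
    have := hNn g⁻¹ n hn
    rwa [inv_inv] at this
  have hNnormal : N.Normal := ⟨fun n hn g => hNn g n hn⟩
  have hNtr : ∀ α ω : Ω, ∃ n ∈ N, n • α = ω := exists_mem_smul_eq_of_normal_of_prim hNn hN.1
  by_cases hNab : ∀ a ∈ N, ∀ b ∈ N, a * b = b * a
  · left
    refine ⟨N, hNnormal, hN.1, ⟨⟨fun a b => Subtype.ext (hNab a a.2 b b.2)⟩⟩, ?_⟩
    intro ω
    rw [eq_bot_iff]
    intro n hn
    rw [Subgroup.mem_bot]
    apply Subtype.ext
    have hn' : (n : G) • ω = ω := hn
    exact eq_one_of_comm_of_transitive ω (hNtr ω) (fun k hk => hNab _ n.2 k hk) hn'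
  · -- stabilizers are non-trivial
    have hH : ∀ α : Ω, stabilizer G α ≠ ⊥ := by
      intro α₀ h0
      have hco : IsCoatom (stabilizer G α₀) := IsPreprimitive.isCoatom_stabilizer_of_isPreprimitive G α₀
      rw [h0] at hco
      apply hNab
      intro a _ b _
      by_cases ha : a = 1
      · rw [ha, one_mul, mul_one]
      · have h1 : Subgroup.zpowers a = ⊤ := by
          apply hco.2
          rw [bot_lt_iff_ne_bot]
          intro h2
          apply ha
          have : a ∈ Subgroup.zpowers a := Subgroup.mem_zpowers a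
          rw [h2, Subgroup.mem_bot] at this
          exact this
        have h2 : b ∈ Subgroup.zpowers a := by rw [h1]; exact Subgroup.mem_top b
        obtain ⟨k, rfl⟩ := Subgroup.mem_zpowers_iff.mp h2
        exact (Commute.self_zpow a k).eq
    by_cases hC : Subgroup.centralizer (N : Set G) = ⊥
    · by_cases hsimple : ∀ K : Subgroup G, K ≤ N → (∀ n ∈ N, ∀ k ∈ K, n * k * n⁻¹ ∈ K) →
          K = ⊥ ∨ K = N
      · right
        refine ⟨N, hNnormal, ?_, ?_, hC⟩
        · have hnt : Nontrivial N := (Subgroup.nontrivial_iff_ne_bot N).mpr hN.1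
          refine ⟨?_⟩
          intro K' hK'
          have hinv : ∀ n ∈ N, ∀ k ∈ K'.map N.subtype, n * k * n⁻¹ ∈ K'.map N.subtype := by
            rintro n hn _ ⟨k, hk, rfl⟩
            exact ⟨⟨n, hn⟩ * k * ⟨n, hn⟩⁻¹, hK'.conj_mem k hk ⟨n, hn⟩, rfl⟩
          rcases hsimple (K'.map N.subtype) (Subgroup.map_subtype_le K') hinv with h | h
          · left
            exact (Subgroup.map_eq_bot_iff_of_injective _ N.subtype_injective).mp h
          · right
            apply Subgroup.map_injective N.subtype_injective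
            rw [h, ← MonoidHom.range_eq_map, Subgroup.range_subtype]
        · intro hc
          apply hNab
          intro a ha b hb
          exact congrArg Subtype.val (hc.is_comm.comm ⟨a, ha⟩ ⟨b, hb⟩)
      · exfalso
        push Not at hsimple
        obtain ⟨K, hKN, hKinv, hK0, hK1⟩ := hsimple
        obtain ⟨T, hT, hTK⟩ := exists_isMinInv N K hK0 hKinv
        have hTN : T ≤ N := hTK.trans hKN
        have hTne : T ≠ N := by
          rintro rfl
          exact hK1 (le_antisymm hKN hTK)
        have hTna := hN.not_comm_of_le hNab hT hTN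
        by_cases hreg : N ⊓ stabilizer G α = ⊥
        · exact regular_minInv_false α (hep α) hN hreg hT hTN hTne hTna
        · have hcj : ∀ g : G, IsMinInv N (cj g T) := fun g => hT.conj (hNn' g) (hNn g)
          have hcjN : ∀ g : G, cj g T ≤ N := by
            intro g x hx
            rw [mem_cj] at hx
            have := hNn g _ (hTN hx)
            have e : g * (g⁻¹ * x * g) * g⁻¹ = x := by group
            rwa [e] at this
          have hCTne : Subgroup.centralizer (T : Set G) ⊓ N ≠ ⊥ := by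
            intro h0
            apply hTne
            apply hN.2.2 T hTN hT.1
            intro g _ t ht
            have h1 : cj g T = T := by
              by_contra hne
              apply cj_ne_bot (g := g) hT.1
              rw [eq_bot_iff, ← h0]
              intro x hx
              refine Subgroup.mem_inf.mpr ⟨?_, hcjN g hx⟩
              rw [Subgroup.mem_centralizer_iff]
              intro t' ht'
              exact ((hcj g).comm_of_ne hT (hcjN g) hTN hne hx ht').symm
            have h2 : g * t * g⁻¹ ∈ cj g T := conj_mem_cj ht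
            rwa [h1] at h2
          have hCTinv : ∀ n ∈ N, ∀ c ∈ Subgroup.centralizer (T : Set G) ⊓ N,
              n * c * n⁻¹ ∈ Subgroup.centralizer (T : Set G) ⊓ N := by
            intro n hn c hc
            obtain ⟨hc1, hc2⟩ := Subgroup.mem_inf.mp hc
            refine Subgroup.mem_inf.mpr ⟨?_, hNn n c hc2⟩
            rw [Subgroup.mem_centralizer_iff] at hc1 ⊢
            intro t ht
            have h1 : n⁻¹ * t * n⁻¹⁻¹ ∈ T := hT.2.1 _ (N.inv_mem hn) t ht
            rw [inv_inv] at h1
            have h2 := hc1 _ h1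
            calc t * (n * c * n⁻¹) = n * ((n⁻¹ * t * n) * c) * n⁻¹ := by group
              _ = n * (c * (n⁻¹ * t * n)) * n⁻¹ := by rw [h2]
              _ = n * c * n⁻¹ * t := by group
          have hTtr := transitive_of_inv hH hep α N (hNtr α) hNn hreg T hT.1 hT.2.1
          have hCTtr := transitive_of_inv hH hep α N (hNtr α) hNn hreg _ hCTne hCTinv
          have hcomm : ∀ t ∈ T, ∀ c ∈ Subgroup.centralizer (T : Set G) ⊓ N, t * c = c * t := by
            intro t ht c hc
            have := (Subgroup.mem_inf.mp hc).1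
            rw [Subgroup.mem_centralizer_iff] at this
            exact this t ht
          apply hT.1
          apply regular_pair_eq_bot α T (Subgroup.centralizer (T : Set G) ⊓ N) hTtr _ hCTtr hcomm _
            (fun ω _ => hep α ω) (hT.subtype_T0 hTna) (hT.subtype_perfect hTna)
          · intro t ht htα
            exact eq_one_of_comm_of_transitive α hCTtr (fun c hc => hcomm t ht c hc) htα
          · intro h _
            by_cases hc : cj h T = T
            · left
              intro t ht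
              have h2 : h * t * h⁻¹ ∈ cj h T := conj_mem_cj ht
              rwa [hc] at h2
            · right
              intro t ht
              refine Subgroup.mem_inf.mpr ⟨?_, hNn h t (hTN ht)⟩
              rw [Subgroup.mem_centralizer_iff]
              intro t' ht'
              exact ((hcj h).comm_of_ne hT (hcjN h) hTN hc (conj_mem_cj ht) ht').symm
    · exfalso
      have hCn : ∀ g : G, ∀ c ∈ Subgroup.centralizer (N : Set G),
          g * c * g⁻¹ ∈ Subgroup.centralizer (N : Set G) := by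
        intro g c hc
        rw [Subgroup.mem_centralizer_iff] at hc ⊢
        intro n hn
        have h2 := hc _ (hNn' g n hn)
        calc n * (g * c * g⁻¹) = g * ((g⁻¹ * n * g) * c) * g⁻¹ := by group
          _ = g * (c * (g⁻¹ * n * g)) * g⁻¹ := by rw [h2]
          _ = g * c * g⁻¹ * n := by group
      have hCtr : ∀ ω : Ω, ∃ c ∈ Subgroup.centralizer (N : Set G), c • α = ω :=
        exists_mem_smul_eq_of_normal_of_prim hCn hC α
      have hcomm : ∀ t ∈ N, ∀ c ∈ Subgroup.centralizer (N : Set G), t * c = c * t := by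
        intro t ht c hc
        rw [Subgroup.mem_centralizer_iff] at hc
        exact hc t ht
      apply hN.1
      apply regular_pair_eq_bot α N (Subgroup.centralizer (N : Set G)) (hNtr α) _ hCtr hcomm _
        (fun ω _ => hep α ω) (hN.subtype_T0 hNab) (hN.subtype_perfect hNab)
      · intro t ht htα
        exact eq_one_of_comm_of_transitive α hCtr (fun c hc => hcomm t ht c hc) htα
      · intro h _
        left
        intro t ht
        exact hNn h t ht

end main

end Cfsg.Agent.Helper58
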