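import Mathlib

/-!
# A commutative ring of endomorphisms acting "irreducibly" on a finite abelian group (helper58)

Let `M` be a finite abelian group and `K` a commutative ring with an injective ring homomorphism
`ι : K → End M` such that `K x = M` for every `x ≠ 0`.  Then `K` is a finite field with `|K| = |M|`
(`ffe_isDomain`, `ffe_card_eq`).  If `|M| = p ^ d`:

* `ffe_frobenius`: `K` is not generated by elements fixed by `x ↦ x ^ (p ^ i)` for `0 < i < d`;
* `ffe_card_dvd`: a finite group acting faithfully on `K` by ring automorphisms has order dividing `d`.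
-/

set_option autoImplicit false

namespace Cfsg.Agent.Helper58

/-- In a finite field of order `p ^ d` generated as a ring by elements fixed by the `i`-th power of
Frobenius, `0 < i < d` is impossible. -/
theorem ffe_no_small_frobenius {K : Type*} [Field K] [Fintype K] {p d i : ℕ} (hp : p.Prime)
    (hK : Fintype.card K = p ^ d) (hi : 0 < i) (hid : i < d) (𝒢 : Set K)
    (hgen : Subring.closure 𝒢 = ⊤) (h : ∀ a ∈ 𝒢, a ^ (p ^ i) = a) : False := by
  classical
  obtain ⟨n, hp', hn⟩ := FiniteField.card K (ringChar K)
  have hchar : ringChar K = p := by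
    have h1 : ringChar K ∣ p ^ d := by
      rw [← hK, hn]
      exact dvd_pow_self _ n.ne_zero
    exact (Nat.prime_dvd_prime_iff_eq hp' hp).mp (hp'.dvd_of_dvd_pow h1)
  have : CharP K p := hchar ▸ ringChar.charP K
  have : Fact p.Prime := ⟨hp⟩
  have hall : ∀ k : K, iterateFrobenius K p i k = k := by
    intro k
    have hk : k ∈ Subring.closure 𝒢 := by rw [hgen]; trivial
    induction hk using Subring.closure_induction with
    | mem x hx => rw [iterateFrobenius_def]; exact h x hx
    | zero => exact map_zero _
    | one => exact map_one _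
    | add x y _ _ hx hy => rw [map_add, hx, hy]
    | neg x _ hx => rw [map_neg, hx]
    | mul x y _ _ hx hy => rw [map_mul, hx, hy]
  obtain ⟨u, hu⟩ := IsCyclic.exists_generator (α := Kˣ)
  have hord : orderOf u = Fintype.card K - 1 := by
    rw [orderOf_eq_card_of_forall_mem_zpowers hu, Nat.card_eq_fintype_card, Fintype.card_units]
  have hpi : 1 < p ^ i := Nat.one_lt_pow hi.ne' hp.one_lt
  have hu1 : u ^ (p ^ i - 1) = 1 := by
    apply Units.ext
    have h1 := hall (u : K)
    rw [iterateFrobenius_def] at h1
    have h2 : (u : K) ^ (p ^ i - 1) * (u : K) = 1 * (u : K) := by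
      rw [← pow_succ, Nat.sub_add_cancel hpi.le, h1, one_mul]
    rw [Units.val_pow_eq_pow_val, Units.val_one]
    exact mul_right_cancel₀ u.ne_zero h2
  have hdvd : orderOf u ∣ p ^ i - 1 := orderOf_dvd_of_pow_eq_one hu1
  rw [hord, hK] at hdvd
  have hle := Nat.le_of_dvd (Nat.sub_pos_of_lt hpi) hdvd
  have hlt : p ^ i < p ^ d := Nat.pow_lt_pow_right hp.one_lt hid
  omega

/-- a finite group acting faithfully by ring automorphisms on a field with `p ^ d` elements has order
dividing `d` (Artin) -/
theorem ffe_card_dvd_of_injective_ringAut {K : Type*} [Field K] [Fintype K] {S : Type*} [Group S]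
    [Fintype S] (c : S →* RingAut K) (hc : Function.Injective c) {p d : ℕ} (hp : p.Prime)
    (hK : Fintype.card K = p ^ d) : Fintype.card S ∣ d := by
  classical
  let : MulSemiringAction S K := MulSemiringAction.compHom K c
  have : FaithfulSMul S K := ⟨fun {s t} h => hc (RingEquiv.ext h)⟩
  have h1 : Module.finrank (FixedPoints.subfield S K) K = Fintype.card S :=
    FixedPoints.finrank_eq_card S K
  let : Fintype (FixedPoints.subfield S K) := Fintype.ofFinite _
  have h2 : Fintype.card K
      = Fintype.card (FixedPoints.subfield S K) ^ Module.finrank (FixedPoints.subfield S K) K :=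
    Module.card_eq_pow_finrank
  obtain ⟨p', -, n, hp', hn⟩ := FiniteField.card' (FixedPoints.subfield S K)
  rw [hn, h1, hK, ← pow_mul] at h2
  have hS : 0 < Fintype.card S := Fintype.card_pos
  have hpp : p' = p := by
    have h3 : p' ∣ p ^ d := by
      rw [h2]
      exact dvd_pow_self _ (Nat.mul_ne_zero n.ne_zero hS.ne')
    exact (Nat.prime_dvd_prime_iff_eq hp' hp).mp (hp'.dvd_of_dvd_pow h3)
  subst hpp
  have h4 := Nat.pow_right_injective hp'.two_le h2
  exact ⟨n, by rw [h4, mul_comm]⟩

section endring

variable {M : Type*} [AddCommGroup M] {K : Type*} [CommRing K] (ι : K →+* Module.End ℤ M)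

theorem ffe_eval_injective (hirr : ∀ x : M, x ≠ 0 → ∀ y : M, ∃ k : K, ι k x = y)
    (hι : Function.Injective ι) {x : M} (hx : x ≠ 0) : Function.Injective (fun k : K => ι k x) := by
  intro k k' h
  have h0 : ι (k - k') x = 0 := by
    rw [map_sub, LinearMap.sub_apply, sub_eq_zero]
    exact h
  have h1 : ι (k - k') = 0 := by
    apply LinearMap.ext
    intro y
    obtain ⟨k'', rfl⟩ := hirr x hx y
    rw [← Module.End.mul_apply, ← map_mul, mul_comm, map_mul, Module.End.mul_apply, h0, map_zero]
    rfl
  have h2 : k - k' = 0 := hι (by rw [h1, map_zero])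
  exact sub_eq_zero.mp h2

theorem ffe_card_eq [Nontrivial M] (hirr : ∀ x : M, x ≠ 0 → ∀ y : M, ∃ k : K, ι k x = y)
    (hι : Function.Injective ι) : Nat.card K = Nat.card M := by
  obtain ⟨x, hx⟩ := exists_ne (0 : M)
  exact Nat.card_eq_of_bijective _ ⟨ffe_eval_injective ι hirr hι hx, hirr x hx⟩

theorem ffe_finite [Finite M] [Nontrivial M] (hirr : ∀ x : M, x ≠ 0 → ∀ y : M, ∃ k : K, ι k x = y)
    (hι : Function.Injective ι) : Finite K := by
  obtain ⟨x, hx⟩ := exists_ne (0 : M)
  exact Finite.of_injective _ (ffe_eval_injective ι hirr hι hx)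

theorem ffe_isDomain [Nontrivial M] (hirr : ∀ x : M, x ≠ 0 → ∀ y : M, ∃ k : K, ι k x = y)
    (hι : Function.Injective ι) : IsDomain K := by
  obtain ⟨x, hx⟩ := exists_ne (0 : M)
  have hnt : Nontrivial K := by
    refine ⟨⟨0, 1, fun h => hx ?_⟩⟩
    have h1 := congrArg (fun k => ι k x) h
    simp only [map_zero, LinearMap.zero_apply, map_one, Module.End.one_apply] at h1
    exact h1.symm
  have hnz : NoZeroDivisors K := by
    refine ⟨?_⟩
    intro a b hab
    by_contra hcon
    push Not at hcon
    have hb : ι b x ≠ 0 := by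
      intro h
      apply hcon.2
      apply ffe_eval_injective ι hirr hι hx
      simp only [map_zero, LinearMap.zero_apply]
      exact h
    apply hcon.1
    apply ffe_eval_injective ι hirr hι hb
    simp only [map_zero, LinearMap.zero_apply]
    rw [← Module.End.mul_apply, ← map_mul, hab, map_zero]
    rfl
  exact NoZeroDivisors.to_isDomain K

/-- `K` is not generated by elements fixed by the `i`-th power of Frobenius, `0 < i < d` -/
theorem ffe_frobenius [Finite M] [Nontrivial M] {p d i : ℕ} (hp : p.Prime) (hcard : Nat.card M = p ^ d)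
    (hirr : ∀ x : M, x ≠ 0 → ∀ y : M, ∃ k : K, ι k x = y) (hι : Function.Injective ι)
    (hi : 0 < i) (hid : i < d) (𝒢 : Set K) (hgen : Subring.closure 𝒢 = ⊤)
    (h : ∀ a ∈ 𝒢, a ^ (p ^ i) = a) : False := by
  classical
  have : Finite K := ffe_finite ι hirr hι
  let : Fintype K := Fintype.ofFinite K
  have : IsDomain K := ffe_isDomain ι hirr hι
  let : Field K := Fintype.fieldOfDomain K
  refine ffe_no_small_frobenius (K := K) hp ?_ hi hid 𝒢 hgen h
  rw [← Nat.card_eq_fintype_card, ffe_card_eq ι hirr hι, hcard]

/-- a finite group acting faithfully on `K` by ring automorphisms has order dividing `d` -/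
theorem ffe_card_dvd [Finite M] [Nontrivial M] {p d : ℕ} (hp : p.Prime) (hcard : Nat.card M = p ^ d)
    (hirr : ∀ x : M, x ≠ 0 → ∀ y : M, ∃ k : K, ι k x = y) (hι : Function.Injective ι)
    {S : Type*} [Group S] [Finite S] (c : S →* RingAut K) (hc : Function.Injective c) :
    Nat.card S ∣ d := by
  classical
  have : Finite K := ffe_finite ι hirr hι
  let : Fintype K := Fintype.ofFinite K
  let : Fintype S := Fintype.ofFinite S
  have : IsDomain K := ffe_isDomain ι hirr hι
  let : Field K := Fintype.fieldOfDomain K
  rw [Nat.card_eq_fintype_card]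
  refine ffe_card_dvd_of_injective_ringAut (K := K) c hc hp ?_
  rw [← Nat.card_eq_fintype_card, ffe_card_eq ι hirr hι, hcard]

end endring

end Cfsg.Agent.Helper58
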