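import Mathlib
import Cfsg.Agent.Helper57.Frobenius

/-!
# Frobenius groups `K⁺ ⋊ C` inside `AGL₁(K)` and their spectra (helper58)

For a finite field `K` of characteristic `p` and `m ∣ |K| - 1` there is a finite solvable group
(`K⁺ ⋊ C_m`, type-level `Multiplicative K ⋊ zpowers γ`) whose set of element orders is
`{n | n ∣ p ∨ n ∣ m}` (`exists_frobenius_spectrum`).  Also `range_orderOf_prod` (spectrum of a direct
product) and `range_orderOf_zpowers`.
-/

set_option autoImplicit false

namespace Cfsg.Agent.Helper58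

/-- the action of a subgroup of `Kˣ` on the additive group of `K` by multiplication -/
def unitsAct (K : Type*) [Field K] (C : Subgroup Kˣ) : C →* MulAut (Multiplicative K) where
  toFun c :=
    { toFun := fun v => Multiplicative.ofAdd (((c : Kˣ) : K) * Multiplicative.toAdd v)
      invFun := fun v => Multiplicative.ofAdd ((((c : Kˣ)⁻¹ : Kˣ) : K) * Multiplicative.toAdd v)
      left_inv := by
        intro v
        apply Multiplicative.toAdd.injective
        simp
      right_inv := by
        intro v
        apply Multiplicative.toAdd.injective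
        simp
      map_mul' := by
        intro v w
        apply Multiplicative.toAdd.injective
        simp [mul_add] }
  map_one' := by
    ext v
    apply Multiplicative.toAdd.injective
    simp
  map_mul' := by
    intro c d
    ext v
    apply Multiplicative.toAdd.injective
    simp [mul_assoc]

theorem unitsAct_apply (K : Type*) [Field K] (C : Subgroup Kˣ) (c : C) (v : Multiplicative K) :
    unitsAct K C c v = Multiplicative.ofAdd (((c : Kˣ) : K) * Multiplicative.toAdd v) := rfl

/-- the spectrum of a direct product -/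
theorem range_orderOf_prod (G₁ G₂ : Type*) [Group G₁] [Group G₂] :
    Set.range (orderOf : G₁ × G₂ → ℕ) =
      {n | ∃ a ∈ Set.range (orderOf : G₁ → ℕ), ∃ b ∈ Set.range (orderOf : G₂ → ℕ), n = Nat.lcm a b} := by
  ext n
  constructor
  · rintro ⟨x, rfl⟩
    exact ⟨orderOf x.1, ⟨x.1, rfl⟩, orderOf x.2, ⟨x.2, rfl⟩, Prod.orderOf x⟩
  · rintro ⟨a, ⟨x, rfl⟩, b, ⟨y, rfl⟩, rfl⟩
    exact ⟨(x, y), Prod.orderOf (x, y)⟩

/-- divisors of an element order are element orders -/
theorem mem_range_orderOf_of_dvd' {G : Type*} [Group G] {n d : ℕ}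
    (hn : n ∈ Set.range (orderOf : G → ℕ)) (hn0 : n ≠ 0) (hd : d ∣ n) :
    d ∈ Set.range (orderOf : G → ℕ) := by
  obtain ⟨x, rfl⟩ := hn
  obtain ⟨k, hk⟩ := hd
  have hk0 : k ≠ 0 := by rintro rfl; exact hn0 (by rw [hk, mul_zero])
  refine ⟨x ^ k, ?_⟩
  rw [orderOf_pow_of_dvd hk0 ⟨d, by rw [hk, mul_comm]⟩, hk, Nat.mul_div_cancel _ (Nat.pos_of_ne_zero hk0)]

/-- the spectrum of a finite cyclic group -/
theorem range_orderOf_zpowers {G : Type*} [Group G] (γ : G) (hγ : orderOf γ ≠ 0) :
    Set.range (orderOf : Subgroup.zpowers γ → ℕ) = {n | n ∣ orderOf γ} := by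
  ext n
  constructor
  · rintro ⟨x, rfl⟩
    have h := orderOf_dvd_natCard x
    rwa [Nat.card_zpowers] at h
  · intro hn
    refine mem_range_orderOf_of_dvd' ⟨⟨γ, Subgroup.mem_zpowers γ⟩, ?_⟩ hγ hn
    exact Subgroup.orderOf_mk γ (Subgroup.mem_zpowers γ)

/-- the spectrum of the additive group of a field of characteristic `p` -/
theorem range_orderOf_multiplicative_field (K : Type*) [Field K] (p : ℕ) [Fact p.Prime] [CharP K p] :
    Set.range (orderOf : Multiplicative K → ℕ) = {n | n ∣ p} := by
  have hp : p.Prime := Fact.out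
  have key : ∀ v : K, v ≠ 0 → orderOf (Multiplicative.ofAdd v) = p := by
    intro v hv
    rw [orderOf_ofAdd_eq_addOrderOf]
    apply addOrderOf_eq_prime _ hv
    rw [nsmul_eq_mul, CharP.cast_eq_zero, zero_mul]
  ext n
  constructor
  · rintro ⟨x, rfl⟩
    by_cases hx : Multiplicative.toAdd x = 0
    · have : x = 1 := Multiplicative.toAdd.injective hx
      rw [this, orderOf_one]
      exact one_dvd p
    · have := key (Multiplicative.toAdd x) hx
      rw [ofAdd_toAdd] at this
      show orderOf x ∣ p
      rw [this]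
  · intro hn
    rcases (Nat.dvd_prime hp).mp hn with h | h
    · exact ⟨1, by rw [orderOf_one, h]⟩
    · exact ⟨Multiplicative.ofAdd 1, by rw [key 1 one_ne_zero, h]⟩

/-- **Frobenius groups in `AGL₁(K)`**: for a finite field `K` of characteristic `p` and `m ∣ |K| - 1`
there is a finite solvable group with spectrum `{n | n ∣ p ∨ n ∣ m}` -/
theorem exists_frobenius_spectrum (K : Type) [Field K] [Finite K] (p : ℕ) [Fact p.Prime] [CharP K p]
    (m : ℕ) (hm : m ∣ Nat.card K - 1) :
    ∃ (H : Type) (_ : Group H) (_ : Finite H), Group.IsSolvable H ∧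
      Set.range (orderOf : H → ℕ) = {n | n ∣ p ∨ n ∣ m} := by
  have hK1 : 1 < Nat.card K := Finite.one_lt_card
  obtain ⟨g, hg⟩ := IsCyclic.exists_generator (α := Kˣ)
  have hord : orderOf g = Nat.card K - 1 := by
    rw [orderOf_eq_card_of_forall_mem_zpowers hg, Nat.card_units]
  obtain ⟨j, hj⟩ := hm
  have hj0 : j ≠ 0 := by
    rintro rfl
    rw [mul_zero] at hj
    omega
  have hm0 : m ≠ 0 := by
    rintro rfl
    rw [zero_mul] at hj
    omega
  set γ : Kˣ := g ^ j with hγ
  have hordγ : orderOf γ = m := by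
    rw [hγ, orderOf_pow_of_dvd hj0 (by rw [hord, hj]; exact dvd_mul_left j m), hord, hj,
      Nat.mul_div_cancel _ (Nat.pos_of_ne_zero hj0)]
  set C : Subgroup Kˣ := Subgroup.zpowers γ with hC
  have hfin : Finite (Multiplicative K ⋊[unitsAct K C] C) :=
    Finite.of_equiv _ SemidirectProduct.equivProd.symm
  have hsolv : Group.IsSolvable (Multiplicative K ⋊[unitsAct K C] C) :=
    Cfsg.Agent.Helper57.isSolvable_semidirect (unitsAct K C)
  refine ⟨Multiplicative K ⋊[unitsAct K C] C, inferInstance, hfin, hsolv, ?_⟩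
  rw [Cfsg.Agent.Helper57.range_orderOf_semidirect_of_fpf, range_orderOf_multiplicative_field K p,
    hC, range_orderOf_zpowers γ (by rw [hordγ]; exact hm0), hordγ]
  · rfl
  · intro c hc v hv
    rw [unitsAct_apply] at hv
    have h1 : ((c : Kˣ) : K) * Multiplicative.toAdd v = Multiplicative.toAdd v :=
      Multiplicative.ofAdd.injective hv
    have h2 : (((c : Kˣ) : K) - 1) * Multiplicative.toAdd v = 0 := by
      rw [sub_mul, one_mul, h1, sub_self]
    rcases mul_eq_zero.mp h2 with h3 | h3
    · exfalso
      apply hc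
      apply Subtype.ext
      apply Units.ext
      rw [sub_eq_zero] at h3
      rw [h3]
      rfl
    · exact Multiplicative.toAdd.injective h3

end Cfsg.Agent.Helper58
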