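import Mathlib

set_option autoImplicit false

/-!
Sign of an involution in terms of its fixed points, and the sign of an involution of
`N_G(P)` acting on the Sylow `p`-subgroups when `P` has prime order and there are `p + 1` of them.
-/

namespace Cfsg.Agent.Helper58

open Equiv

/-- An involution `τ` on a finite set: the number of points is `#fixed + 2 m` and the sign is
`(-1)^m`. -/
theorem involution_sign {α : Type*} [Fintype α] [DecidableEq α] (τ : Perm α) (h2 : τ * τ = 1) :
    ∃ m : ℕ, Fintype.card α = (Finset.univ.filter (fun a => τ a = a)).card + 2 * m ∧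
      Perm.sign τ = (-1 : ℤˣ) ^ m := by
  have hsupp : τ.support.card + (Finset.univ.filter (fun a => τ a = a)).card = Fintype.card α := by
    have h := Finset.card_filter_add_card_filter_not (s := (Finset.univ : Finset α))
      (p := fun a => τ a ≠ a)
    have e1 : τ.support = Finset.univ.filter (fun a => τ a ≠ a) := by
      ext a; simp [Perm.mem_support]
    have e2 : Finset.univ.filter (fun a => ¬ (τ a ≠ a)) = Finset.univ.filter (fun a => τ a = a) := by
      ext a; simp
    rw [e1, ← e2, h, Finset.card_univ]
  by_cases h1 : τ = 1
  · refine ⟨0, ?_, ?_⟩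
    · subst h1; simp
    · subst h1; simp
  · have ho : orderOf τ = 2 := orderOf_eq_prime (by rw [pow_two]; exact h2) h1
    obtain ⟨n, hn⟩ := Perm.cycleType_prime_order (σ := τ) (by rw [ho]; exact Nat.prime_two)
    rw [ho] at hn
    have hsum : τ.cycleType.sum = 2 * (n + 1) := by
      rw [hn, Multiset.sum_replicate, smul_eq_mul, mul_comm]
    have hcard : Multiset.card τ.cycleType = n + 1 := by rw [hn, Multiset.card_replicate]
    refine ⟨n + 1, ?_, ?_⟩
    · rw [← hsupp, ← Perm.sum_cycleType, hsum]; ring
    · rw [Perm.sign_of_cycleType, hsum, hcard]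
      have : 2 * (n + 1) + (n + 1) = (n + 1) + 2 * (n + 1) := by ring
      rw [this, pow_add, pow_mul]
      simp

end Cfsg.Agent.Helper58
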