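import Mathlib

/-!
# A finite group with a maximal subgroup of prime order is solvable (helper58)
-/

set_option autoImplicit false

namespace Cfsg.Agent.Helper58

open Subgroup

/-- a group of order dividing a prime is solvable -/
theorem isSolvable_of_card_dvd_prime {Q : Type*} [Group Q] {p : ℕ} (hp : p.Prime)
    (h : Nat.card Q ∣ p) : Group.IsSolvable Q := by
  rcases (Nat.dvd_prime hp).mp h with h1 | h1
  · have : Subsingleton Q := (Nat.card_eq_one_iff_unique.mp h1).1
    infer_instance
  · have : Fact p.Prime := ⟨hp⟩
    have := isCyclic_of_prime_card h1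
    exact Group.isSolvable_of_comm (fun a b => mul_comm' a b)

/-- an extension of a solvable group by a solvable group is solvable -/
theorem isSolvable_of_normal_of_quotient {G : Type*} [Group G] (N : Subgroup G) [N.Normal]
    [Group.IsSolvable N] [Group.IsSolvable (G ⧸ N)] : Group.IsSolvable G :=
  Group.isSolvable_of_ker_le_range N.subtype (QuotientGroup.mk' N) (by simp)

/-- the quotient by a normal maximal subgroup is commutative -/
theorem quotient_comm_of_isCoatom {G : Type*} [Group G] (H : Subgroup G) [H.Normal]
    (hmax : IsCoatom H) (a b : G ⧸ H) : a * b = b * a := by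
  have key : ∀ x : G ⧸ H, x ≠ 1 → Subgroup.zpowers x = ⊤ := by
    intro x hx
    have h1 : H ≤ (Subgroup.zpowers x).comap (QuotientGroup.mk' H) := by
      intro h hh
      rw [Subgroup.mem_comap]
      have : QuotientGroup.mk' H h = 1 := (QuotientGroup.eq_one_iff h).mpr hh
      rw [this]; exact Subgroup.one_mem _
    rcases hmax.le_iff.mp h1 with h2 | h2
    · rw [eq_top_iff]
      intro y _
      obtain ⟨g, rfl⟩ := QuotientGroup.mk'_surjective H y
      have : g ∈ (Subgroup.zpowers x).comap (QuotientGroup.mk' H) := by rw [h2]; trivial
      exact this
    · exfalso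
      apply hx
      obtain ⟨g, rfl⟩ := QuotientGroup.mk'_surjective H x
      have : g ∈ (Subgroup.zpowers (QuotientGroup.mk' H g)).comap (QuotientGroup.mk' H) :=
        Subgroup.mem_zpowers _
      rw [h2] at this
      exact (QuotientGroup.eq_one_iff g).mpr this
  by_cases ha : a = 1
  · rw [ha, one_mul, mul_one]
  · have hb : b ∈ Subgroup.zpowers a := by rw [key a ha]; trivial
    obtain ⟨k, rfl⟩ := Subgroup.mem_zpowers_iff.mp hb
    exact (Commute.zpow_right (Commute.refl a) k).eq

/-- A finite group with a maximal subgroup of prime order is solvable. -/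
theorem isSolvable_of_isCoatom_of_prime_card {G : Type*} [Group G] [Finite G] (H : Subgroup G)
    (hmax : IsCoatom H) {p : ℕ} (hp : p.Prime) (hH : Nat.card H = p) : Group.IsSolvable G := by
  classical
  have : Fact p.Prime := ⟨hp⟩
  have hHp : IsPGroup p H := IsPGroup.of_card (n := 1) (by rw [hH, pow_one])
  obtain ⟨P, hP⟩ := hHp.exists_le_sylow
  rcases hmax.le_iff.mp hP with hPtop | hPH
  · -- G is a p-group
    have hG : IsPGroup p G := by
      intro g
      have hgP : g ∈ (P : Subgroup G) := by rw [hPtop]; trivial
      obtain ⟨k, hk⟩ := P.isPGroup' ⟨g, hgP⟩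
      exact ⟨k, by simpa using congrArg Subtype.val hk⟩
    have := hG.isNilpotent
    infer_instance
  · -- H = P is a Sylow subgroup
    have hcyc : IsCyclic H := isCyclic_of_prime_card hH
    rcases hmax.le_iff.mp (Subgroup.le_normalizer (H := H)) with hNtop | hNH
    · -- H is normal
      have : H.Normal := Subgroup.normalizer_eq_top_iff.mp hNtop
      have : Group.IsSolvable H := Group.isSolvable_of_comm (fun a b => mul_comm' a b)
      have : Group.IsSolvable (G ⧸ H) := Group.isSolvable_of_comm (quotient_comm_of_isCoatom H hmax)
      exact isSolvable_of_normal_of_quotient H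
    · -- H is self-normalizing: Burnside's transfer theorem
      have hPn : Subgroup.normalizer ((P : Subgroup G) : Set G) ≤
          Subgroup.centralizer ((P : Subgroup G) : Set G) := by
        rw [hPH, hNH]
        intro h hh
        rw [Subgroup.mem_centralizer_iff]
        intro g hg
        have := mul_comm' (⟨g, hg⟩ : H) ⟨h, hh⟩
        exact congrArg Subtype.val this
      have hcompl : Subgroup.IsComplement' (MonoidHom.transferSylow P hPn).ker (P : Subgroup G) :=
        MonoidHom.ker_transferSylow_isComplement' P hPn
      have hKcard : ¬ p ∣ Nat.card (MonoidHom.transferSylow P hPn).ker :=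
        MonoidHom.not_dvd_card_ker_transferSylow P hPn
      have hKn : (MonoidHom.transferSylow P hPn).ker.Normal := inferInstance
      generalize (MonoidHom.transferSylow P hPn).ker = K at hcompl hKcard hKn
      have hidx : K.index = p := by
        rw [hcompl.symm.index_eq_card, hPH, hH]
      have : Group.IsSolvable (G ⧸ K) :=
        isSolvable_of_card_dvd_prime hp (by rw [← Subgroup.index_eq_card, hidx])
      by_cases hKbot : K = ⊥
      · have : Group.IsSolvable K := by
          have : Subsingleton K := by rw [hKbot]; infer_instance
          infer_instance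
        exact isSolvable_of_normal_of_quotient K
      · -- a prime r dividing |K|
        have hK1 : Nat.card K ≠ 1 := fun h => hKbot (Subgroup.card_eq_one.mp h)
        obtain ⟨r, hr, hrK⟩ := Nat.exists_prime_and_dvd hK1
        have : Fact r.Prime := ⟨hr⟩
        -- the action of H on the Sylow r-subgroups of K by conjugation
        letI : MulDistribMulAction H K :=
          MulDistribMulAction.compHom K ((MulAut.conjNormal (H := K)).comp H.subtype)
        have hcard : ¬ p ∣ Nat.card (Sylow r K) := by
          intro hdvd
          obtain ⟨R⟩ : Nonempty (Sylow r K) := inferInstance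
          have h1 := Sylow.card_dvd_index R
          have h2 : (R : Subgroup K).index ∣ Nat.card K := Subgroup.index_dvd_card _
          exact hKcard (hdvd.trans (h1.trans h2))
        obtain ⟨R, hR⟩ := hHp.nonempty_fixed_point_of_prime_not_dvd_card (Sylow r K) hcard
        set R₀ : Subgroup G := (R : Subgroup K).map K.subtype with hR₀
        have hnorm : H ≤ Subgroup.normalizer (R₀ : Set G) := by
          rw [Subgroup.le_normalizer_iff]
          intro h hh x hx
          obtain ⟨y, hy, rfl⟩ := hx
          have h1 : (⟨h, hh⟩ : H) • R = R := hR ⟨h, hh⟩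
          have h2 : (⟨h, hh⟩ : H) • y ∈ (((⟨h, hh⟩ : H) • R : Sylow r K) : Subgroup K) :=
            Subgroup.smul_mem_pointwise_smul y _ (R : Subgroup K) hy
          rw [h1] at h2
          exact ⟨(⟨h, hh⟩ : H) • y, h2, rfl⟩
        have hR₀K : R₀ ≤ K := by
          rintro _ ⟨y, _, rfl⟩
          exact y.2
        have hR₀ne : R₀ ≠ ⊥ := by
          intro h
          have h1 : (R : Subgroup K) = ⊥ :=
            (Subgroup.map_eq_bot_iff_of_injective _ K.subtype_injective).mp h
          exact R.ne_bot_of_dvd_card hrK h1
        have hnotle : ¬ R₀ ≤ H := by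
          intro hle
          apply hR₀ne
          rw [eq_bot_iff]
          intro x hx
          have hdisj := hcompl.disjoint
          rw [hPH] at hdisj
          exact (Subgroup.disjoint_def.mp hdisj) (hR₀K hx) (hle hx)
        have htop : R₀ ⊔ H = ⊤ := by
          apply hmax.2
          refine lt_of_le_of_ne le_sup_right ?_
          intro h
          apply hnotle
          rw [h]
          exact le_sup_left
        have hR₀n : R₀.Normal := by
          rw [← Subgroup.normalizer_eq_top_iff, eq_top_iff, ← htop]
          exact sup_le Subgroup.le_normalizer hnorm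
        have hR₀r : IsPGroup r R₀ := R.isPGroup'.map K.subtype
        have : Group.IsSolvable R₀ := by
          have := hR₀r.isNilpotent
          infer_instance
        have hidx2 : R₀.index ∣ p := by
          have h1 := Subgroup.relIndex_sup_left (K := R₀) (H := H)
          rw [htop, Subgroup.relIndex_top_right] at h1
          rw [h1, ← hH]
          exact Subgroup.relIndex_dvd_card R₀ H
        have : Group.IsSolvable (G ⧸ R₀) :=
          isSolvable_of_card_dvd_prime hp (by rw [← Subgroup.index_eq_card]; exact hidx2)
        exact isSolvable_of_normal_of_quotient R₀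

end Cfsg.Agent.Helper58
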