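/-
helper58, CALL S5075 piece Z: packaging of the block decomposition into the conclusion of S5075.
-/
import Cfsg.Agent.Helper71.McLGDefs
import Cfsg.Agent.Helper47.McLR

set_option autoImplicit false

namespace Cfsg.Agent.Helper58.McL

open Module Cfsg.Agent.Helper71.McL

variable {p : ℕ} [Fact p.Prime] {V : Type*} [AddCommGroup V] [Module (ZMod p) V]

theorem mclZ_one_apply (x : V) : (1 : V ≃ₗ[ZMod p] V) x = x := rfl

theorem mclZ_HW_le (H : Subgroup (V ≃ₗ[ZMod p] V)) (W : Submodule (ZMod p) V) : HW H W ≤ H := by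
  unfold HW
  rw [Subgroup.closure_le]
  intro g hg
  exact hg.1

theorem mclZ_sub_mem (H : Subgroup (V ≃ₗ[ZMod p] V)) (W : Submodule (ZMod p) V) :
    ∀ k ∈ HW H W, ∀ x : V, k x - x ∈ W := by
  intro k hk
  unfold HW at hk
  induction hk using Subgroup.closure_induction with
  | mem g hg =>
    obtain ⟨-, φ, v, hv, -, hgx⟩ := hg
    intro x
    rw [hgx x, add_sub_cancel_left]
    exact W.smul_mem _ hv
  | one =>
    intro x
    rw [mclZ_one_apply, sub_self]
    exact W.zero_mem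
  | mul a b _ _ iha ihb =>
    intro x
    have h1 : (a * b) x - x = (a (b x) - b x) + (b x - x) := by
      rw [LinearEquiv.mul_apply]; abel
    rw [h1]
    exact W.add_mem (iha (b x)) (ihb x)
  | inv a _ iha =>
    intro x
    have h1 : a⁻¹ x - x = -(a (a⁻¹ x) - a⁻¹ x) := by
      have h2 : a (a⁻¹ x) = x := by
        rw [← LinearEquiv.mul_apply, mul_inv_cancel, mclZ_one_apply]
      rw [h2]; abel
    rw [h1]
    exact W.neg_mem (iha (a⁻¹ x))

theorem mclZ_conj_mem (H : Subgroup (V ≃ₗ[ZMod p] V)) (W : Submodule (ZMod p) V)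
    (hW : InvG H W) (h : V ≃ₗ[ZMod p] V) (hh : h ∈ H) :
    ∀ k ∈ HW H W, h * k * h⁻¹ ∈ HW H W := by
  intro k hk
  unfold HW at hk
  induction hk using Subgroup.closure_induction with
  | mem g hg =>
    obtain ⟨hgH, φ, v, hv, hφv, hgx⟩ := hg
    unfold HW
    apply Subgroup.subset_closure
    refine ⟨H.mul_mem (H.mul_mem hh hgH) (H.inv_mem hh),
      φ.comp ((h⁻¹ : V ≃ₗ[ZMod p] V) : V →ₗ[ZMod p] V), h v, hW h hh v hv, ?_, ?_⟩
    · rw [LinearMap.comp_apply, LinearEquiv.coe_coe, ← LinearEquiv.mul_apply, inv_mul_cancel,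
        mclZ_one_apply, hφv]
    · intro x
      rw [LinearEquiv.mul_apply, LinearEquiv.mul_apply, hgx, map_add, map_smul,
        ← LinearEquiv.mul_apply, mul_inv_cancel, mclZ_one_apply, LinearMap.comp_apply,
        LinearEquiv.coe_coe]
  | one =>
    rw [mul_one, mul_inv_cancel]
    exact Subgroup.one_mem _
  | mul a b ha hb iha ihb =>
    have h1 : h * (a * b) * h⁻¹ = (h * a * h⁻¹) * (h * b * h⁻¹) := by group
    rw [h1]
    exact Subgroup.mul_mem _ iha ihb
  | inv a ha iha =>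
    have h1 : h * a⁻¹ * h⁻¹ = (h * a * h⁻¹)⁻¹ := by group
    rw [h1]
    exact Subgroup.inv_mem _ iha

theorem pack [Finite V] (H : Subgroup (V ≃ₗ[ZMod p] V)) (T : Set (V ≃ₗ[ZMod p] V))
    (hHT : H = Subgroup.closure T) (m : ℕ) (hm : 1 ≤ m)
    (W : Fin (m + 1) → Submodule (ZMod p) V) (h0 : W 0 = FixG H)
    (hinv : ∀ j : Fin m, InvG H (W j.succ))
    (hc : ∀ j : Fin m, IsCompl (W j.succ) (FixG (HW H (W j.succ))))
    (hle : ∀ j k : Fin m, j ≠ k → W k.succ ≤ FixG (HW H (W j.succ)))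
    (hcov : ∀ t ∈ T, ∃ j : Fin m, t ∈ HW H (W j.succ))
    (hrange : ∀ j : Fin m, ∃ ρ : ↥(HW H (W j.succ)) →* (↥(W j.succ) ≃ₗ[ZMod p] ↥(W j.succ)),
        (∀ (h : ↥(HW H (W j.succ))) (v : ↥(W j.succ)),
          ((ρ h v : ↥(W j.succ)) : V) = (h : V ≃ₗ[ZMod p] V) (v : V)) ∧
        ((ρ.range : Set (↥(W j.succ) ≃ₗ[ZMod p] ↥(W j.succ))) =
            {f : ↥(W j.succ) ≃ₗ[ZMod p] ↥(W j.succ) |
              LinearMap.det (f : ↥(W j.succ) →ₗ[ZMod p] ↥(W j.succ)) = 1} ∨
          ∃ B : LinearMap.BilinForm (ZMod p) ↥(W j.succ), B.IsAlt ∧ B.Nondegenerate ∧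
            (ρ.range : Set (↥(W j.succ) ≃ₗ[ZMod p] ↥(W j.succ))) =
              {f : ↥(W j.succ) ≃ₗ[ZMod p] ↥(W j.succ) | ∀ x y, B (f x) (f y) = B x y})) :
    ∃ (n : ℕ) (W : Fin (n + 1) → Submodule (ZMod p) V) (K : Fin n → Subgroup (V ≃ₗ[ZMod p] V)),
      1 ≤ n ∧ DirectSum.IsInternal W ∧
      (∀ h ∈ H, ∀ i, (W i).map (h : V →ₗ[ZMod p] V) = W i) ∧
      (∀ j, K j ≤ H ∧ ((K j).subgroupOf H).Normal) ∧ ⨆ j, K j = H ∧
      (∀ j, K j ⊓ (⨆ j' ∈ {j' : Fin n | j' ≠ j}, K j') = ⊥) ∧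
      (∀ j j', j ≠ j' → ∀ a ∈ K j, ∀ b ∈ K j', a * b = b * a) ∧
      (∀ j, ∀ h ∈ K j, ∀ i : Fin (n + 1), i ≠ j.succ → ∀ v ∈ W i, h v = v) ∧
      (∀ j, ∃ ρ : ↥(K j) →* (↥(W j.succ) ≃ₗ[ZMod p] ↥(W j.succ)),
        (∀ (h : ↥(K j)) (v : ↥(W j.succ)), ((ρ h v : ↥(W j.succ)) : V) = (h : V ≃ₗ[ZMod p] V) (v : V)) ∧
        ((ρ.range : Set (↥(W j.succ) ≃ₗ[ZMod p] ↥(W j.succ))) =
            {f : ↥(W j.succ) ≃ₗ[ZMod p] ↥(W j.succ) | LinearMap.det (f : ↥(W j.succ) →ₗ[ZMod p] ↥(W j.succ)) = 1} ∨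
          ∃ B : LinearMap.BilinForm (ZMod p) ↥(W j.succ), B.IsAlt ∧ B.Nondegenerate ∧
            (ρ.range : Set (↥(W j.succ) ≃ₗ[ZMod p] ↥(W j.succ))) = {f : ↥(W j.succ) ≃ₗ[ZMod p] ↥(W j.succ) | ∀ x y, B (f x) (f y) = B x y})) := by
  classical
  have hKH : ∀ j : Fin m, HW H (W j.succ) ≤ H := fun j => mclZ_HW_le H _
  refine ⟨m, W, fun j => HW H (W j.succ), hm, ?_, ?_, ?_, ?_, ?_, ?_, ?_, ?_⟩
  · -- the internal direct sum
    apply Cfsg.Agent.Helper47.McL.internal_of_compl W (fun j => FixG (HW H (W j.succ))) ?_ hc hle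
    rw [h0]
    apply le_antisymm
    · apply le_iInf
      intro j x hx g hg
      exact hx g (hKH j hg)
    · intro x hx
      rw [Submodule.mem_iInf] at hx
      intro g hg
      rw [hHT] at hg
      induction hg using Subgroup.closure_induction with
      | mem t ht =>
        obtain ⟨j, hj⟩ := hcov t ht
        exact hx j t hj
      | one => rfl
      | mul a b _ _ iha ihb => rw [LinearEquiv.mul_apply, ihb, iha]
      | inv a _ iha =>
        conv_lhs => rw [← iha]
        rw [← LinearEquiv.mul_apply, inv_mul_cancel, mclZ_one_apply]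
  · -- invariance of the summands
    intro h hh i
    rcases Fin.eq_zero_or_eq_succ i with rfl | ⟨j, rfl⟩
    · rw [h0]
      ext x
      rw [Submodule.mem_map]
      constructor
      · rintro ⟨y, hy, rfl⟩
        have h1 : (h : V →ₗ[ZMod p] V) y = y := hy h hh
        rw [h1]
        exact hy
      · intro hx
        exact ⟨x, hx, hx h hh⟩
    · ext x
      rw [Submodule.mem_map]
      constructor
      · rintro ⟨y, hy, rfl⟩
        exact hinv j h hh y hy
      · intro hx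
        refine ⟨h⁻¹ x, hinv j h⁻¹ (H.inv_mem hh) x hx, ?_⟩
        show h (h⁻¹ x) = x
        rw [← LinearEquiv.mul_apply, mul_inv_cancel, mclZ_one_apply]
  · -- the factors are normal subgroups of `H`
    intro j
    refine ⟨hKH j, ⟨?_⟩⟩
    intro n hn g
    rw [Subgroup.mem_subgroupOf] at hn ⊢
    exact mclZ_conj_mem H (W j.succ) (hinv j) (g : V ≃ₗ[ZMod p] V) g.2 (n : V ≃ₗ[ZMod p] V) hn
  · -- they generate `H`
    apply le_antisymm
    · exact iSup_le hKH
    · intro g hg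
      have hg' : g ∈ Subgroup.closure T := by rw [← hHT]; exact hg
      refine (Subgroup.closure_le (K := ⨆ j : Fin m, HW H (W j.succ))).mpr ?_ hg'
      intro t ht
      obtain ⟨j, hj⟩ := hcov t ht
      exact Subgroup.mem_iSup_of_mem j hj
  · -- independence
    intro j
    rw [eq_bot_iff]
    rintro g ⟨hg1, hg2⟩
    rw [Subgroup.mem_bot]
    let F : Subgroup (V ≃ₗ[ZMod p] V) :=
      { carrier := {g | ∀ x ∈ W j.succ, g x = x}
        mul_mem' := fun {a b} ha hb x hx => by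
          show (a * b) x = x
          rw [LinearEquiv.mul_apply, hb x hx, ha x hx]
        one_mem' := fun x _ => rfl
        inv_mem' := fun {a} ha x hx => by
          show a⁻¹ x = x
          conv_lhs => rw [← ha x hx]
          rw [← LinearEquiv.mul_apply, inv_mul_cancel, mclZ_one_apply] }
    have hF : (⨆ j' ∈ {j' : Fin m | j' ≠ j}, HW H (W j'.succ)) ≤ F := by
      apply iSup₂_le
      intro j' hj' k hk x hx
      exact hle j' j hj' hx k hk
    have hgF : ∀ x ∈ W j.succ, g x = x := hF hg2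
    apply LinearEquiv.ext
    intro x
    have hx : x ∈ W j.succ ⊔ FixG (HW H (W j.succ)) := by
      rw [(hc j).sup_eq_top]
      exact Submodule.mem_top
    obtain ⟨w, hw, a, ha, rfl⟩ := Submodule.mem_sup.mp hx
    rw [mclZ_one_apply, map_add, hgF w hw, ha g hg1]
  · -- distinct factors commute
    intro j j' hjj' a ha b hb
    apply LinearEquiv.ext
    intro x
    have h1 := mclZ_sub_mem H (W j.succ) a ha x
    have h2 := mclZ_sub_mem H (W j'.succ) b hb x
    have h3 : b (a x - x) = a x - x := hle j' j (Ne.symm hjj') h1 b hb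
    have h4 : a (b x - x) = b x - x := hle j j' hjj' h2 a ha
    rw [LinearEquiv.mul_apply, LinearEquiv.mul_apply]
    have h5 : a (b x) = a x + (b x - x) := by
      have h7 : b x = x + (b x - x) := by abel
      conv_lhs => rw [h7]
      rw [map_add, h4]
    have h6 : b (a x) = b x + (a x - x) := by
      have h7 : a x = x + (a x - x) := by abel
      conv_lhs => rw [h7]
      rw [map_add, h3]
    rw [h5, h6]
    abel
  · -- each factor acts trivially on the other summands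
    intro j h hh i hi v hv
    rcases Fin.eq_zero_or_eq_succ i with rfl | ⟨k, rfl⟩
    · rw [h0] at hv
      exact hv h (hKH j hh)
    · have hkj : j ≠ k := fun e => hi (by rw [e])
      exact hle j k hkj hv h hh
  · intro j
    exact hrange j

end Cfsg.Agent.Helper58.McL
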