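import Cfsg.Prelude.Def_Transfer
import Cfsg.Prelude.Def_Solvable
import Cfsg.Agent.Helper63.N15Defs

set_option autoImplicit false

/-!
# helper58 library for CALL S4415 (helper63): the basic lemmas on the configuration `Cfg`.
-/

namespace Cfsg.Agent.Helper58.N15Aux

open Cfsg.Agent.Helper63.N15

variable {G : Type*} [Group G] {V : Type*} [AddCommGroup V] [Module (ZMod 3) V]
  {ρ : Representation (ZMod 3) G V} {R : Subgroup G} {b q₁ q₂ q₃ : G} {v₁ v₂ v₃ : V}

theorem tors3 (x : V) : x + x + x = 0 := by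
  have h : (3 : ZMod 3) • x = x + x + x := by
    rw [show (3 : ZMod 3) = 1 + 1 + 1 by decide, add_smul, add_smul, one_smul]
  rw [← h, show (3 : ZMod 3) = 0 from by decide, zero_smul]

theorem two_inj (x : V) (h : x + x = 0) : x = 0 := by
  have h3 := tors3 x
  rw [h, zero_add] at h3
  exact h3

theorem aux_indep (c : Cfg ρ R b q₁ q₂ q₃ v₁ v₂ v₃) :
    ∀ (u : V) (c₁ c₂ c₃ : ZMod 3), ρ q₁ u = u → ρ q₂ u = u →
      u + c₁ • v₁ + c₂ • v₂ + c₃ • v₃ = 0 → u = 0 ∧ c₁ = 0 ∧ c₂ = 0 ∧ c₃ = 0 := by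
  intro u c₁ c₂ c₃ hu1 hu2 E
  have hu3 : ρ q₃ u = u := by
    rw [← c.q12, map_mul, Module.End.mul_apply, hu2, hu1]
  have E₁ : u + c₁ • v₁ - c₂ • v₂ - c₃ • v₃ = 0 := by
    have h := congrArg (ρ q₁) E
    rw [map_add, map_add, map_add, map_smul, map_smul, map_smul, hu1, c.s11, c.s12, c.s13,
      smul_neg, smul_neg, map_zero] at h
    rw [← h]
    abel
  have E₂ : u - c₁ • v₁ + c₂ • v₂ - c₃ • v₃ = 0 := by
    have h := congrArg (ρ q₂) E
    rw [map_add, map_add, map_add, map_smul, map_smul, map_smul, hu2, c.s21, c.s22, c.s23,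
      smul_neg, smul_neg, map_zero] at h
    rw [← h]
    abel
  have E₃ : u - c₁ • v₁ - c₂ • v₂ + c₃ • v₃ = 0 := by
    have h := congrArg (ρ q₃) E
    rw [map_add, map_add, map_add, map_smul, map_smul, map_smul, hu3, c.s31, c.s32, c.s33,
      smul_neg, smul_neg, map_zero] at h
    rw [← h]
    abel
  obtain ⟨a, ha⟩ : ∃ a, a = c₁ • v₁ := ⟨_, rfl⟩
  obtain ⟨a₂, ha₂⟩ : ∃ a, a = c₂ • v₂ := ⟨_, rfl⟩
  obtain ⟨a₃, ha₃⟩ : ∃ a, a = c₃ • v₃ := ⟨_, rfl⟩
  rw [← ha, ← ha₂, ← ha₃] at E E₁ E₂ E₃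
  have hu : u = 0 := by
    have h4 : u + u + u + u = 0 := by
      have : u + u + u + u = (u + a + a₂ + a₃) + (u + a - a₂ - a₃) + (u - a + a₂ - a₃) +
          (u - a - a₂ + a₃) := by abel
      rw [this, E, E₁, E₂, E₃]
      simp
    rw [tors3 u, zero_add] at h4
    exact h4
  have ha0 : a = 0 := by
    apply two_inj
    have : a + a = (u + a + a₂ + a₃) + (u + a - a₂ - a₃) - (u + u) := by abel
    rw [this, E, E₁, hu]
    simp
  have ha20 : a₂ = 0 := by
    apply two_inj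
    have : a₂ + a₂ = (u + a + a₂ + a₃) + (u - a + a₂ - a₃) - (u + u) := by abel
    rw [this, E, E₂, hu]
    simp
  have ha30 : a₃ = 0 := by
    apply two_inj
    have : a₃ + a₃ = (u + a + a₂ + a₃) + (u - a - a₂ + a₃) - (u + u) := by abel
    rw [this, E, E₃, hu]
    simp
  refine ⟨hu, ?_, ?_, ?_⟩
  · rw [ha] at ha0
    exact (smul_eq_zero.mp ha0).resolve_right c.v1
  · rw [ha₂] at ha20
    exact (smul_eq_zero.mp ha20).resolve_right c.rot.v1
  · rw [ha₃] at ha30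
    exact (smul_eq_zero.mp ha30).resolve_right c.rot.rot.v1

theorem aux_n (c : Cfg ρ R b q₁ q₂ q₃ v₁ v₂ v₃) :
    ∀ v : V, ∃ k : ZMod 3, v + ρ b v + ρ b (ρ b v) = k • (v₁ + v₂ + v₃) := by
  intro v
  obtain ⟨u, c₁, c₂, c₃, hv, -, -, -, hub⟩ := c.dec v
  refine ⟨c₁ + c₂ + c₃, ?_⟩
  have h1 : ρ b v = u + c₁ • v₂ + c₂ • v₃ + c₃ • v₁ := by
    rw [hv, map_add, map_add, map_add, map_smul, map_smul, map_smul, hub, c.bv1, c.bv2, c.bv3]
  have h2 : ρ b (ρ b v) = u + c₁ • v₃ + c₂ • v₁ + c₃ • v₂ := by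
    rw [h1, map_add, map_add, map_add, map_smul, map_smul, map_smul, hub, c.bv1, c.bv2, c.bv3]
  rw [h2, h1, hv]
  have h3 := tors3 u
  calc u + c₁ • v₁ + c₂ • v₂ + c₃ • v₃ + (u + c₁ • v₂ + c₂ • v₃ + c₃ • v₁) +
        (u + c₁ • v₃ + c₂ • v₁ + c₃ • v₂)
      = (u + u + u) + (c₁ + c₂ + c₃) • (v₁ + v₂ + v₃) := by module
    _ = (c₁ + c₂ + c₃) • (v₁ + v₂ + v₃) := by rw [h3, zero_add]

theorem aux_w (c : Cfg ρ R b q₁ q₂ q₃ v₁ v₂ v₃) :
    v₁ + v₂ + v₃ ≠ 0 ∧
      ∀ g : G, g * b = b * g → ∃ k : ZMod 3, ρ g (v₁ + v₂ + v₃) = k • (v₁ + v₂ + v₃) := by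
  constructor
  · intro h
    have h1 := aux_indep c 0 1 1 1 (map_zero _) (map_zero _)
      (by rw [zero_add, one_smul, one_smul, one_smul]; exact h)
    exact one_ne_zero h1.2.1
  · intro g hg
    obtain ⟨k, hk⟩ := aux_n c (ρ g v₁)
    refine ⟨k, ?_⟩
    have hcomm : ∀ y, ρ g (ρ b y) = ρ b (ρ g y) := by
      intro y
      rw [← Module.End.mul_apply, ← Module.End.mul_apply, ← map_mul, ← map_mul, hg]
    have e2 : ρ b (ρ g v₁) = ρ g v₂ := by rw [← hcomm, c.bv1]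
    have e3 : ρ b (ρ g v₂) = ρ g v₃ := by rw [← hcomm, c.bv2]
    rw [← hk, e2, e3, map_add, map_add]

theorem aux_lz (c : Cfg ρ R b q₁ q₂ q₃ v₁ v₂ v₃) :
    ∀ z : G, (∀ g : G, z * g = g * z) → IsZ ρ z := by
  intro z hz
  obtain ⟨hw0, hw⟩ := aux_w c
  obtain ⟨k, hk⟩ := hw z (hz b)
  have hcomm : ∀ (g : G) (y : V), ρ z (ρ g y) = ρ g (ρ z y) := by
    intro g y
    rw [← Module.End.mul_apply, ← Module.End.mul_apply, ← map_mul, ← map_mul, hz g]
  have hN := c.irr (Module.End.eigenspace (ρ z) k) (by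
    intro g v hv
    rw [Module.End.mem_eigenspace_iff] at hv ⊢
    rw [hcomm, hv, map_smul])
  have hne : Module.End.eigenspace (ρ z) k ≠ ⊥ := by
    intro h
    have h1 : v₁ + v₂ + v₃ ∈ Module.End.eigenspace (ρ z) k :=
      Module.End.mem_eigenspace_iff.mpr hk
    rw [h] at h1
    exact hw0 ((Submodule.mem_bot _).mp h1)
  have hall : ∀ v, ρ z v = k • v := by
    intro v
    have h1 : v ∈ Module.End.eigenspace (ρ z) k := by
      rw [hN.resolve_left hne]
      exact Submodule.mem_top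
    exact Module.End.mem_eigenspace_iff.mp h1
  have hk3 : ∀ k : ZMod 3, k = 0 ∨ k = 1 ∨ k = -1 := by decide
  rcases hk3 k with h | h | h
  · exfalso
    have h1 : ρ z⁻¹ (ρ z (v₁ + v₂ + v₃)) = v₁ + v₂ + v₃ := by
      rw [← Module.End.mul_apply, ← map_mul, inv_mul_cancel, map_one, Module.End.one_apply]
    rw [hk, h, zero_smul, map_zero] at h1
    exact hw0 h1.symm
  · left
    apply c.faith
    intro v
    rw [hall, h, one_smul]
  · right
    intro v
    rw [hall, h, neg_smul, one_smul]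

theorem aux_lc4 (c : Cfg ρ R b q₁ q₂ q₃ v₁ v₂ v₃) :
    ∀ x : G, x * b = b * x → (∀ v : V, ρ (x * x) v = -v) → False := by
  intro x hx hneg
  obtain ⟨hw0, hw⟩ := aux_w c
  obtain ⟨k, hk⟩ := hw x hx
  have h1 := hneg (v₁ + v₂ + v₃)
  rw [map_mul, Module.End.mul_apply, hk, map_smul, hk, smul_smul] at h1
  have h2 : (k * k + 1) • (v₁ + v₂ + v₃) = 0 := by
    rw [add_smul, one_smul, h1, neg_add_cancel]
  rcases smul_eq_zero.mp h2 with h | h
  · exact (by decide : ∀ k : ZMod 3, k * k + 1 ≠ 0) k h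
  · exact hw0 h

/-- the elements acting with determinant one -/
def detKer58 (ρ : Representation (ZMod 3) G V) : Subgroup G where
  carrier := {g | LinearMap.det (ρ g) = 1}
  mul_mem' := by
    intro a b' ha hb
    show LinearMap.det (ρ (a * b')) = 1
    rw [map_mul, map_mul, show LinearMap.det (ρ a) = 1 from ha,
      show LinearMap.det (ρ b') = 1 from hb, one_mul]
  one_mem' := by
    show LinearMap.det (ρ 1) = 1
    rw [map_one, map_one]
  inv_mem' := by
    intro a ha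
    show LinearMap.det (ρ a⁻¹) = 1
    have h1 : LinearMap.det (ρ a⁻¹) * LinearMap.det (ρ a) = 1 := by
      rw [← map_mul, ← map_mul, inv_mul_cancel, map_one, map_one]
    rw [show LinearMap.det (ρ a) = 1 from ha, mul_one] at h1
    exact h1

theorem aux_det1 (c : Cfg ρ R b q₁ q₂ q₃ v₁ v₂ v₃) :
    ∀ g : G, LinearMap.det (ρ g) = 1 := by
  have hNn : (detKer58 ρ).Normal := ⟨by
    intro n hn g
    show LinearMap.det (ρ (g * n * g⁻¹)) = 1
    have h1 : LinearMap.det (ρ g) * LinearMap.det (ρ g⁻¹) = 1 := by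
      rw [← map_mul, ← map_mul, mul_inv_cancel, map_one, map_one]
    rw [map_mul, map_mul, map_mul, map_mul, show LinearMap.det (ρ n) = 1 from hn, mul_one, h1]⟩
  have hb : b ∈ detKer58 ρ := by
    show LinearMap.det (ρ b) = 1
    have h3 : LinearMap.det (ρ b) ^ 3 = 1 := by
      rw [← map_pow, ← map_pow, c.b3, map_one, map_one]
    exact (by decide : ∀ d : ZMod 3, d ^ 3 = 1 → d = 1) _ h3
  have hR : R ≤ detKer58 ρ := by
    have h1 : ⁅R, Subgroup.zpowers b⁆ ≤ ⁅(⊤ : Subgroup G), detKer58 ρ⁆ :=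
      Subgroup.commutator_mono le_top ((Subgroup.zpowers_le).mpr hb)
    rw [c.comm] at h1
    exact h1.trans (Subgroup.commutator_le_right ⊤ (detKer58 ρ))
  have htop : detKer58 ρ = ⊤ := by
    rw [eq_top_iff, ← c.gen]
    exact sup_le hR ((Subgroup.zpowers_le).mpr hb)
  intro g
  have h1 : g ∈ detKer58 ρ := by
    rw [htop]
    exact Subgroup.mem_top g
  exact h1

theorem aux_qz (c : Cfg ρ R b q₁ q₂ q₃ v₁ v₂ v₃) : ¬ IsZ ρ q₁ := by
  rintro (h | h)
  · have h1 := c.s12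
    rw [h, map_one, Module.End.one_apply] at h1
    have h2 := neg_add_cancel v₂
    rw [← h1] at h2
    exact c.rot.v1 (two_inj v₂ h2)
  · have h1 := c.s11
    rw [h] at h1
    have h2 := neg_add_cancel v₁
    rw [h1] at h2
    exact c.v1 (two_inj v₁ h2)

theorem aux_sm [Finite V] (ρ : Representation (ZMod 3) G V) (x : G) (m : ℕ) (hx : x ^ m = 1)
    (hm : m.Coprime 6) (W : Submodule (ZMod 3) V) (hW : ∀ w ∈ W, ρ x w ∈ W)
    (hc : Nat.card W ≤ 9) : ∀ w ∈ W, ρ x w = w := by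
  intro w hw
  by_cases hw0 : w = 0
  · rw [hw0, map_zero]
  have hiter : ∀ (n : ℕ) (y : V), (⇑(ρ x))^[n] y = (ρ x ^ n) y := fun n y =>
    (Module.End.pow_apply (ρ x) n y).symm
  have hper : Function.IsPeriodicPt (⇑(ρ x)) m w := by
    show (⇑(ρ x))^[m] w = w
    rw [hiter, ← map_pow, hx, map_one, Module.End.one_apply]
  have hm0 : 0 < m := by
    rcases Nat.eq_zero_or_pos m with h | h
    · rw [h] at hm
      exact absurd hm (by decide)
    · exact h
  obtain ⟨s, hs⟩ : ∃ s, s = Function.minimalPeriod (⇑(ρ x)) w := ⟨_, rfl⟩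
  have hspos : 0 < s := by
    rw [hs]
    exact hper.minimalPeriod_pos hm0
  have hsdvd : s ∣ m := by
    rw [hs]
    exact hper.minimalPeriod_dvd
  have hscop : s.Coprime 6 := Nat.Coprime.coprime_dvd_left hsdvd hm
  by_cases hs1 : s = 1
  · rw [hs] at hs1
    exact Function.minimalPeriod_eq_one_iff_isFixedPt.mp hs1
  exfalso
  have hs5 : 5 ≤ s := by
    by_contra hlt
    have h234 : s = 2 ∨ s = 3 ∨ s = 4 := by omega
    rcases h234 with h | h | h <;> rw [h] at hscop <;> revert hscop <;> decide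
  have hodd : Nat.Coprime s 2 := Nat.Coprime.coprime_dvd_right (by norm_num : 2 ∣ 6) hscop
  have hmemW : ∀ n : ℕ, (⇑(ρ x))^[n] w ∈ W := by
    intro n
    induction n with
    | zero => exact hw
    | succ n ih =>
      rw [Function.iterate_succ_apply']
      exact hW _ ih
  have hneg : ∀ (n : ℕ) (y : V), (⇑(ρ x))^[n] (-y) = -(⇑(ρ x))^[n] y := by
    intro n y
    rw [hiter, hiter, map_neg]
  have hinj : ∀ i j : ℕ, i < s → j < s → (⇑(ρ x))^[i] w = (⇑(ρ x))^[j] w → i = j := by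
    intro i j hi hj h
    rw [hs] at hi hj
    exact (Function.iterate_eq_iterate_iff_of_lt_minimalPeriod hi hj).mp h
  have hmix : ∀ i j : ℕ, i < 5 → j < 5 → (⇑(ρ x))^[i] w ≠ -(⇑(ρ x))^[j] w := by
    intro i j hi hj h
    have h2 : (⇑(ρ x))^[i + i] w = (⇑(ρ x))^[j + j] w := by
      calc (⇑(ρ x))^[i + i] w = (⇑(ρ x))^[i] ((⇑(ρ x))^[i] w) :=
            Function.iterate_add_apply _ _ _ _
        _ = (⇑(ρ x))^[i] (-(⇑(ρ x))^[j] w) := by rw [h]
        _ = -(⇑(ρ x))^[i] ((⇑(ρ x))^[j] w) := hneg _ _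
        _ = -(⇑(ρ x))^[j] ((⇑(ρ x))^[i] w) := by
            rw [← Function.iterate_add_apply, ← Function.iterate_add_apply, add_comm]
        _ = -(⇑(ρ x))^[j] (-(⇑(ρ x))^[j] w) := by rw [h]
        _ = (⇑(ρ x))^[j] ((⇑(ρ x))^[j] w) := by rw [hneg, neg_neg]
        _ = (⇑(ρ x))^[j + j] w := (Function.iterate_add_apply _ _ _ _).symm
    have h3 : (i + i) % s = (j + j) % s := by
      apply hinj _ _ (Nat.mod_lt _ hspos) (Nat.mod_lt _ hspos)
      rw [hs, Function.iterate_mod_minimalPeriod_eq, Function.iterate_mod_minimalPeriod_eq]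
      exact h2
    have hij : i = j := by
      have h4 : (s : ℤ) ∣ ((j + j : ℕ) : ℤ) - ((i + i : ℕ) : ℤ) := (Nat.modEq_iff_dvd).mp h3
      have h4' : (s : ℤ) ∣ 2 * ((j : ℤ) - i) := by
        have e : ((j + j : ℕ) : ℤ) - ((i + i : ℕ) : ℤ) = 2 * ((j : ℤ) - i) := by
          push_cast
          ring
        rw [e] at h4
        exact h4
      have hcop : IsCoprime (s : ℤ) 2 := by
        have := (Nat.isCoprime_iff_coprime (m := s) (n := 2)).mpr hodd
        exact_mod_cast this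
      have h5 : (s : ℤ) ∣ (j : ℤ) - i := hcop.dvd_of_dvd_mul_left h4'
      have h6 : (j : ℤ) - i = 0 := Int.eq_zero_of_abs_lt_dvd h5 (by
        rw [abs_lt]
        constructor <;> omega)
      omega
    rw [hij] at h
    have h7 : (⇑(ρ x))^[j] w = 0 := by
      apply two_inj
      nth_rewrite 1 [h]
      exact neg_add_cancel _
    have h8 : (⇑(ρ x))^[(s - j) + j] w = w := by
      rw [Nat.sub_add_cancel (by omega), hs]
      exact Function.iterate_minimalPeriod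
    rw [Function.iterate_add_apply, h7, hiter, map_zero] at h8
    exact hw0 h8.symm
  have hφ : Function.Injective (Sum.elim (fun i : Fin 5 => (⟨(⇑(ρ x))^[(i : ℕ)] w, hmemW i⟩ : ↥W))
      (fun i : Fin 5 => (⟨-(⇑(ρ x))^[(i : ℕ)] w, W.neg_mem (hmemW i)⟩ : ↥W))) := by
    rintro (i | i) (j | j) h
    · have h' : (⇑(ρ x))^[(i : ℕ)] w = (⇑(ρ x))^[(j : ℕ)] w := congrArg Subtype.val h
      have hi := i.2
      have hj := j.2
      exact congrArg Sum.inl (Fin.ext (hinj _ _ (by omega) (by omega) h'))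
    · have h' : (⇑(ρ x))^[(i : ℕ)] w = -(⇑(ρ x))^[(j : ℕ)] w := congrArg Subtype.val h
      exact absurd h' (hmix i j i.2 j.2)
    · have h' : -(⇑(ρ x))^[(i : ℕ)] w = (⇑(ρ x))^[(j : ℕ)] w := congrArg Subtype.val h
      exact absurd h'.symm (hmix j i j.2 i.2)
    · have h' : -(⇑(ρ x))^[(i : ℕ)] w = -(⇑(ρ x))^[(j : ℕ)] w := congrArg Subtype.val h
      have hi := i.2
      have hj := j.2
      exact congrArg Sum.inr (Fin.ext (hinj _ _ (by omega) (by omega) (neg_inj.mp h')))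
  have hcard := Nat.card_le_card_of_injective _ hφ
  rw [Nat.card_eq_fintype_card, Fintype.card_sum, Fintype.card_fin] at hcard
  omega

end Cfsg.Agent.Helper58.N15Aux
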