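import Cfsg.Prelude.Def_Transfer
import Cfsg.Prelude.Def_Solvable
import Cfsg.Agent.Helper63.N15Defs
import Cfsg.Agent.Helper58.N15Aux

set_option autoImplicit false

/-! CALL S4415 (helper63), piece `bas_w` (proof in `Cfsg.Agent.Helper58.N15Aux`). -/

namespace Cfsg.Agent.Helper58.N15

open Cfsg.Agent.Helper63.N15

variable {G : Type*} [Group G] [Finite G] {V : Type*} [AddCommGroup V] [Module (ZMod 3) V]
  [Finite V] {ρ : Representation (ZMod 3) G V} {R : Subgroup G} {b q₁ q₂ q₃ : G} {v₁ v₂ v₃ : V}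

theorem bas_w (c : Cfg ρ R b q₁ q₂ q₃ v₁ v₂ v₃) :
    v₁ + v₂ + v₃ ≠ 0 ∧
      ∀ g : G, g * b = b * g → ∃ k : ZMod 3, ρ g (v₁ + v₂ + v₃) = k • (v₁ + v₂ + v₃) := by
  exact Cfsg.Agent.Helper58.N15Aux.aux_w c

end Cfsg.Agent.Helper58.N15
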