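import Mathlib

set_option autoImplicit false

/-!
Group part of S4407: structure of `S = A X`, `A ≅ 3²` self-centralising normal, `X ≅ D₈`.
-/

namespace Cfsg.Agent.Helper58.NineDih

open DihedralGroup

variable {S : Type*} [Group S]

/-- The subgroup of `A` centralised by `x`. -/
def cenSub (A : Subgroup S) (x : S) : Subgroup S where
  carrier := {y | y ∈ A ∧ x * y = y * x}
  mul_mem' := by
    rintro y z ⟨hy, h1⟩ ⟨hz, h2⟩
    refine ⟨A.mul_mem hy hz, ?_⟩
    calc x * (y * z) = (x * y) * z := by group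
      _ = y * (x * z) := by rw [h1]; group
      _ = y * z * x := by rw [h2]; group
  one_mem' := ⟨A.one_mem, by group⟩
  inv_mem' := by
    rintro y ⟨hy, h1⟩
    refine ⟨A.inv_mem hy, ?_⟩
    calc x * y⁻¹ = y⁻¹ * (y * x) * y⁻¹ := by group
      _ = y⁻¹ * (x * y) * y⁻¹ := by rw [h1]
      _ = y⁻¹ * x := by group

/-- The subgroup of `A` inverted by `x` (`A` commutative). -/
def invSub (A : Subgroup S) (hc : ∀ y ∈ A, ∀ z ∈ A, y * z = z * y) (x : S) : Subgroup S where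
  carrier := {y | y ∈ A ∧ x * y = y⁻¹ * x}
  mul_mem' := by
    rintro y z ⟨hy, h1⟩ ⟨hz, h2⟩
    refine ⟨A.mul_mem hy hz, ?_⟩
    have e : (y * z)⁻¹ = y⁻¹ * z⁻¹ := by
      rw [mul_inv_rev]; exact hc _ (A.inv_mem hz) _ (A.inv_mem hy)
    calc x * (y * z) = (x * y) * z := by group
      _ = y⁻¹ * (x * z) := by rw [h1]; group
      _ = y⁻¹ * z⁻¹ * x := by rw [h2]; group
      _ = (y * z)⁻¹ * x := by rw [e]
  one_mem' := ⟨A.one_mem, by group⟩
  inv_mem' := by
    rintro y ⟨hy, h1⟩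
    refine ⟨A.inv_mem hy, ?_⟩
    calc x * y⁻¹ = y * (y⁻¹ * x) * y⁻¹ := by group
      _ = y * (x * y) * y⁻¹ := by rw [h1]
      _ = y⁻¹⁻¹ * x := by group

theorem mem_cenSub {A : Subgroup S} {x y : S} : y ∈ cenSub A x ↔ y ∈ A ∧ x * y = y * x := Iff.rfl

theorem mem_invSub {A : Subgroup S} {hc : ∀ y ∈ A, ∀ z ∈ A, y * z = z * y} {x y : S} :
    y ∈ invSub A hc x ↔ y ∈ A ∧ x * y = y⁻¹ * x := Iff.rfl

theorem cenSub_le (A : Subgroup S) (x : S) : cenSub A x ≤ A := fun _ h => h.1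

theorem invSub_le (A : Subgroup S) (hc : ∀ y ∈ A, ∀ z ∈ A, y * z = z * y) (x : S) :
    invSub A hc x ≤ A := fun _ h => h.1

/-- A proper subgroup of `A` (order 9, exponent 3) containing `x ≠ 1` is `{1, x, x⁻¹}`. -/
theorem sub_three [Finite S] (A : Subgroup S) (hA9 : Nat.card ↥A = 9) (h3 : ∀ y ∈ A, y ^ 3 = 1)
    (H : Subgroup S) (hH : H ≤ A) {x y : S} (hx : x ∈ H) (hx1 : x ≠ 1) (hy : y ∈ A) (hyH : y ∉ H) :
    ∀ h ∈ H, h = 1 ∨ h = x ∨ h = x⁻¹ := by
  have hdvd : Nat.card ↥H ∣ 9 := hA9 ▸ Subgroup.card_dvd_of_le hH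
  have hne9 : Nat.card ↥H ≠ 9 := by
    intro h9
    have : H = A := Subgroup.eq_of_le_of_card_ge hH (by rw [h9, hA9])
    exact hyH (this ▸ hy)
  have hne1 : Nat.card ↥H ≠ 1 := by
    intro h1
    have : H = ⊥ := Subgroup.card_eq_one.mp h1
    rw [this] at hx
    exact hx1 (Subgroup.mem_bot.mp hx)
  have hle : Nat.card ↥H ≤ 9 := Nat.le_of_dvd (by norm_num) hdvd
  have hc3 : Nat.card ↥H = 3 := by
    have hpos : 0 < Nat.card ↥H := Nat.card_pos
    interval_cases hn : Nat.card ↥H <;> simp_all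
  have hxx : x ≠ x⁻¹ := by
    intro h
    have h2 : x * x = 1 := by
      calc x * x = x * x⁻¹ := by rw [← h]
        _ = 1 := by group
    have h3' := h3 x (hH hx)
    apply hx1
    calc x = (x * x)⁻¹ * x ^ 3 := by group
      _ = 1 := by rw [h2, h3']; group
  have hxi1 : x⁻¹ ≠ 1 := by
    intro h; exact hx1 (inv_eq_one.mp h)
  have hsub : ({1, x, x⁻¹} : Set S) ⊆ (H : Set S) := by
    intro z hz
    simp only [Set.mem_insert_iff, Set.mem_singleton_iff] at hz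
    rcases hz with rfl | rfl | rfl
    · exact H.one_mem
    · exact hx
    · exact H.inv_mem hx
  have hcard : (H : Set S).ncard = 3 := by
    rw [← hc3]; exact (Nat.card_coe_set_eq (H : Set S)).symm
  have h3s : ({1, x, x⁻¹} : Set S).ncard = 3 := by
    rw [Set.ncard_eq_three]
    exact ⟨1, x, x⁻¹, fun h => hx1 h.symm, fun h => hxi1 h.symm, hxx, rfl⟩
  have heq : ({1, x, x⁻¹} : Set S) = (H : Set S) :=
    Set.eq_of_subset_of_ncard_le hsub (by rw [hcard, h3s]) (Set.toFinite _)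
  intro h hh
  have : h ∈ ({1, x, x⁻¹} : Set S) := by rw [heq]; exact hh
  simpa using this

/-- A subgroup of `A` containing two independent elements is `A`. -/
theorem sub_nine [Finite S] (A : Subgroup S) (hA9 : Nat.card ↥A = 9) (h3 : ∀ y ∈ A, y ^ 3 = 1)
    (H : Subgroup S) (hH : H ≤ A) {x y : S} (hx : x ∈ H) (hx1 : x ≠ 1) (hy : y ∈ H)
    (hy1 : y ≠ 1) (hyx : y ≠ x) (hyx' : y ≠ x⁻¹) : A ≤ H := by
  by_contra hcon
  obtain ⟨z, hzA, hzH⟩ := SetLike.not_le_iff_exists.mp hcon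
  rcases sub_three A hA9 h3 H hH hx hx1 hzA hzH y hy with h | h | h
  · exact hy1 h
  · exact hyx h
  · exact hyx' h


theorem eq_one_of_eq_inv {y : S} (h3 : y ^ 3 = 1) (h : y = y⁻¹) : y = 1 := by
  have h2 : y * y = 1 := by
    calc y * y = y * y⁻¹ := by rw [← h]
      _ = 1 := by group
  calc y = (y * y)⁻¹ * y ^ 3 := by group
    _ = 1 := by rw [h2, h3]; group

section main

variable (A : Subgroup S) [hAn : A.Normal] (hcomm : ∀ y ∈ A, ∀ z ∈ A, y * z = z * y)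
  (h3 : ∀ y ∈ A, y ^ 3 = 1)
  (hAC : Subgroup.centralizer (A : Set S) = A)
  (ψ : DihedralGroup 4 →* S) (hψ : Function.Injective ψ)

include h3 hψ in
theorem psi_mem_A (d : DihedralGroup 4) (hd : ψ d ∈ A) : d = 1 := by
  have h8 : (ψ d) ^ 8 = 1 := by
    have h8' : ∀ d' : DihedralGroup 4, d' ^ 8 = 1 := by decide
    have : d ^ 8 = 1 := h8' d
    rw [← map_pow, this, map_one]
  have h9 : (ψ d) ^ 9 = 1 := by
    have : (ψ d) ^ 9 = ((ψ d) ^ 3) ^ 3 := by rw [← pow_mul]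
    rw [this, h3 _ hd, one_pow]
  have h1 : ψ d = 1 := by
    calc ψ d = (ψ d) ^ 9 * ((ψ d) ^ 8)⁻¹ := by group
      _ = 1 := by rw [h8, h9]; group
  apply hψ
  rw [h1, map_one]

include h3 hψ hAC in
theorem psi_cen (d : DihedralGroup 4) (hd : ∀ y ∈ A, ψ d * y = y * ψ d) : d = 1 := by
  apply psi_mem_A A h3 ψ hψ
  rw [← hAC, Subgroup.mem_centralizer_iff]
  intro y hy
  exact (hd y hy).symm

include h3 hψ hAC in
theorem psi_inv (d : DihedralGroup 4) (hd : ∀ y ∈ A, ψ d * y = y⁻¹ * ψ d) :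
    r 1 * d * (r 1)⁻¹ = d := by
  have hkey : d⁻¹ * (r 1 * d * (r 1)⁻¹) = 1 := by
    apply psi_cen A h3 hAC ψ hψ
    intro y hy
    obtain ⟨x, hx⟩ : ∃ x, x = ψ d := ⟨_, rfl⟩
    obtain ⟨z, hz⟩ : ∃ z, z = ψ (r 1) := ⟨_, rfl⟩
    have e : ψ (d⁻¹ * (r 1 * d * (r 1)⁻¹)) = x⁻¹ * (z * x * z⁻¹) := by
      simp only [map_mul, map_inv, hx, hz]
    rw [e]
    have hy1 : z⁻¹ * y * z ∈ A := by
      have := hAn.conj_mem y hy z⁻¹
      simpa using this
    have h1 : x * (z⁻¹ * y * z) = (z⁻¹ * y * z)⁻¹ * x := by rw [hx]; exact hd _ hy1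
    have h2 : x * y = y⁻¹ * x := by rw [hx]; exact hd _ hy
    have h3' : x⁻¹ * y⁻¹ = y * x⁻¹ := by
      calc x⁻¹ * y⁻¹ = x⁻¹ * (y⁻¹ * x) * x⁻¹ := by group
        _ = x⁻¹ * (x * y) * x⁻¹ := by rw [h2]
        _ = y * x⁻¹ := by group
    calc x⁻¹ * (z * x * z⁻¹) * y = x⁻¹ * z * (x * (z⁻¹ * y * z)) * z⁻¹ := by group
      _ = x⁻¹ * z * ((z⁻¹ * y * z)⁻¹ * x) * z⁻¹ := by rw [h1]
      _ = (x⁻¹ * y⁻¹) * (z * x * z⁻¹) := by group
      _ = y * x⁻¹ * (z * x * z⁻¹) := by rw [h3']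
      _ = y * (x⁻¹ * (z * x * z⁻¹)) := by group
  exact (inv_mul_eq_one.mp hkey).symm

include hcomm h3 hψ hAC in
theorem exists_cen_sr0 : ∃ a ∈ A, a ≠ 1 ∧ ψ (sr 0) * a = a * ψ (sr 0) := by
  by_contra hcon
  push Not at hcon
  obtain ⟨s, hs⟩ : ∃ s, s = ψ (sr 0) := ⟨_, rfl⟩
  rw [← hs] at hcon
  have hs2 : s * s = 1 := by
    rw [hs, ← map_mul, (by decide : (sr 0 : DihedralGroup 4) * sr 0 = 1), map_one]
  have hsi : s⁻¹ = s := inv_eq_of_mul_eq_one_left hs2
  have hinv : ∀ y ∈ A, ψ (sr 0) * y = y⁻¹ * ψ (sr 0) := by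
    intro y hy
    rw [← hs]
    have hy' : s * y * s ∈ A := by
      have := hAn.conj_mem y hy s
      rwa [hsi] at this
    have hc : s * (y * (s * y * s)) = (y * (s * y * s)) * s := by
      calc s * (y * (s * y * s)) = (s * y * s) * y * s := by group
        _ = (y * (s * y * s)) * s := by rw [hcomm _ hy' _ hy]
    have h1 : y * (s * y * s) = 1 := by
      by_contra hne
      exact hcon _ (A.mul_mem hy hy') hne hc
    calc s * y = y⁻¹ * (y * (s * y * s)) * s⁻¹ := by group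
      _ = y⁻¹ * s := by rw [h1, hsi]; group
  have := psi_inv A h3 hAC ψ hψ (sr 0) hinv
  revert this
  decide

include h3 hψ hAC in
theorem exists_inv_sr0 : ∃ d ∈ A, d ≠ 1 ∧ ψ (sr 0) * d = d⁻¹ * ψ (sr 0) := by
  by_contra hcon
  push Not at hcon
  obtain ⟨s, hs⟩ : ∃ s, s = ψ (sr 0) := ⟨_, rfl⟩
  rw [← hs] at hcon
  have hs2 : s * s = 1 := by
    rw [hs, ← map_mul, (by decide : (sr 0 : DihedralGroup 4) * sr 0 = 1), map_one]
  have hsi : s⁻¹ = s := inv_eq_of_mul_eq_one_left hs2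
  have hcen : ∀ y ∈ A, ψ (sr 0) * y = y * ψ (sr 0) := by
    intro y hy
    rw [← hs]
    have hy' : s * y * s ∈ A := by
      have := hAn.conj_mem y hy s
      rwa [hsi] at this
    have e1 : s * y⁻¹ * s = (s * y * s)⁻¹ := by
      calc s * y⁻¹ * s = s⁻¹⁻¹ * y⁻¹ * s⁻¹⁻¹ := by rw [inv_inv]
        _ = (s⁻¹ * y * s⁻¹)⁻¹ := by group
        _ = (s * y * s)⁻¹ := by rw [hsi]
    have hc : s * (y⁻¹ * (s * y * s)) = (y⁻¹ * (s * y * s))⁻¹ * s := by
      calc s * (y⁻¹ * (s * y * s)) = (s * y⁻¹ * s) * y * s := by group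
        _ = (s * y * s)⁻¹ * y * s := by rw [e1]
        _ = (y⁻¹ * (s * y * s))⁻¹ * s := by group
    have h1 : y⁻¹ * (s * y * s) = 1 := by
      by_contra hne
      exact hcon _ (A.mul_mem (A.inv_mem hy) hy') hne hc
    calc s * y = y * (y⁻¹ * (s * y * s)) * s⁻¹ := by group
      _ = y * s := by rw [h1, hsi]; group
  have := psi_cen A h3 hAC ψ hψ (sr 0) hcen
  revert this
  decide

variable [Finite S] (hA9 : Nat.card ↥A = 9)

include hcomm h3 hψ hAC hA9 in
/-- The central involution of `X` inverts `A`. -/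
theorem central_inverts : ∀ y ∈ A, ψ (r 2) * y = y⁻¹ * ψ (r 2) := by
  obtain ⟨a, haA, ha1, hsa⟩ := exists_cen_sr0 A hcomm h3 hAC ψ hψ
  obtain ⟨d, hdA, hd1, hsd⟩ := exists_inv_sr0 A h3 hAC ψ hψ
  obtain ⟨s, hs⟩ : ∃ s, s = ψ (sr 0) := ⟨_, rfl⟩
  obtain ⟨u, hu⟩ : ∃ u, u = ψ (r 2) := ⟨_, rfl⟩
  rw [← hs] at hsa hsd
  rw [← hu]
  have hu2 : u * u = 1 := by
    rw [hu, ← map_mul, (by decide : (r 2 : DihedralGroup 4) * r 2 = 1), map_one]
  have hui : u⁻¹ = u := inv_eq_of_mul_eq_one_left hu2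
  have hsu : s * u = u * s := by
    rw [hs, hu, ← map_mul, ← map_mul, (by decide : (sr 0 : DihedralGroup 4) * r 2 = r 2 * sr 0)]
  have hsu_psi : s * u = ψ (sr 0 * r 2) := by rw [hs, hu, map_mul]
  -- d is not centralised, a is not inverted
  have hd_not : d ∉ cenSub A s := by
    rintro ⟨_, h⟩
    apply hd1
    apply eq_one_of_eq_inv (h3 d hdA)
    have : d * s = d⁻¹ * s := by rw [← h, hsd]
    exact mul_right_cancel this
  have ha_not : a ∉ invSub A hcomm s := by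
    rintro ⟨_, h⟩
    apply ha1
    apply eq_one_of_eq_inv (h3 a haA)
    have : a * s = a⁻¹ * s := by rw [← hsa, h]
    exact mul_right_cancel this
  have hda : d ≠ a := by
    rintro rfl
    exact hd_not ⟨hdA, hsa⟩
  have hda' : d ≠ a⁻¹ := by
    rintro rfl
    exact hd_not ((cenSub A s).inv_mem ⟨haA, hsa⟩)
  have hC := sub_three A hA9 h3 (cenSub A s) (cenSub_le A s) (x := a) (y := d) ⟨haA, hsa⟩ ha1 hdA
    hd_not
  have hN := sub_three A hA9 h3 (invSub A hcomm s) (invSub_le A hcomm s) (x := d) (y := a)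
    ⟨hdA, hsd⟩ hd1 haA ha_not
  -- u a u⁻¹ is centralised by s
  have ha2 : u * a * u ∈ cenSub A s := by
    refine ⟨?_, ?_⟩
    · have := hAn.conj_mem a haA u
      rwa [hui] at this
    · calc s * (u * a * u) = (s * u) * a * u := by group
        _ = u * (s * a) * u := by rw [hsu]; group
        _ = u * a * (s * u) := by rw [hsa]; group
        _ = u * a * u * s := by rw [hsu]; group
  have hd2 : u * d * u ∈ invSub A hcomm s := by
    refine ⟨?_, ?_⟩
    · have := hAn.conj_mem d hdA u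
      rwa [hui] at this
    · have e : (u * d * u)⁻¹ = u * d⁻¹ * u := by
        calc (u * d * u)⁻¹ = u⁻¹ * d⁻¹ * u⁻¹ := by group
          _ = u * d⁻¹ * u := by rw [hui]
      calc s * (u * d * u) = (s * u) * d * u := by group
        _ = u * (s * d) * u := by rw [hsu]; group
        _ = u * d⁻¹ * (s * u) := by rw [hsd]; group
        _ = u * d⁻¹ * u * s := by rw [hsu]; group
        _ = (u * d * u)⁻¹ * s := by rw [e]
  have hua : u * a = a * u ∨ u * a = a⁻¹ * u := by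
    rcases hC _ ha2 with h | h | h
    · exfalso
      apply ha1
      calc a = u⁻¹ * (u * a * u) * u⁻¹ := by group
        _ = 1 := by rw [h, hui, mul_one, hu2]
    · left
      calc u * a = (u * a * u) * u⁻¹ := by group
        _ = a * u := by rw [h, hui]
    · right
      calc u * a = (u * a * u) * u⁻¹ := by group
        _ = a⁻¹ * u := by rw [h, hui]
  have hud : u * d = d * u ∨ u * d = d⁻¹ * u := by
    rcases hN _ hd2 with h | h | h
    · exfalso
      apply hd1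
      calc d = u⁻¹ * (u * d * u) * u⁻¹ := by group
        _ = 1 := by rw [h, hui, mul_one, hu2]
    · left
      calc u * d = (u * d * u) * u⁻¹ := by group
        _ = d * u := by rw [h, hui]
    · right
      calc u * d = (u * d * u) * u⁻¹ := by group
        _ = d⁻¹ * u := by rw [h, hui]
  have hsai : s * a⁻¹ = a⁻¹ * s := ((cenSub A s).inv_mem ⟨haA, hsa⟩).2
  have hsdi : s * d⁻¹ = d * s := by
    have := ((invSub A hcomm s).inv_mem ⟨hdA, hsd⟩).2
    rwa [inv_inv] at this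
  rcases hua with hua | hua <;> rcases hud with hud | hud
  · -- u centralises A
    exfalso
    have hle := sub_nine A hA9 h3 (cenSub A u) (cenSub_le A u) (x := a) (y := d) ⟨haA, hua⟩ ha1
      ⟨hdA, hud⟩ hd1 hda hda'
    have := psi_cen A h3 hAC ψ hψ (r 2) (fun y hy => by rw [← hu]; exact (hle hy).2)
    revert this
    decide
  · -- s u centralises A
    exfalso
    have h1 : (s * u) * a = a * (s * u) := by
      calc (s * u) * a = s * (u * a) := by group
        _ = (s * a) * u := by rw [hua]; group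
        _ = a * (s * u) := by rw [hsa]; group
    have h2 : (s * u) * d = d * (s * u) := by
      calc (s * u) * d = s * (u * d) := by group
        _ = (s * d⁻¹) * u := by rw [hud]; group
        _ = d * (s * u) := by rw [hsdi]; group
    have hle := sub_nine A hA9 h3 (cenSub A (s * u)) (cenSub_le A _) (x := a) (y := d) ⟨haA, h1⟩
      ha1 ⟨hdA, h2⟩ hd1 hda hda'
    have := psi_cen A h3 hAC ψ hψ (sr 0 * r 2) (fun y hy => by rw [← hsu_psi]; exact (hle hy).2)
    revert this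
    decide
  · -- s u inverts A
    exfalso
    have h1 : (s * u) * a = a⁻¹ * (s * u) := by
      calc (s * u) * a = s * (u * a) := by group
        _ = (s * a⁻¹) * u := by rw [hua]; group
        _ = a⁻¹ * (s * u) := by rw [hsai]; group
    have h2 : (s * u) * d = d⁻¹ * (s * u) := by
      calc (s * u) * d = s * (u * d) := by group
        _ = (s * d) * u := by rw [hud]; group
        _ = d⁻¹ * (s * u) := by rw [hsd]; group
    have hle := sub_nine A hA9 h3 (invSub A hcomm (s * u)) (invSub_le A hcomm _) (x := a) (y := d)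
      ⟨haA, h1⟩ ha1 ⟨hdA, h2⟩ hd1 hda hda'
    have := psi_inv A h3 hAC ψ hψ (sr 0 * r 2) (fun y hy => by rw [← hsu_psi]; exact (hle hy).2)
    revert this
    decide
  · intro y hy
    have hle := sub_nine A hA9 h3 (invSub A hcomm u) (invSub_le A hcomm _) (x := a) (y := d)
      ⟨haA, hua⟩ ha1 ⟨hdA, hud⟩ hd1 hda hda'
    exact (hle hy).2

include hcomm h3 hψ hAC hA9 in
/-- Coordinates for `A` adapted to `X`. -/
theorem group_part (X : Subgroup S) (hX : ψ.range = X) (hAX : A ⊔ X = ⊤) :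
    ∃ a b : S, a ∈ A ∧ b ∈ A ∧ a ≠ 1 ∧ b ≠ 1 ∧ b ≠ a ∧ b ≠ a⁻¹ ∧
      (∀ y ∈ A, ψ (r 2) * y = y⁻¹ * ψ (r 2)) ∧
      ψ (sr 0) * a = a * ψ (sr 0) ∧ ψ (sr 0) * b = b⁻¹ * ψ (sr 0) ∧
      ψ (sr 3) * a = b * ψ (sr 3) ∧ ψ (sr 3) * b = a * ψ (sr 3) ∧
      Subgroup.closure {a, b, ψ (r 2), ψ (sr 0), ψ (sr 3)} = (⊤ : Subgroup S) := by
  have hG1 := central_inverts A hcomm h3 hAC ψ hψ hA9
  obtain ⟨a, haA, ha1, hsa⟩ := exists_cen_sr0 A hcomm h3 hAC ψ hψ
  obtain ⟨t, ht⟩ : ∃ t, t = ψ (sr 0) := ⟨_, rfl⟩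
  obtain ⟨u, hu⟩ : ∃ u, u = ψ (r 2) := ⟨_, rfl⟩
  obtain ⟨g, hg⟩ : ∃ g, g = ψ (sr 3) := ⟨_, rfl⟩
  obtain ⟨z, hz⟩ : ∃ z, z = ψ (r 1) := ⟨_, rfl⟩
  rw [← ht] at hsa
  rw [← hu] at hG1
  rw [← ht, ← hu, ← hg]
  have hu2 : u * u = 1 := by
    rw [hu, ← map_mul, (by decide : (r 2 : DihedralGroup 4) * r 2 = 1), map_one]
  have hui : u⁻¹ = u := inv_eq_of_mul_eq_one_left hu2
  have hzz : z * z = u := by
    rw [hz, hu, ← map_mul, (by decide : (r 1 : DihedralGroup 4) * r 1 = r 2)]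
  have htz : t * z = z⁻¹ * t := by
    rw [hz, ht, ← map_inv, ← map_mul, ← map_mul,
      (by decide : (sr 0 : DihedralGroup 4) * r 1 = (r 1)⁻¹ * sr 0)]
  have htz' : t * z⁻¹ = z * t := by
    rw [hz, ht, ← map_inv, ← map_mul, ← map_mul,
      (by decide : (sr 0 : DihedralGroup 4) * (r 1)⁻¹ = r 1 * sr 0)]
  have hgzt : g = z * t := by
    rw [hg, hz, ht, ← map_mul, (by decide : (r 1 : DihedralGroup 4) * sr 0 = sr 3)]
  have hzi : z⁻¹ = u * z := by
    rw [hz, hu, ← map_inv, ← map_mul, (by decide : ((r 1 : DihedralGroup 4))⁻¹ = r 2 * r 1)]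
  obtain ⟨b, hb⟩ : ∃ b, b = z * a * z⁻¹ := ⟨_, rfl⟩
  have hbA : b ∈ A := by rw [hb]; exact hAn.conj_mem a haA z
  have hb1 : b ≠ 1 := by
    intro h
    apply ha1
    calc a = z⁻¹ * (z * a * z⁻¹) * z := by group
      _ = 1 := by rw [← hb, h]; group
  have hub : u * b = b⁻¹ * u := hG1 b hbA
  have hua : u * a = a⁻¹ * u := hG1 a haA
  have htb : t * b = b⁻¹ * t := by
    have e1 : z⁻¹ * a * z = u * b * u⁻¹ := by
      calc z⁻¹ * a * z = z⁻¹ * a * z⁻¹⁻¹ := by rw [inv_inv]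
        _ = (u * z) * a * (u * z)⁻¹ := by rw [hzi]
        _ = u * (z * a * z⁻¹) * u⁻¹ := by group
        _ = u * b * u⁻¹ := by rw [hb]
    have e2 : u * b * u⁻¹ = b⁻¹ := by rw [hub]; group
    calc t * b = (t * z) * a * z⁻¹ := by rw [hb]; group
      _ = z⁻¹ * (t * a) * z⁻¹ := by rw [htz]; group
      _ = z⁻¹ * a * (t * z⁻¹) := by rw [hsa]; group
      _ = (z⁻¹ * a * z) * t := by rw [htz']; group
      _ = b⁻¹ * t := by rw [e1, e2]
  have hga : g * a = b * g := by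
    calc g * a = z * (t * a) := by rw [hgzt]; group
      _ = (z * a * z⁻¹) * (z * t) := by rw [hsa]; group
      _ = b * g := by rw [← hb, ← hgzt]
  have hgb : g * b = a * g := by
    have e1 : z * b⁻¹ * z⁻¹ = a := by
      have e0 : z * b * z⁻¹ = u * a * u⁻¹ := by
        rw [hb, ← hzz]; group
      calc z * b⁻¹ * z⁻¹ = (z * b * z⁻¹)⁻¹ := by group
        _ = (u * a * u⁻¹)⁻¹ := by rw [e0]
        _ = a := by rw [hua]; group
    calc g * b = z * (t * b) := by rw [hgzt]; group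
      _ = (z * b⁻¹ * z⁻¹) * (z * t) := by rw [htb]; group
      _ = a * g := by rw [e1, ← hgzt]
  have hba : b ≠ a := by
    intro h
    rw [h] at htb
    apply ha1
    apply eq_one_of_eq_inv (h3 a haA)
    have : a * t = a⁻¹ * t := by rw [← hsa, htb]
    exact mul_right_cancel this
  have hba' : b ≠ a⁻¹ := by
    intro h
    have hb' : b⁻¹ = a := by rw [h, inv_inv]
    rw [hb'] at htb
    apply hb1
    apply eq_one_of_eq_inv (h3 b hbA)
    have hsai : t * a⁻¹ = a⁻¹ * t := ((cenSub A t).inv_mem ⟨haA, hsa⟩).2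
    have : b * t = b⁻¹ * t := by rw [hb', ← htb, h, hsai]
    exact mul_right_cancel this
  refine ⟨a, b, haA, hbA, ha1, hb1, hba, hba', hG1, hsa, htb, hga, hgb, ?_⟩
  -- generation
  obtain ⟨H, hH⟩ : ∃ H, H = Subgroup.closure {a, b, u, t, g} := ⟨_, rfl⟩
  rw [← hH]
  have haH : a ∈ H := by rw [hH]; exact Subgroup.subset_closure (by simp)
  have hbH : b ∈ H := by rw [hH]; exact Subgroup.subset_closure (by simp)
  have huH : u ∈ H := by rw [hH]; exact Subgroup.subset_closure (by simp)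
  have htH : t ∈ H := by rw [hH]; exact Subgroup.subset_closure (by simp)
  have hgH : g ∈ H := by rw [hH]; exact Subgroup.subset_closure (by simp)
  have hAH : A ≤ H := by
    have := sub_nine A hA9 h3 (H ⊓ A) inf_le_right (x := a) (y := b) ⟨haH, haA⟩ ha1 ⟨hbH, hbA⟩
      hb1 hba hba'
    exact fun y hy => (this hy).1
  have hXH : X ≤ H := by
    rw [← hX]
    rintro x ⟨d, rfl⟩
    have hall : ∀ d : DihedralGroup 4, d = 1 ∨ d = r 2 ∨ d = sr 0 ∨ d = sr 3 ∨ d = sr 3 * sr 0 ∨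
        d = sr 3 * sr 0 * r 2 ∨ d = sr 0 * r 2 ∨ d = sr 3 * r 2 := by decide
    rcases hall d with rfl | rfl | rfl | rfl | rfl | rfl | rfl | rfl
    · rw [map_one]; exact H.one_mem
    · rw [← hu]; exact huH
    · rw [← ht]; exact htH
    · rw [← hg]; exact hgH
    · rw [map_mul, ← hg, ← ht]; exact H.mul_mem hgH htH
    · rw [map_mul, map_mul, ← hg, ← ht, ← hu]; exact H.mul_mem (H.mul_mem hgH htH) huH
    · rw [map_mul, ← ht, ← hu]; exact H.mul_mem htH huH
    · rw [map_mul, ← hg, ← hu]; exact H.mul_mem hgH huH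
  rw [eq_top_iff, ← hAX]
  exact sup_le hAH hXH

end main

end Cfsg.Agent.Helper58.NineDih
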