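import Cfsg.Agent.Helper58.NineDihMod
import Cfsg.Agent.Helper58.NineDihGrp

set_option autoImplicit false

/-!
Final assembly for S4407.
-/

namespace Cfsg.Agent.Helper58.NineDih

open DihedralGroup

/-- The four-group `{1, r², s, sr²}` of `D₈`. -/
def Dt : Subgroup (DihedralGroup 4) where
  carrier := {x | x = 1 ∨ x = r 2 ∨ x = sr 0 ∨ x = sr 2}
  mul_mem' := by
    intro x y hx hy
    have h : ∀ x y : DihedralGroup 4, (x = 1 ∨ x = r 2 ∨ x = sr 0 ∨ x = sr 2) →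
        (y = 1 ∨ y = r 2 ∨ y = sr 0 ∨ y = sr 2) →
        (x * y = 1 ∨ x * y = r 2 ∨ x * y = sr 0 ∨ x * y = sr 2) := by decide
    exact h x y hx hy
  one_mem' := Or.inl rfl
  inv_mem' := by
    intro x hx
    have h : ∀ x : DihedralGroup 4, (x = 1 ∨ x = r 2 ∨ x = sr 0 ∨ x = sr 2) →
        (x⁻¹ = 1 ∨ x⁻¹ = r 2 ∨ x⁻¹ = sr 0 ∨ x⁻¹ = sr 2) := by decide
    exact h x hx

/-- The four-group `{1, r², sr³, sr}` of `D₈`. -/
def Dg : Subgroup (DihedralGroup 4) where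
  carrier := {x | x = 1 ∨ x = r 2 ∨ x = sr 3 ∨ x = sr 1}
  mul_mem' := by
    intro x y hx hy
    have h : ∀ x y : DihedralGroup 4, (x = 1 ∨ x = r 2 ∨ x = sr 3 ∨ x = sr 1) →
        (y = 1 ∨ y = r 2 ∨ y = sr 3 ∨ y = sr 1) →
        (x * y = 1 ∨ x * y = r 2 ∨ x * y = sr 3 ∨ x * y = sr 1) := by decide
    exact h x y hx hy
  one_mem' := Or.inl rfl
  inv_mem' := by
    intro x hx
    have h : ∀ x : DihedralGroup 4, (x = 1 ∨ x = r 2 ∨ x = sr 3 ∨ x = sr 1) →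
        (x⁻¹ = 1 ∨ x⁻¹ = r 2 ∨ x⁻¹ = sr 3 ∨ x⁻¹ = sr 1) := by decide
    exact h x hx

theorem mem_Dt {x : DihedralGroup 4} : x ∈ Dt ↔ (x = 1 ∨ x = r 2 ∨ x = sr 0 ∨ x = sr 2) := Iff.rfl

theorem mem_Dg {x : DihedralGroup 4} : x ∈ Dg ↔ (x = 1 ∨ x = r 2 ∨ x = sr 3 ∨ x = sr 1) := Iff.rfl

theorem card_Dt : Nat.card ↥Dt = 4 := by
  have h : (Dt : Set (DihedralGroup 4)) = {1, r 2, sr 0, sr 2} := by
    ext x; exact Iff.rfl
  show Nat.card ↥(Dt : Set (DihedralGroup 4)) = 4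
  rw [Nat.card_coe_set_eq, h, Set.ncard_eq_toFinset_card']
  rfl

theorem card_Dg : Nat.card ↥Dg = 4 := by
  have h : (Dg : Set (DihedralGroup 4)) = {1, r 2, sr 3, sr 1} := by
    ext x; exact Iff.rfl
  show Nat.card ↥(Dg : Set (DihedralGroup 4)) = 4
  rw [Nat.card_coe_set_eq, h, Set.ncard_eq_toFinset_card']
  rfl

/-- The four-subgroups of exponent 2 in `D₈`. -/
theorem d8_four (D : Subgroup (DihedralGroup 4)) (h4 : Nat.card ↥D = 4)
    (h2 : ∀ x ∈ D, x * x = 1) : D = Dt ∨ D = Dg := by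
  by_cases h : sr 0 ∈ D ∨ sr 2 ∈ D
  · left
    apply Subgroup.eq_of_le_of_card_ge
    · intro x hx
      rw [mem_Dt]
      have key : ∀ x y : DihedralGroup 4, (y = sr 0 ∨ y = sr 2) → x * x = 1 →
          (y * x) * (y * x) = 1 → (x = 1 ∨ x = r 2 ∨ x = sr 0 ∨ x = sr 2) := by decide
      rcases h with h | h
      · exact key x (sr 0) (Or.inl rfl) (h2 x hx) (h2 _ (D.mul_mem h hx))
      · exact key x (sr 2) (Or.inr rfl) (h2 x hx) (h2 _ (D.mul_mem h hx))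
    · rw [card_Dt, h4]
  · right
    push Not at h
    apply Subgroup.eq_of_le_of_card_ge
    · intro x hx
      rw [mem_Dg]
      have key : ∀ x : DihedralGroup 4, x * x = 1 → x ≠ sr 0 → x ≠ sr 2 →
          (x = 1 ∨ x = r 2 ∨ x = sr 3 ∨ x = sr 1) := by decide
      exact key x (h2 x hx) (fun e => h.1 (e ▸ hx)) (fun e => h.2 (e ▸ hx))
    · rw [card_Dg, h4]


section fin

variable {S : Type*} [Group S] {M : Type*} [AddCommGroup M] [Module (ZMod 2) M]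

theorem cube_mul {x y : S} (hx3 : x * x * x = 1) (hy3 : y * y * y = 1) (hxy : x * y = y * x) :
    (x * y) * (x * y) * (x * y) = 1 := by
  calc (x * y) * (x * y) * (x * y) = x * (y * x) * (y * x) * y := by group
    _ = x * (x * y) * (x * y) * y := by rw [← hxy]
    _ = x * x * (y * x) * y * y := by group
    _ = x * x * (x * y) * y * y := by rw [← hxy]
    _ = (x * x * x) * (y * y * y) := by group
    _ = 1 := by rw [hx3, hy3, one_mul]

theorem fixed_of_cube (ρ : Representation (ZMod 2) S M) {c : S} (hc : c * c * c = 1) (m : M) :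
    ρ c (m + ρ c m + ρ c (ρ c m)) = m + ρ c m + ρ c (ρ c m) := by
  have C3 : ρ c (ρ c (ρ c m)) = m := by
    have := congrArg (fun s => ρ s m) hc
    simpa only [rho_mul, rho_one] using this
  rw [map_add, map_add, C3]; abel

/-- Some line of `A` has a nonzero fixed vector. -/
theorem exists_fixed (ρ : Representation (ZMod 2) S M) (a b : S) (ha3 : a * a * a = 1)
    (hb3 : b * b * b = 1) (hab : a * b = b * a) (m : M) (hm : m ≠ 0) :
    ∃ m' : M, m' ≠ 0 ∧ (ρ a m' = m' ∨ ρ b m' = m' ∨ ρ (a * b) m' = m' ∨ ρ (a * b⁻¹) m' = m') := by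
  have hbinv : b⁻¹ = b * b := inv_eq_of_mul_eq_one_left hb3
  have hbi3 : b⁻¹ * b⁻¹ * b⁻¹ = 1 := by
    calc b⁻¹ * b⁻¹ * b⁻¹ = (b * b * b)⁻¹ := by group
      _ = 1 := by rw [hb3, inv_one]
  have habi : a * b⁻¹ = b⁻¹ * a := by
    calc a * b⁻¹ = b⁻¹ * (b * a) * b⁻¹ := by group
      _ = b⁻¹ * (a * b) * b⁻¹ := by rw [hab]
      _ = b⁻¹ * a := by group
  have B3 : ∀ x, ρ b (ρ b (ρ b x)) = x := fun x => by
    have := congrArg (fun s => ρ s x) hb3
    simpa only [rho_mul, rho_one] using this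
  have AB : ∀ x, ρ a (ρ b x) = ρ b (ρ a x) := fun x => by
    have := congrArg (fun s => ρ s x) hab
    simpa only [rho_mul, rho_one] using this
  by_cases h1 : m + ρ a m + ρ a (ρ a m) = 0
  swap
  · exact ⟨_, h1, Or.inl (fixed_of_cube ρ ha3 m)⟩
  by_cases h2 : m + ρ b m + ρ b (ρ b m) = 0
  swap
  · exact ⟨_, h2, Or.inr (Or.inl (fixed_of_cube ρ hb3 m))⟩
  by_cases h3 : m + ρ (a * b) m + ρ (a * b) (ρ (a * b) m) = 0
  swap
  · exact ⟨_, h3, Or.inr (Or.inr (Or.inl (fixed_of_cube ρ (cube_mul ha3 hb3 hab) m)))⟩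
  by_cases h4 : m + ρ (a * b⁻¹) m + ρ (a * b⁻¹) (ρ (a * b⁻¹) m) = 0
  swap
  · exact ⟨_, h4, Or.inr (Or.inr (Or.inr (fixed_of_cube ρ (cube_mul ha3 hbi3 habi) m)))⟩
  exfalso
  apply hm
  have hv := congrArg (ρ b) h1
  have hvi := congrArg (ρ b) hv
  simp only [map_add, map_zero, ← AB] at hv hvi
  simp only [rho_mul, ← AB] at h3
  simp only [hbinv, rho_mul, ← AB, B3] at h4
  have e : m + 2 • (m + ρ b m + ρ b (ρ b m) + ρ a (ρ b m) + ρ a (ρ a (ρ b (ρ b m)))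
      + ρ a (ρ b (ρ b m)) + ρ a (ρ a (ρ b m))) =
      (m + ρ b m + ρ b (ρ b m)) + (m + ρ a (ρ b m) + ρ a (ρ a (ρ b (ρ b m))))
      + (m + ρ a (ρ b (ρ b m)) + ρ a (ρ a (ρ b m)))
      + (ρ b m + ρ a (ρ b m) + ρ a (ρ a (ρ b m)))
      + (ρ b (ρ b m) + ρ a (ρ b (ρ b m)) + ρ a (ρ a (ρ b (ρ b m)))) := by abel
  rw [h2, h3, h4, hv, hvi, two_nsmul, add_self_z2] at e
  simpa using e

theorem second_system {a b t g : S} (hab : a * b = b * a) (hta : t * a = a * t)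
    (htb : t * b = b⁻¹ * t) (hga : g * a = b * g) (hgb : g * b = a * g) :
    g * (a * b) = (a * b) * g ∧ g * (a * b⁻¹) = (a * b⁻¹)⁻¹ * g ∧
      t * (a * b) = (a * b⁻¹) * t ∧ t * (a * b⁻¹) = (a * b) * t := by
  have hgbi : g * b⁻¹ = a⁻¹ * g := by
    calc g * b⁻¹ = a⁻¹ * (a * g) * b⁻¹ := by group
      _ = a⁻¹ * (g * b) * b⁻¹ := by rw [hgb]
      _ = a⁻¹ * g := by group
  have htbi : t * b⁻¹ = b * t := by
    calc t * b⁻¹ = b * (b⁻¹ * t) * b⁻¹ := by group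
      _ = b * (t * b) * b⁻¹ := by rw [htb]
      _ = b * t := by group
  refine ⟨?_, ?_, ?_, ?_⟩
  · calc g * (a * b) = (g * a) * b := by group
      _ = b * (g * b) := by rw [hga]; group
      _ = (b * a) * g := by rw [hgb]; group
      _ = (a * b) * g := by rw [hab]
  · calc g * (a * b⁻¹) = (g * a) * b⁻¹ := by group
      _ = b * (g * b⁻¹) := by rw [hga]; group
      _ = (a * b⁻¹)⁻¹ * g := by rw [hgbi]; group
  · calc t * (a * b) = (t * a) * b := by group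
      _ = a * (t * b) := by rw [hta]; group
      _ = (a * b⁻¹) * t := by rw [htb]; group
  · calc t * (a * b⁻¹) = (t * a) * b⁻¹ := by group
      _ = a * (t * b⁻¹) := by rw [hta]; group
      _ = (a * b) * t := by rw [htbi]; group

theorem fix_Dt (ρ : Representation (ZMod 2) S M) (ψ : DihedralGroup 4 →* S) (m : M) :
    (∀ b ∈ Dt.map ψ, ρ b m = m) ↔ (ρ (ψ (r 2)) m = m ∧ ρ (ψ (sr 0)) m = m) := by
  constructor
  · intro h
    exact ⟨h _ (Subgroup.mem_map_of_mem ψ (mem_Dt.mpr (Or.inr (Or.inl rfl)))),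
      h _ (Subgroup.mem_map_of_mem ψ (mem_Dt.mpr (Or.inr (Or.inr (Or.inl rfl)))))⟩
  · rintro ⟨h1, h2⟩ b ⟨d, hd, rfl⟩
    rcases mem_Dt.mp hd with rfl | rfl | rfl | rfl
    · rw [map_one, rho_one]
    · exact h1
    · exact h2
    · have e : (sr 2 : DihedralGroup 4) = sr 0 * r 2 := by decide
      rw [e, map_mul, rho_mul, h1, h2]

theorem fix_Dg (ρ : Representation (ZMod 2) S M) (ψ : DihedralGroup 4 →* S) (m : M) :
    (∀ b ∈ Dg.map ψ, ρ b m = m) ↔ (ρ (ψ (r 2)) m = m ∧ ρ (ψ (sr 3)) m = m) := by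
  constructor
  · intro h
    exact ⟨h _ (Subgroup.mem_map_of_mem ψ (mem_Dg.mpr (Or.inr (Or.inl rfl)))),
      h _ (Subgroup.mem_map_of_mem ψ (mem_Dg.mpr (Or.inr (Or.inr (Or.inl rfl)))))⟩
  · rintro ⟨h1, h2⟩ b ⟨d, hd, rfl⟩
    rcases mem_Dg.mp hd with rfl | rfl | rfl | rfl
    · rw [map_one, rho_one]
    · exact h1
    · exact h2
    · have e : (sr 1 : DihedralGroup 4) = sr 3 * r 2 := by decide
      rw [e, map_mul, rho_mul, h1, h2]

theorem props_map (ψ : DihedralGroup 4 →* S) (hψ : Function.Injective ψ) (X : Subgroup S)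
    (hX : ψ.range = X) (D : Subgroup (DihedralGroup 4)) (h4 : Nat.card ↥D = 4)
    (h2 : ∀ x ∈ D, x * x = 1) :
    D.map ψ ≤ X ∧ Nat.card ↥(D.map ψ) = 4 ∧ ∀ b ∈ D.map ψ, b ^ 2 = 1 := by
  refine ⟨?_, ?_, ?_⟩
  · rw [← hX]; exact Subgroup.map_le_range ψ D
  · rw [Subgroup.card_map_of_injective hψ, h4]
  · rintro b ⟨d, hd, rfl⟩
    rw [pow_two, ← map_mul, h2 d hd, map_one]

theorem exp_Dt : ∀ x ∈ Dt, x * x = 1 := by
  intro x hx
  rcases mem_Dt.mp hx with rfl | rfl | rfl | rfl <;> decide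

theorem exp_Dg : ∀ x ∈ Dg, x * x = 1 := by
  intro x hx
  rcases mem_Dg.mp hx with rfl | rfl | rfl | rfl <;> decide

/-- The uniqueness statement, from the two fixed point counts. -/
theorem finish (ρ : Representation (ZMod 2) S M) (ψ : DihedralGroup 4 →* S)
    (hψ : Function.Injective ψ) (X : Subgroup S) (hX : ψ.range = X)
    (h : (Nat.card {m : M // ρ (ψ (r 2)) m = m ∧ ρ (ψ (sr 0)) m = m} = 4 ∧
          Nat.card {m : M // ρ (ψ (r 2)) m = m ∧ ρ (ψ (sr 3)) m = m} = 2) ∨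
         (Nat.card {m : M // ρ (ψ (r 2)) m = m ∧ ρ (ψ (sr 0)) m = m} = 2 ∧
          Nat.card {m : M // ρ (ψ (r 2)) m = m ∧ ρ (ψ (sr 3)) m = m} = 4)) :
    ∃! B : Subgroup S, B ≤ X ∧ Nat.card ↥B = 4 ∧ (∀ b ∈ B, b ^ 2 = 1) ∧
      Nat.card {m : M // ∀ b ∈ B, ρ b m = m} = 2 := by
  have cardT : Nat.card {m : M // ∀ b ∈ Dt.map ψ, ρ b m = m} =
      Nat.card {m : M // ρ (ψ (r 2)) m = m ∧ ρ (ψ (sr 0)) m = m} :=
    Nat.card_congr (Equiv.subtypeEquivRight (fix_Dt ρ ψ))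
  have cardG : Nat.card {m : M // ∀ b ∈ Dg.map ψ, ρ b m = m} =
      Nat.card {m : M // ρ (ψ (r 2)) m = m ∧ ρ (ψ (sr 3)) m = m} :=
    Nat.card_congr (Equiv.subtypeEquivRight (fix_Dg ρ ψ))
  have hclass : ∀ B : Subgroup S, B ≤ X → Nat.card ↥B = 4 → (∀ b ∈ B, b ^ 2 = 1) →
      B = Dt.map ψ ∨ B = Dg.map ψ := by
    intro B hBX hB4 hB2
    have hmap : (B.comap ψ).map ψ = B := Subgroup.map_comap_eq_self (by rw [hX]; exact hBX)
    have h4 : Nat.card ↥(B.comap ψ) = 4 := by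
      rw [← Subgroup.card_map_of_injective hψ, hmap, hB4]
    have h2 : ∀ x ∈ B.comap ψ, x * x = 1 := by
      intro x hx
      apply hψ
      rw [map_mul, map_one, ← pow_two]
      exact hB2 _ hx
    rcases d8_four _ h4 h2 with h | h
    · left; rw [← hmap, h]
    · right; rw [← hmap, h]
  obtain ⟨pT1, pT2, pT3⟩ := props_map ψ hψ X hX Dt card_Dt exp_Dt
  obtain ⟨pG1, pG2, pG3⟩ := props_map ψ hψ X hX Dg card_Dg exp_Dg
  rcases h with ⟨ht, hg⟩ | ⟨ht, hg⟩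
  · refine ⟨Dg.map ψ, ⟨pG1, pG2, pG3, by rw [cardG, hg]⟩, ?_⟩
    rintro B ⟨hB1, hB2, hB3, hB4⟩
    rcases hclass B hB1 hB2 hB3 with rfl | rfl
    · rw [cardT, ht] at hB4
      exact absurd hB4 (by norm_num)
    · rfl
  · refine ⟨Dt.map ψ, ⟨pT1, pT2, pT3, by rw [cardT, ht]⟩, ?_⟩
    rintro B ⟨hB1, hB2, hB3, hB4⟩
    rcases hclass B hB1 hB2 hB3 with rfl | rfl
    · rfl
    · rw [cardG, hg] at hB4
      exact absurd hB4 (by norm_num)

end fin

set_option maxHeartbeats 1000000 in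
/-- Main theorem behind S4407, with `X` given as the image of an embedding of `D₈`. -/
theorem nine_dih_main {S : Type*} [Group S] [Finite S] (A : Subgroup S) [A.Normal]
    (hcomm : ∀ y ∈ A, ∀ z ∈ A, y * z = z * y) (h3 : ∀ y ∈ A, y ^ 3 = 1)
    (hA9 : Nat.card ↥A = 9) (hAC : Subgroup.centralizer (A : Set S) = A)
    (X : Subgroup S) (ψ : DihedralGroup 4 →* S) (hψ : Function.Injective ψ) (hX : ψ.range = X)
    (hAX : A ⊔ X = ⊤)
    {M : Type*} [AddCommGroup M] [Module (ZMod 2) M] (ρ : Representation (ZMod 2) S M)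
    (hfaith : Function.Injective ρ)
    (hirr : ∀ N : Submodule (ZMod 2) M, (∀ s : S, ∀ m ∈ N, ρ s m ∈ N) → N = ⊥ ∨ N = ⊤)
    (hM : Nontrivial M) :
    Nat.card M = 16 ∧ ∃! B : Subgroup S, B ≤ X ∧ Nat.card ↥B = 4 ∧ (∀ b ∈ B, b ^ 2 = 1) ∧
        Nat.card {m : M // ∀ b ∈ B, ρ b m = m} = 2 := by
  obtain ⟨a, b, haA, hbA, ha1, hb1, hba, hba', hG1, hta, htb, hga, hgb, hgen⟩ :=
    group_part A hcomm h3 hAC ψ hψ hA9 X hX hAX
  have hu2 : ψ (r 2) * ψ (r 2) = 1 := by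
    rw [← map_mul, (by decide : (r 2 : DihedralGroup 4) * r 2 = 1), map_one]
  have ht2 : ψ (sr 0) * ψ (sr 0) = 1 := by
    rw [← map_mul, (by decide : (sr 0 : DihedralGroup 4) * sr 0 = 1), map_one]
  have hg2 : ψ (sr 3) * ψ (sr 3) = 1 := by
    rw [← map_mul, (by decide : (sr 3 : DihedralGroup 4) * sr 3 = 1), map_one]
  have hut : ψ (r 2) * ψ (sr 0) = ψ (sr 0) * ψ (r 2) := by
    rw [← map_mul, ← map_mul]; exact congrArg ψ (by decide)
  have hug : ψ (r 2) * ψ (sr 3) = ψ (sr 3) * ψ (r 2) := by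
    rw [← map_mul, ← map_mul]; exact congrArg ψ (by decide)
  have htg : ψ (sr 0) * ψ (sr 3) = ψ (r 2) * ψ (sr 3) * ψ (sr 0) := by
    rw [← map_mul, ← map_mul, ← map_mul]; exact congrArg ψ (by decide)
  have hgt : ψ (sr 3) * ψ (sr 0) = ψ (r 2) * ψ (sr 0) * ψ (sr 3) := by
    rw [← map_mul, ← map_mul, ← map_mul]; exact congrArg ψ (by decide)
  obtain ⟨u, hu⟩ : ∃ u, u = ψ (r 2) := ⟨_, rfl⟩
  obtain ⟨t, ht⟩ : ∃ t, t = ψ (sr 0) := ⟨_, rfl⟩
  obtain ⟨g, hg⟩ : ∃ g, g = ψ (sr 3) := ⟨_, rfl⟩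
  rw [← hu] at hG1 hu2 hut hug htg hgt hgen
  rw [← ht] at hta htb ht2 hut htg hgt hgen
  rw [← hg] at hga hgb hg2 hug htg hgt hgen
  have cube : ∀ y ∈ A, y * y * y = 1 := fun y hy => by rw [← pow_three']; exact h3 y hy
  have sq : ∀ y ∈ A, y⁻¹ = y * y := fun y hy => inv_eq_of_mul_eq_one_left (cube y hy)
  have hab : a * b = b * a := hcomm a haA b hbA
  have hnz : ∀ y : S, y ≠ 1 → ρ y ≠ 1 := fun y hy h => hy (hfaith (by rw [h, map_one]))
  obtain ⟨s1, s2, s3, s4⟩ := second_system hab hta htb hga hgb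
  have red : ∃ m : M, m ≠ 0 ∧ (ρ a m = m ∨ ρ (a * b) m = m) := by
    obtain ⟨m₀, hm₀⟩ := exists_ne (0 : M)
    obtain ⟨m, hm, hcase⟩ := exists_fixed ρ a b (cube a haA) (cube b hbA) hab m₀ hm₀
    rcases hcase with h | h | h | h
    · exact ⟨m, hm, Or.inl h⟩
    · refine ⟨ρ g m, ?_, Or.inl ?_⟩
      · intro h0
        apply hm
        have := congrArg (ρ g) h0
        rwa [← rho_mul, hg2, rho_one, map_zero] at this
      · rw [← rho_mul, ← hgb, rho_mul, h]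
    · exact ⟨m, hm, Or.inr h⟩
    · refine ⟨ρ t m, ?_, Or.inr ?_⟩
      · intro h0
        apply hm
        have := congrArg (ρ t) h0
        rwa [← rho_mul, ht2, rho_one, map_zero] at this
      · rw [← rho_mul, ← s4, rho_mul, h]
  obtain ⟨m, hm, hma | hma⟩ := red
  · obtain ⟨h16, h4, h2⟩ := module_lemma ρ hirr a b u t g (cube a haA) (cube b hbA) hab hu2 ht2 hg2
      (by rw [hG1 a haA, sq a haA]) (by rw [hG1 b hbA, sq b hbA]) hta (by rw [htb, sq b hbA])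
      hga hgb hut hug htg hgen (hnz a ha1) m hm hma
    refine ⟨h16, finish ρ ψ hψ X hX (Or.inl ⟨?_, ?_⟩)⟩
    · rw [← hu, ← ht]; exact h4
    · rw [← hu, ← hg]; exact h2
  · have habA : a * b ∈ A := A.mul_mem haA hbA
    have habiA : a * b⁻¹ ∈ A := A.mul_mem haA (A.inv_mem hbA)
    have hgen' : Subgroup.closure {a * b, a * b⁻¹, u, g, t} = (⊤ : Subgroup S) := by
      rw [eq_top_iff, ← hgen, Subgroup.closure_le]
      intro x hx
      simp only [Set.mem_insert_iff, Set.mem_singleton_iff] at hx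
      have h1 : a * b ∈ Subgroup.closure {a * b, a * b⁻¹, u, g, t} :=
        Subgroup.subset_closure (by simp)
      have h2 : a * b⁻¹ ∈ Subgroup.closure {a * b, a * b⁻¹, u, g, t} :=
        Subgroup.subset_closure (by simp)
      have ha : a ∈ Subgroup.closure {a * b, a * b⁻¹, u, g, t} := by
        have e : a = ((a * b) * (a * b⁻¹))⁻¹ := by
          have e' : (a * b) * (a * b⁻¹) = a * a := by
            calc (a * b) * (a * b⁻¹) = a * (b * a) * b⁻¹ := by group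
              _ = a * (a * b) * b⁻¹ := by rw [hab]
              _ = a * a := by group
          rw [e', ← sq a haA, inv_inv]
        have hmem := Subgroup.inv_mem _ (Subgroup.mul_mem _ h1 h2)
        rwa [← e] at hmem
      rcases hx with rfl | rfl | rfl | rfl | rfl
      · exact ha
      · have e : x = a⁻¹ * (a * x) := by group
        have hmem := Subgroup.mul_mem _ (Subgroup.inv_mem _ ha) h1
        rwa [← e] at hmem
      · exact Subgroup.subset_closure (by simp)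
      · exact Subgroup.subset_closure (by simp)
      · exact Subgroup.subset_closure (by simp)
    have hab1 : a * b ≠ 1 := fun h => hba' (eq_inv_of_mul_eq_one_right h)
    obtain ⟨h16, h4, h2⟩ := module_lemma ρ hirr (a * b) (a * b⁻¹) u g t (cube _ habA)
      (cube _ habiA) (hcomm _ habA _ habiA) hu2 hg2 ht2
      (by rw [hG1 _ habA, sq _ habA]) (by rw [hG1 _ habiA, sq _ habiA]) s1
      (by rw [s2, sq _ habiA]) s3 s4 hug hut hgt hgen' (hnz _ hab1) m hm hma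
    refine ⟨h16, finish ρ ψ hψ X hX (Or.inr ⟨?_, ?_⟩)⟩
    · rw [← hu, ← ht]; exact h2
    · rw [← hu, ← hg]; exact h4

end Cfsg.Agent.Helper58.NineDih
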