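import Mathlib

set_option autoImplicit false

/-!
Module part of S4407: a faithful irreducible `F₂`-module for `3² : D₈` has 16 elements and the two
four-subgroups of `D₈` have fixed spaces of order 4 and 2.
-/

namespace Cfsg.Agent.Helper58.NineDih

variable {S : Type*} [Group S] {M : Type*} [AddCommGroup M] [Module (ZMod 2) M]

theorem add_self_z2 (m : M) : m + m = 0 := by
  have h2 : (2 : ZMod 2) • m = 0 := by
    have h : (2 : ZMod 2) = 0 := by decide
    rw [h, zero_smul]
  rwa [two_smul] at h2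

theorem eq_of_add_eq_zero_z2 {m n : M} (h : m + n = 0) : m = n := by
  have h2 := add_self_z2 n
  calc m = m + (n + n) := by rw [h2, add_zero]
    _ = (m + n) + n := by abel
    _ = n := by rw [h, zero_add]

theorem rho_mul (ρ : Representation (ZMod 2) S M) (s s' : S) (m : M) :
    ρ (s * s') m = ρ s (ρ s' m) := by
  rw [map_mul]; rfl

theorem rho_one (ρ : Representation (ZMod 2) S M) (m : M) : ρ 1 m = m := by
  rw [map_one]; rfl

/-- The stabiliser of a submodule. -/
def stab (ρ : Representation (ZMod 2) S M) (N : Submodule (ZMod 2) M) : Subgroup S where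
  carrier := {s | (∀ m ∈ N, ρ s m ∈ N) ∧ (∀ m ∈ N, ρ s⁻¹ m ∈ N)}
  mul_mem' := by
    rintro s s' ⟨h1, h2⟩ ⟨h1', h2'⟩
    refine ⟨fun m hm => ?_, fun m hm => ?_⟩
    · rw [rho_mul]; exact h1 _ (h1' _ hm)
    · rw [mul_inv_rev, rho_mul]; exact h2' _ (h2 _ hm)
  one_mem' := by
    refine ⟨fun m hm => ?_, fun m hm => ?_⟩
    · rw [rho_one]; exact hm
    · rw [inv_one, rho_one]; exact hm
  inv_mem' := by
    rintro s ⟨h1, h2⟩
    exact ⟨h2, by rwa [inv_inv]⟩

theorem mem_stab_of_sq (ρ : Representation (ZMod 2) S M) (N : Submodule (ZMod 2) M) {s : S}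
    (hs : s * s = 1) (h : ∀ m ∈ N, ρ s m ∈ N) : s ∈ stab ρ N := by
  have e : s⁻¹ = s := inv_eq_of_mul_eq_one_left hs
  exact ⟨h, by rw [e]; exact h⟩

theorem mem_stab_of_cube (ρ : Representation (ZMod 2) S M) (N : Submodule (ZMod 2) M) {s : S}
    (hs : s * s * s = 1) (h : ∀ m ∈ N, ρ s m ∈ N) : s ∈ stab ρ N := by
  have e : s⁻¹ = s * s := inv_eq_of_mul_eq_one_left hs
  exact ⟨h, fun m hm => by rw [e, rho_mul]; exact h _ (h _ hm)⟩

theorem mem_of_mem_stab (ρ : Representation (ZMod 2) S M) (N : Submodule (ZMod 2) M) {s : S}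
    (hs : s ∈ stab ρ N) : ∀ m ∈ N, ρ s m ∈ N := hs.1

/-- The coordinate space. -/
abbrev P4 : Type := (ZMod 2 × ZMod 2) × (ZMod 2 × ZMod 2)

theorem card_P4 : Nat.card P4 = 16 := by
  rw [Nat.card_eq_fintype_card]; rfl

theorem card_P4_a : Nat.card {p : P4 // p.1.2 = 0 ∧ p.2.2 = 0} = 4 := by
  rw [Nat.card_eq_fintype_card]; rfl

theorem card_P4_b : Nat.card {p : P4 // p.1.2 = 0 ∧ p.2.2 = 0 ∧ p.1.1 = p.2.1} = 2 := by
  rw [Nat.card_eq_fintype_card]; rfl


set_option maxHeartbeats 1000000 in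
/-- The module lemma. -/
theorem module_lemma (ρ : Representation (ZMod 2) S M)
    (hirr : ∀ N : Submodule (ZMod 2) M, (∀ s : S, ∀ m ∈ N, ρ s m ∈ N) → N = ⊥ ∨ N = ⊤)
    (a b u t g : S)
    (ha3 : a * a * a = 1) (hb3 : b * b * b = 1) (hab : a * b = b * a)
    (hu2 : u * u = 1) (ht2 : t * t = 1) (hg2 : g * g = 1)
    (hua : u * a = a * a * u) (hub : u * b = b * b * u)
    (hta : t * a = a * t) (htb : t * b = b * b * t)
    (hga : g * a = b * g) (hgb : g * b = a * g)
    (hut : u * t = t * u) (hug : u * g = g * u) (htg : t * g = u * g * t)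
    (hgen : Subgroup.closure {a, b, u, t, g} = (⊤ : Subgroup S))
    (hanz : ρ a ≠ 1) (v₀ : M) (hv₀ : v₀ ≠ 0) (hav₀ : ρ a v₀ = v₀) :
    Nat.card M = 16 ∧ Nat.card {m : M // ρ u m = m ∧ ρ t m = m} = 4 ∧
      Nat.card {m : M // ρ u m = m ∧ ρ g m = m} = 2 := by
  -- pointwise relations
  have A3 : ∀ m, ρ a (ρ a (ρ a m)) = m := fun m => by
    have := congrArg (fun s => ρ s m) ha3
    simpa only [rho_mul, rho_one] using this
  have B3 : ∀ m, ρ b (ρ b (ρ b m)) = m := fun m => by
    have := congrArg (fun s => ρ s m) hb3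
    simpa only [rho_mul, rho_one] using this
  have AB : ∀ m, ρ a (ρ b m) = ρ b (ρ a m) := fun m => by
    have := congrArg (fun s => ρ s m) hab
    simpa only [rho_mul, rho_one] using this
  have U2 : ∀ m, ρ u (ρ u m) = m := fun m => by
    have := congrArg (fun s => ρ s m) hu2
    simpa only [rho_mul, rho_one] using this
  have T2 : ∀ m, ρ t (ρ t m) = m := fun m => by
    have := congrArg (fun s => ρ s m) ht2
    simpa only [rho_mul, rho_one] using this
  have G2 : ∀ m, ρ g (ρ g m) = m := fun m => by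
    have := congrArg (fun s => ρ s m) hg2
    simpa only [rho_mul, rho_one] using this
  have UA : ∀ m, ρ u (ρ a m) = ρ a (ρ a (ρ u m)) := fun m => by
    have := congrArg (fun s => ρ s m) hua
    simpa only [rho_mul, rho_one] using this
  have UB : ∀ m, ρ u (ρ b m) = ρ b (ρ b (ρ u m)) := fun m => by
    have := congrArg (fun s => ρ s m) hub
    simpa only [rho_mul, rho_one] using this
  have TA : ∀ m, ρ t (ρ a m) = ρ a (ρ t m) := fun m => by
    have := congrArg (fun s => ρ s m) hta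
    simpa only [rho_mul, rho_one] using this
  have TB : ∀ m, ρ t (ρ b m) = ρ b (ρ b (ρ t m)) := fun m => by
    have := congrArg (fun s => ρ s m) htb
    simpa only [rho_mul, rho_one] using this
  have GA : ∀ m, ρ g (ρ a m) = ρ b (ρ g m) := fun m => by
    have := congrArg (fun s => ρ s m) hga
    simpa only [rho_mul, rho_one] using this
  have GB : ∀ m, ρ g (ρ b m) = ρ a (ρ g m) := fun m => by
    have := congrArg (fun s => ρ s m) hgb
    simpa only [rho_mul, rho_one] using this
  have UT : ∀ m, ρ u (ρ t m) = ρ t (ρ u m) := fun m => by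
    have := congrArg (fun s => ρ s m) hut
    simpa only [rho_mul, rho_one] using this
  have UG : ∀ m, ρ u (ρ g m) = ρ g (ρ u m) := fun m => by
    have := congrArg (fun s => ρ s m) hug
    simpa only [rho_mul, rho_one] using this
  have TG : ∀ m, ρ t (ρ g m) = ρ u (ρ g (ρ t m)) := fun m => by
    have := congrArg (fun s => ρ s m) htg
    simpa only [rho_mul, rho_one] using this
  -- general invariance principle
  have hinv : ∀ N : Submodule (ZMod 2) M, (∀ m ∈ N, ρ a m ∈ N) → (∀ m ∈ N, ρ b m ∈ N) →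
      (∀ m ∈ N, ρ u m ∈ N) → (∀ m ∈ N, ρ t m ∈ N) → (∀ m ∈ N, ρ g m ∈ N) →
      ∀ s : S, ∀ m ∈ N, ρ s m ∈ N := by
    intro N h1 h2 h3 h4 h5 s
    have hle : Subgroup.closure {a, b, u, t, g} ≤ stab ρ N := by
      rw [Subgroup.closure_le]
      intro x hx
      simp only [Set.mem_insert_iff, Set.mem_singleton_iff] at hx
      rcases hx with rfl | rfl | rfl | rfl | rfl
      · exact mem_stab_of_cube ρ N ha3 h1
      · exact mem_stab_of_cube ρ N hb3 h2
      · exact mem_stab_of_sq ρ N hu2 h3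
      · exact mem_stab_of_sq ρ N ht2 h4
      · exact mem_stab_of_sq ρ N hg2 h5
    have hs : s ∈ stab ρ N := hle (by rw [hgen]; trivial)
    exact hs.1
  -- the common fixed space of a, b is zero
  have hF : ∀ m, ρ a m = m → ρ b m = m → m = 0 := by
    let F : Submodule (ZMod 2) M :=
      { carrier := {m | ρ a m = m ∧ ρ b m = m}
        add_mem' := by
          rintro x y ⟨h1, h2⟩ ⟨h3, h4⟩
          exact ⟨by rw [map_add, h1, h3], by rw [map_add, h2, h4]⟩
        zero_mem' := ⟨map_zero _, map_zero _⟩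
        smul_mem' := by
          rintro c x ⟨h1, h2⟩
          exact ⟨by rw [map_smul, h1], by rw [map_smul, h2]⟩ }
    have hFmem : ∀ m, m ∈ F ↔ (ρ a m = m ∧ ρ b m = m) := fun m => Iff.rfl
    have hFinv : ∀ s : S, ∀ m ∈ F, ρ s m ∈ F := by
      apply hinv F
      · intro m hm
        rw [hFmem] at hm ⊢
        rw [hm.1]; exact hm
      · intro m hm
        rw [hFmem] at hm ⊢
        rw [hm.2]; exact hm
      · intro m hm
        rw [hFmem] at hm ⊢
        have e1 := UA m
        rw [hm.1] at e1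
        have e2 := UB m
        rw [hm.2] at e2
        refine ⟨?_, ?_⟩
        · conv_lhs => rw [e1]
          rw [A3]
        · conv_lhs => rw [e2]
          rw [B3]
      · intro m hm
        rw [hFmem] at hm ⊢
        have e2 := TB m
        rw [hm.2] at e2
        refine ⟨?_, ?_⟩
        · rw [← TA, hm.1]
        · conv_lhs => rw [e2]
          rw [B3]
      · intro m hm
        rw [hFmem] at hm ⊢
        refine ⟨?_, ?_⟩
        · rw [← GB, hm.2]
        · rw [← GA, hm.1]
    rcases hirr F hFinv with h | h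
    · intro m h1 h2
      have : m ∈ F := ⟨h1, h2⟩
      rw [h] at this
      simpa using this
    · exfalso
      apply hanz
      ext m
      have : m ∈ F := by rw [h]; trivial
      simpa using this.1
  -- on the fixed space of a, 1 + b + b^2 = 0
  have key : ∀ m, ρ a m = m → ρ b (ρ b m) = m + ρ b m := by
    intro m hm
    have h0 : m + ρ b m + ρ b (ρ b m) = 0 := by
      apply hF
      · rw [map_add, map_add, AB, AB, AB, hm]
      · rw [map_add, map_add, B3]; abel
    apply eq_of_add_eq_zero_z2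
    rw [← h0]; abel
  -- choice of v
  obtain ⟨v₁, hv₁, hAv₁, hTv₁⟩ : ∃ v₁, v₁ ≠ 0 ∧ ρ a v₁ = v₁ ∧ ρ t v₁ = v₁ := by
    by_cases h : ρ t v₀ = v₀
    · exact ⟨v₀, hv₀, hav₀, h⟩
    · refine ⟨v₀ + ρ t v₀, ?_, ?_, ?_⟩
      · intro h0; exact h (eq_of_add_eq_zero_z2 h0).symm
      · rw [map_add, ← TA, hav₀]
      · rw [map_add, T2, add_comm]
  obtain ⟨v, hv, hAv, hTv, hUv⟩ : ∃ v, v ≠ 0 ∧ ρ a v = v ∧ ρ t v = v ∧ ρ u v = v := by
    by_cases h : ρ u v₁ = v₁
    · exact ⟨v₁, hv₁, hAv₁, hTv₁, h⟩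
    · have e1 := UA v₁
      rw [hAv₁] at e1
      have e2 : ρ a (ρ u v₁) = ρ u v₁ := by
        conv_lhs => rw [e1]
        rw [A3]
      refine ⟨v₁ + ρ u v₁, ?_, ?_, ?_, ?_⟩
      · intro h0; exact h (eq_of_add_eq_zero_z2 h0).symm
      · rw [map_add, e2, hAv₁]
      · rw [map_add, ← UT, hTv₁]
      · rw [map_add, U2, add_comm]
  -- the four vectors
  obtain ⟨w, hw⟩ : ∃ w, w = ρ b v := ⟨_, rfl⟩
  obtain ⟨v', hv'⟩ : ∃ v', v' = ρ g v := ⟨_, rfl⟩
  obtain ⟨w', hw'⟩ : ∃ w', w' = ρ g w := ⟨_, rfl⟩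
  have hAw : ρ a w = w := by rw [hw, AB, hAv]
  have hBv : ρ b v = w := hw.symm
  have hBw : ρ b w = v + w := by rw [hw]; exact key v hAv
  have hAv' : ρ a v' = w' := by rw [hv', ← GB, hw', hw]
  have hAw' : ρ a w' = v' + w' := by rw [hw', ← GB, hBw, map_add, hv']
  have hBv' : ρ b v' = v' := by rw [hv', ← GA, hAv]
  have hBw' : ρ b w' = w' := by rw [hw', ← GA, hAw]
  have hUw : ρ u w = v + w := by rw [hw, UB, hUv, ← hw, hBw]
  have hUv' : ρ u v' = v' := by rw [hv', UG, hUv]
  have hUw' : ρ u w' = v' + w' := by rw [hw', UG, hUw, map_add, hv']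
  have hTw : ρ t w = v + w := by rw [hw, TB, hTv, ← hw, hBw]
  have hTv' : ρ t v' = v' := by rw [hv', TG, hTv, UG, hUv]
  have hTw' : ρ t w' = w' := by
    rw [hw', TG, hTw, map_add, map_add, ← hv', ← hw', hUv', hUw', ← add_assoc, add_self_z2,
      zero_add]
  have hGv : ρ g v = v' := hv'.symm
  have hGw : ρ g w = w' := hw'.symm
  have hGv' : ρ g v' = v := by rw [hv', G2]
  have hGw' : ρ g w' = w := by rw [hw', G2]
  -- the coordinate map
  let f : P4 →ₗ[ZMod 2] M :=
    ((LinearMap.toSpanSingleton (ZMod 2) M v).coprod (LinearMap.toSpanSingleton (ZMod 2) M w)).coprod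
      ((LinearMap.toSpanSingleton (ZMod 2) M v').coprod (LinearMap.toSpanSingleton (ZMod 2) M w'))
  have hf : ∀ p : P4, f p = p.1.1 • v + p.1.2 • w + (p.2.1 • v' + p.2.2 • w') := by
    intro p
    simp [f, LinearMap.coprod_apply, LinearMap.toSpanSingleton_apply]
  have fA : ∀ p : P4, ρ a (f p) = f ((p.1.1, p.1.2), (p.2.2, p.2.1 + p.2.2)) := by
    intro p
    rw [hf, hf]
    simp only [map_add, map_smul, hAv, hAw, hAv', hAw', smul_add, add_smul]
    abel
  have fB : ∀ p : P4, ρ b (f p) = f ((p.1.2, p.1.1 + p.1.2), (p.2.1, p.2.2)) := by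
    intro p
    rw [hf, hf]
    simp only [map_add, map_smul, hBv, hBw, hBv', hBw', smul_add, add_smul]
    abel
  have fU : ∀ p : P4, ρ u (f p) = f ((p.1.1 + p.1.2, p.1.2), (p.2.1 + p.2.2, p.2.2)) := by
    intro p
    rw [hf, hf]
    simp only [map_add, map_smul, hUv, hUw, hUv', hUw', smul_add, add_smul]
    abel
  have fT : ∀ p : P4, ρ t (f p) = f ((p.1.1 + p.1.2, p.1.2), (p.2.1, p.2.2)) := by
    intro p
    rw [hf, hf]
    simp only [map_add, map_smul, hTv, hTw, hTv', hTw', smul_add, add_smul]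
    abel
  have fG : ∀ p : P4, ρ g (f p) = f ((p.2.1, p.2.2), (p.1.1, p.1.2)) := by
    intro p
    rw [hf, hf]
    simp only [map_add, map_smul, hGv, hGw, hGv', hGw', smul_add, add_smul]
    abel
  -- surjectivity
  have hsurj : Function.Surjective f := by
    have hR : ∀ s : S, ∀ m ∈ LinearMap.range f, ρ s m ∈ LinearMap.range f := by
      apply hinv
      · rintro m ⟨p, rfl⟩; exact ⟨_, (fA p).symm⟩
      · rintro m ⟨p, rfl⟩; exact ⟨_, (fB p).symm⟩
      · rintro m ⟨p, rfl⟩; exact ⟨_, (fU p).symm⟩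
      · rintro m ⟨p, rfl⟩; exact ⟨_, (fT p).symm⟩
      · rintro m ⟨p, rfl⟩; exact ⟨_, (fG p).symm⟩
    rcases hirr _ hR with h | h
    · exfalso
      have : v ∈ LinearMap.range f := ⟨((1, 0), (0, 0)), by rw [hf]; simp⟩
      rw [h] at this
      exact hv (by simpa using this)
    · exact LinearMap.range_eq_top.mp h
  -- injectivity
  have hvw : ∀ x y : ZMod 2, x • v + y • w = 0 → x = 0 ∧ y = 0 := by
    intro x y h
    have hw0 : w ≠ 0 := by
      intro h0
      apply hv
      have := B3 v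
      rw [hBv, h0, map_zero, map_zero] at this
      exact this.symm
    have hvw' : v + w ≠ 0 := by
      intro h0
      have e := eq_of_add_eq_zero_z2 h0
      exact hv (hF v hAv (by rw [hBv, ← e]))
    have h01 : ∀ z : ZMod 2, z = 0 ∨ z = 1 := by decide
    rcases h01 x with rfl | rfl <;> rcases h01 y with rfl | rfl
    · exact ⟨rfl, rfl⟩
    · exfalso; apply hw0; simpa using h
    · exfalso; apply hv; simpa using h
    · exfalso; apply hvw'; simpa using h
  have hinj : Function.Injective f := by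
    rw [injective_iff_map_eq_zero]
    rintro ⟨⟨x, y⟩, ⟨z, k⟩⟩ h
    rw [hf] at h
    simp only at h
    have e := eq_of_add_eq_zero_z2 h
    have h1 : x • v + y • w = 0 := by
      apply hF
      · simp only [map_add, map_smul, hAv, hAw]
      · rw [e]; simp only [map_add, map_smul, hBv', hBw']
    have h2 : z • v + k • w = 0 := by
      have h3 : z • v' + k • w' = 0 := by rw [← e]; exact h1
      have := congrArg (ρ g) h3
      simpa only [map_add, map_smul, hGv', hGw', map_zero] using this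
    obtain ⟨rfl, rfl⟩ := hvw x y h1
    obtain ⟨rfl, rfl⟩ := hvw z k h2
    rfl
  let e : P4 ≃ M := Equiv.ofBijective f ⟨hinj, hsurj⟩
  have he : ∀ p, e p = f p := fun p => rfl
  refine ⟨?_, ?_, ?_⟩
  · rw [← Nat.card_congr e, card_P4]
  · rw [← card_P4_a]
    refine (Nat.card_congr (Equiv.subtypeEquiv e ?_)).symm
    rintro ⟨⟨x, y⟩, ⟨z, k⟩⟩
    rw [he, fU, fT, hinj.eq_iff, hinj.eq_iff]
    simp only [Prod.mk.injEq]
    revert x y z k
    decide
  · refine ((Nat.card_congr (Equiv.subtypeEquiv e ?_)).symm).trans card_P4_b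
    rintro ⟨⟨x, y⟩, ⟨z, k⟩⟩
    rw [he, fU, fG, hinj.eq_iff, hinj.eq_iff]
    simp only [Prod.mk.injEq]
    revert x y z k
    decide

end Cfsg.Agent.Helper58.NineDih
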