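import Mathlib

/-!
# Orbit sizes of subgroups via relative indices (helper58)

For a group `Γ` acting on `X`, a subgroup `H` and a point `v`, the orbit `{u | ∃ h ∈ H, h • v = u}`
has `(stabilizer Γ v).relIndex H` elements.  Product formula `|HN| |N ∩ H| = |N| |H|` when `H`
normalizes `N`, and two divisibility consequences for orbit sizes.
-/

set_option autoImplicit false

namespace Cfsg.Agent.Helper58

open Subgroup MulAction

section cards

variable {Γ : Type*} [Group Γ]

/-- `[K : A ∩ K] * |A ∩ K| = |K|` -/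
theorem relIndex_mul_card_inf (A K : Subgroup Γ) :
    A.relIndex K * Nat.card (A ⊓ K : Subgroup Γ) = Nat.card K := by
  have h1 := (A.subgroupOf K).index_mul_card
  have h2 : Nat.card (A.subgroupOf K) = Nat.card (A ⊓ K : Subgroup Γ) := by
    rw [← inf_subgroupOf_right A K]
    exact Nat.card_congr (subgroupOfEquivOfLe (inf_le_right : A ⊓ K ≤ K)).toEquiv
  rw [h2] at h1
  exact h1

/-- the product formula `|HN| |N ∩ H| = |N| |H|` when `H` normalizes `N` -/
theorem card_sup_mul_card_inf (H N : Subgroup Γ) (hLE : H ≤ normalizer (N : Set Γ)) :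
    Nat.card (H ⊔ N : Subgroup Γ) * Nat.card (N ⊓ H : Subgroup Γ) = Nat.card N * Nat.card H := by
  have h1 : N.relIndex H = N.relIndex (H ⊔ N) := by
    unfold Subgroup.relIndex
    rw [Subgroup.index_eq_card, Subgroup.index_eq_card]
    letI := Subgroup.normal_subgroupOf_of_le_normalizer hLE
    letI := Subgroup.normal_subgroupOf_sup_of_le_normalizer hLE
    exact Nat.card_congr (QuotientGroup.quotientInfEquivProdNormalizerQuotient H N hLE).toEquiv
  have h2 := relIndex_mul_card_inf N H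
  have h3 := relIndex_mul_card_inf N (H ⊔ N)
  have h4 : (N ⊓ (H ⊔ N) : Subgroup Γ) = N := inf_eq_left.mpr le_sup_right
  rw [h4, ← h1] at h3
  calc Nat.card (H ⊔ N : Subgroup Γ) * Nat.card (N ⊓ H : Subgroup Γ)
      = N.relIndex H * Nat.card N * Nat.card (N ⊓ H : Subgroup Γ) := by rw [h3]
    _ = Nat.card N * (N.relIndex H * Nat.card (N ⊓ H : Subgroup Γ)) := by ring
    _ = Nat.card N * Nat.card H := by rw [h2]

variable [Finite Γ]

/-- for `K ≤ H` normalized by `H` and any `A`: `[K : A ∩ K]` divides `[H : A ∩ H]` -/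
theorem relIndex_dvd_relIndex_of_le_normalizer (A K H : Subgroup Γ) (hKH : K ≤ H)
    (hn : H ≤ normalizer (K : Set Γ)) : A.relIndex K ∣ A.relIndex H := by
  have hP := card_sup_mul_card_inf (A ⊓ H) K (inf_le_right.trans hn)
  have h1 := relIndex_mul_card_inf A K
  have h2 := relIndex_mul_card_inf A H
  have h3 : (K ⊓ (A ⊓ H) : Subgroup Γ) = A ⊓ K := by
    rw [inf_comm A H, ← inf_assoc, inf_eq_left.mpr hKH, inf_comm]
  rw [h3] at hP
  have hle : (A ⊓ H ⊔ K : Subgroup Γ) ≤ H := sup_le inf_le_right hKH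
  obtain ⟨t, ht⟩ := Subgroup.card_dvd_of_le hle
  have hc : 0 < Nat.card (A ⊓ K : Subgroup Γ) := Nat.card_pos
  have ha : 0 < Nat.card (A ⊓ H : Subgroup Γ) := Nat.card_pos
  -- m * c = k * a', x * c = k  =>  m = x * a'
  have hm : Nat.card (A ⊓ H ⊔ K : Subgroup Γ) = A.relIndex K * Nat.card (A ⊓ H : Subgroup Γ) := by
    apply Nat.eq_of_mul_eq_mul_right hc
    rw [hP, ← h1]; ring
  refine ⟨t, ?_⟩
  apply Nat.eq_of_mul_eq_mul_right ha
  rw [h2, ht, hm]; ring

/-- if `H` normalizes the `p'`-group `N` and `p ∤ [H : A ∩ H]` then `p ∤ [NH : A ∩ NH]` -/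
theorem not_dvd_relIndex_sup {p : ℕ} (hp : p.Prime) (A N H : Subgroup Γ)
    (hn : H ≤ normalizer (N : Set Γ)) (hN : ¬ p ∣ Nat.card N) (hH : ¬ p ∣ A.relIndex H) :
    ¬ p ∣ A.relIndex (N ⊔ H) := by
  intro hdvd
  have hP := card_sup_mul_card_inf H N hn
  rw [sup_comm] at hP
  have h1 := relIndex_mul_card_inf A (N ⊔ H)
  have h2 := relIndex_mul_card_inf A H
  have hle : (A ⊓ H : Subgroup Γ) ≤ A ⊓ (N ⊔ H) := inf_le_inf_left A le_sup_right
  obtain ⟨u, hu⟩ := Subgroup.card_dvd_of_le hle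
  have ha : 0 < Nat.card (A ⊓ H : Subgroup Γ) := Nat.card_pos
  -- z * a₁ * u * c = n * y * a₁
  have key : A.relIndex (N ⊔ H) * (u * Nat.card (N ⊓ H : Subgroup Γ)) = Nat.card N * A.relIndex H := by
    apply Nat.eq_of_mul_eq_mul_right ha
    calc A.relIndex (N ⊔ H) * (u * Nat.card (N ⊓ H : Subgroup Γ)) * Nat.card (A ⊓ H : Subgroup Γ)
        = A.relIndex (N ⊔ H) * (Nat.card (A ⊓ H : Subgroup Γ) * u) * Nat.card (N ⊓ H : Subgroup Γ) := by
          ring
      _ = Nat.card (N ⊔ H : Subgroup Γ) * Nat.card (N ⊓ H : Subgroup Γ) := by rw [← hu, h1]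
      _ = Nat.card N * Nat.card H := hP
      _ = Nat.card N * A.relIndex H * Nat.card (A ⊓ H : Subgroup Γ) := by rw [← h2]; ring
  have h3 : p ∣ Nat.card N * A.relIndex H := by
    rw [← key]; exact Dvd.dvd.mul_right hdvd _
  rcases (Nat.Prime.dvd_mul hp).mp h3 with h | h
  · exact hN h
  · exact hH h

end cards

section orbit

variable {Γ : Type*} [Group Γ] {X : Type*} [MulAction Γ X]

/-- the orbit of `v` under the subgroup `H` has `[H : H_v]` elements -/
theorem ncard_orbit_subgroup (H : Subgroup Γ) (v : X) :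
    Set.ncard {u : X | ∃ h ∈ H, h • v = u} = (stabilizer Γ v).relIndex H := by
  have h1 : {u : X | ∃ h ∈ H, h • v = u} = orbit H v := by
    ext u
    constructor
    · rintro ⟨h, hh, rfl⟩
      exact ⟨⟨h, hh⟩, rfl⟩
    · rintro ⟨h, rfl⟩
      exact ⟨h.1, h.2, rfl⟩
  have h2 : stabilizer H v = (stabilizer Γ v).subgroupOf H := by
    ext h
    rw [Subgroup.mem_subgroupOf, mem_stabilizer_iff, mem_stabilizer_iff]
    rfl
  rw [h1, ← index_stabilizer, h2]
  rfl

theorem card_orbit_subgroup (H : Subgroup Γ) (v : X) :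
    Nat.card {u : X | ∃ h ∈ H, h • v = u} = (stabilizer Γ v).relIndex H := by
  rw [← ncard_orbit_subgroup H v]
  exact Nat.card_coe_set_eq _

end orbit

end Cfsg.Agent.Helper58
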