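import Mathlib

/-!
# Functions on `ZMod p` with `(σ x - σ y) ^ k = (x - y) ^ k` are affine (helper58)

McConnel/Carlitz-type theorem for the prime field: if `σ : ZMod p → ZMod p` is injective and
`(σ x - σ y) ^ k = (x - y) ^ k` for all `x y`, where `1 ≤ k` and `2 * k ≤ p - 1`, then `σ` is affine
(`affine_of_pow_sub_eq`).  Steps: `exists_poly_of_pow_sub_eq` (each power `σ ^ l`, `l ≤ k`, is a
polynomial function of degree `≤ k`) and `affine_of_pow_poly` (the degree argument).
-/

set_option autoImplicit false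

namespace Cfsg.Agent.Helper58

open Polynomial

variable {p : ℕ} [hp : Fact p.Prime]

/-- natural numbers below `p` are distinct in `ZMod p` -/
theorem natCast_zmod_injOn {i j : ℕ} (hi : i < p) (hj : j < p) (h : (i : ZMod p) = (j : ZMod p)) :
    i = j := by
  rw [ZMod.natCast_eq_natCast_iff'] at h
  rwa [Nat.mod_eq_of_lt hi, Nat.mod_eq_of_lt hj] at h

/-- binomial coefficients `k.choose j` with `k < p` are non-zero in `ZMod p` -/
theorem choose_ne_zero_zmod {k j : ℕ} (hk : k < p) (hj : j ≤ k) : ((k.choose j : ℕ) : ZMod p) ≠ 0 := by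
  intro h
  rw [ZMod.natCast_eq_zero_iff] at h
  have h1 : p ∣ k.factorial := by
    rw [← Nat.choose_mul_factorial_mul_factorial hj]
    exact Dvd.dvd.mul_right (Dvd.dvd.mul_right h _) _
  have h2 := (Nat.Prime.dvd_factorial hp.out).mp h1
  omega

/-- if `(σ x - σ y) ^ k = (x - y) ^ k` identically, every power `σ ^ l` with `l ≤ k` is a polynomial
function of degree at most `k` -/
theorem exists_poly_of_pow_sub_eq (σ : ZMod p → ZMod p) (hσ : Function.Injective σ) (k : ℕ) (hk : k < p)
    (h : ∀ x y : ZMod p, (σ x - σ y) ^ k = (x - y) ^ k) (l : ℕ) (hl : l ≤ k) :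
    ∃ P : (ZMod p)[X], P.natDegree ≤ k ∧ ∀ y : ZMod p, P.eval y = σ y ^ l := by
  classical
  set s : Finset ℕ := Finset.range (k + 1) with hs
  set v : ℕ → ZMod p := fun i => σ (i : ZMod p) with hv
  have hvs : Set.InjOn v s := by
    intro i hi j hj hij
    rw [hs, Finset.coe_range, Set.mem_Iio] at hi hj
    exact natCast_zmod_injOn (by omega) (by omega) (hσ hij)
  -- the key identity, for every `y`
  have key : ∀ y : ZMod p, (-σ y) ^ l * ((k.choose (k - l) : ℕ) : ZMod p) =
      ∑ i ∈ s, ((i : ZMod p) - y) ^ k * (Lagrange.basis s v i).coeff (k - l) := by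
    intro y
    have hdeg : ((X + C (-σ y)) ^ k : (ZMod p)[X]).degree < s.card := by
      rw [hs, Finset.card_range]
      refine lt_of_le_of_lt degree_le_natDegree ?_
      have h1 : ((X + C (-σ y)) ^ k : (ZMod p)[X]).natDegree ≤ k := by
        refine le_trans natDegree_pow_le ?_
        rw [natDegree_X_add_C, mul_one]
      exact_mod_cast Nat.lt_succ_of_le h1
    have h1 := Lagrange.eq_interpolate_of_eval_eq (s := s) (v := v)
      (r := fun i => ((i : ZMod p) - y) ^ k) hvs hdeg (by
        intro i _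
        rw [eval_pow, eval_add, eval_X, eval_C, hv, ← sub_eq_add_neg]
        exact h _ _)
    have h2 := congrArg (fun P : (ZMod p)[X] => P.coeff (k - l)) h1
    simp only [Lagrange.interpolate_apply, finsetSum_coeff, coeff_C_mul] at h2
    rw [coeff_X_add_C_pow] at h2
    have e : k - (k - l) = l := by omega
    rw [e] at h2
    exact h2
  have hc : ((k.choose (k - l) : ℕ) : ZMod p) ≠ 0 := choose_ne_zero_zmod hk (by omega)
  refine ⟨C ((-1) ^ l * (((k.choose (k - l) : ℕ) : ZMod p))⁻¹) *
    ∑ i ∈ s, C ((Lagrange.basis s v i).coeff (k - l)) * (C (i : ZMod p) - X) ^ k, ?_, ?_⟩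
  · refine le_trans (natDegree_C_mul_le _ _) ?_
    apply natDegree_sum_le_of_forall_le
    intro i _
    refine le_trans (natDegree_C_mul_le _ _) ?_
    refine le_trans natDegree_pow_le ?_
    have h1 : (C (i : ZMod p) - X : (ZMod p)[X]).natDegree ≤ 1 := by
      refine le_trans (natDegree_sub_le _ _) ?_
      rw [natDegree_C, natDegree_X]
      simp
    calc k * (C (i : ZMod p) - X : (ZMod p)[X]).natDegree ≤ k * 1 := Nat.mul_le_mul_left k h1
      _ = k := mul_one k
  · intro y
    rw [eval_mul, eval_C, eval_finsetSum]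
    have h3 : ∑ i ∈ s, eval y (C ((Lagrange.basis s v i).coeff (k - l)) * (C (i : ZMod p) - X) ^ k) =
        (-σ y) ^ l * ((k.choose (k - l) : ℕ) : ZMod p) := by
      rw [key y]
      apply Finset.sum_congr rfl
      intro i _
      rw [eval_mul, eval_C, eval_pow, eval_sub, eval_C, eval_X, mul_comm]
    rw [h3]
    have h5 : (-1 : ZMod p) ^ l * (-σ y) ^ l = σ y ^ l := by
      rw [← mul_pow, neg_one_mul, neg_neg]
    calc (-1) ^ l * (((k.choose (k - l) : ℕ) : ZMod p))⁻¹ * ((-σ y) ^ l * ((k.choose (k - l) : ℕ) : ZMod p))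
        = ((-1) ^ l * (-σ y) ^ l) * ((((k.choose (k - l) : ℕ) : ZMod p))⁻¹ * ((k.choose (k - l) : ℕ) : ZMod p)) := by
          ring
      _ = σ y ^ l := by rw [h5, inv_mul_cancel₀ hc, mul_one]

/-- if each power `σ ^ l` (`l ≤ k`) is a polynomial function of degree `≤ k`, where `2 * k ≤ p - 1`,
then `σ` is affine -/
theorem affine_of_pow_poly (σ : ZMod p → ZMod p) (k : ℕ) (hk1 : 1 ≤ k) (hk : 2 * k ≤ p - 1)
    (h : ∀ l : ℕ, l ≤ k → ∃ P : (ZMod p)[X], P.natDegree ≤ k ∧ ∀ y : ZMod p, P.eval y = σ y ^ l) :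
    ∃ a b : ZMod p, ∀ x : ZMod p, σ x = a * x + b := by
  have hp2 : 2 ≤ p := hp.out.two_le
  obtain ⟨P, hPdeg, hP⟩ := h 1 hk1
  by_cases hD : P.natDegree ≤ 1
  · refine ⟨P.coeff 1, P.coeff 0, fun x => ?_⟩
    have h1 := hP x
    rw [pow_one] at h1
    rw [← h1]
    conv_lhs => rw [eq_X_add_C_of_natDegree_le_one hD]
    simp
  · exfalso
    push Not at hD
    set D := P.natDegree with hDdef
    set l := k / D + 1 with hldef
    have hDpos : 0 < D := by omega
    have h1 : k < l * D := by
      rw [hldef, mul_comm]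
      exact Nat.lt_mul_div_succ k hDpos
    have h2 : k / D * D ≤ k := Nat.div_mul_le_self k D
    have h3 : l * D ≤ p - 1 := by
      have : l * D = k / D * D + D := by rw [hldef]; ring
      omega
    have h4 : l ≤ k := by
      have h5 : k / D ≤ k / 2 := Nat.div_le_div_left hD (by norm_num)
      have h6 : k / 2 * 2 ≤ k := Nat.div_mul_le_self k 2
      omega
    obtain ⟨Q, hQdeg, hQ⟩ := h l h4
    have hcard : (Finset.univ : Finset (ZMod p)).card = p := by
      rw [Finset.card_univ, ZMod.card]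
    have hPl : (P ^ l).natDegree = l * D := natDegree_pow P l
    have e : P ^ l = Q := by
      apply Polynomial.eq_of_degrees_lt_of_eval_finset_eq (Finset.univ : Finset (ZMod p))
      · rw [hcard]
        refine lt_of_le_of_lt degree_le_natDegree ?_
        rw [hPl]
        exact_mod_cast (by omega : l * D < p)
      · rw [hcard]
        refine lt_of_le_of_lt degree_le_natDegree ?_
        exact_mod_cast (by omega : Q.natDegree < p)
      · intro x _
        rw [eval_pow, hP, hQ, pow_one]
    rw [e] at hPl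
    omega

/-- **McConnel's theorem for the prime field**: an injective function `σ` on `ZMod p` with
`(σ x - σ y) ^ k = (x - y) ^ k` for all `x y`, where `1 ≤ k` and `2 * k ≤ p - 1`, is affine -/
theorem affine_of_pow_sub_eq (σ : ZMod p → ZMod p) (hσ : Function.Injective σ) (k : ℕ) (hk1 : 1 ≤ k)
    (hk : 2 * k ≤ p - 1) (h : ∀ x y : ZMod p, (σ x - σ y) ^ k = (x - y) ^ k) :
    ∃ a b : ZMod p, ∀ x : ZMod p, σ x = a * x + b := by
  have hp2 : 2 ≤ p := hp.out.two_le
  exact affine_of_pow_poly σ k hk1 hk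
    (fun l hl => exists_poly_of_pow_sub_eq σ hσ k (by omega) h l hl)

end Cfsg.Agent.Helper58
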