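import Mathlib
import Cfsg.Prelude.Def_CaseTheorems

set_option autoImplicit false

/-!
Sectional rank tools: a section given by an injective and a surjective homomorphism, chains of
subgroups, index-two subgroups of non-abelian 2-groups, and the lemma that two non-abelian
subgroups with different centres of order two which normalise each other in a 2-group of sectional
rank at most four commute, meet trivially, and have their common centraliser inside their product.
-/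

namespace Cfsg.Agent.Helper58

open Subgroup

theorem card_le_of_sectionalPRankLE {p k : ℕ} {S : Type*} [Group S]
    (hr : Cfsg.SectionalPRankLE p k S) {G E : Type*} [Group G] [Group E]
    (φ : G →* S) (hφ : Function.Injective φ) (ψ : G →* E) (hψ : Function.Surjective ψ)
    (hcomm : ∀ a b : E, a * b = b * a) (hexp : ∀ a : E, a ^ p = 1) :
    Nat.card E ≤ p ^ k := by
  classical
  let e₁ : G ≃* ↥φ.range := MonoidHom.ofInjective hφ
  let ψ' : ↥φ.range →* E := ψ.comp e₁.symm.toMonoidHom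
  have hψ' : Function.Surjective ψ' := hψ.comp e₁.symm.surjective
  let e₂ : ↥φ.range ⧸ ψ'.ker ≃* E := QuotientGroup.quotientKerEquivOfSurjective ψ' hψ'
  have h := hr φ.range ψ'.ker (⊤ : Subgroup (↥φ.range ⧸ ψ'.ker)) ?_ ?_
  · have h1 : Nat.card ↥(⊤ : Subgroup (↥φ.range ⧸ ψ'.ker)) = Nat.card E := by
      rw [Subgroup.card_top]; exact Nat.card_congr e₂.toEquiv
    rwa [h1] at h
  · refine ⟨⟨fun a b => ?_⟩⟩
    apply Subtype.ext
    apply e₂.injective
    change e₂ ((a : ↥φ.range ⧸ ψ'.ker) * (b : ↥φ.range ⧸ ψ'.ker)) =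
      e₂ ((b : ↥φ.range ⧸ ψ'.ker) * (a : ↥φ.range ⧸ ψ'.ker))
    rw [map_mul, map_mul, hcomm]
  · intro a _
    apply e₂.injective
    rw [map_pow, hexp, map_one]

theorem relIndex_le_of_sectional_two {k : ℕ} {S : Type*} [Group S]
    (hr : Cfsg.SectionalPRankLE 2 k S) (H N : Subgroup S)
    (hnorm : ∀ h ∈ H, ∀ n ∈ N, h * n * h⁻¹ ∈ N) (hexp : ∀ h ∈ H, h ^ 2 ∈ N) :
    N.relIndex H ≤ 2 ^ k := by
  have hN : (N.subgroupOf H).Normal := by
    constructor
    intro n hn g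
    rw [Subgroup.mem_subgroupOf] at hn ⊢
    simpa using hnorm g g.2 n hn
  have hexp' : ∀ a : ↥H ⧸ N.subgroupOf H, a ^ 2 = 1 := by
    intro a
    induction a using QuotientGroup.induction_on with
    | H a =>
      rw [← QuotientGroup.mk_pow, QuotientGroup.eq_one_iff, Subgroup.mem_subgroupOf]
      simpa using hexp a a.2
  have hinv : ∀ a : ↥H ⧸ N.subgroupOf H, a⁻¹ = a := by
    intro a
    have h2 := hexp' a
    rw [pow_two] at h2
    exact inv_eq_of_mul_eq_one_left h2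
  have hcomm : ∀ a b : ↥H ⧸ N.subgroupOf H, a * b = b * a := by
    intro a b
    rw [← hinv (a * b), mul_inv_rev, hinv, hinv]
  exact card_le_of_sectionalPRankLE hr H.subtype H.subtype_injective
    (QuotientGroup.mk' (N.subgroupOf H)) (QuotientGroup.mk'_surjective _) hcomm hexp'

theorem two_le_relIndex_of_lt {S : Type*} [Group S] [Finite S] {A B : Subgroup S} (h : A < B) :
    2 ≤ A.relIndex B := by
  have h0 : A.relIndex B ≠ 0 := by
    unfold Subgroup.relIndex
    exact Subgroup.index_ne_zero_of_finite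
  have h1 : A.relIndex B ≠ 1 := by
    rw [Ne, Subgroup.relIndex_eq_one]; exact not_le_of_gt h
  omega

theorem mem_sup_of_commute {S : Type*} [Group S] {P Q : Subgroup S}
    (h : ∀ p ∈ P, ∀ q ∈ Q, p * q = q * p) {x : S} (hx : x ∈ P ⊔ Q) :
    ∃ p ∈ P, ∃ q ∈ Q, x = p * q := by
  let T : Subgroup S :=
    { carrier := {x | ∃ p ∈ P, ∃ q ∈ Q, x = p * q}
      mul_mem' := by
        rintro _ _ ⟨p, hp, q, hq, rfl⟩ ⟨p', hp', q', hq', rfl⟩
        refine ⟨p * p', P.mul_mem hp hp', q * q', Q.mul_mem hq hq', ?_⟩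
        have := h p' hp' q hq
        calc p * q * (p' * q') = p * (q * p') * q' := by group
          _ = p * (p' * q) * q' := by rw [← this]
          _ = p * p' * (q * q') := by group
      one_mem' := ⟨1, P.one_mem, 1, Q.one_mem, by simp⟩
      inv_mem' := by
        rintro _ ⟨p, hp, q, hq, rfl⟩
        refine ⟨p⁻¹, P.inv_mem hp, q⁻¹, Q.inv_mem hq, ?_⟩
        have := h p⁻¹ (P.inv_mem hp) q⁻¹ (Q.inv_mem hq)
        rw [mul_inv_rev, this] }
  have hT : P ⊔ Q ≤ T :=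
    sup_le (fun p hp => ⟨p, hp, 1, Q.one_mem, by simp⟩) (fun q hq => ⟨1, P.one_mem, q, hq, by simp⟩)
  exact hT hx

/-- A nontrivial normal subgroup of a finite `p`-group contains a nontrivial central element. -/
theorem pgroup_normal_meets_center {P : Type*} [Group P] [Finite P] {p : ℕ} [Fact p.Prime]
    (hP : IsPGroup p P) (N : Subgroup P) [N.Normal] (hN : N ≠ ⊥) :
    ∃ z ∈ N, z ≠ 1 ∧ z ∈ center P := by
  have hdvd : p ∣ Nat.card N := by
    rcases (hP.to_subgroup N).card_eq_or_dvd with h | h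
    · exact absurd (Subgroup.card_eq_one.mp h) hN
    · exact h
  have h1 : (1 : N) ∈ MulAction.fixedPoints (ConjAct P) N := by
    intro g
    apply Subtype.ext
    rw [ConjAct.Subgroup.val_conj_smul, ConjAct.smul_def]
    simp
  obtain ⟨b, hb, hb1⟩ :=
    (hP.of_equiv ConjAct.toConjAct).exists_fixed_point_of_prime_dvd_card_of_fixed_point N hdvd h1
  refine ⟨b, b.2, ?_, ?_⟩
  · intro h; exact hb1 (Subtype.ext h.symm)
  · rw [Subgroup.mem_center_iff]
    intro g
    have := hb (ConjAct.toConjAct g)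
    have h2 := congrArg Subtype.val this
    rw [ConjAct.Subgroup.val_conj_smul, ConjAct.smul_def, ConjAct.ofConjAct_toConjAct] at h2
    calc g * (b : P) = (g * (b : P) * g⁻¹) * g := by group
      _ = (b : P) * g := by rw [h2]

theorem comm_of_zpowers_eq_top {G : Type*} [Group G] {x : G} (h : Subgroup.zpowers x = ⊤) :
    ∀ a b : G, a * b = b * a := by
  intro a b
  have ha : a ∈ Subgroup.zpowers x := h ▸ Subgroup.mem_top a
  have hb : b ∈ Subgroup.zpowers x := h ▸ Subgroup.mem_top b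
  obtain ⟨i, rfl⟩ := Subgroup.mem_zpowers_iff.mp ha
  obtain ⟨j, rfl⟩ := Subgroup.mem_zpowers_iff.mp hb
  exact (Commute.zpow_zpow_self x i j)

theorem exists_two_index_two {G : Type*} [Group G] [Finite G] (hG : IsPGroup 2 G)
    (hnc : ¬ ∀ a b : G, a * b = b * a) :
    ∃ M₁ M₂ : Subgroup G, M₁.index = 2 ∧ M₂.index = 2 ∧ M₁ ≠ M₂ := by
  have : Fact (Nat.Prime 2) := ⟨Nat.prime_two⟩
  obtain ⟨m, hm⟩ := IsPGroup.iff_card.mp hG
  have key : ∀ x : G, ∃ M : Subgroup G, M.index = 2 ∧ x ∈ M := by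
    intro x
    have hx : Subgroup.zpowers x ≠ ⊤ := fun htop => hnc (comm_of_zpowers_eq_top htop)
    obtain ⟨n, hn⟩ := IsPGroup.iff_card.mp (hG.to_subgroup (Subgroup.zpowers x))
    have hdvd : 2 ^ n ∣ 2 ^ m := by
      rw [← hn, ← hm]; exact Subgroup.card_subgroup_dvd_card _
    have hnm : n ≤ m := (Nat.pow_dvd_pow_iff_le_right (by norm_num)).mp hdvd
    have hne : n ≠ m := by
      intro h
      apply hx
      rw [← Subgroup.card_eq_iff_eq_top, hn, hm, h]
    have hm1 : n ≤ m - 1 := by omega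
    have hd : 2 ^ (m - 1) ∣ Nat.card G := by
      rw [hm]; exact pow_dvd_pow 2 (by omega)
    obtain ⟨K, hK, hle⟩ := Sylow.exists_subgroup_card_pow_prime_le 2 hd (Subgroup.zpowers x) hn hm1
    refine ⟨K, ?_, hle (Subgroup.mem_zpowers x)⟩
    have e := K.card_mul_index
    rw [hK, hm] at e
    have e2 : 2 ^ m = 2 ^ (m - 1) * 2 := by
      rw [← pow_succ]; congr 1; omega
    rw [e2] at e
    exact Nat.eq_of_mul_eq_mul_left (by positivity) e
  obtain ⟨M₁, h1, -⟩ := key 1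
  have hy : ∃ y, y ∉ M₁ := by
    by_contra hall
    push Not at hall
    have : M₁ = ⊤ := (Subgroup.eq_top_iff' M₁).mpr hall
    rw [this, Subgroup.index_top] at h1
    omega
  obtain ⟨y, hy⟩ := hy
  obtain ⟨M₂, h2, hy2⟩ := key y
  exact ⟨M₁, M₂, h1, h2, fun h => hy (h ▸ hy2)⟩

theorem central_mem_index_two {G : Type*} [Group G] [Finite G] (hG : IsPGroup 2 G)
    (hnc : ¬ ∀ a b : G, a * b = b * a) {z : G} (hzc : ∀ b : G, z * b = b * z)
    (hzu : ∀ a : G, (∀ b, a * b = b * a) → a = 1 ∨ a = z) (M : Subgroup G) (hM : M.index = 2) :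
    z ∈ M := by
  have : Fact (Nat.Prime 2) := ⟨Nat.prime_two⟩
  by_contra hz
  have hMne : Nontrivial ↥M := by
    by_contra hM1
    rw [not_nontrivial_iff_subsingleton] at hM1
    have hc : Nat.card G = 2 := by
      rw [← M.card_mul_index, hM, Nat.card_of_subsingleton (1 : ↥M)]
    have hcyc : IsCyclic G := isCyclic_of_prime_card hc
    obtain ⟨g, hg⟩ := hcyc.exists_generator
    exact hnc (comm_of_zpowers_eq_top ((Subgroup.eq_top_iff' _).mpr hg))
  have hcen := (hG.to_subgroup M).center_nontrivial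
  obtain ⟨v, hv⟩ := exists_ne (1 : ↥(Subgroup.center ↥M))
  have hvc : ∀ b : G, ((v : ↥M) : G) * b = b * ((v : ↥M) : G) := by
    intro b
    by_cases hb : b ∈ M
    · have h1 := Subgroup.mem_center_iff.mp v.2 ⟨b, hb⟩
      exact (congrArg Subtype.val h1).symm
    · have hzb : z⁻¹ * b ∈ M := by
        rw [Subgroup.mul_mem_iff_of_index_two hM]
        simp [hz, hb]
      have h1 := Subgroup.mem_center_iff.mp v.2 ⟨z⁻¹ * b, hzb⟩
      have h2 : (z⁻¹ * b) * ((v : ↥M) : G) = ((v : ↥M) : G) * (z⁻¹ * b) := congrArg Subtype.val h1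
      have h3 := hzc ((v : ↥M) : G)
      calc ((v : ↥M) : G) * b = z * (((v : ↥M) : G) * (z⁻¹ * b)) := by
            rw [← mul_assoc, h3]; group
        _ = z * ((z⁻¹ * b) * ((v : ↥M) : G)) := by rw [h2]
        _ = b * ((v : ↥M) : G) := by group
  rcases hzu _ hvc with h | h
  · apply hv
    apply Subtype.ext
    apply Subtype.ext
    exact h
  · apply hz
    rw [← h]
    exact (v : ↥M).2

theorem exists_index_two_pair {S : Type*} [Group S] [Finite S] {P : Subgroup S}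
    (hP2 : IsPGroup 2 P) (hP : ¬ ∀ a ∈ P, ∀ b ∈ P, a * b = b * a) {z : S} (hz : z ∈ P)
    (hzc : ∀ a ∈ P, a * z = z * a)
    (hzu : ∀ a ∈ P, (∀ b ∈ P, a * b = b * a) → a = 1 ∨ a = z) :
    ∃ K M : Subgroup S, K ≤ M ∧ M ≤ P ∧ (∃ m ∈ M, m ∉ K) ∧ (∃ y ∈ P, y ∉ M) ∧
      (∀ a ∈ P, a ^ 2 ∈ K) ∧ (∀ a ∈ P, ∀ k ∈ K, a * k * a⁻¹ ∈ K) ∧ z ∈ K := by
  have hnc : ¬ ∀ a b : ↥P, a * b = b * a := by
    intro h; apply hP; intro a ha b hb
    exact congrArg Subtype.val (h ⟨a, ha⟩ ⟨b, hb⟩)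
  obtain ⟨M₁, M₂, h1, h2, hne⟩ := exists_two_index_two hP2 hnc
  have hzu' : ∀ a : ↥P, (∀ b, a * b = b * a) → a = 1 ∨ a = ⟨z, hz⟩ := by
    intro a ha
    rcases hzu a a.2 (fun b hb => congrArg Subtype.val (ha ⟨b, hb⟩)) with h | h
    · left; exact Subtype.ext h
    · right; exact Subtype.ext h
  have hzc' : ∀ b : ↥P, (⟨z, hz⟩ : ↥P) * b = b * ⟨z, hz⟩ := fun b => Subtype.ext (hzc b b.2).symm
  have hz1 := central_mem_index_two hP2 hnc hzc' hzu' M₁ h1
  have hz2 := central_mem_index_two hP2 hnc hzc' hzu' M₂ h2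
  have hn1 : M₁.Normal := Subgroup.normal_of_index_eq_two h1
  have hn2 : M₂.Normal := Subgroup.normal_of_index_eq_two h2
  have hnle : ¬ M₁ ≤ M₂ := by
    intro hle
    apply hne
    apply Subgroup.eq_of_le_of_card_ge hle
    have e1 := M₁.card_mul_index
    have e2 := M₂.card_mul_index
    rw [h1] at e1; rw [h2] at e2; omega
  obtain ⟨m, hm1, hm2⟩ := SetLike.not_le_iff_exists.mp hnle
  have hy : ∃ y : ↥P, y ∉ M₁ := by
    by_contra hall
    push Not at hall
    have : M₁ = ⊤ := (Subgroup.eq_top_iff' M₁).mpr hall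
    rw [this, Subgroup.index_top] at h1
    omega
  obtain ⟨y, hy⟩ := hy
  refine ⟨(M₁ ⊓ M₂).map P.subtype, M₁.map P.subtype, Subgroup.map_mono inf_le_left, ?_, ?_, ?_,
    ?_, ?_, ?_⟩
  · rintro _ ⟨a, -, rfl⟩; exact a.2
  · refine ⟨m, ⟨m, hm1, rfl⟩, ?_⟩
    rintro ⟨a, ha, hae⟩
    have : a = m := Subtype.ext hae
    exact hm2 (this ▸ ha.2)
  · refine ⟨y, y.2, ?_⟩
    rintro ⟨a, ha, hae⟩
    have : a = y := Subtype.ext hae
    exact hy (this ▸ ha)
  · intro a ha
    exact ⟨⟨a, ha⟩ ^ 2, ⟨Subgroup.sq_mem_of_index_two h1 _, Subgroup.sq_mem_of_index_two h2 _⟩, rfl⟩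
  · rintro a ha _ ⟨k, hk, rfl⟩
    exact ⟨⟨a, ha⟩ * k * ⟨a, ha⟩⁻¹, ⟨hn1.conj_mem k hk.1 _, hn2.conj_mem k hk.2 _⟩, rfl⟩
  · exact ⟨⟨z, hz⟩, ⟨hz1, hz2⟩, rfl⟩

end Cfsg.Agent.Helper58
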