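import Mathlib
import Cfsg.Agent.Helper58.SecRank

set_option autoImplicit false

/-!
Two non-abelian subgroups `P`, `Q` of a 2-group of sectional rank at most four, with centres
`{1, z}` and `{1, w}`, `z ≠ w`, normalising each other, `z` centralising `Q`:
`P ⊓ Q = ⊥`, `P` and `Q` commute, and every element centralising both lies in `P ⊔ Q`.
-/

namespace Cfsg.Agent.Helper58

open Subgroup

theorem core_inf_eq_bot {S : Type*} [Group S] [Finite S] {P Q : Subgroup S} (hP2 : IsPGroup 2 P)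
    (hPQ : ∀ p ∈ P, ∀ q ∈ Q, p * q * p⁻¹ ∈ Q)
    {z w : S} (hzu : ∀ a ∈ P, (∀ b ∈ P, a * b = b * a) → a = 1 ∨ a = z)
    (hwu : ∀ a ∈ Q, (∀ b ∈ Q, a * b = b * a) → a = 1 ∨ a = w)
    (hzQ : ∀ q ∈ Q, q * z = z * q) (hzw : z ≠ w) : P ⊓ Q = ⊥ := by
  have : Fact (Nat.Prime 2) := ⟨Nat.prime_two⟩
  by_contra hne
  have hnorm : (Q.subgroupOf P).Normal := by
    constructor
    intro n hn g
    rw [Subgroup.mem_subgroupOf] at hn ⊢
    simpa using hPQ g g.2 n hn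
  have hne' : Q.subgroupOf P ≠ ⊥ := by
    intro h
    apply hne
    rw [Subgroup.subgroupOf_eq_bot] at h
    rw [inf_comm]
    exact disjoint_iff.mp h
  obtain ⟨y, hyN, hy1, hyc⟩ := pgroup_normal_meets_center hP2 (Q.subgroupOf P) hne'
  have hyz : (y : S) = z := by
    rcases hzu y y.2 (fun b hb =>
      (congrArg Subtype.val (Subgroup.mem_center_iff.mp hyc ⟨b, hb⟩)).symm) with h | h
    · exact absurd (Subtype.ext h) hy1
    · exact h
  have hzQ' : z ∈ Q := hyz ▸ (Subgroup.mem_subgroupOf.mp hyN)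
  have hz1 : z ≠ 1 := by
    rw [← hyz]; intro h; exact hy1 (Subtype.ext h)
  rcases hwu z hzQ' (fun b hb => (hzQ b hb).symm) with h | h
  · exact hz1 h
  · exact hzw h

theorem core_commute {S : Type*} [Group S] {P Q : Subgroup S}
    (hPQ : ∀ p ∈ P, ∀ q ∈ Q, p * q * p⁻¹ ∈ Q) (hQP : ∀ q ∈ Q, ∀ p ∈ P, q * p * q⁻¹ ∈ P)
    (hinf : P ⊓ Q = ⊥) : ∀ p ∈ P, ∀ q ∈ Q, p * q = q * p := by
  intro p hp q hq
  have h1 : p * q * p⁻¹ * q⁻¹ ∈ P ⊓ Q := by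
    refine ⟨?_, Q.mul_mem (hPQ p hp q hq) (Q.inv_mem hq)⟩
    have := P.mul_mem hp (hQP q hq p⁻¹ (P.inv_mem hp))
    have h' : p * q * p⁻¹ * q⁻¹ = p * (q * p⁻¹ * q⁻¹) := by group
    rw [h']
    exact this
  rw [hinf, Subgroup.mem_bot] at h1
  calc p * q = (p * q * p⁻¹ * q⁻¹) * (q * p) := by group
    _ = q * p := by rw [h1, one_mul]

theorem central_factor_left {S : Type*} [Group S] {P Q : Subgroup S}
    (hcomm : ∀ p ∈ P, ∀ q ∈ Q, p * q = q * p) {p₀ q₀ : S} (hq₀ : q₀ ∈ Q)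
    (hc : ∀ a ∈ P, (p₀ * q₀) * a = a * (p₀ * q₀)) : ∀ a ∈ P, p₀ * a = a * p₀ := by
  intro a ha
  have h1 := hc a ha
  have h2 : q₀ * a = a * q₀ := (hcomm a ha q₀ hq₀).symm
  have : a * p₀ * q₀ = p₀ * a * q₀ := by
    rw [mul_assoc, ← h1, mul_assoc p₀ a, ← h2, mul_assoc]
  exact (mul_right_cancel this).symm

theorem central_factor_right {S : Type*} [Group S] {P Q : Subgroup S}
    (hcomm : ∀ p ∈ P, ∀ q ∈ Q, p * q = q * p) {p₀ q₀ : S} (hp₀ : p₀ ∈ P)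
    (hc : ∀ a ∈ Q, (p₀ * q₀) * a = a * (p₀ * q₀)) : ∀ a ∈ Q, q₀ * a = a * q₀ := by
  intro a ha
  have h1 := hc a ha
  have h2 : p₀ * a = a * p₀ := hcomm p₀ hp₀ a ha
  have : p₀ * (q₀ * a) = p₀ * (a * q₀) := by
    rw [← mul_assoc, h1, ← mul_assoc, ← h2, mul_assoc]
  exact mul_left_cancel this

theorem core_centralizer_aux {S : Type*} [Group S] [Finite S]
    (hr : Cfsg.SectionalPRankLE 2 4 S)
    {P Q : Subgroup S} (hP2 : IsPGroup 2 P) (hQ2 : IsPGroup 2 Q)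
    (hP : ¬ ∀ a ∈ P, ∀ b ∈ P, a * b = b * a) (hQ : ¬ ∀ a ∈ Q, ∀ b ∈ Q, a * b = b * a)
    {z w : S} (hz : z ∈ P) (hw : w ∈ Q)
    (hzc : ∀ a ∈ P, a * z = z * a) (hwc : ∀ a ∈ Q, a * w = w * a)
    (hzu : ∀ a ∈ P, (∀ b ∈ P, a * b = b * a) → a = 1 ∨ a = z)
    (hwu : ∀ a ∈ Q, (∀ b ∈ Q, a * b = b * a) → a = 1 ∨ a = w)
    (hinf : P ⊓ Q = ⊥) (hcomm : ∀ p ∈ P, ∀ q ∈ Q, p * q = q * p)
    {c : S} (hcP : ∀ p ∈ P, c * p = p * c) (hcQ : ∀ q ∈ Q, c * q = q * c)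
    (hc2 : c ^ 2 ∈ P ⊔ Q) : c ∈ P ⊔ Q := by
  by_contra hc
  obtain ⟨KP, MP, hKM, hMP, ⟨m, hm, hmK⟩, ⟨y, hy, hyM⟩, hsqP, hnP, hzK⟩ :=
    exists_index_two_pair hP2 hP hz hzc hzu
  obtain ⟨KQ, MQ, hKM', hMQ, ⟨m', hm', hmK'⟩, ⟨y', hy', hyM'⟩, hsqQ, hnQ, hwK⟩ :=
    exists_index_two_pair hQ2 hQ hw hwc hwu
  have L1 : ∀ (A B : Subgroup S), A ≤ P → B ≤ Q → ∀ x ∈ P, x ∈ A ⊔ B → x ∈ A := by
    intro A B hA hB x hx hxs
    obtain ⟨a, ha, b, hb, rfl⟩ :=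
      mem_sup_of_commute (fun p hp q hq => hcomm p (hA hp) q (hB hq)) hxs
    have hb1 : b ∈ P ⊓ Q :=
      ⟨by have := P.mul_mem (P.inv_mem (hA ha)) hx; simpa using this, hB hb⟩
    rw [hinf, Subgroup.mem_bot] at hb1
    rw [hb1, mul_one]; exact ha
  have L2 : ∀ (A B : Subgroup S), A ≤ P → B ≤ Q → ∀ x ∈ Q, x ∈ A ⊔ B → x ∈ B := by
    intro A B hA hB x hx hxs
    obtain ⟨a, ha, b, hb, rfl⟩ :=
      mem_sup_of_commute (fun p hp q hq => hcomm p (hA hp) q (hB hq)) hxs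
    have ha1 : a ∈ P ⊓ Q :=
      ⟨hA ha, by have := Q.mul_mem hx (Q.inv_mem (hB hb)); simpa using this⟩
    rw [hinf, Subgroup.mem_bot] at ha1
    rw [ha1, one_mul]; exact hb
  have hKP : KP ≤ P := hKM.trans hMP
  have hKQ : KQ ≤ Q := hKM'.trans hMQ
  have c1 : KP ⊔ KQ < MP ⊔ KQ := by
    refine lt_of_le_of_ne (sup_le_sup_right hKM _) ?_
    intro heq
    have : m ∈ KP ⊔ KQ := heq ▸ (Subgroup.mem_sup_left hm)
    exact hmK (L1 KP KQ hKP hKQ m (hMP hm) this)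
  have c2 : MP ⊔ KQ < P ⊔ KQ := by
    refine lt_of_le_of_ne (sup_le_sup_right hMP _) ?_
    intro heq
    have : y ∈ MP ⊔ KQ := heq ▸ (Subgroup.mem_sup_left hy)
    exact hyM (L1 MP KQ hMP hKQ y hy this)
  have c3 : P ⊔ KQ < P ⊔ MQ := by
    refine lt_of_le_of_ne (sup_le_sup_left hKM' _) ?_
    intro heq
    have : m' ∈ P ⊔ KQ := heq ▸ (Subgroup.mem_sup_right hm')
    exact hmK' (L2 P KQ le_rfl hKQ m' (hMQ hm') this)
  have c4 : P ⊔ MQ < P ⊔ Q := by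
    refine lt_of_le_of_ne (sup_le_sup_left hMQ _) ?_
    intro heq
    have : y' ∈ P ⊔ MQ := heq ▸ (Subgroup.mem_sup_right hy')
    exact hyM' (L2 P MQ le_rfl hMQ y' hy' this)
  have c5 : P ⊔ Q < (P ⊔ Q) ⊔ Subgroup.zpowers c := by
    refine lt_of_le_of_ne le_sup_left ?_
    intro heq
    have : c ∈ (P ⊔ Q) ⊔ Subgroup.zpowers c := Subgroup.mem_sup_right (Subgroup.mem_zpowers c)
    exact hc (heq ▸ this)
  have hidx : 32 ≤ (KP ⊔ KQ).relIndex ((P ⊔ Q) ⊔ Subgroup.zpowers c) := by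
    have e1 := Subgroup.relIndex_mul_relIndex _ _ _ c1.le c2.le
    have e2 := Subgroup.relIndex_mul_relIndex _ _ _ (c1.le.trans c2.le) c3.le
    have e3 := Subgroup.relIndex_mul_relIndex _ _ _ ((c1.le.trans c2.le).trans c3.le) c4.le
    have e4 := Subgroup.relIndex_mul_relIndex _ _ _
      (((c1.le.trans c2.le).trans c3.le).trans c4.le) c5.le
    have t := Nat.mul_le_mul (Nat.mul_le_mul (Nat.mul_le_mul (Nat.mul_le_mul
      (two_le_relIndex_of_lt c1) (two_le_relIndex_of_lt c2)) (two_le_relIndex_of_lt c3))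
      (two_le_relIndex_of_lt c4)) (two_le_relIndex_of_lt c5)
    rw [e1, e2, e3, e4] at t
    exact t
  -- `c` commutes with `P ⊔ Q`
  have hcPQ : ∀ x ∈ P ⊔ Q, c * x = x * c := by
    intro x hx
    obtain ⟨p, hp, q, hq, rfl⟩ := mem_sup_of_commute hcomm hx
    rw [← mul_assoc, hcP p hp, mul_assoc, hcQ q hq, mul_assoc]
  have hdPQ : ∀ x ∈ P ⊔ Q, ∀ d ∈ Subgroup.zpowers c, x * d = d * x := by
    intro x hx d hd
    obtain ⟨i, rfl⟩ := Subgroup.mem_zpowers_iff.mp hd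
    have h1 : Commute c x := hcPQ x hx
    exact (h1.zpow_left i).eq.symm
  have hKle : KP ⊔ KQ ≤ P ⊔ Q := sup_le_sup hKP hKQ
  -- normality
  have hnormP : ∀ g ∈ P, ∀ n ∈ KP ⊔ KQ, g * n * g⁻¹ ∈ KP ⊔ KQ := by
    intro g hg
    have : KP ⊔ KQ ≤ (KP ⊔ KQ).comap (MulAut.conj g).toMonoidHom := by
      refine sup_le ?_ ?_
      · intro k hk
        rw [Subgroup.mem_comap]
        exact Subgroup.mem_sup_left (hnP g hg k hk)
      · intro k hk
        rw [Subgroup.mem_comap]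
        have h1 : g * k * g⁻¹ = k := by
          rw [hcomm g hg k (hKQ hk)]; group
        change g * k * g⁻¹ ∈ KP ⊔ KQ
        rw [h1]
        exact Subgroup.mem_sup_right hk
    intro n hn
    exact this hn
  have hnormQ : ∀ g ∈ Q, ∀ n ∈ KP ⊔ KQ, g * n * g⁻¹ ∈ KP ⊔ KQ := by
    intro g hg
    have : KP ⊔ KQ ≤ (KP ⊔ KQ).comap (MulAut.conj g).toMonoidHom := by
      refine sup_le ?_ ?_
      · intro k hk
        rw [Subgroup.mem_comap]
        have h1 : g * k * g⁻¹ = k := by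
          rw [← hcomm k (hKP hk) g hg]; group
        change g * k * g⁻¹ ∈ KP ⊔ KQ
        rw [h1]
        exact Subgroup.mem_sup_left hk
      · intro k hk
        rw [Subgroup.mem_comap]
        exact Subgroup.mem_sup_right (hnQ g hg k hk)
    intro n hn
    exact this hn
  have hnormC : ∀ g ∈ Subgroup.zpowers c, ∀ n ∈ KP ⊔ KQ, g * n * g⁻¹ ∈ KP ⊔ KQ := by
    intro g hg n hn
    have h1 : g * n * g⁻¹ = n := by
      rw [← hdPQ n (hKle hn) g hg]; group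
    rw [h1]; exact hn
  have hnle : ∀ A : Subgroup S, (∀ g ∈ A, ∀ n ∈ KP ⊔ KQ, g * n * g⁻¹ ∈ KP ⊔ KQ) →
      A ≤ Subgroup.normalizer ((KP ⊔ KQ : Subgroup S) : Set S) := by
    intro A hA g hg
    rw [Subgroup.mem_normalizer_iff]
    intro n
    constructor
    · exact hA g hg n
    · intro h
      have := hA g⁻¹ (A.inv_mem hg) _ h
      convert this using 1
      group
  have hHnorm : (P ⊔ Q) ⊔ Subgroup.zpowers c ≤
      Subgroup.normalizer ((KP ⊔ KQ : Subgroup S) : Set S) :=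
    sup_le (sup_le (hnle P hnormP) (hnle Q hnormQ)) (hnle _ hnormC)
  have hnorm : ∀ h ∈ (P ⊔ Q) ⊔ Subgroup.zpowers c, ∀ n ∈ KP ⊔ KQ, h * n * h⁻¹ ∈ KP ⊔ KQ := by
    intro h hh n hn
    exact (Subgroup.mem_normalizer_iff.mp (hHnorm hh) n).mp hn
  -- `c ^ 2 ∈ KP ⊔ KQ`
  have hc2K : c ^ 2 ∈ KP ⊔ KQ := by
    obtain ⟨p₀, hp₀, q₀, hq₀, he⟩ := mem_sup_of_commute hcomm hc2
    have hcc : ∀ a, c * a = a * c → (p₀ * q₀) * a = a * (p₀ * q₀) := by
      intro a ha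
      rw [← he]
      have h1 : Commute c a := ha
      exact (h1.pow_left 2).eq
    have hp₀c : ∀ a ∈ P, p₀ * a = a * p₀ :=
      central_factor_left hcomm hq₀ (fun a ha => hcc a (hcP a ha))
    have hq₀c : ∀ a ∈ Q, q₀ * a = a * q₀ :=
      central_factor_right hcomm hp₀ (fun a ha => hcc a (hcQ a ha))
    have hp₀K : p₀ ∈ KP := by
      rcases hzu p₀ hp₀ hp₀c with h | h
      · rw [h]; exact KP.one_mem
      · rw [h]; exact hzK
    have hq₀K : q₀ ∈ KQ := by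
      rcases hwu q₀ hq₀ hq₀c with h | h
      · rw [h]; exact KQ.one_mem
      · rw [h]; exact hwK
    rw [he]
    exact Subgroup.mul_mem _ (Subgroup.mem_sup_left hp₀K) (Subgroup.mem_sup_right hq₀K)
  have hexp : ∀ h ∈ (P ⊔ Q) ⊔ Subgroup.zpowers c, h ^ 2 ∈ KP ⊔ KQ := by
    intro h hh
    obtain ⟨x, hx, d, hd, rfl⟩ := mem_sup_of_commute hdPQ hh
    obtain ⟨p, hp, q, hq, rfl⟩ := mem_sup_of_commute hcomm hx
    have h1 : Commute (p * q) d := hdPQ _ hx d hd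
    have h2 : Commute p q := hcomm p hp q hq
    rw [h1.mul_pow, h2.mul_pow]
    obtain ⟨i, rfl⟩ := Subgroup.mem_zpowers_iff.mp hd
    have h3 : (c ^ i) ^ 2 = (c ^ 2) ^ i := by
      rw [← zpow_natCast, ← zpow_mul, mul_comm, zpow_mul, zpow_natCast]
    rw [h3]
    exact Subgroup.mul_mem _ (Subgroup.mul_mem _ (Subgroup.mem_sup_left (hsqP p hp))
      (Subgroup.mem_sup_right (hsqQ q hq))) (Subgroup.zpow_mem _ hc2K i)
  have hle := relIndex_le_of_sectional_two hr _ _ hnorm hexp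
  omega

theorem core_centralizer {S : Type*} [Group S] [Finite S] (hS2 : IsPGroup 2 S)
    (hr : Cfsg.SectionalPRankLE 2 4 S)
    {P Q : Subgroup S}
    (hP : ¬ ∀ a ∈ P, ∀ b ∈ P, a * b = b * a) (hQ : ¬ ∀ a ∈ Q, ∀ b ∈ Q, a * b = b * a)
    {z w : S} (hz : z ∈ P) (hw : w ∈ Q)
    (hzc : ∀ a ∈ P, a * z = z * a) (hwc : ∀ a ∈ Q, a * w = w * a)
    (hzu : ∀ a ∈ P, (∀ b ∈ P, a * b = b * a) → a = 1 ∨ a = z)
    (hwu : ∀ a ∈ Q, (∀ b ∈ Q, a * b = b * a) → a = 1 ∨ a = w)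
    (hinf : P ⊓ Q = ⊥) (hcomm : ∀ p ∈ P, ∀ q ∈ Q, p * q = q * p)
    {c : S} (hcP : ∀ p ∈ P, c * p = p * c) (hcQ : ∀ q ∈ Q, c * q = q * c) : c ∈ P ⊔ Q := by
  obtain ⟨m, hm⟩ := hS2 c
  have key : ∀ j : ℕ, c ^ (2 ^ j) ∈ P ⊔ Q → c ∈ P ⊔ Q := by
    intro j
    induction j with
    | zero => intro h; simpa using h
    | succ j ih =>
      intro h
      apply ih
      refine core_centralizer_aux hr (hS2.to_subgroup P) (hS2.to_subgroup Q) hP hQ hz hw hzc hwc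
        hzu hwu hinf hcomm ?_ ?_ ?_
      · intro p hp
        have h1 : Commute c p := hcP p hp
        exact (h1.pow_left _).eq
      · intro q hq
        have h1 : Commute c q := hcQ q hq
        exact (h1.pow_left _).eq
      · rw [← pow_mul, ← pow_succ]; exact h
  exact key m (hm ▸ Subgroup.one_mem _)

/-- The two elements of a centre of order two. -/
theorem center_two_data {S : Type*} [Group S] (P : Subgroup S)
    (h : Nat.card ↥(Subgroup.center ↥P) = 2) :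
    ∃ z ∈ P, (∀ a ∈ P, a * z = z * a) ∧
      (∀ a ∈ P, (∀ b ∈ P, a * b = b * a) → a = 1 ∨ a = z) ∧ z ≠ 1 := by
  obtain ⟨y, hy1, hyu⟩ := (Nat.card_eq_two_iff' (1 : ↥(Subgroup.center ↥P))).mp h
  refine ⟨((y : ↥P) : S), (y : ↥P).2, ?_, ?_, ?_⟩
  · intro a ha
    exact congrArg Subtype.val (Subgroup.mem_center_iff.mp y.2 ⟨a, ha⟩)
  · intro a ha hcomm
    have hmem : (⟨a, ha⟩ : ↥P) ∈ Subgroup.center ↥P := by
      rw [Subgroup.mem_center_iff]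
      intro g
      exact Subtype.ext (hcomm g g.2).symm
    by_cases h1 : (⟨⟨a, ha⟩, hmem⟩ : ↥(Subgroup.center ↥P)) = 1
    · left
      exact congrArg (fun t : ↥(Subgroup.center ↥P) => ((t : ↥P) : S)) h1
    · right
      have := hyu _ h1
      exact congrArg (fun t : ↥(Subgroup.center ↥P) => ((t : ↥P) : S)) this
  · intro h1
    apply hy1
    apply Subtype.ext
    apply Subtype.ext
    exact h1

theorem mem_map_center_iff {S : Type*} [Group S] {P : Subgroup S} {x : S} :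
    x ∈ (Subgroup.center ↥P).map P.subtype ↔ x ∈ P ∧ ∀ a ∈ P, a * x = x * a := by
  constructor
  · rintro ⟨y, hy, rfl⟩
    refine ⟨y.2, fun a ha => ?_⟩
    exact congrArg Subtype.val (Subgroup.mem_center_iff.mp hy ⟨a, ha⟩)
  · rintro ⟨hx, hc⟩
    refine ⟨⟨x, hx⟩, Subgroup.mem_center_iff.mpr ?_, rfl⟩
    intro g
    exact Subtype.ext (hc g g.2)

theorem mem_map_center_iff_eq {S : Type*} [Group S] {P : Subgroup S} {z : S} (hz : z ∈ P)
    (hzc : ∀ a ∈ P, a * z = z * a)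
    (hzu : ∀ a ∈ P, (∀ b ∈ P, a * b = b * a) → a = 1 ∨ a = z) (x : S) :
    x ∈ (Subgroup.center ↥P).map P.subtype ↔ (x = 1 ∨ x = z) := by
  rw [mem_map_center_iff]
  constructor
  · rintro ⟨hx, hc⟩
    exact hzu x hx (fun b hb => (hc b hb).symm)
  · rintro (h | h)
    · rw [h]; exact ⟨P.one_mem, fun a _ => by simp⟩
    · rw [h]; exact ⟨hz, hzc⟩

end Cfsg.Agent.Helper58
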