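import Mathlib
import Cfsg.Agent.Helper58.SecRankCore

set_option autoImplicit false

/-!
A non-abelian subgroup `P` with centre `{1, z}` of a 2-group `S` of sectional rank at most four,
normal in `S₀ = C_S(z)`: if `S₀ ≠ S` then `P` has sectional rank at most two and `S₀` has index two.
-/

namespace Cfsg.Agent.Helper58

open Subgroup

/-- The conjugate `x P x⁻¹`. -/
def conjS {S : Type*} [Group S] (x : S) (P : Subgroup S) : Subgroup S where
  carrier := {y | x⁻¹ * y * x ∈ P}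
  mul_mem' := by
    intro a b ha hb
    have : x⁻¹ * (a * b) * x = (x⁻¹ * a * x) * (x⁻¹ * b * x) := by group
    change x⁻¹ * (a * b) * x ∈ P
    rw [this]; exact P.mul_mem ha hb
  one_mem' := by
    change x⁻¹ * 1 * x ∈ P
    simp
  inv_mem' := by
    intro a ha
    have : x⁻¹ * a⁻¹ * x = (x⁻¹ * a * x)⁻¹ := by group
    change x⁻¹ * a⁻¹ * x ∈ P
    rw [this]; exact P.inv_mem ha

theorem mem_conjS {S : Type*} [Group S] {x y : S} {P : Subgroup S} :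
    y ∈ conjS x P ↔ x⁻¹ * y * x ∈ P := Iff.rfl

theorem conj_mem_conjS {S : Type*} [Group S] {x p : S} {P : Subgroup S} (hp : p ∈ P) :
    x * p * x⁻¹ ∈ conjS x P := by
  rw [mem_conjS]
  have : x⁻¹ * (x * p * x⁻¹) * x = p := by group
  rw [this]; exact hp

theorem conjS_one {S : Type*} [Group S] (P : Subgroup S) : conjS 1 P = P := by
  ext y; rw [mem_conjS]; simp

/-- The data of the lemma. -/
structure SecData (S : Type*) [Group S] where
  P : Subgroup S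
  S₀ : Subgroup S
  z : S
  hS2 : IsPGroup 2 S
  hr : Cfsg.SectionalPRankLE 2 4 S
  hP : ¬ ∀ a ∈ P, ∀ b ∈ P, a * b = b * a
  hz : z ∈ P
  hzc : ∀ a ∈ P, a * z = z * a
  hzu : ∀ a ∈ P, (∀ b ∈ P, a * b = b * a) → a = 1 ∨ a = z
  hz1 : z ≠ 1
  hS₀ : ∀ s, s ∈ S₀ ↔ s * z = z * s
  hPn : ∀ s ∈ S₀, ∀ x ∈ P, s * x * s⁻¹ ∈ P

namespace SecData

variable {S : Type*} [Group S] (D : SecData S)

theorem P_le : D.P ≤ D.S₀ := fun a ha => (D.hS₀ a).mpr (D.hzc a ha)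

theorem z_mem_S₀ : D.z ∈ D.S₀ := D.P_le D.hz

theorem conj_ne_iff (x : S) : x * D.z * x⁻¹ ≠ D.z ↔ x ∉ D.S₀ := by
  rw [Ne, mul_inv_eq_iff_eq_mul, D.hS₀]

theorem conj_inv_mem_iff {x : S} (hx : x ∈ normalizer (D.S₀ : Set S)) (s : S) :
    x⁻¹ * s * x ∈ D.S₀ ↔ s ∈ D.S₀ := by
  have := (Subgroup.mem_normalizer_iff.mp hx) (x⁻¹ * s * x)
  rw [this]
  have e : x * (x⁻¹ * s * x) * x⁻¹ = s := by group
  rw [e]

theorem comm_conj_iff {x : S} (hx : x ∈ normalizer (D.S₀ : Set S)) (s : S) :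
    s * (x * D.z * x⁻¹) = (x * D.z * x⁻¹) * s ↔ s ∈ D.S₀ := by
  rw [← D.conj_inv_mem_iff hx s, D.hS₀]
  constructor
  · intro h
    calc x⁻¹ * s * x * D.z = x⁻¹ * (s * (x * D.z * x⁻¹)) * x := by group
      _ = x⁻¹ * ((x * D.z * x⁻¹) * s) * x := by rw [h]
      _ = D.z * (x⁻¹ * s * x) := by group
  · intro h
    calc s * (x * D.z * x⁻¹) = x * (x⁻¹ * s * x * D.z) * x⁻¹ := by group
      _ = x * (D.z * (x⁻¹ * s * x)) * x⁻¹ := by rw [h]
      _ = (x * D.z * x⁻¹) * s := by group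

theorem conjP_le {x : S} (hx : x ∈ normalizer (D.S₀ : Set S)) : conjS x D.P ≤ D.S₀ := by
  intro a ha
  rw [← D.conj_inv_mem_iff hx]
  exact D.P_le ha

theorem conjP_normal {x : S} (hx : x ∈ normalizer (D.S₀ : Set S)) :
    ∀ s ∈ D.S₀, ∀ a ∈ conjS x D.P, s * a * s⁻¹ ∈ conjS x D.P := by
  intro s hs a ha
  rw [mem_conjS] at ha ⊢
  have hs' : x⁻¹ * s * x ∈ D.S₀ := (D.conj_inv_mem_iff hx s).mpr hs
  have := D.hPn _ hs' _ ha
  have e : x⁻¹ * (s * a * s⁻¹) * x = (x⁻¹ * s * x) * (x⁻¹ * a * x) * (x⁻¹ * s * x)⁻¹ := by group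
  rw [e]; exact this

theorem conjP_nonabelian (x : S) :
    ¬ ∀ a ∈ conjS x D.P, ∀ b ∈ conjS x D.P, a * b = b * a := by
  intro h
  apply D.hP
  intro a ha b hb
  have := h _ (conj_mem_conjS (x := x) ha) _ (conj_mem_conjS (x := x) hb)
  calc a * b = x⁻¹ * ((x * a * x⁻¹) * (x * b * x⁻¹)) * x := by group
    _ = x⁻¹ * ((x * b * x⁻¹) * (x * a * x⁻¹)) * x := by rw [this]
    _ = b * a := by group

theorem conjz_mem (x : S) : x * D.z * x⁻¹ ∈ conjS x D.P := conj_mem_conjS D.hz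

theorem conjz_central (x : S) :
    ∀ a ∈ conjS x D.P, a * (x * D.z * x⁻¹) = (x * D.z * x⁻¹) * a := by
  intro a ha
  have := D.hzc _ ha
  calc a * (x * D.z * x⁻¹) = x * (x⁻¹ * a * x * D.z) * x⁻¹ := by group
    _ = x * (D.z * (x⁻¹ * a * x)) * x⁻¹ := by rw [this]
    _ = (x * D.z * x⁻¹) * a := by group

theorem conjz_unique (x : S) :
    ∀ a ∈ conjS x D.P, (∀ b ∈ conjS x D.P, a * b = b * a) → a = 1 ∨ a = x * D.z * x⁻¹ := by
  intro a ha hc
  have h1 : ∀ b ∈ D.P, (x⁻¹ * a * x) * b = b * (x⁻¹ * a * x) := by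
    intro b hb
    have := hc _ (conj_mem_conjS (x := x) hb)
    calc x⁻¹ * a * x * b = x⁻¹ * (a * (x * b * x⁻¹)) * x := by group
      _ = x⁻¹ * ((x * b * x⁻¹) * a) * x := by rw [this]
      _ = b * (x⁻¹ * a * x) := by group
  have e : a = x * (x⁻¹ * a * x) * x⁻¹ := by group
  rcases D.hzu _ ha h1 with h | h
  · left
    rw [e, h]; group
  · right
    rw [e, h]

theorem conj_core [Finite S] {x y : S} (hx : x ∈ normalizer (D.S₀ : Set S))
    (hy : y ∈ normalizer (D.S₀ : Set S)) (hxy : x * D.z * x⁻¹ ≠ y * D.z * y⁻¹) :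
    conjS x D.P ⊓ conjS y D.P = ⊥ ∧
    (∀ a ∈ conjS x D.P, ∀ b ∈ conjS y D.P, a * b = b * a) ∧
    (∀ c, (∀ a ∈ conjS x D.P, c * a = a * c) → (∀ b ∈ conjS y D.P, c * b = b * c) →
      c ∈ conjS x D.P ⊔ conjS y D.P) := by
  have hPQ : ∀ p ∈ conjS x D.P, ∀ q ∈ conjS y D.P, p * q * p⁻¹ ∈ conjS y D.P :=
    fun p hp q hq => D.conjP_normal hy p (D.conjP_le hx hp) q hq
  have hQP : ∀ q ∈ conjS y D.P, ∀ p ∈ conjS x D.P, q * p * q⁻¹ ∈ conjS x D.P :=
    fun q hq p hp => D.conjP_normal hx q (D.conjP_le hy hq) p hp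
  have hzQ : ∀ q ∈ conjS y D.P, q * (x * D.z * x⁻¹) = (x * D.z * x⁻¹) * q :=
    fun q hq => (D.comm_conj_iff hx q).mpr (D.conjP_le hy hq)
  have hinf := core_inf_eq_bot (D.hS2.to_subgroup _) hPQ (D.conjz_unique x) (D.conjz_unique y)
    hzQ hxy
  have hcomm := core_commute hPQ hQP hinf
  refine ⟨hinf, hcomm, fun c hc1 hc2 => ?_⟩
  exact core_centralizer D.hS2 D.hr (D.conjP_nonabelian x) (D.conjP_nonabelian y) (D.conjz_mem x)
    (D.conjz_mem y) (D.conjz_central x) (D.conjz_central y) (D.conjz_unique x) (D.conjz_unique y)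
    hinf hcomm hc1 hc2

theorem conj_core_one [Finite S] {x : S} (hx : x ∈ normalizer (D.S₀ : Set S))
    (hxz : x * D.z * x⁻¹ ≠ D.z) :
    D.P ⊓ conjS x D.P = ⊥ ∧ (∀ a ∈ D.P, ∀ b ∈ conjS x D.P, a * b = b * a) ∧
    (∀ c, (∀ a ∈ D.P, c * a = a * c) → (∀ b ∈ conjS x D.P, c * b = b * c) →
      c ∈ D.P ⊔ conjS x D.P) := by
  have h1 : (1 : S) * D.z * (1 : S)⁻¹ ≠ x * D.z * x⁻¹ := by
    have e : (1 : S) * D.z * (1 : S)⁻¹ = D.z := by group
    rw [e]; exact hxz.symm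
  have h := D.conj_core (Subgroup.one_mem _) hx h1
  rwa [conjS_one] at h

theorem centralizer_cases [Finite S] {x : S} (hx : x ∈ normalizer (D.S₀ : Set S))
    (hxz : x * D.z * x⁻¹ ≠ D.z) {c : S}
    (hcP : ∀ a ∈ D.P, c * a = a * c) (hcQ : ∀ b ∈ conjS x D.P, c * b = b * c) :
    c = 1 ∨ c = D.z ∨ c = x * D.z * x⁻¹ ∨ c = D.z * (x * D.z * x⁻¹) := by
  obtain ⟨hinf, hcomm, hcen⟩ := D.conj_core_one hx hxz
  obtain ⟨p, hp, q, hq, rfl⟩ := mem_sup_of_commute hcomm (hcen c hcP hcQ)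
  have hpc : ∀ a ∈ D.P, p * a = a * p := central_factor_left hcomm hq hcP
  have hqc : ∀ a ∈ conjS x D.P, q * a = a * q := central_factor_right hcomm hp hcQ
  rcases D.hzu p hp hpc with h1 | h1 <;> rcases D.conjz_unique x q hq hqc with h2 | h2
  · left; rw [h1, h2, one_mul]
  · right; right; left; rw [h1, h2, one_mul]
  · right; left; rw [h1, h2, mul_one]
  · right; right; right; rw [h1, h2]

theorem rank_two [Finite S] {x : S} (hx : x ∈ normalizer (D.S₀ : Set S))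
    (hxz : x * D.z * x⁻¹ ≠ D.z) : Cfsg.SectionalPRankLE 2 2 ↥D.P := by
  obtain ⟨hinf, hcomm, -⟩ := D.conj_core_one hx hxz
  intro H N _ A hA hA2
  let H₁ : Subgroup ↥H := A.comap (QuotientGroup.mk' N)
  let ψ₁ : ↥H₁ →* ↥A := (QuotientGroup.mk' N).subgroupComap A
  have hψ₁ : Function.Surjective ψ₁ :=
    MonoidHom.subgroupComap_surjective_of_surjective _ _ (QuotientGroup.mk'_surjective N)
  let ι : ↥H₁ →* S := D.P.subtype.comp (H.subtype.comp H₁.subtype)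
  have hι : Function.Injective ι :=
    D.P.subtype_injective.comp (H.subtype_injective.comp H₁.subtype_injective)
  have hιP : ∀ a, ι a ∈ D.P := fun a => ((a : ↥H) : ↥D.P).2
  let κ : ↥H₁ →* S := (MulAut.conj x).toMonoidHom.comp ι
  have hκ : ∀ a, κ a = x * ι a * x⁻¹ := fun a => rfl
  have hκP : ∀ a, κ a ∈ conjS x D.P := fun a => by rw [hκ]; exact conj_mem_conjS (hιP a)
  let φ : ↥H₁ × ↥H₁ →* S := MonoidHom.noncommCoprod ι κ (fun a b => hcomm _ (hιP a) _ (hκP b))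
  have hφ : Function.Injective φ := by
    rw [injective_iff_map_eq_one]
    rintro ⟨a, b⟩ hab
    have h1 : ι a * κ b = 1 := hab
    have h2 : ι a ∈ D.P ⊓ conjS x D.P := by
      refine ⟨hιP a, ?_⟩
      have : ι a = (κ b)⁻¹ := eq_inv_of_mul_eq_one_left h1
      rw [this]; exact Subgroup.inv_mem _ (hκP b)
    rw [hinf, Subgroup.mem_bot] at h2
    have h3 : κ b = 1 := by rw [h2, one_mul] at h1; exact h1
    have h4 : ι b = 1 := by
      rw [hκ] at h3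
      have : ι b = x⁻¹ * (x * ι b * x⁻¹) * x := by group
      rw [this, h3]; group
    have ha : a = 1 := hι (by rw [h2, map_one])
    have hb : b = 1 := hι (by rw [h4, map_one])
    rw [ha, hb]; rfl
  have hcommE : ∀ a b : ↥A × ↥A, a * b = b * a := by
    intro a b
    exact Prod.ext (hA.is_comm.comm _ _) (hA.is_comm.comm _ _)
  have hexpE : ∀ a : ↥A × ↥A, a ^ 2 = 1 := by
    intro a
    exact Prod.ext (Subtype.ext (hA2 _ a.1.2)) (Subtype.ext (hA2 _ a.2.2))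
  have h := card_le_of_sectionalPRankLE D.hr φ hφ (MonoidHom.prodMap ψ₁ ψ₁)
    (Function.Surjective.prodMap hψ₁ hψ₁) hcommE hexpE
  rw [Nat.card_prod] at h
  by_contra hlt
  push Not at hlt
  nlinarith

theorem conj_eq [Finite S] {x y : S} (hx : x ∈ normalizer (D.S₀ : Set S))
    (hy : y ∈ normalizer (D.S₀ : Set S))
    (hxz : x * D.z * x⁻¹ ≠ D.z) (hyz : y * D.z * y⁻¹ ≠ D.z) :
    x * D.z * x⁻¹ = y * D.z * y⁻¹ := by
  by_contra hne
  obtain ⟨-, hc1, hcen⟩ := D.conj_core_one hx hxz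
  obtain ⟨-, hc2, -⟩ := D.conj_core_one hy hyz
  obtain ⟨-, hc3, -⟩ := D.conj_core hx hy hne
  have hsub : ∀ u ∈ conjS y D.P, u ∈ D.P ⊔ conjS x D.P := by
    intro u hu
    exact hcen u (fun a ha => (hc2 a ha u hu).symm) (fun b hb => (hc3 b hb u hu).symm)
  have hab : ∀ u ∈ conjS y D.P, ∀ v ∈ conjS y D.P, u * v = v * u := by
    intro u hu v hv
    obtain ⟨p, hp, q, hq, rfl⟩ := mem_sup_of_commute hc1 (hsub v hv)
    have h1 : u * p = p * u := (hc2 p hp u hu).symm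
    have h2 : u * q = q * u := (hc3 q hq u hu).symm
    rw [← mul_assoc, h1, mul_assoc, h2, mul_assoc]
  exact D.conjP_nonabelian y hab

end SecData

end Cfsg.Agent.Helper58
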