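import Mathlib
import Cfsg.Agent.Helper58.SecRankConj

set_option autoImplicit false

/-!
In the situation of `SecData`, if `S₀ ≠ S` then `S₀` is normal of index two.
-/

namespace Cfsg.Agent.Helper58

open Subgroup

namespace SecData

variable {S : Type*} [Group S] (D : SecData S)

theorem normalizer_eq_top [Finite S] (hne : D.S₀ ≠ ⊤) : normalizer (D.S₀ : Set S) = ⊤ := by
  have hf2 : Fact (Nat.Prime 2) := ⟨Nat.prime_two⟩
  have hnil : Group.IsNilpotent S := D.hS2.isNilpotent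
  have hNC := Group.normalizerCondition_of_isNilpotent (G := S)
  by_contra hN
  obtain ⟨x, hxN, hxS⟩ := SetLike.exists_of_lt (hNC D.S₀ (lt_top_iff_ne_top.mpr hne))
  obtain ⟨y, hyNN, hyN⟩ := SetLike.exists_of_lt (hNC _ (lt_top_iff_ne_top.mpr hN))
  have hS₀N : D.S₀ ≤ normalizer (D.S₀ : Set S) := Subgroup.le_normalizer
  have hxz : x * D.z * x⁻¹ ≠ D.z := (D.conj_ne_iff x).mpr hxS
  have hyconj : ∀ s, y⁻¹ * s * y ∈ normalizer (D.S₀ : Set S) ↔ s ∈ normalizer (D.S₀ : Set S) := by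
    intro s
    have := (Subgroup.mem_normalizer_iff.mp hyNN) (y⁻¹ * s * y)
    rw [this]
    have e : y * (y⁻¹ * s * y) * y⁻¹ = s := by group
    rw [e]
  obtain ⟨t, ht⟩ : ∃ t, t = y * D.z * y⁻¹ := ⟨_, rfl⟩
  obtain ⟨t', ht'⟩ : ∃ t', t' = y * (x * D.z * x⁻¹) * y⁻¹ := ⟨_, rfl⟩
  have F1 : ∀ s, s * t = t * s ↔ y⁻¹ * s * y ∈ D.S₀ := by
    intro s
    rw [ht, D.hS₀]
    constructor
    · intro h
      calc y⁻¹ * s * y * D.z = y⁻¹ * (s * (y * D.z * y⁻¹)) * y := by group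
        _ = y⁻¹ * ((y * D.z * y⁻¹) * s) * y := by rw [h]
        _ = D.z * (y⁻¹ * s * y) := by group
    · intro h
      calc s * (y * D.z * y⁻¹) = y * (y⁻¹ * s * y * D.z) * y⁻¹ := by group
        _ = y * (D.z * (y⁻¹ * s * y)) * y⁻¹ := by rw [h]
        _ = (y * D.z * y⁻¹) * s := by group
  have F1' : ∀ s, s * t' = t' * s ↔ y⁻¹ * s * y ∈ D.S₀ := by
    intro s
    rw [ht', ← D.comm_conj_iff hxN]
    constructor
    · intro h
      calc y⁻¹ * s * y * (x * D.z * x⁻¹)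
          = y⁻¹ * (s * (y * (x * D.z * x⁻¹) * y⁻¹)) * y := by group
        _ = y⁻¹ * ((y * (x * D.z * x⁻¹) * y⁻¹) * s) * y := by rw [h]
        _ = (x * D.z * x⁻¹) * (y⁻¹ * s * y) := by group
    · intro h
      calc s * (y * (x * D.z * x⁻¹) * y⁻¹)
          = y * (y⁻¹ * s * y * (x * D.z * x⁻¹)) * y⁻¹ := by group
        _ = y * ((x * D.z * x⁻¹) * (y⁻¹ * s * y)) * y⁻¹ := by rw [h]
        _ = (y * (x * D.z * x⁻¹) * y⁻¹) * s := by group
  have A2 : ∀ s, s * t = t * s ↔ s * t' = t' * s := fun s => (F1 s).trans (F1' s).symm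
  have A1 : ∀ s ∈ normalizer (D.S₀ : Set S), s * t * s⁻¹ = t ∨ s * t * s⁻¹ = t' := by
    intro s hs
    have hs' : y⁻¹ * s * y ∈ normalizer (D.S₀ : Set S) := (hyconj s).mpr hs
    have e : s * t * s⁻¹ = y * ((y⁻¹ * s * y) * D.z * (y⁻¹ * s * y)⁻¹) * y⁻¹ := by
      rw [ht]; group
    by_cases h : (y⁻¹ * s * y) * D.z * (y⁻¹ * s * y)⁻¹ = D.z
    · left; rw [e, h, ht]
    · right; rw [e, D.conj_eq hs' hxN h hxz, ht']
  have htN : t ∈ normalizer (D.S₀ : Set S) := by
    have := (Subgroup.mem_normalizer_iff.mp hyNN D.z).mp (hS₀N D.z_mem_S₀)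
    rw [ht]; exact this
  by_cases hB : t * D.z = D.z * t
  · -- `t` commutes with `z`
    have htS : t ∈ D.S₀ := (D.hS₀ t).mpr hB
    obtain ⟨hinf, hcomm, hcen⟩ := D.conj_core_one hxN hxz
    have ht'ne : t' ≠ t := by
      intro h
      apply hxz
      rw [ht, ht'] at h
      have e : x * D.z * x⁻¹ = y⁻¹ * (y * (x * D.z * x⁻¹) * y⁻¹) * y := by group
      rw [e, h]; group
    have A3 : (∀ p ∈ D.P, p * t = t * p) ∨ (∀ q ∈ conjS x D.P, q * t = t * q) := by
      by_contra hcon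
      push Not at hcon
      obtain ⟨⟨s₁, hs₁, hs₁t⟩, ⟨s₂, hs₂, hs₂t⟩⟩ := hcon
      have h1 : s₁ * t * s₁⁻¹ = t' := by
        rcases A1 s₁ (hS₀N (D.P_le hs₁)) with h | h
        · exfalso; apply hs₁t
          calc s₁ * t = (s₁ * t * s₁⁻¹) * s₁ := by group
            _ = t * s₁ := by rw [h]
        · exact h
      have h2 : s₂ * t * s₂⁻¹ = t' := by
        rcases A1 s₂ (hS₀N (D.conjP_le hxN hs₂)) with h | h
        · exfalso; apply hs₂t
          calc s₂ * t = (s₂ * t * s₂⁻¹) * s₂ := by group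
            _ = t * s₂ := by rw [h]
        · exact h
      have e1 : t' * t⁻¹ ∈ D.P := by
        have := D.P.mul_mem hs₁ (D.hPn t htS s₁⁻¹ (D.P.inv_mem hs₁))
        have e : t' * t⁻¹ = s₁ * (t * s₁⁻¹ * t⁻¹) := by rw [← h1]; group
        rw [e]; exact this
      have e2 : t' * t⁻¹ ∈ conjS x D.P := by
        have := (conjS x D.P).mul_mem hs₂
          (D.conjP_normal hxN t htS s₂⁻¹ ((conjS x D.P).inv_mem hs₂))
        have e : t' * t⁻¹ = s₂ * (t * s₂⁻¹ * t⁻¹) := by rw [← h2]; group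
        rw [e]; exact this
      have : t' * t⁻¹ ∈ D.P ⊓ conjS x D.P := ⟨e1, e2⟩
      rw [hinf, Subgroup.mem_bot] at this
      exact ht'ne (mul_inv_eq_one.mp this)
    have hxinvN : x⁻¹ ∈ normalizer (D.S₀ : Set S) := Subgroup.inv_mem _ hxN
    have A4 : (∀ p ∈ D.P, p * t = t * p) ∧ (∀ q ∈ conjS x D.P, q * t = t * q) := by
      rcases A3 with h | h
      · refine ⟨h, ?_⟩
        intro q hq
        have hq' := h _ hq
        have h3 : q * (x * t * x⁻¹) = (x * t * x⁻¹) * q := by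
          calc q * (x * t * x⁻¹) = x * (x⁻¹ * q * x * t) * x⁻¹ := by group
            _ = x * (t * (x⁻¹ * q * x)) * x⁻¹ := by rw [hq']
            _ = (x * t * x⁻¹) * q := by group
        rcases A1 x hxN with h4 | h4
        · rw [h4] at h3; exact h3
        · rw [h4] at h3; exact (A2 q).mpr h3
      · refine ⟨?_, h⟩
        intro p hp
        have hp' := h _ (conj_mem_conjS (x := x) hp)
        have h3 : p * (x⁻¹ * t * x⁻¹⁻¹) = (x⁻¹ * t * x⁻¹⁻¹) * p := by
          calc p * (x⁻¹ * t * x⁻¹⁻¹) = x⁻¹ * ((x * p * x⁻¹) * t) * x := by group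
            _ = x⁻¹ * (t * (x * p * x⁻¹)) * x := by rw [hp']
            _ = (x⁻¹ * t * x⁻¹⁻¹) * p := by group
        rcases A1 x⁻¹ hxinvN with h4 | h4
        · rw [h4] at h3; exact h3
        · rw [h4] at h3; exact (A2 p).mpr h3
    have hyS : y ∉ D.S₀ := fun h => hyN (hS₀N h)
    have ht_cases := D.centralizer_cases hxN hxz (c := t) (fun a ha => (A4.1 a ha).symm)
      (fun b hb => (A4.2 b hb).symm)
    have ht'_cases := D.centralizer_cases hxN hxz (c := t')
      (fun a ha => ((A2 a).mp (A4.1 a ha)).symm) (fun b hb => ((A2 b).mp (A4.2 b hb)).symm)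
    have ht_eq : t = D.z * (x * D.z * x⁻¹) := by
      rcases ht_cases with h | h | h | h
      · exfalso; apply D.hz1
        rw [ht] at h
        have e : D.z = y⁻¹ * (y * D.z * y⁻¹) * y := by group
        rw [e, h]; group
      · exfalso; apply hyS
        rw [D.hS₀]
        rw [ht] at h
        calc y * D.z = (y * D.z * y⁻¹) * y := by group
          _ = D.z * y := by rw [h]
      · exfalso; apply hyN
        have h5 : x⁻¹ * y ∈ D.S₀ := by
          rw [D.hS₀]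
          rw [ht] at h
          calc x⁻¹ * y * D.z = x⁻¹ * (y * D.z * y⁻¹) * y := by group
            _ = x⁻¹ * (x * D.z * x⁻¹) * y := by rw [h]
            _ = D.z * (x⁻¹ * y) := by group
        have := Subgroup.mul_mem _ hxN (hS₀N h5)
        simpa using this
      · exact h
    have ht'_eq : t' = D.z * (x * D.z * x⁻¹) := by
      rcases ht'_cases with h | h | h | h
      · exfalso; apply D.hz1
        rw [ht'] at h
        have e : D.z = x⁻¹ * (y⁻¹ * (y * (x * D.z * x⁻¹) * y⁻¹) * y) * x := by group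
        rw [e, h]; group
      · exfalso; apply hyN
        have h5 : y * x ∈ D.S₀ := by
          rw [D.hS₀]
          rw [ht'] at h
          calc y * x * D.z = (y * (x * D.z * x⁻¹) * y⁻¹) * (y * x) := by group
            _ = D.z * (y * x) := by rw [h]
        have := Subgroup.mul_mem _ (hS₀N h5) hxinvN
        simpa using this
      · exfalso; apply hyS
        rw [← D.comm_conj_iff hxN]
        rw [ht'] at h
        calc y * (x * D.z * x⁻¹) = (y * (x * D.z * x⁻¹) * y⁻¹) * y := by group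
          _ = (x * D.z * x⁻¹) * y := by rw [h]
      · exact h
    exact ht'ne (ht'_eq.trans ht_eq.symm)
  · -- `t` does not commute with `z`
    have htS : t ∉ D.S₀ := fun h => hB ((D.hS₀ t).mp h)
    have htz : t * D.z * t⁻¹ ≠ D.z := (D.conj_ne_iff t).mpr htS
    obtain ⟨hinf, -, -⟩ := D.conj_core_one htN htz
    have hPt : ∀ p ∈ D.P, p * t = t * p → p = 1 := by
      intro p hp h
      have h1 : t * p * t⁻¹ = p := by rw [← h]; group
      have h2 : p ∈ D.P ⊓ conjS t D.P := ⟨hp, by rw [← h1]; exact conj_mem_conjS hp⟩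
      rw [hinf, Subgroup.mem_bot] at h2
      exact h2
    have hidx : ∀ a ∈ normalizer (D.S₀ : Set S), ∀ b ∈ normalizer (D.S₀ : Set S),
        a * t ≠ t * a → b * t ≠ t * b → (a⁻¹ * b) * t = t * (a⁻¹ * b) := by
      intro a ha b hb hat hbt
      have ha' : y⁻¹ * a * y ∈ normalizer (D.S₀ : Set S) := (hyconj a).mpr ha
      have hb' : y⁻¹ * b * y ∈ normalizer (D.S₀ : Set S) := (hyconj b).mpr hb
      have ha'' : y⁻¹ * a * y ∉ D.S₀ := fun h => hat ((F1 a).mpr h)
      have hb'' : y⁻¹ * b * y ∉ D.S₀ := fun h => hbt ((F1 b).mpr h)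
      have h1 := D.conj_eq ha' hb' ((D.conj_ne_iff _).mpr ha'') ((D.conj_ne_iff _).mpr hb'')
      rw [F1, D.hS₀]
      have e : y⁻¹ * (a⁻¹ * b) * y = (y⁻¹ * a * y)⁻¹ * (y⁻¹ * b * y) := by group
      rw [e]
      calc (y⁻¹ * a * y)⁻¹ * (y⁻¹ * b * y) * D.z
          = (y⁻¹ * a * y)⁻¹ * ((y⁻¹ * b * y) * D.z * (y⁻¹ * b * y)⁻¹) * (y⁻¹ * b * y) := by
            group
        _ = (y⁻¹ * a * y)⁻¹ * ((y⁻¹ * a * y) * D.z * (y⁻¹ * a * y)⁻¹) * (y⁻¹ * b * y) := by
            rw [h1]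
        _ = D.z * ((y⁻¹ * a * y)⁻¹ * (y⁻¹ * b * y)) := by group
    apply D.hP
    intro a ha b hb
    by_cases ha1 : a * t = t * a
    · rw [hPt a ha ha1]; simp
    by_cases hb1 : b * t = t * b
    · rw [hPt b hb hb1]; simp
    have h1 := hidx a (hS₀N (D.P_le ha)) b (hS₀N (D.P_le hb)) ha1 hb1
    have h2 := hPt _ (D.P.mul_mem (D.P.inv_mem ha) hb) h1
    have h3 : a = b := inv_mul_eq_one.mp h2
    rw [h3]

theorem index_eq_two [Finite S] (hne : D.S₀ ≠ ⊤) : D.S₀.index = 2 := by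
  have hN := D.normalizer_eq_top hne
  have hmemN : ∀ s : S, s ∈ normalizer (D.S₀ : Set S) := fun s => hN ▸ Subgroup.mem_top s
  obtain ⟨x, hx⟩ : ∃ x, x ∉ D.S₀ := by
    by_contra h
    push Not at h
    exact hne ((Subgroup.eq_top_iff' _).mpr h)
  rw [Subgroup.index_eq_two_iff]
  refine ⟨x, fun b => ?_⟩
  by_cases hb : b ∈ D.S₀
  · refine Or.inr ⟨hb, fun h => hx ?_⟩
    have := D.S₀.mul_mem (D.S₀.inv_mem hb) h
    simpa using this
  · refine Or.inl ⟨?_, hb⟩
    have hb' : b⁻¹ ∉ D.S₀ := fun h => hb (by simpa using D.S₀.inv_mem h)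
    have h1 := D.conj_eq (hmemN b⁻¹) (hmemN x) ((D.conj_ne_iff _).mpr hb')
      ((D.conj_ne_iff _).mpr hx)
    rw [D.hS₀]
    calc b * x * D.z = b * (x * D.z * x⁻¹) * x := by group
      _ = b * (b⁻¹ * D.z * b⁻¹⁻¹) * x := by rw [h1]
      _ = D.z * (b * x) := by group

theorem rank_two_of_ne_top [Finite S] (hne : D.S₀ ≠ ⊤) : Cfsg.SectionalPRankLE 2 2 ↥D.P := by
  have hN := D.normalizer_eq_top hne
  obtain ⟨x, hx⟩ : ∃ x, x ∉ D.S₀ := by
    by_contra h
    push Not at h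
    exact hne ((Subgroup.eq_top_iff' _).mpr h)
  exact D.rank_two (hN ▸ Subgroup.mem_top x) ((D.conj_ne_iff x).mpr hx)

end SecData

end Cfsg.Agent.Helper58
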