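import Cfsg.Agent.Helper58.FinFieldEnd
import Cfsg.Agent.Helper50.RankTwo

/-!
# Linear part of the solvable extremely primitive theorem (helper58)

`H` acts on a finite abelian group `B` by automorphisms, `A ≤ H`.

* `sx_card_eq_prime`: an elementary abelian `r`-subgroup `A ≠ 1` acting fixed-point-freely on `B ≠ 1`
  (`r ∤ |B|`) has order `r` (uses the rank-two norm identity of `Helper50/RankTwo`).
* If `A` is abelian normal, every `H`-orbit is an `A`-orbit, `B` has no proper non-trivial `H`-invariant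
  subgroup and `|B| = p ^ d`, then the subring `K` of `End B` generated by `A` is a field with `p ^ d`
  elements on which `H` acts by conjugation:
  * `sx_frobenius`: `a ^ (p ^ i) = a` for all `a ∈ A` is impossible for `0 < i < d`;
  * `sx_card_dvd`: a subgroup `S ≤ H` with `C_S(A) = 1` has order dividing `d` (`H` faithful on `B`).
-/

set_option autoImplicit false

namespace Cfsg.Agent.Helper58

section act

variable {H B : Type*} [Group H] [CommGroup B] [MulDistribMulAction H B]

/-- the action as a monoid hom into the endomorphism ring of `Additive B` -/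
noncomputable def sxActEnd : H →* Module.End ℤ (Additive B) where
  toFun u := (MonoidHom.toAdditive (MulDistribMulAction.toMonoidHom B u)).toIntLinearMap
  map_one' := by
    ext x
    induction x using Additive.rec with | _ b =>
    simp
  map_mul' u v := by
    ext x
    induction x using Additive.rec with | _ b =>
    simp [mul_smul]

theorem sxActEnd_apply (u : H) (b : B) :
    sxActEnd (B := B) u (Additive.ofMul b) = Additive.ofMul (u • b) := rfl

theorem sxActEnd_injective (hfaith : ∀ h : H, (∀ b : B, h • b = b) → h = 1) :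
    Function.Injective (sxActEnd (H := H) (B := B)) := by
  intro x y hxy
  have h1 : y⁻¹ * x = 1 := by
    apply hfaith
    intro b
    have h2 := congrArg (fun f : Module.End ℤ (Additive B) => f (Additive.ofMul b)) hxy
    simp only [sxActEnd_apply] at h2
    have h3 : x • b = y • b := congrArg Additive.toMul h2
    rw [mul_smul, h3, inv_smul_smul]
  rw [inv_mul_eq_one] at h1
  exact h1.symm

/-- an elementary abelian `r`-group acting fixed-point-freely on a non-trivial abelian `r'`-group has
order `r` -/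
theorem sx_card_eq_prime [Finite H] [Finite B] [Nontrivial B] (r : ℕ) [hr : Fact r.Prime]
    (A : Subgroup H) (hA : A ≠ ⊥) (hAc : ∀ a ∈ A, ∀ b ∈ A, a * b = b * a) (hAr : ∀ a ∈ A, a ^ r = 1)
    (hfpf : ∀ a ∈ A, a ≠ 1 → ∀ b : B, a • b = b → b = 1) (hcop : (Nat.card B).Coprime r) :
    Nat.card A = r := by
  have hpg : IsPGroup r A := by
    intro a
    refine ⟨1, ?_⟩
    rw [pow_one]
    exact Subtype.ext (hAr a a.2)
  obtain ⟨n, hn⟩ := IsPGroup.iff_card.mp hpg
  by_contra hne
  have hn2 : 2 ≤ n := by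
    rcases n with _ | _ | n
    · exfalso
      apply hA
      rw [pow_zero] at hn
      exact Subgroup.card_eq_one.mp hn
    · exfalso
      exact hne (by rw [hn, pow_one])
    · omega
  obtain ⟨a, ha, ha1⟩ : ∃ a ∈ A, a ≠ 1 := by
    by_contra hcon
    push Not at hcon
    exact hA (by rw [eq_bot_iff]; intro k hk; exact hcon k hk)
  have hoa : orderOf a = r := orderOf_eq_prime (hAr a ha) ha1
  obtain ⟨b, hb, hba⟩ : ∃ b ∈ A, b ∉ Subgroup.zpowers a := by
    by_contra hcon
    push Not at hcon
    have hle : A ≤ Subgroup.zpowers a := hcon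
    have h1 := Subgroup.card_le_of_le hle
    rw [Nat.card_zpowers, hoa, hn] at h1
    have h2 : r ^ 2 ≤ r ^ n := Nat.pow_le_pow_right hr.out.pos hn2
    nlinarith [hr.out.two_le]
  have hc : Commute (sxActEnd (B := B) a) (sxActEnd (B := B) b) := by
    show _ * _ = _ * _
    rw [← map_mul, ← map_mul, hAc a ha b hb]
  have hσ : sxActEnd (B := B) a ^ r = 1 := by rw [← map_pow, hAr a ha, map_one]
  have hnorm : ∀ c ∈ A, c ≠ 1 → ∀ x : Additive B,
      Cfsg.Agent.Helper50.nrm r (sxActEnd (B := B) c) x = 0 := by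
    intro c hc' hc1 x
    have h1 : sxActEnd (B := B) c * Cfsg.Agent.Helper50.nrm r (sxActEnd (B := B) c)
        = Cfsg.Agent.Helper50.nrm r (sxActEnd (B := B) c) :=
      Cfsg.Agent.Helper50.mul_nrm r (by rw [← map_pow, hAr c hc', map_one])
    have h2 := congrArg (fun f : Module.End ℤ (Additive B) => f x) h1
    simp only [Module.End.mul_apply] at h2
    have h3 := hfpf c hc' hc1
      (Additive.toMul (Cfsg.Agent.Helper50.nrm r (sxActEnd (B := B) c) x))
      (congrArg Additive.toMul h2)
    exact congrArg Additive.ofMul h3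
  have hall : ∀ x : Additive B, r • x = 0 := by
    intro x
    apply Cfsg.Agent.Helper50.nsmul_eq_zero_of_rank_two r hc hσ x (hnorm a ha ha1 x)
    intro j
    have e : sxActEnd (B := B) b * sxActEnd (B := B) a ^ j.val
        = sxActEnd (B := B) (b * a ^ j.val) := by rw [map_mul, map_pow]
    rw [e]
    apply hnorm _ (A.mul_mem hb (A.pow_mem ha _))
    intro h
    apply hba
    rw [mul_eq_one_iff_eq_inv] at h
    rw [h]
    exact (Subgroup.zpowers a).inv_mem ((Subgroup.zpowers a).pow_mem (Subgroup.mem_zpowers a) _)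
  obtain ⟨b0, hb0⟩ := exists_ne (1 : B)
  apply hb0
  have h1 : b0 ^ r = 1 := congrArg Additive.toMul (hall (Additive.ofMul b0))
  have h2 : orderOf b0 ∣ r := orderOf_dvd_of_pow_eq_one h1
  have h3 : orderOf b0 ∣ Nat.card B := orderOf_dvd_natCard b0
  have h4 : orderOf b0 = 1 := Nat.Coprime.eq_one_of_dvd (Nat.Coprime.coprime_dvd_left h3 hcop) h2
  exact orderOf_eq_one_iff.mp h4

end act

section lin

variable {H B : Type*} [Group H] [CommGroup B] [MulDistribMulAction H B]

theorem sx_comm (A : Subgroup H) (hAc : ∀ a ∈ A, ∀ b ∈ A, a * b = b * a) :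
    ∀ x ∈ sxActEnd (B := B) '' (A : Set H), ∀ y ∈ sxActEnd (B := B) '' (A : Set H), x * y = y * x := by
  rintro _ ⟨a, ha, rfl⟩ _ ⟨b, hb, rfl⟩
  rw [← map_mul, ← map_mul, hAc a ha b hb]

theorem sx_conj_mem (A : Subgroup H) [hAn : A.Normal] (h : H) {k : Module.End ℤ (Additive B)}
    (hk : k ∈ Subring.closure (sxActEnd (B := B) '' (A : Set H))) :
    sxActEnd (B := B) h * k * sxActEnd (B := B) h⁻¹
      ∈ Subring.closure (sxActEnd (B := B) '' (A : Set H)) := by
  have e1 : sxActEnd (B := B) h⁻¹ * sxActEnd (B := B) h = 1 := by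
    rw [← map_mul, inv_mul_cancel, map_one]
  induction hk using Subring.closure_induction with
  | mem x hx =>
    obtain ⟨a, ha, rfl⟩ := hx
    apply Subring.subset_closure
    refine ⟨h * a * h⁻¹, hAn.conj_mem a ha h, ?_⟩
    rw [map_mul, map_mul]
  | zero => rw [mul_zero, zero_mul]; exact Subring.zero_mem _
  | one =>
    rw [mul_one, ← map_mul, mul_inv_cancel, map_one]
    exact Subring.one_mem _
  | add x y _ _ hx hy =>
    rw [mul_add, add_mul]
    exact Subring.add_mem _ hx hy
  | neg x _ hx =>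
    rw [mul_neg, neg_mul]
    exact Subring.neg_mem _ hx
  | mul x y _ _ hx hy =>
    have e2 : sxActEnd (B := B) h * (x * y) * sxActEnd (B := B) h⁻¹
        = (sxActEnd (B := B) h * x * sxActEnd (B := B) h⁻¹)
          * (sxActEnd (B := B) h * y * sxActEnd (B := B) h⁻¹) := by
      calc sxActEnd (B := B) h * (x * y) * sxActEnd (B := B) h⁻¹
          = sxActEnd (B := B) h * x * 1 * y * sxActEnd (B := B) h⁻¹ := by
            rw [mul_one, mul_assoc (sxActEnd (B := B) h) x y]
        _ = _ := by rw [← e1]; simp only [mul_assoc]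
    rw [e2]
    exact Subring.mul_mem _ hx hy

/-- conjugation by `s` as a ring automorphism of the ring generated by `A` -/
noncomputable def sxConj (A : Subgroup H) [A.Normal] (s : H) :
    Subring.closure (sxActEnd (B := B) '' (A : Set H))
      ≃+* Subring.closure (sxActEnd (B := B) '' (A : Set H)) where
  toFun k := ⟨sxActEnd (B := B) s * k * sxActEnd (B := B) s⁻¹, sx_conj_mem A s k.2⟩
  invFun k := ⟨sxActEnd (B := B) s⁻¹ * k * sxActEnd (B := B) s, by
    have := sx_conj_mem A s⁻¹ k.2
    rwa [inv_inv] at this⟩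
  left_inv k := by
    apply Subtype.ext
    show sxActEnd (B := B) s⁻¹ * (sxActEnd (B := B) s * k * sxActEnd (B := B) s⁻¹)
      * sxActEnd (B := B) s = k
    have e1 : sxActEnd (B := B) s⁻¹ * sxActEnd (B := B) s = 1 := by
      rw [← map_mul, inv_mul_cancel, map_one]
    rw [← mul_assoc, ← mul_assoc, e1, one_mul, mul_assoc, e1, mul_one]
  right_inv k := by
    apply Subtype.ext
    show sxActEnd (B := B) s * (sxActEnd (B := B) s⁻¹ * k * sxActEnd (B := B) s)
      * sxActEnd (B := B) s⁻¹ = k
    have e1 : sxActEnd (B := B) s * sxActEnd (B := B) s⁻¹ = 1 := by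
      rw [← map_mul, mul_inv_cancel, map_one]
    rw [← mul_assoc, ← mul_assoc, e1, one_mul, mul_assoc, e1, mul_one]
  map_mul' k k' := by
    apply Subtype.ext
    show sxActEnd (B := B) s * ((k : Module.End ℤ (Additive B)) * k') * sxActEnd (B := B) s⁻¹
      = (sxActEnd (B := B) s * k * sxActEnd (B := B) s⁻¹)
        * (sxActEnd (B := B) s * k' * sxActEnd (B := B) s⁻¹)
    have e1 : sxActEnd (B := B) s⁻¹ * sxActEnd (B := B) s = 1 := by
      rw [← map_mul, inv_mul_cancel, map_one]
    calc sxActEnd (B := B) s * ((k : Module.End ℤ (Additive B)) * k') * sxActEnd (B := B) s⁻¹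
        = sxActEnd (B := B) s * k * 1 * k' * sxActEnd (B := B) s⁻¹ := by
          rw [mul_one, mul_assoc (sxActEnd (B := B) s) (k : Module.End ℤ (Additive B)) k']
      _ = _ := by rw [← e1]; simp only [mul_assoc]
  map_add' k k' := by
    apply Subtype.ext
    show sxActEnd (B := B) s * ((k : Module.End ℤ (Additive B)) + k') * sxActEnd (B := B) s⁻¹
      = (sxActEnd (B := B) s * k * sxActEnd (B := B) s⁻¹)
        + (sxActEnd (B := B) s * k' * sxActEnd (B := B) s⁻¹)
    rw [mul_add, add_mul]

theorem sxConj_apply (A : Subgroup H) [A.Normal] (s : H)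
    (k : Subring.closure (sxActEnd (B := B) '' (A : Set H))) :
    ((sxConj A s k : Subring.closure (sxActEnd (B := B) '' (A : Set H))) : Module.End ℤ (Additive B))
      = sxActEnd (B := B) s * k * sxActEnd (B := B) s⁻¹ := rfl

/-- conjugation as a homomorphism into the ring automorphisms -/
noncomputable def sxConjHom (A : Subgroup H) [A.Normal] :
    H →* RingAut (Subring.closure (sxActEnd (B := B) '' (A : Set H))) where
  toFun s := sxConj A s
  map_one' := by
    apply RingEquiv.ext
    intro k
    apply Subtype.ext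
    rw [sxConj_apply]
    simp
  map_mul' s t := by
    apply RingEquiv.ext
    intro k
    apply Subtype.ext
    rw [sxConj_apply]
    show _ = sxActEnd (B := B) s * (sxActEnd (B := B) t * k * sxActEnd (B := B) t⁻¹)
      * sxActEnd (B := B) s⁻¹
    rw [mul_inv_rev, map_mul, map_mul]
    simp only [mul_assoc]

theorem sx_hirr (A : Subgroup H) [hAn : A.Normal]
    (horb : ∀ h : H, ∀ b : B, ∃ a ∈ A, h • b = a • b)
    (hirr : ∀ U : Subgroup B, (∀ h : H, ∀ u ∈ U, h • u ∈ U) → U = ⊥ ∨ U = ⊤)
    (x : Additive B) (hx : x ≠ 0) (y : Additive B) :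
    ∃ k : Subring.closure (sxActEnd (B := B) '' (A : Set H)),
      (k : Module.End ℤ (Additive B)) x = y := by
  let U : Subgroup B :=
    { carrier := {b | ∃ k : Subring.closure (sxActEnd (B := B) '' (A : Set H)),
        (k : Module.End ℤ (Additive B)) x = Additive.ofMul b}
      one_mem' := ⟨0, by simp⟩
      mul_mem' := by
        rintro b b' ⟨k, hk⟩ ⟨k', hk'⟩
        refine ⟨k + k', ?_⟩
        rw [Subring.coe_add, LinearMap.add_apply, hk, hk']
        rfl
      inv_mem' := by
        rintro b ⟨k, hk⟩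
        refine ⟨-k, ?_⟩
        rw [Subring.coe_neg, LinearMap.neg_apply, hk]
        rfl }
  have hU : ∀ h : H, ∀ u ∈ U, h • u ∈ U := by
    rintro h u ⟨k, hk⟩
    obtain ⟨a, ha, hax⟩ := horb h (Additive.toMul x)
    have e1 : sxActEnd (B := B) h⁻¹ (sxActEnd (B := B) h x) = x := by
      rw [← Module.End.mul_apply, ← map_mul, inv_mul_cancel, map_one]
      rfl
    have e2 : sxActEnd (B := B) h x = sxActEnd (B := B) a x := congrArg Additive.ofMul hax
    refine ⟨⟨sxActEnd (B := B) h * k * sxActEnd (B := B) h⁻¹, sx_conj_mem A h k.2⟩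
      * ⟨sxActEnd (B := B) a, Subring.subset_closure ⟨a, ha, rfl⟩⟩, ?_⟩
    show (sxActEnd (B := B) h * k * sxActEnd (B := B) h⁻¹ * sxActEnd (B := B) a) x = _
    rw [Module.End.mul_apply, ← e2, Module.End.mul_apply, e1, Module.End.mul_apply, hk]
    rfl
  have hmem : Additive.toMul x ∈ U := ⟨1, by simp⟩
  rcases hirr U hU with h0 | h1
  · exfalso
    rw [h0, Subgroup.mem_bot] at hmem
    exact hx (congrArg Additive.ofMul hmem)
  · have hy : Additive.toMul y ∈ U := by rw [h1]; trivial
    obtain ⟨k, hk⟩ := hy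
    exact ⟨k, hk⟩

variable [Finite B] [Nontrivial B] {p d : ℕ}

theorem sx_frobenius (hp : p.Prime) (hB : Nat.card B = p ^ d) (A : Subgroup H) [hAn : A.Normal]
    (hAc : ∀ a ∈ A, ∀ b ∈ A, a * b = b * a)
    (horb : ∀ h : H, ∀ b : B, ∃ a ∈ A, h • b = a • b)
    (hirr : ∀ U : Subgroup B, (∀ h : H, ∀ u ∈ U, h • u ∈ U) → U = ⊥ ∨ U = ⊤)
    {i : ℕ} (hi : 0 < i) (hid : i < d) (hpow : ∀ a ∈ A, a ^ (p ^ i) = a) : False := by
  let _ : CommRing (Subring.closure (sxActEnd (B := B) '' (A : Set H))) :=
    Subring.closureCommRingOfComm (sx_comm A hAc)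
  refine ffe_frobenius (M := Additive B)
    (Subring.closure (sxActEnd (B := B) '' (A : Set H))).subtype hp hB
    (sx_hirr A horb hirr) Subtype.val_injective hi hid
    {k | (k : Module.End ℤ (Additive B)) ∈ sxActEnd (B := B) '' (A : Set H)} ?_ ?_
  · rw [eq_top_iff]
    rintro ⟨k, hk⟩ -
    induction hk using Subring.closure_induction with
    | mem x hx => exact Subring.subset_closure hx
    | zero => exact Subring.zero_mem _
    | one => exact Subring.one_mem _
    | add x y hx' hy' hx hy => exact Subring.add_mem _ hx hy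
    | neg x hx' hx => exact Subring.neg_mem _ hx
    | mul x y hx' hy' hx hy => exact Subring.mul_mem _ hx hy
  · rintro ⟨k, hk⟩ ⟨a, ha, hak⟩
    apply Subtype.ext
    show k ^ (p ^ i) = k
    have hak' : sxActEnd (B := B) a = k := hak
    rw [← hak', ← map_pow, hpow a ha]

theorem sx_card_dvd [Finite H] (hp : p.Prime) (hB : Nat.card B = p ^ d) (A : Subgroup H)
    [hAn : A.Normal] (hAc : ∀ a ∈ A, ∀ b ∈ A, a * b = b * a)
    (horb : ∀ h : H, ∀ b : B, ∃ a ∈ A, h • b = a • b)
    (hirr : ∀ U : Subgroup B, (∀ h : H, ∀ u ∈ U, h • u ∈ U) → U = ⊥ ∨ U = ⊤)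
    (hfaith : ∀ h : H, (∀ b : B, h • b = b) → h = 1) (S : Subgroup H)
    (hS : ∀ s ∈ S, (∀ a ∈ A, s * a = a * s) → s = 1) : Nat.card S ∣ d := by
  let _ : CommRing (Subring.closure (sxActEnd (B := B) '' (A : Set H))) :=
    Subring.closureCommRingOfComm (sx_comm A hAc)
  refine ffe_card_dvd (M := Additive B)
    (Subring.closure (sxActEnd (B := B) '' (A : Set H))).subtype hp hB
    (sx_hirr A horb hirr) Subtype.val_injective ((sxConjHom (B := B) A).comp S.subtype) ?_
  rw [injective_iff_map_eq_one]
  intro s hs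
  apply Subtype.ext
  apply hS s s.2
  intro a ha
  have h1 := congrArg (fun f : RingAut (Subring.closure (sxActEnd (B := B) '' (A : Set H))) =>
    ((f ⟨sxActEnd (B := B) a, Subring.subset_closure ⟨a, ha, rfl⟩⟩ :
      Subring.closure (sxActEnd (B := B) '' (A : Set H))) : Module.End ℤ (Additive B))) hs
  have h2 : sxActEnd (B := B) (s : H) * sxActEnd (B := B) a * sxActEnd (B := B) (s : H)⁻¹
      = sxActEnd (B := B) a := h1
  rw [← map_mul, ← map_mul] at h2
  have h3 := sxActEnd_injective hfaith h2
  calc (s : H) * a = ((s : H) * a * (s : H)⁻¹) * (s : H) := by group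
    _ = a * (s : H) := by rw [h3]

end lin

end Cfsg.Agent.Helper58
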