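import Mathlib
import Cfsg.Agent.S0713

/-!
# Elements of order 5 in a triply transitive group of degree 13 (helper58)

* `alt_le_of_order_five_fix`: a primitive group of degree 13 with an element of order 5 fixing at
  least 4 points contains the alternating group (the element is a 5-cycle; Jordan).
* `pow_ten_fix`: a permutation commuting with an element of order 5 with exactly 3 fixed points (on
  13 points) has its 10th power fixing all the other points.
-/

set_option autoImplicit false

namespace Cfsg.Agent.Helper58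

section

variable {α : Type*} [Fintype α] [DecidableEq α]

/-- an element of order 5 moving at most 9 points is a 5-cycle -/
theorem alt_le_of_order_five_fix (hα : Fintype.card α = 13) (G : Subgroup (Equiv.Perm α))
    (hG : MulAction.IsPreprimitive G α) {g : Equiv.Perm α} (hg : g ∈ G) (ho : orderOf g = 5)
    (hs : g.support.card ≤ 9) : alternatingGroup α ≤ G := by
  obtain ⟨n, hn⟩ := Equiv.Perm.cycleType_prime_order (σ := g) (by rw [ho]; norm_num)
  rw [ho] at hn
  have hsum : g.cycleType.sum = g.support.card := Equiv.Perm.sum_cycleType g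
  rw [hn, Multiset.sum_replicate, smul_eq_mul] at hsum
  have hn0 : n = 0 := by omega
  subst hn0
  have hcyc : g.IsCycle := by
    rw [← Equiv.Perm.card_cycleType_eq_one, hn]
    rfl
  exact Cfsg.Agent.S0713.result G hG (p := 5) (by norm_num) (by rw [hα]; norm_num)
    (by rw [hα]; norm_num) hcyc (by omega) hg

omit [Fintype α] [DecidableEq α] in
theorem pow_apply_of_commute (d z : Equiv.Perm α) (hd : Commute d z) (e : α) (j : ℕ)
    (h : d e = (z ^ j) e) (k : ℕ) : (d ^ k) e = (z ^ (j * k)) e := by
  induction k with
  | zero => simp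
  | succ k ih =>
    have hc : d ^ k * z ^ j = z ^ j * d ^ k := (hd.pow_pow k j).eq
    rw [pow_succ, Equiv.Perm.mul_apply, h, ← Equiv.Perm.mul_apply, hc, Equiv.Perm.mul_apply, ih,
      ← Equiv.Perm.mul_apply, ← pow_add]
    congr 2
    ring

omit [Fintype α] [DecidableEq α] in
theorem fix_of_pow_fix (z : Equiv.Perm α) (hz5 : z ^ 5 = 1) (d : ℕ) (hd0 : 0 < d) (hd5 : d < 5)
    (e : α) (h : (z ^ d) e = e) : z e = e := by
  have h6 : z ^ 6 = z := by rw [pow_succ, hz5, one_mul]
  have h16 : z ^ 16 = z := by
    have : z ^ 16 = (z ^ 5) ^ 3 * z := by rw [← pow_mul, ← pow_succ]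
    rw [this, hz5, one_pow, one_mul]
  have key : ∃ m : ℕ, (z ^ d) ^ m = z := by
    interval_cases d
    · exact ⟨1, by simp⟩
    · exact ⟨3, by rw [← pow_mul]; exact h6⟩
    · exact ⟨2, by rw [← pow_mul]; exact h6⟩
    · exact ⟨4, by rw [← pow_mul]; exact h16⟩
  obtain ⟨m, hm⟩ := key
  rw [← hm]
  exact Equiv.Perm.pow_apply_eq_self_of_apply_eq_self h m

/-- a permutation commuting with an element of order 5 having exactly three fixed points on 13
points: its tenth power fixes all other points -/
theorem pow_ten_fix (hα : Fintype.card α = 13) (z c : Equiv.Perm α) (hz5 : z ^ 5 = 1)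
    (Δ : Finset α) (hΔ : ∀ x, x ∈ Δ ↔ z x = x) (hΔc : Δ.card = 3) (hc : Commute c z) (e : α)
    (he : e ∉ Δ) : (c ^ 10) e = e := by
  classical
  -- `c` preserves the complement of `Δ`
  have hcΔ : ∀ y, y ∉ Δ → c y ∉ Δ := by
    intro y hy hcy
    rw [hΔ] at hcy hy
    apply hy
    have h1 : c (z y) = z (c y) := by
      have := congrArg (fun f : Equiv.Perm α => f y) hc.eq
      simpa using this
    rw [hcy] at h1
    exact c.injective h1
  have hzΔ : ∀ (y : α) (j : ℕ), y ∉ Δ → (z ^ j) y ∉ Δ := by
    intro y j hy hzy
    rw [hΔ] at hzy hy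
    apply hy
    have h1 : z ((z ^ j) y) = (z ^ j) (z y) := by
      rw [← Equiv.Perm.mul_apply, ← Equiv.Perm.mul_apply, ← pow_succ, ← pow_succ']
    rw [hzy] at h1
    exact ((z ^ j).injective h1).symm
  have hz10 : ∀ j : ℕ, z ^ (j * 10) = 1 := by
    intro j
    have : j * 10 = 5 * (j * 2) := by ring
    rw [this, pow_mul, hz5, one_pow]
  have hz5' : ∀ j : ℕ, z ^ (j * 5) = 1 := by
    intro j
    rw [mul_comm, pow_mul, hz5, one_pow]
  -- orbits
  set O : α → Finset α := fun y => (Finset.range 5).image (fun j => (z ^ j) y) with hO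
  have hOcard : ∀ y, y ∉ Δ → (O y).card = 5 := by
    intro y hy
    rw [hO]
    simp only
    rw [Finset.card_image_of_injOn, Finset.card_range]
    have key : ∀ i j : ℕ, i < j → j < 5 → (z ^ i) y = (z ^ j) y → False := by
      intro i j hij hj h
      have h1 : (z ^ j) y = (z ^ i) ((z ^ (j - i)) y) := by
        rw [← Equiv.Perm.mul_apply, ← pow_add]
        congr 2
        omega
      rw [h1] at h
      have h2 := (z ^ i).injective h
      have h3 := fix_of_pow_fix z hz5 (j - i) (by omega) (by omega) y h2.symm
      exact hy ((hΔ y).mpr h3)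
    intro i hi j hj hij
    simp only [Finset.coe_range, Set.mem_Iio] at hi hj
    by_contra hne
    rcases Nat.lt_or_gt_of_ne hne with h | h
    · exact key i j h hj hij
    · exact key j i h hi hij.symm
  have hOsub : ∀ y, y ∉ Δ → O y ⊆ Δᶜ := by
    intro y hy w hw
    rw [hO] at hw
    simp only [Finset.mem_image, Finset.mem_range] at hw
    obtain ⟨j, -, rfl⟩ := hw
    rw [Finset.mem_compl]
    exact hzΔ y j hy
  have hce := hcΔ e he
  by_cases h1 : c e ∈ O e
  · rw [hO] at h1
    simp only [Finset.mem_image, Finset.mem_range] at h1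
    obtain ⟨j, -, hj⟩ := h1
    rw [pow_apply_of_commute c z hc e j hj.symm 10, hz10]
    rfl
  · -- the two orbits are disjoint and cover the complement
    have hdisj : Disjoint (O e) (O (c e)) := by
      rw [Finset.disjoint_left]
      intro w hw hw'
      rw [hO] at hw hw'
      simp only [Finset.mem_image, Finset.mem_range] at hw hw'
      obtain ⟨i, hi, rfl⟩ := hw
      obtain ⟨j, hj, hij⟩ := hw'
      apply h1
      rw [hO]
      simp only [Finset.mem_image, Finset.mem_range]
      refine ⟨(i + (5 - j)) % 5, Nat.mod_lt _ (by norm_num), ?_⟩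
      have h2 : z ^ ((i + (5 - j)) % 5) = z ^ (i + (5 - j)) := by
        conv_rhs => rw [← Nat.mod_add_div (i + (5 - j)) 5]
        rw [pow_add, pow_mul, hz5, one_pow, mul_one]
      rw [h2, add_comm, pow_add, Equiv.Perm.mul_apply, ← hij, ← Equiv.Perm.mul_apply, ← pow_add]
      have : 5 - j + j = 5 := by omega
      rw [this, hz5]
      rfl
    have hunion : O e ∪ O (c e) = Δᶜ := by
      apply Finset.eq_of_subset_of_card_le
      · exact Finset.union_subset (hOsub e he) (hOsub (c e) hce)
      · rw [Finset.card_union_of_disjoint hdisj, hOcard e he, hOcard (c e) hce,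
          Finset.card_compl, hα, hΔc]
    have hcc : c (c e) ∈ O e ∪ O (c e) := by
      rw [hunion, Finset.mem_compl]
      exact hcΔ _ hce
    rw [Finset.mem_union] at hcc
    rcases hcc with h2 | h2
    · rw [hO] at h2
      simp only [Finset.mem_image, Finset.mem_range] at h2
      obtain ⟨j, -, hj⟩ := h2
      have hc2 : Commute (c ^ 2) z := hc.pow_left 2
      have h3 : (c ^ 2) e = (z ^ j) e := by
        rw [pow_two, Equiv.Perm.mul_apply]
        exact hj.symm
      have h4 := pow_apply_of_commute (c ^ 2) z hc2 e j h3 5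
      rw [← pow_mul, hz5'] at h4
      exact h4
    · exfalso
      rw [hO] at h2
      simp only [Finset.mem_image, Finset.mem_range] at h2
      obtain ⟨j, hj5, hj⟩ := h2
      apply h1
      rw [hO]
      simp only [Finset.mem_image, Finset.mem_range]
      refine ⟨j, hj5, ?_⟩
      have h3 : c ((z ^ j) e) = (z ^ j) (c e) := by
        have := congrArg (fun f : Equiv.Perm α => f e) (hc.pow_right j).eq
        simpa using this
      exact c.injective (h3.trans hj)

end

end Cfsg.Agent.Helper58
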