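import Mathlib
import Cfsg.Agent.Helper58.Twin13A

/-!
# Triply transitive groups of degree 13 of order divisible by 5 (helper58)

`alt_le_of_five_dvd`: a primitive, triply transitive group of degree 13 whose order is divisible
by 5 contains the alternating group.  (An element of order 5 is a 5-cycle, or has exactly three
fixed points; in the second case Witt's argument gives an element normalising it and inducing a
3-cycle on its fixed points, a power of which is a 3-cycle.)
-/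

set_option autoImplicit false

namespace Cfsg.Agent.Helper58

section

variable {α : Type*} [Fintype α] [DecidableEq α]

theorem alt_le_of_five_dvd (hα : Fintype.card α = 13) (G : Subgroup (Equiv.Perm α))
    (hG : MulAction.IsPreprimitive G α) (h3t : MulAction.IsMultiplyPretransitive G α 3)
    (h5 : 5 ∣ Nat.card G) : alternatingGroup α ≤ G := by
  classical
  have hp5 : Fact (Nat.Prime 5) := ⟨by norm_num⟩
  have hp : Nat.Prime 5 := by norm_num
  by_contra hA
  have key : ∀ g ∈ G, orderOf g = 5 → g.support.card ≤ 9 → False :=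
    fun g hg ho hs => hA (alt_le_of_order_five_fix hα G hG hg ho hs)
  obtain ⟨z0, hz0⟩ := exists_prime_orderOf_dvd_card' 5 h5
  set z : Equiv.Perm α := (z0 : Equiv.Perm α) with hzdef
  have hz : z ∈ G := z0.2
  have hoz : orderOf z = 5 := by rw [hzdef, Subgroup.orderOf_coe, hz0]
  have hz5 : z ^ 5 = 1 := by rw [← hoz]; exact pow_orderOf_eq_one z
  -- the support has 10 points
  obtain ⟨n, hn⟩ := Equiv.Perm.cycleType_prime_order (σ := z) (by rw [hoz]; norm_num)
  rw [hoz] at hn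
  have hsum : z.cycleType.sum = z.support.card := Equiv.Perm.sum_cycleType z
  rw [hn, Multiset.sum_replicate, smul_eq_mul] at hsum
  have hle : z.support.card ≤ 13 := by rw [← hα]; exact Finset.card_le_univ _
  have hsupp : z.support.card = 10 := by
    by_contra h
    have : z.support.card ≤ 9 := by omega
    exact key z hz hoz this
  set Δ : Finset α := z.supportᶜ with hΔ
  have hΔcard : Δ.card = 3 := by rw [hΔ, Finset.card_compl, hsupp, hα]
  have hΔmem : ∀ x, x ∈ Δ ↔ z x = x := by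
    intro x; rw [hΔ, Finset.mem_compl, Equiv.Perm.notMem_support]
  have htransΔ : ∀ σ : Equiv.Perm α, ∃ x ∈ G, ∀ d ∈ Δ, x d = σ d := by
    intro σ
    let e : Fin 3 ↪ α := (Δ.equivFinOfCardEq hΔcard).symm.toEmbedding.trans
      (Function.Embedding.subtype _)
    obtain ⟨x, hx⟩ := h3t.exists_smul_eq e (e.trans σ.toEmbedding)
    refine ⟨x.1, x.2, fun d hd => ?_⟩
    have := congrArg (fun f : Fin 3 ↪ α => f (Δ.equivFinOfCardEq hΔcard ⟨d, hd⟩)) hx
    have h' : x • d = σ d := by simpa [e] using this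
    exact h'
  set F : Subgroup (Equiv.Perm α) := G ⊓ fixingSubgroup (Equiv.Perm α) (Δ : Set α) with hF
  have hFmem : ∀ f : Equiv.Perm α, f ∈ F ↔ f ∈ G ∧ ∀ d ∈ Δ, f d = d := by
    intro f
    rw [hF, Subgroup.mem_inf, mem_fixingSubgroup_iff]
    simp
  have hzF : z ∈ F := (hFmem z).mpr ⟨hz, fun d hd => (hΔmem d).mp hd⟩
  have hFcard : (Nat.card F).factorization 5 = 1 := by
    have h2 : 5 ∣ Nat.card F := by
      have := orderOf_dvd_natCard (⟨z, hzF⟩ : F)
      rwa [Subgroup.orderOf_mk, hoz] at this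
    have hne : Nat.card F ≠ 0 := Nat.card_pos.ne'
    have h3 : ¬ 5 ^ 2 ∣ Nat.card F := by
      intro h
      obtain ⟨e, he⟩ : ∃ e, e ∈ z.support := by
        apply Finset.card_pos.mp; rw [hsupp]; norm_num
      have heΔ : e ∉ Δ := by rw [hΔ, Finset.mem_compl]; exact fun h => h he
      have hos := MulAction.card_orbit_mul_card_stabilizer_eq_card_group F e
      simp only [← Nat.card_eq_fintype_card] at hos
      have horb : Nat.card (MulAction.orbit F e) ≤ 13 := by
        rw [← hα, ← Nat.card_eq_fintype_card]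
        exact Nat.card_le_card_of_injective Subtype.val Subtype.val_injective
      have horb0 : 0 < Nat.card (MulAction.orbit F e) := by
        have : Nonempty (MulAction.orbit F e) := ⟨⟨e, MulAction.mem_orbit_self e⟩⟩
        exact Nat.card_pos
      by_cases hst : 5 ∣ Nat.card (MulAction.stabilizer F e)
      · obtain ⟨r, hr⟩ := exists_prime_orderOf_dvd_card' 5 hst
        have hrF := (hFmem ((r : F) : Equiv.Perm α)).mp (r : F).2
        have hre : ((r : F) : Equiv.Perm α) e = e := r.2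
        apply key ((r : F) : Equiv.Perm α) hrF.1
          (by rw [Subgroup.orderOf_coe, Subgroup.orderOf_coe, hr])
        have hsub : ((r : F) : Equiv.Perm α).support ⊆ (insert e Δ)ᶜ := by
          intro w hw
          rw [Equiv.Perm.mem_support] at hw
          rw [Finset.mem_compl, Finset.mem_insert]
          rintro (rfl | hwΔ)
          · exact hw hre
          · exact hw (hrF.2 w hwΔ)
        have := Finset.card_le_card hsub
        rw [Finset.card_compl, Finset.card_insert_of_notMem heΔ, hΔcard, hα] at this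
        omega
      · have hcop : Nat.Coprime (5 ^ 2) (Nat.card (MulAction.stabilizer F e)) :=
          Nat.Coprime.pow_left 2 ((Nat.Prime.coprime_iff_not_dvd hp).mpr hst)
        rw [← hos] at h
        have h25 := hcop.dvd_of_dvd_mul_right h
        have := Nat.le_of_dvd horb0 h25
        omega
    have h4 : 1 ≤ (Nat.card F).factorization 5 :=
      (hp.pow_dvd_iff_le_factorization hne).mp (by simpa using h2)
    have h5' : ¬ 2 ≤ (Nat.card F).factorization 5 :=
      fun h => h3 ((hp.pow_dvd_iff_le_factorization hne).mpr h)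
    omega
  have hnorm : ∀ σ : Equiv.Perm α, (∀ d ∈ Δ, σ d ∈ Δ) →
      ∃ u ∈ G, (∀ d ∈ Δ, u d = σ d) ∧ u * z * u⁻¹ ∈ Subgroup.zpowers z := by
    intro σ hσ
    obtain ⟨x, hxG, hx⟩ := htransΔ σ
    have hxΔ : ∀ d ∈ Δ, x d ∈ Δ := fun d hd => by rw [hx d hd]; exact hσ d hd
    have hxinv : ∀ d ∈ Δ, x⁻¹ d ∈ Δ := by
      intro d hd
      have himg : Δ.image x = Δ := by
        apply Finset.eq_of_subset_of_card_le
        · intro y hy
          obtain ⟨d', hd', rfl⟩ := Finset.mem_image.mp hy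
          exact hxΔ d' hd'
        · rw [Finset.card_image_of_injective _ x.injective]
      rw [← himg] at hd
      obtain ⟨d', hd', rfl⟩ := Finset.mem_image.mp hd
      rw [Equiv.Perm.inv_def, Equiv.symm_apply_apply]; exact hd'
    have hg₂F : x * z * x⁻¹ ∈ F := by
      rw [hFmem]
      refine ⟨G.mul_mem (G.mul_mem hxG hz) (G.inv_mem hxG), fun d hd => ?_⟩
      rw [Equiv.Perm.mul_apply, Equiv.Perm.mul_apply, (hΔmem _).mp (hxinv d hd)]
      rw [Equiv.Perm.inv_def, Equiv.apply_symm_apply]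
    have hPcard : Nat.card (Subgroup.zpowers (⟨z, hzF⟩ : F)) =
        5 ^ (Nat.card F).factorization 5 := by
      rw [hFcard, pow_one, Nat.card_zpowers, Subgroup.orderOf_mk, hoz]
    have hQcard : Nat.card (Subgroup.zpowers (⟨x * z * x⁻¹, hg₂F⟩ : F)) =
        5 ^ (Nat.card F).factorization 5 := by
      rw [hFcard, pow_one, Nat.card_zpowers, Subgroup.orderOf_mk]
      have : orderOf (x * z * x⁻¹) = orderOf z := by
        have := orderOf_injective (MulAut.conj x).toMonoidHom (MulAut.conj x).injective z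
        simpa using this
      rw [this, hoz]
    obtain ⟨y, hy⟩ := MulAction.exists_smul_eq F (Sylow.ofCard _ hQcard) (Sylow.ofCard _ hPcard)
    have hmem : y * ⟨x * z * x⁻¹, hg₂F⟩ * y⁻¹ ∈ Subgroup.zpowers (⟨z, hzF⟩ : F) := by
      have h1 : (⟨x * z * x⁻¹, hg₂F⟩ : F) ∈
          ((Sylow.ofCard _ hQcard : Sylow 5 F) : Subgroup F) := by
        rw [Sylow.coe_ofCard]; exact Subgroup.mem_zpowers _
      have h2 := Subgroup.smul_mem_pointwise_smul _ (MulAut.conj y) _ h1
      rw [← Sylow.coe_subgroup_smul, hy, Sylow.coe_ofCard] at h2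
      simpa [MulAut.smul_def] using h2
    obtain ⟨j, hj⟩ := Subgroup.mem_zpowers_iff.mp hmem
    have hyF := (hFmem y.1).mp y.2
    refine ⟨y.1 * x, G.mul_mem hyF.1 hxG, fun d hd => ?_, ?_⟩
    · rw [Equiv.Perm.mul_apply, hx d hd, hyF.2 _ (hσ d hd)]
    · rw [Subgroup.mem_zpowers_iff]
      refine ⟨j, ?_⟩
      have h3 : z ^ j = y.1 * (x * z * x⁻¹) * y.1⁻¹ := by
        have := congrArg Subtype.val hj
        simpa using this
      rw [h3]; group
  obtain ⟨d1, hd1, d2, hd2, d3, hd3, h12, h13, h23⟩ :=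
    Finset.two_lt_card.mp (by rw [hΔcard]; omega : 2 < Δ.card)
  have hswapΔ : ∀ a b : α, a ∈ Δ → b ∈ Δ → ∀ d ∈ Δ, Equiv.swap a b d ∈ Δ := by
    intro a b ha hb d hd
    rw [Equiv.swap_apply_def]
    split_ifs <;> assumption
  obtain ⟨u, huG, hu, hug⟩ := hnorm (Equiv.swap d1 d2) (hswapΔ d1 d2 hd1 hd2)
  obtain ⟨v, hvG, hv, hvg⟩ := hnorm (Equiv.swap d2 d3) (hswapΔ d2 d3 hd2 hd3)
  have huinv : ∀ d ∈ Δ, u⁻¹ d = Equiv.swap d1 d2 d := by
    intro d hd
    rw [Equiv.Perm.inv_def, Equiv.symm_apply_eq, hu _ (hswapΔ d1 d2 hd1 hd2 d hd),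
      Equiv.swap_apply_self]
  have hvinv : ∀ d ∈ Δ, v⁻¹ d = Equiv.swap d2 d3 d := by
    intro d hd
    rw [Equiv.Perm.inv_def, Equiv.symm_apply_eq, hv _ (hswapΔ d2 d3 hd2 hd3 d hd),
      Equiv.swap_apply_self]
  have hcG : u⁻¹ * v⁻¹ * u * v ∈ G :=
    G.mul_mem (G.mul_mem (G.mul_mem (G.inv_mem huG) (G.inv_mem hvG)) huG) hvG
  have hcomm : Commute (u⁻¹ * v⁻¹ * u * v) z := Cfsg.Agent.S0713.comm_of_conj_zpow z u v hug hvg
  have hcΔ : ∀ d ∈ Δ, (u⁻¹ * v⁻¹ * u * v) d =
      (Equiv.swap d1 d2 * Equiv.swap d2 d3 * (Equiv.swap d1 d2 * Equiv.swap d2 d3)) d := by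
    intro d hd
    simp only [Equiv.Perm.mul_apply]
    have s1 := hswapΔ d2 d3 hd2 hd3 d hd
    have s2 := hswapΔ d1 d2 hd1 hd2 _ s1
    have s3 := hswapΔ d2 d3 hd2 hd3 _ s2
    rw [hv d hd, hu _ s1, hvinv _ s2, huinv _ s3]
  have hρΔ : ∀ d ∈ Δ,
      (Equiv.swap d1 d2 * Equiv.swap d2 d3 * (Equiv.swap d1 d2 * Equiv.swap d2 d3)) d ∈ Δ := by
    intro d hd
    simp only [Equiv.Perm.mul_apply]
    exact hswapΔ d1 d2 hd1 hd2 _ (hswapΔ d2 d3 hd2 hd3 _ (hswapΔ d1 d2 hd1 hd2 _
      (hswapΔ d2 d3 hd2 hd3 d hd)))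
  have hρΓ : ∀ x, x ∉ Δ →
      (Equiv.swap d1 d2 * Equiv.swap d2 d3 * (Equiv.swap d1 d2 * Equiv.swap d2 d3)) x = x := by
    intro x hx
    have e1 : ∀ a b, a ∈ Δ → b ∈ Δ → Equiv.swap a b x = x := fun a b ha hb =>
      Equiv.swap_apply_of_ne_of_ne (by rintro rfl; exact hx ha) (by rintro rfl; exact hx hb)
    simp only [Equiv.Perm.mul_apply, e1 d2 d3 hd2 hd3, e1 d1 d2 hd1 hd2]
  have h3c : Equiv.Perm.IsThreeCycle
      (Equiv.swap d1 d2 * Equiv.swap d2 d3 * (Equiv.swap d1 d2 * Equiv.swap d2 d3)) := by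
    apply Equiv.Perm.IsThreeCycle.isThreeCycle_sq
    rw [Equiv.swap_comm d1 d2]
    exact Equiv.Perm.isThreeCycle_swap_mul_swap_same h12.symm h23 h13
  generalize hcdef : u⁻¹ * v⁻¹ * u * v = c at hcG hcomm hcΔ
  generalize hρdef :
    Equiv.swap d1 d2 * Equiv.swap d2 d3 * (Equiv.swap d1 d2 * Equiv.swap d2 d3) = ρ
    at hcΔ hρΔ hρΓ h3c
  have hρ3 : ρ ^ 3 = 1 := by rw [← h3c.orderOf]; exact pow_orderOf_eq_one ρ
  have hρ10 : ρ ^ 10 = ρ := by
    have : ρ ^ 10 = (ρ ^ 3) ^ 3 * ρ := by rw [← pow_mul, ← pow_succ]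
    rw [this, hρ3, one_pow, one_mul]
  have hpowΔ : ∀ k : ℕ, ∀ d ∈ Δ, (c ^ k) d = (ρ ^ k) d := by
    intro k
    induction k with
    | zero => intro d _; simp
    | succ k ih =>
      intro d hd
      rw [pow_succ, pow_succ, Equiv.Perm.mul_apply, Equiv.Perm.mul_apply, hcΔ d hd,
        ih _ (hρΔ d hd)]
  have hc10 : c ^ 10 = ρ := by
    ext x
    by_cases hx : x ∈ Δ
    · rw [hpowΔ 10 x hx, hρ10]
    · rw [pow_ten_fix hα z c hz5 Δ hΔmem hΔcard hcomm x hx, hρΓ x hx]
  have hρG : ρ ∈ G := by rw [← hc10]; exact G.pow_mem hcG 10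
  exact hA (Equiv.Perm.alternatingGroup_le_of_isPreprimitive_of_isThreeCycle_mem hG h3c hρG)

end

end Cfsg.Agent.Helper58
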