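import Mathlib
import Cfsg.Agent.Helper58.Burnside
import Cfsg.Agent.Helper58.InvSign
import Cfsg.Agent.Helper12.Sharp2

/-!
# An 11-cycle in an even triply transitive group of degree 13 (helper58)

`five_dvd_of_twin`: a triply transitive group of even permutations of 13 points containing an
11-cycle has order divisible by 5.  (Otherwise the stabiliser of the two fixed points of the cycle
is an affine group on the other 11 points by Burnside's theorem on groups of prime degree, its
point stabilisers are trivial by parity, the group is sharply 3-transitive, and a point stabiliser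
is sharply 2-transitive of degree 12, which is not a prime power.)
-/

set_option autoImplicit false

namespace Cfsg.Agent.Helper58

section affine

variable {p : ℕ} [Fact p.Prime] {T β : Type*} [Group T] [MulAction T β]

/-- an affine map with a fixed point: its `(p-1)`-th power is trivial -/
theorem affine_fix_pow (e : ZMod p ≃ β) (t : T)
    (haff : ∃ A B : ZMod p, ∀ v, e.symm (t • e v) = A * v + B) (c : β) (hc : t • c = c) (d : β) :
    t ^ (p - 1) • d = d := by
  obtain ⟨A, B, h⟩ := haff
  set v0 := e.symm c with hv0
  have hB : A * v0 + B = v0 := by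
    have := h v0
    rw [hv0, Equiv.apply_symm_apply, hc] at this
    rw [hv0]
    exact this.symm
  have hstep : ∀ v, t • e v = e (A * (v - v0) + v0) := by
    intro v
    have := h v
    rw [Equiv.symm_apply_eq] at this
    rw [this]
    congr 1
    linear_combination hB
  have hpow : ∀ (k : ℕ) (v : ZMod p), t ^ k • e v = e (A ^ k * (v - v0) + v0) := by
    intro k
    induction k with
    | zero => intro v; simp
    | succ k ih =>
      intro v
      rw [pow_succ, mul_smul, hstep, ih]
      congr 1
      ring
  have hA : A ≠ 0 := by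
    intro hA0
    have h1 := hstep (v0 + 1)
    have h2 := hstep v0
    rw [hA0] at h1 h2
    simp only [zero_mul, zero_add] at h1 h2
    have h3 := MulAction.injective t (h1.trans h2.symm)
    have h4 := e.injective h3
    exact one_ne_zero (add_eq_left.mp h4)
  have hA1 : A ^ (p - 1) = 1 := ZMod.pow_card_sub_one_eq_one hA
  have := hpow (p - 1) (e.symm d)
  rw [Equiv.apply_symm_apply, hA1, one_mul, sub_add_cancel, Equiv.apply_symm_apply] at this
  exact this

/-- an affine map with two fixed points is trivial -/
theorem affine_fix_two (e : ZMod p ≃ β) (t : T)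
    (haff : ∃ A B : ZMod p, ∀ v, e.symm (t • e v) = A * v + B) (c d : β) (hcd : c ≠ d)
    (hc : t • c = c) (hd : t • d = d) (y : β) : t • y = y := by
  obtain ⟨A, B, h⟩ := haff
  have h0 := h (e.symm c)
  have h1 := h (e.symm d)
  rw [Equiv.apply_symm_apply, hc] at h0
  rw [Equiv.apply_symm_apply, hd] at h1
  have hne : e.symm d - e.symm c ≠ 0 := by
    intro h2
    exact hcd (e.symm.injective (sub_eq_zero.mp h2)).symm
  have hA : A = 1 := by
    have h2 : (A - 1) * (e.symm d - e.symm c) = 0 := by linear_combination h0 - h1
    rcases mul_eq_zero.mp h2 with h3 | h3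
    · exact sub_eq_zero.mp h3
    · exact absurd h3 hne
  have hB : B = 0 := by
    rw [hA] at h0
    linear_combination -h0
  have h2 := h (e.symm y)
  rw [Equiv.apply_symm_apply, hA, hB, one_mul, add_zero] at h2
  exact e.symm.injective h2

end affine

section

variable {α : Type*} [Fintype α] [DecidableEq α]

omit [Fintype α] [DecidableEq α] in
theorem emb3_inj (p1 p2 p3 : α) (h12 : p1 ≠ p2) (h13 : p1 ≠ p3) (h23 : p2 ≠ p3) :
    Function.Injective ![p1, p2, p3] := by
  intro i j hij
  fin_cases i <;> fin_cases j <;> simp_all

theorem five_dvd_of_twin (hα : Fintype.card α = 13) (G : Subgroup (Equiv.Perm α))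
    (hGalt : G ≤ alternatingGroup α) (h3t : MulAction.IsMultiplyPretransitive G α 3)
    {x : Equiv.Perm α} (hx : x ∈ G) (hxc : x.IsCycle) (hxs : x.support.card = 11) :
    5 ∣ Nat.card G := by
  classical
  by_contra h5
  have hp11 : Fact (Nat.Prime 11) := ⟨by norm_num⟩
  have htrT : MulAction.IsPretransitive (fixingSubgroup G ((x.support : Set α))ᶜ)
      (SubMulAction.ofFixingSubgroup G ((x.support : Set α))ᶜ) :=
    Equiv.Perm.isPretransitive_of_isCycle_mem hxc hx
  generalize hs : ((x.support : Set α))ᶜ = s at htrT
  have hsmem : ∀ w : α, w ∈ s ↔ x w = w := by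
    intro w
    rw [← hs]
    simp
  have hβmem : ∀ w : α, w ∈ SubMulAction.ofFixingSubgroup G s ↔ x w ≠ w := by
    intro w
    rw [SubMulAction.mem_ofFixingSubgroup_iff, hsmem]
  letI : Fintype (SubMulAction.ofFixingSubgroup G s) := Fintype.ofFinite _
  have hβcard : Fintype.card (SubMulAction.ofFixingSubgroup G s) = 11 := by
    rw [← Nat.card_eq_fintype_card,
      show Nat.card (SubMulAction.ofFixingSubgroup G s) = sᶜ.ncard from Nat.card_coe_set_eq _,
      ← hs, compl_compl, Set.ncard_coe_finset, hxs]
  have hsm : ∀ (t : fixingSubgroup G s) (w : SubMulAction.ofFixingSubgroup G s),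
      ((t • w : SubMulAction.ofFixingSubgroup G s) : α) = ((t : G) : Equiv.Perm α) (w : α) :=
    fun t w => rfl
  have hTfix : ∀ (t : fixingSubgroup G s) (w : α), w ∈ s → ((t : G) : Equiv.Perm α) w = w :=
    fun t w hw => (mem_fixingSubgroup_iff G).mp t.2 w hw
  have hT1 : ∀ t : fixingSubgroup G s,
      (∀ w : SubMulAction.ofFixingSubgroup G s, t • w = w) → t = 1 := by
    intro t ht
    apply Subtype.ext
    apply Subtype.ext
    ext w
    by_cases hw : w ∈ SubMulAction.ofFixingSubgroup G s
    · exact congrArg Subtype.val (ht ⟨w, hw⟩)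
    · rw [SubMulAction.mem_ofFixingSubgroup_iff, not_not] at hw
      exact hTfix t w hw
  set T' : Subgroup (Equiv.Perm (SubMulAction.ofFixingSubgroup G s)) :=
    (MulAction.toPermHom (fixingSubgroup G s) (SubMulAction.ofFixingSubgroup G s)).range with hT'
  have htr' : MulAction.IsPretransitive T' (SubMulAction.ofFixingSubgroup G s) := by
    refine ⟨fun c d => ?_⟩
    obtain ⟨t, ht⟩ := MulAction.exists_smul_eq (fixingSubgroup G s) c d
    exact ⟨⟨MulAction.toPermHom (fixingSubgroup G s) (SubMulAction.ofFixingSubgroup G s) t,
      ⟨t, rfl⟩⟩, ht⟩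
  have hT'G : Nat.card T' ∣ Nat.card G :=
    (Subgroup.card_range_dvd _).trans (Subgroup.card_subgroup_dvd_card (fixingSubgroup G s))
  rcases affine_or_two_transitive (p := 11) hβcard T' with h2 | ⟨e, he⟩
  · -- 2-transitive on the 11 points: order divisible by 110
    obtain ⟨c, d, hcd⟩ : ∃ c d : SubMulAction.ofFixingSubgroup G s, c ≠ d := by
      have : Nontrivial (SubMulAction.ofFixingSubgroup G s) :=
        Fintype.one_lt_card_iff_nontrivial.mp (by rw [hβcard]; norm_num)
      exact exists_pair_ne _
    have hs2 : ({c, d} : Set (SubMulAction.ofFixingSubgroup G s)).ncard = 2 := Set.ncard_pair hcd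
    have h := h2.index_of_fixingSubgroup_mul hs2
    rw [Nat.card_eq_fintype_card, hβcard] at h
    have h9 : (11 - 2 : ℕ).factorial = 362880 := by decide
    have h11 : (11 : ℕ).factorial = 39916800 := by decide
    rw [h9, h11] at h
    have hidx : (fixingSubgroup T' ({c, d} : Set (SubMulAction.ofFixingSubgroup G s))).index
        = 110 := by omega
    have h110 := Subgroup.index_dvd_card
      (fixingSubgroup T' ({c, d} : Set (SubMulAction.ofFixingSubgroup G s)))
    rw [hidx] at h110
    exact h5 (Dvd.dvd.trans (by norm_num) (h110.trans hT'G))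
  · -- affine on the 11 points
    have haff : ∀ t : fixingSubgroup G s, ∃ A B : ZMod 11,
        ∀ v, e.symm (t • e v) = A * v + B := by
      intro t
      exact he (MulAction.toPermHom (fixingSubgroup G s) (SubMulAction.ofFixingSubgroup G s) t)
        ⟨t, rfl⟩
    -- an element fixing a third point is trivial
    have hfix1 : ∀ (t : fixingSubgroup G s) (c : SubMulAction.ofFixingSubgroup G s),
        t • c = c → t = 1 := by
      intro t c hc
      have h10 : t ^ 10 = 1 := by
        apply hT1
        intro w
        exact affine_fix_pow (p := 11) e t (haff t) c hc w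
      have ho : orderOf t ∣ 10 := orderOf_dvd_of_pow_eq_one h10
      have hoG : orderOf t ∣ Nat.card G :=
        (orderOf_dvd_natCard t).trans (Subgroup.card_subgroup_dvd_card (fixingSubgroup G s))
      have ht2 : t ^ 2 = 1 := by
        have hmem : orderOf t ∈ Nat.divisors 10 := Nat.mem_divisors.mpr ⟨ho, by norm_num⟩
        have hdiv : Nat.divisors 10 = {1, 2, 5, 10} := by decide
        rw [hdiv] at hmem
        simp only [Finset.mem_insert, Finset.mem_singleton] at hmem
        rcases hmem with h | h | h | h
        · rw [orderOf_eq_one_iff] at h; rw [h, one_pow]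
        · rw [← h]; exact pow_orderOf_eq_one t
        · rw [h] at hoG; exact absurd hoG h5
        · rw [h] at hoG; exact absurd (Dvd.dvd.trans (by norm_num) hoG) h5
      by_contra ht1
      set τ : Equiv.Perm α := ((t : G) : Equiv.Perm α) with hτ
      have hτ2 : τ * τ = 1 := by
        have := congrArg (fun u : fixingSubgroup G s => ((u : G) : Equiv.Perm α)) ht2
        simpa [pow_two] using this
      obtain ⟨m, hm, hsign⟩ := involution_sign τ hτ2
      have hfixset : Finset.univ.filter (fun a => τ a = a) = insert (c : α) x.supportᶜ := by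
        ext w
        simp only [Finset.mem_filter, Finset.mem_univ, true_and, Finset.mem_insert,
          Finset.mem_compl, Equiv.Perm.mem_support, not_not]
        constructor
        · intro hw
          by_contra hcon
          push Not at hcon
          have hwβ : w ∈ SubMulAction.ofFixingSubgroup G s := (hβmem w).mpr hcon.2
          have hne : c ≠ ⟨w, hwβ⟩ := fun h => hcon.1 (congrArg Subtype.val h).symm
          have hall := affine_fix_two (p := 11) e t (haff t) c ⟨w, hwβ⟩ hne hc (Subtype.ext hw)
          exact ht1 (hT1 t hall)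
        · rintro (rfl | hw)
          · exact congrArg Subtype.val hc
          · exact hTfix t w ((hsmem w).mpr hw)
      have hcβ : (c : α) ∉ x.supportᶜ := by
        rw [Finset.mem_compl, not_not, Equiv.Perm.mem_support]
        exact (hβmem c).mp c.2
      rw [hfixset, Finset.card_insert_of_notMem hcβ, Finset.card_compl, hxs, hα] at hm
      have hm5 : m = 5 := by omega
      have hsg : Equiv.Perm.sign τ = 1 := Equiv.Perm.mem_alternatingGroup.mp (hGalt (t : G).2)
      rw [hsign, hm5] at hsg
      exact absurd hsg (by decide)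
    -- the two fixed points of `x` and a third point
    have hsc : s.ncard = 2 := by
      have := Set.ncard_add_ncard_compl (x.support : Set α)
      rw [Set.ncard_coe_finset, hxs, Nat.card_eq_fintype_card, hα, hs] at this
      omega
    obtain ⟨a, b, hab, hsab⟩ := Set.ncard_eq_two.mp hsc
    obtain ⟨c0, hc0⟩ : ∃ c0, c0 ∈ x.support := Finset.card_pos.mp (by rw [hxs]; norm_num)
    have hc0x : x c0 ≠ c0 := Equiv.Perm.mem_support.mp hc0
    have hc0β : c0 ∈ SubMulAction.ofFixingSubgroup G s := (hβmem c0).mpr hc0x
    have ha : a ∈ s := by rw [hsab]; simp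
    have hb : b ∈ s := by rw [hsab]; simp
    have hac : a ≠ c0 := by
      rintro rfl
      exact hc0x ((hsmem a).mp ha)
    have hbc : b ≠ c0 := by
      rintro rfl
      exact hc0x ((hsmem b).mp hb)
    have hsharp3 : ∀ g ∈ G, ∀ p1 p2 p3 : α, p1 ≠ p2 → p1 ≠ p3 → p2 ≠ p3 →
        g p1 = p1 → g p2 = p2 → g p3 = p3 → g = 1 := by
      intro g hg p1 p2 p3 h12 h13 h23 hg1 hg2 hg3
      let e1 : Fin 3 ↪ α := ⟨![p1, p2, p3], emb3_inj p1 p2 p3 h12 h13 h23⟩
      let e2 : Fin 3 ↪ α := ⟨![a, b, c0], emb3_inj a b c0 hab hac hbc⟩
      obtain ⟨h, hh⟩ := h3t.exists_smul_eq e1 e2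
      have hh1 : (h : Equiv.Perm α) p1 = a := by
        have := congrArg (fun f : Fin 3 ↪ α => f 0) hh
        have h' : h • p1 = a := by simpa [e1, e2] using this
        exact h'
      have hh2 : (h : Equiv.Perm α) p2 = b := by
        have := congrArg (fun f : Fin 3 ↪ α => f 1) hh
        have h' : h • p2 = b := by simpa [e1, e2] using this
        exact h'
      have hh3 : (h : Equiv.Perm α) p3 = c0 := by
        have := congrArg (fun f : Fin 3 ↪ α => f 2) hh
        have h' : h • p3 = c0 := by simpa [e1, e2] using this
        exact h'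
      have hconj : ∀ q q' : α, (h : Equiv.Perm α) q = q' → g q = q →
          ((h : Equiv.Perm α) * g * (h : Equiv.Perm α)⁻¹) q' = q' := by
        intro q q' hq hgq
        rw [← hq, Equiv.Perm.mul_apply, Equiv.Perm.mul_apply, Equiv.Perm.inv_def,
          Equiv.symm_apply_apply, hgq]
      have hkG : (h : Equiv.Perm α) * g * (h : Equiv.Perm α)⁻¹ ∈ G :=
        G.mul_mem (G.mul_mem h.2 hg) (G.inv_mem h.2)
      have hkT : (⟨(h : Equiv.Perm α) * g * (h : Equiv.Perm α)⁻¹, hkG⟩ : G) ∈
          fixingSubgroup G s := by
        rw [mem_fixingSubgroup_iff]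
        intro w hw
        rw [hsab] at hw
        change ((h : Equiv.Perm α) * g * (h : Equiv.Perm α)⁻¹) w = w
        rcases hw with hw | hw
        · rw [hw]
          exact hconj p1 a hh1 hg1
        · rw [hw]
          exact hconj p2 b hh2 hg2
      have hk1 := hfix1 ⟨⟨(h : Equiv.Perm α) * g * (h : Equiv.Perm α)⁻¹, hkG⟩, hkT⟩ ⟨c0, hc0β⟩
        (Subtype.ext (hconj p3 c0 hh3 hg3))
      have hk2 : (h : Equiv.Perm α) * g * (h : Equiv.Perm α)⁻¹ = 1 :=
        congrArg (fun u : fixingSubgroup G s => ((u : G) : Equiv.Perm α)) hk1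
      have : g = (h : Equiv.Perm α)⁻¹ * ((h : Equiv.Perm α) * g * (h : Equiv.Perm α)⁻¹) *
          (h : Equiv.Perm α) := by group
      rw [this, hk2]
      group
    -- the order of `G`
    have h2t : MulAction.IsMultiplyPretransitive G α 2 :=
      MulAction.isMultiplyPretransitive_of_le (n := 3) (by norm_num)
        (by rw [Nat.card_eq_fintype_card, hα]; norm_num)
    have htr : MulAction.IsPretransitive G α := MulAction.isPretransitive_of_is_two_pretransitive
    have hcardG : Nat.card G = 1716 := by
      have hs3 : ({a, b, c0} : Set α).ncard = 3 :=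
        Set.ncard_eq_three.mpr ⟨a, b, c0, hab, hac, hbc, rfl⟩
      have h := h3t.index_of_fixingSubgroup_mul hs3
      rw [Nat.card_eq_fintype_card, hα] at h
      have hbot : fixingSubgroup G ({a, b, c0} : Set α) = ⊥ := by
        rw [Subgroup.eq_bot_iff_forall]
        intro g hg
        rw [mem_fixingSubgroup_iff] at hg
        apply Subtype.ext
        exact hsharp3 g.1 g.2 a b c0 hab hac hbc (hg a (by simp)) (hg b (by simp))
          (hg c0 (by simp))
      rw [hbot, Subgroup.index_bot] at h
      have h10 : (13 - 3 : ℕ).factorial = 3628800 := by decide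
      have h13 : (13 : ℕ).factorial = 6227020800 := by decide
      rw [h10, h13] at h
      omega
    have hcardH : Nat.card (MulAction.stabilizer G a) = 132 := by
      have h1 := MulAction.index_stabilizer_of_transitive G a
      rw [Nat.card_eq_fintype_card, hα] at h1
      have h2 := Subgroup.card_mul_index (MulAction.stabilizer G a)
      rw [h1, hcardG] at h2
      omega
    letI : Fintype (SubMulAction.ofStabilizer G a) := Fintype.ofFinite _
    have hcardΩ : Fintype.card (SubMulAction.ofStabilizer G a) = 12 := by
      rw [← Nat.card_eq_fintype_card, SubMulAction.nat_card_ofStabilizer_eq G a,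
        Nat.card_eq_fintype_card, hα]
    have htrH : MulAction.IsPretransitive (MulAction.stabilizer G a)
        (SubMulAction.ofStabilizer G a) := by
      have := (SubMulAction.ofStabilizer.isMultiplyPretransitive (G := G) (α := α) (n := 1)
        (a := a)).mp h2t
      exact MulAction.is_one_pretransitive_iff.mp this
    have hsharp : ∀ (g : MulAction.stabilizer G a) (c d : SubMulAction.ofStabilizer G a),
        c ≠ d → g • c = c → g • d = d → g = 1 := by
      intro g c d hcd hgc hgd
      have hca : a ≠ (c : α) := fun h => ((SubMulAction.mem_ofStabilizer_iff _ a).mp c.2) h.symm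
      have hda : a ≠ (d : α) := fun h => ((SubMulAction.mem_ofStabilizer_iff _ a).mp d.2) h.symm
      have hcd' : (c : α) ≠ (d : α) := fun h => hcd (Subtype.ext h)
      have := hsharp3 ((g : G) : Equiv.Perm α) (g : G).2 a c d hca hda hcd' g.2
        (congrArg Subtype.val hgc) (congrArg Subtype.val hgd)
      apply Subtype.ext
      apply Subtype.ext
      exact this
    obtain ⟨p, j, N, hp, hj, hpj, -⟩ := Cfsg.Agent.Helper12.sharp2_main
      (G := MulAction.stabilizer G a) (α := SubMulAction.ofStabilizer G a) htrH hsharp
      (by rw [hcardΩ]; norm_num) (by rw [hcardΩ]; exact hcardH)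
    rw [hcardΩ] at hpj
    have h2p : 2 ∣ p ^ j := by rw [← hpj]; norm_num
    have h3p : 3 ∣ p ^ j := by rw [← hpj]; norm_num
    have e2 := (Nat.prime_dvd_prime_iff_eq Nat.prime_two hp).mp
      (Nat.Prime.dvd_of_dvd_pow Nat.prime_two h2p)
    have e3 := (Nat.prime_dvd_prime_iff_eq Nat.prime_three hp).mp
      (Nat.Prime.dvd_of_dvd_pow Nat.prime_three h3p)
    omega

end

end Cfsg.Agent.Helper58
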