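import Mathlib
import Cfsg.Agent.Helper58.Deg7
import Cfsg.Agent.Helper58.Twin13B
import Cfsg.Agent.Helper58.Twin13C

/-!
# An 11-cycle and a 13-cycle on 13 points (helper58)

`twin13`: a group of even permutations of 13 points containing an 11-cycle and a 13-cycle is the
alternating group.
-/

set_option autoImplicit false

namespace Cfsg.Agent.Helper58

section

variable {α : Type*} [Fintype α] [DecidableEq α]

/-- **Twin 13**: a group of even permutations of 13 points containing an 11-cycle and a 13-cycle
contains the alternating group -/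
theorem twin13 (hα : Fintype.card α = 13) (G : Subgroup (Equiv.Perm α))
    (hG : G ≤ alternatingGroup α) {x y : Equiv.Perm α} (hx : x ∈ G) (hy : y ∈ G)
    (hxc : x.IsCycle) (hxs : x.support.card = 11) (hyc : y.IsCycle) (hys : y.support.card = 13) :
    alternatingGroup α ≤ G := by
  classical
  have hp13 : Fact (Nat.Prime 13) := ⟨by norm_num⟩
  have h13 : 13 ∣ Nat.card G := by
    have := orderOf_dvd_natCard (⟨y, hy⟩ : G)
    rwa [Subgroup.orderOf_mk, hyc.orderOf, hys] at this
  have htr : MulAction.IsPretransitive G α := transitive_of_prime_dvd_card hα G h13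
  have hprim : MulAction.IsPreprimitive G α :=
    MulAction.IsPreprimitive.of_prime_card (by rw [Nat.card_eq_fintype_card, hα]; norm_num)
  have hsc : Set.ncard ((x.support : Set α)ᶜ) = 1 + 1 := by
    apply Nat.add_left_cancel (n := (x.support : Set α).ncard)
    rw [Set.ncard_add_ncard_compl, Set.ncard_coe_finset, hxs, Nat.card_eq_fintype_card, hα]
  have hprimF : MulAction.IsPreprimitive (fixingSubgroup G ((x.support : Set α)ᶜ))
      (SubMulAction.ofFixingSubgroup G ((x.support : Set α)ᶜ)) := by
    have := Equiv.Perm.isPretransitive_of_isCycle_mem hxc hx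
    apply MulAction.IsPreprimitive.of_prime_card
    rw [show Nat.card (SubMulAction.ofFixingSubgroup G ((x.support : Set α)ᶜ)) =
      ((x.support : Set α)ᶜ)ᶜ.ncard from Nat.card_coe_set_eq _, compl_compl,
      Set.ncard_coe_finset, hxs]
    norm_num
  have hJ : MulAction.IsMultiplyPreprimitive G α (1 + 2) :=
    hprim.isMultiplyPreprimitive hsc (by rw [Nat.card_eq_fintype_card, hα]; norm_num) hprimF
  have h3t : MulAction.IsMultiplyPretransitive G α 3 := by
    have h3' : MulAction.IsMultiplyPretransitive G α (1 + 2) := inferInstance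
    exact h3'
  exact alt_le_of_five_dvd hα G hprim h3t (five_dvd_of_twin hα G hG h3t hx hxc hxs)

end

end Cfsg.Agent.Helper58
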